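import Mathlib.GroupTheory.Sylow
import Cfsg.Prelude.Def_PLocal
import Cfsg.Agent.Lib.H13.FF1

set_option autoImplicit false

/-!
Failure of factorization, part 2: best offenders have `|A| |C_V(A)| = |V|`, minimal ones have
order `p` and act as transvections.
-/

namespace H13.FF2

open Subgroup
open scoped commutatorElement

universe u

variable {G : Type u} [Group G] {p : ℕ}

structure FF (p : ℕ) (V H Q : Subgroup G) : Prop where
  hV : Cfsg.IsElementaryAbelian p V
  hHV : H ≤ normalizer (V : Set G)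
  hf : H ⊓ centralizer (V : Set G) = ⊥
  hQH : Q ≤ H
  hHQ : H ≤ normalizer (Q : Set G)
  hQ : (Nat.card Q).Coprime p
  hCQ : H ⊓ centralizer (Q : Set G) ≤ Q

theorem ff_of [Finite G] {V H : Subgroup G} (hV : Cfsg.IsElementaryAbelian p V)
    (hHV : H ≤ normalizer (V : Set G)) (hf : H ⊓ centralizer (V : Set G) = ⊥)
    (hS1 : centralizer (Cfsg.pPrimeCore p ↥H : Set ↥H) ≤ Cfsg.pPrimeCore p ↥H) :
    FF p V H ((Cfsg.pPrimeCore p ↥H).map H.subtype) where
  hV := hV
  hHV := hHV
  hf := hf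
  hQH := map_subtype_le _
  hHQ := le_normalizer.trans (Cores.normalizer_le_normalizer_map_pPrimeCore H)
  hQ := Cores.coprime_card_map_pPrimeCore H
  hCQ := by
    rintro x ⟨hxH, hx⟩
    refine ⟨⟨x, hxH⟩, hS1 ?_, rfl⟩
    rw [mem_centralizer_iff]
    intro y hy
    exact Subtype.ext (mem_centralizer_iff.1 hx y ⟨y, hy, rfl⟩)

variable {V H Q A B : Subgroup G}

theorem FF.isElementaryAbelian (h : FF p V H Q) (hAH : A ≤ H)
    (h1 : ⁅A, A⁆ ≤ centralizer (V : Set G)) (h2 : ∀ a ∈ A, a ^ p ∈ centralizer (V : Set G)) :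
    Cfsg.IsElementaryAbelian p A := by
  rw [ElemAb.iff_le_centralizer]
  constructor
  · rw [← commutator_eq_bot_iff_le_centralizer, eq_bot_iff, ← h.hf]
    exact le_inf ((commutator_mono hAH hAH).trans
      (le_normalizer_iff_commutator_le_left.1 le_normalizer)) h1
  · intro a ha
    have h3 : a ^ p ∈ H ⊓ centralizer (V : Set G) := ⟨pow_mem (hAH ha) p, h2 a ha⟩
    rwa [h.hf, mem_bot] at h3

theorem FF.setup [Finite G] [hp : Fact p.Prime] (h : FF p V H Q) (hAH : A ≤ H)
    (hA : Cfsg.IsElementaryAbelian p A) : FF1.Setup p V Q A where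
  hV := h.hV
  hQV := h.hQH.trans h.hHV
  hQ := h.hQ
  hQf := by rw [eq_bot_iff, ← h.hf]; exact inf_le_inf_right _ h.hQH
  hA := hA
  hAV := hAH.trans h.hHV
  hAQ := hAH.trans h.hHQ
  hAf := by
    rw [eq_bot_iff, ← Transport.inf_eq_bot_of_isPGroup_of_coprime (ElemAb.isPGroup hA) h.hQ]
    refine le_inf inf_le_left ?_
    exact (inf_le_inf_right _ hAH).trans h.hCQ

theorem bo_isElementaryAbelian (h : FF p V H Q) (hAH : A ≤ H)
    (hA : Cfsg.IsBestOffenderOn p V A) : Cfsg.IsElementaryAbelian p A :=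
  h.isElementaryAbelian hAH hA.2.1 hA.2.2

theorem val_bot (V : Subgroup G) : Replace.val V ⊥ = Nat.card V := by
  unfold Replace.val
  rw [card_bot, one_mul]
  congr 1
  have : V ⊓ centralizer ((⊥ : Subgroup G) : Set G) = V := by
    rw [inf_eq_left]
    intro v _
    rw [mem_centralizer_iff]
    intro x hx
    rw [SetLike.mem_coe, mem_bot] at hx
    simp [hx]
  rw [this]

theorem bo_val_eq [Finite G] [hp : Fact p.Prime] (h : FF p V H Q) (hAH : A ≤ H)
    (hA : Cfsg.IsBestOffenderOn p V A) : Replace.val V A = Nat.card V := by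
  refine le_antisymm (FF1.val_le (h.setup hAH (bo_isElementaryAbelian h hAH hA))) ?_
  rw [← val_bot V]
  exact hA.1 ⊥ bot_le

/-- An elementary abelian subgroup with the right value is a best offender. -/
theorem bo_of_val [Finite G] [hp : Fact p.Prime] (h : FF p V H Q) (hAH : A ≤ H)
    (hA : Cfsg.IsElementaryAbelian p A) (hval : Nat.card V ≤ Replace.val V A) :
    Cfsg.IsBestOffenderOn p V A := by
  refine ⟨fun B hB => ?_, ?_, ?_⟩
  · exact (FF1.val_le (h.setup (hB.trans hAH) (ElemAb.of_le hA hB))).trans hval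
  · rw [commutator_eq_bot_iff_le_centralizer.2 (ElemAb.le_centralizer hA)]
    exact bot_le
  · intro a ha
    rw [hA.2 a ha]
    exact one_mem _

theorem eq_bot_of_trivial (h : FF p V H Q) (hAH : A ≤ H) (hAV : ⁅V, A⁆ = ⊥) : A = ⊥ := by
  rw [commutator_comm, commutator_eq_bot_iff_le_centralizer] at hAV
  rw [eq_bot_iff, ← h.hf]
  exact le_inf hAH hAV

/-- Minimal (nontrivially acting) best offenders. -/
structure IsMin (p : ℕ) (V A : Subgroup G) : Prop where
  bo : Cfsg.IsBestOffenderOn p V A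
  ne : ⁅V, A⁆ ≠ ⊥
  min : ∀ B : Subgroup G, B ≤ A → Cfsg.IsBestOffenderOn p V B → ⁅V, B⁆ ≠ ⊥ → B = A

theorem comm_zpowers_eq {a : G} (hc : V ≤ centralizer (V : Set G))
    (ha : a ∈ normalizer (V : Set G)) :
    ⁅V, zpowers a⁆ = (Act.commHom hc ha).range.map V.subtype := by
  apply le_antisymm
  · set R := (Act.commHom hc ha).range.map V.subtype with hR
    have hmem : ∀ v ∈ V, ⁅v, a⁆ ∈ R := fun v hv =>
      ⟨Act.commHom hc ha ⟨v, hv⟩, ⟨⟨v, hv⟩, rfl⟩, rfl⟩
    have hnorm : a ∈ normalizer (R : Set G) := by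
      apply Norm.mem_normalizer_of
      · rintro _ ⟨_, ⟨v, rfl⟩, rfl⟩
        have h1 : a * ⁅(v : G), a⁆ * a⁻¹ = ⁅a * v * a⁻¹, a⁆ := by
          rw [commutatorElement_def, commutatorElement_def]; group
        change a * ⁅(v : G), a⁆ * a⁻¹ ∈ R
        rw [h1]
        exact hmem _ (Act.conj_mem ha v.2)
      · rintro _ ⟨_, ⟨v, rfl⟩, rfl⟩
        have h1 : a⁻¹ * ⁅(v : G), a⁆ * a = ⁅a⁻¹ * v * a, a⁆ := by
          rw [commutatorElement_def, commutatorElement_def]; group
        change a⁻¹ * ⁅(v : G), a⁆ * a ∈ R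
        rw [h1]
        exact hmem _ ((mem_normalizer_iff''.1 ha _).1 v.2)
    have h2 : zpowers a ≤ Quad.actTriv V R := by
      rw [zpowers_le]
      exact ⟨ha, hnorm, hmem⟩
    exact (commutator_mono le_rfl h2).trans (Quad.commutator_actTriv_le V R)
  · rintro _ ⟨_, ⟨v, rfl⟩, rfl⟩
    exact commutator_mem_commutator v.2 (mem_zpowers a)

theorem mem_comm_zpowers {a : G} (hc : V ≤ centralizer (V : Set G))
    (ha : a ∈ normalizer (V : Set G)) {x : G} :
    x ∈ ⁅V, zpowers a⁆ ↔ ∃ v ∈ V, ⁅v, a⁆ = x := by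
  rw [comm_zpowers_eq hc ha]
  constructor
  · rintro ⟨_, ⟨v, rfl⟩, rfl⟩
    exact ⟨v, v.2, rfl⟩
  · rintro ⟨v, hv, rfl⟩
    exact ⟨Act.commHom hc ha ⟨v, hv⟩, ⟨⟨v, hv⟩, rfl⟩, rfl⟩

theorem centralizer_zpowers (a : G) :
    centralizer ((zpowers a : Subgroup G) : Set G) = centralizer {a} := by
  apply le_antisymm
  · exact centralizer_le (Set.singleton_subset_iff.2 (mem_zpowers a))
  · intro x hx
    rw [mem_centralizer_iff]
    rintro _ ⟨n, rfl⟩
    have h1 : Commute a x := mem_centralizer_iff.1 hx a rfl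
    exact (h1.zpow_left n).eq

theorem card_comm_mul_card_centralizer [Finite G] {a : G} (hc : V ≤ centralizer (V : Set G))
    (ha : a ∈ normalizer (V : Set G)) :
    Nat.card ↥⁅V, zpowers a⁆ * Nat.card ↥(V ⊓ centralizer ((zpowers a : Subgroup G) : Set G)) =
      Nat.card V := by
  have h1 : Nat.card ↥⁅V, zpowers a⁆ = Nat.card (Act.commHom hc ha).range := by
    rw [comm_zpowers_eq hc ha, Thompson.card_map_of_injective V.subtype_injective]
  have h2 : Nat.card ↥(V ⊓ centralizer ((zpowers a : Subgroup G) : Set G)) =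
      Nat.card (Act.commHom hc ha).ker := by
    have h3 : (Act.commHom hc ha).ker.map V.subtype =
        V ⊓ centralizer ((zpowers a : Subgroup G) : Set G) := by
      rw [centralizer_zpowers]
      ext x
      constructor
      · rintro ⟨v, hv, rfl⟩
        rw [mem_inf]
        refine ⟨v.2, ?_⟩
        rw [mem_centralizer_iff]
        intro y hy
        rw [Set.mem_singleton_iff.1 hy]
        rw [SetLike.mem_coe, MonoidHom.mem_ker] at hv
        have h4 : ⁅(v : G), a⁆ = 1 := congrArg Subtype.val hv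
        exact (commutatorElement_eq_one_iff_mul_comm.1 h4).symm
      · rintro ⟨hxV, hx⟩
        refine ⟨⟨x, hxV⟩, ?_, rfl⟩
        rw [SetLike.mem_coe, MonoidHom.mem_ker]
        apply Subtype.ext
        change ⁅x, a⁆ = 1
        rw [commutatorElement_eq_one_iff_mul_comm]
        exact (mem_centralizer_iff.1 hx a rfl).symm
    rw [← h3, Thompson.card_map_of_injective V.subtype_injective]
  rw [h1, h2]
  have h5 := (Act.commHom hc ha).ker.card_mul_index
  rw [index_ker] at h5
  rw [mul_comm]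
  exact h5

theorem IsMin.quadratic [Finite G] [hp : Fact p.Prime] (h : FF p V H Q) (hAH : A ≤ H)
    (hA : IsMin p V A) : ⁅⁅V, A⁆, A⁆ = ⊥ := by
  have hVc := ElemAb.le_centralizer h.hV
  have hAV : A ≤ normalizer (V : Set G) := hAH.trans h.hHV
  have hg := Replace.good_of_max hVc hAV hA.bo.2.1 hA.bo.1 (le_refl V)
  have hAe := bo_isElementaryAbelian h hAH hA.bo
  set B := A ⊓ centralizer ((⁅V, A⁆ : Subgroup G) : Set G) with hB
  have hBbo : Cfsg.IsBestOffenderOn p V B := by
    apply bo_of_val h (inf_le_left.trans hAH) (ElemAb.of_le hAe inf_le_left)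
    rw [← hg.2, bo_val_eq h hAH hA.bo]
  have hBne : ⁅V, B⁆ ≠ ⊥ := by
    intro h0
    have h1 : V ≤ centralizer (B : Set G) := commutator_eq_bot_iff_le_centralizer.1 h0
    have h3 : V = ⁅V, A⁆ ⊔ (V ⊓ centralizer (A : Set G)) := by
      rw [← hg.1, inf_eq_left.2 h1]
    have h4 : ⁅V, A⁆ ≤ ⁅⁅V, A⁆, A⁆ := by
      conv_lhs => rw [h3]
      rw [Act.sup_comm hVc hAV (Act.comm_le hAV le_rfl) inf_le_left,
        commutator_eq_bot_iff_le_centralizer.2
          (inf_le_right : V ⊓ centralizer (A : Set G) ≤ _), sup_bot_eq]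
    apply hA.ne
    exact Nil.eq_bot_of_le_commutator_of_isPGroup
      ((ElemAb.isPGroup h.hV).to_le (Act.comm_le hAV le_rfl))
      (normalizer_commutator_ge_right V A) (ElemAb.isPGroup hAe) h4
  have hBA : B = A := hA.min B inf_le_left hBbo hBne
  rw [commutator_eq_bot_iff_le_centralizer, le_centralizer_iff]
  rw [← hBA]
  exact inf_le_right.trans (centralizer_le (SetLike.coe_subset_coe.2
    (commutator_mono le_rfl inf_le_left)))

theorem IsMin.card [Finite G] [hp : Fact p.Prime] (h : FF p V H Q) (hAH : A ≤ H)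
    (hA : IsMin p V A) : Nat.card A = p := by
  have hAe := bo_isElementaryAbelian h hAH hA.bo
  have hA1 : A ≠ ⊥ := by
    rintro rfl
    exact hA.ne (commutator_bot_right V)
  obtain ⟨B, hBA, hBi, hlt⟩ := FF1.exists_hyper_lt (h.setup hAH hAe) (hA.quadratic h hAH) hA1
  have hcard : Nat.card A = Nat.card B * p := by
    rw [Replace.card_eq_mul_relIndex hBA, hBi]
  have h2 := FF1.card_ge_of_lt ((ElemAb.isPGroup h.hV).to_le inf_le_left) hlt
  have h3 : Nat.card V ≤ Replace.val V B := by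
    rw [← bo_val_eq h hAH hA.bo]
    calc Replace.val V A = Nat.card B * (p * Nat.card ↥(V ⊓ centralizer (A : Set G))) := by
          unfold Replace.val; rw [hcard]; ring
      _ ≤ Nat.card B * Nat.card ↥(V ⊓ centralizer (B : Set G)) := Nat.mul_le_mul_left _ h2
  have hBbo := bo_of_val h (hBA.trans hAH) (ElemAb.of_le hAe hBA) h3
  by_cases hB : ⁅V, B⁆ = ⊥
  · have h4 := eq_bot_of_trivial h (hBA.trans hAH) hB
    rw [hcard, h4, card_bot, one_mul]
  · exfalso
    have h5 := hA.min B hBA hBbo hB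
    rw [h5] at hlt
    exact lt_irrefl _ hlt

theorem IsMin.card_mul [Finite G] [hp : Fact p.Prime] (h : FF p V H Q) (hAH : A ≤ H)
    (hA : IsMin p V A) : p * Nat.card ↥(V ⊓ centralizer (A : Set G)) = Nat.card V := by
  rw [← bo_val_eq h hAH hA.bo]
  unfold Replace.val
  rw [hA.card h hAH]

theorem IsMin.exists_gen [Finite G] [hp : Fact p.Prime] (h : FF p V H Q) (hAH : A ≤ H)
    (hA : IsMin p V A) : ∃ a, orderOf a = p ∧ A = zpowers a := by
  have hc := hA.card h hAH
  have : Nontrivial A := by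
    rw [← Finite.one_lt_card_iff_nontrivial, hc]
    exact hp.out.one_lt
  obtain ⟨a, ha⟩ := exists_ne (1 : A)
  have hAe := bo_isElementaryAbelian h hAH hA.bo
  have hord : orderOf (a : G) = p := orderOf_eq_prime (hAe.2 a a.2)
    (fun h1 => ha (Subtype.ext h1))
  refine ⟨a, hord, ?_⟩
  symm
  apply Subgroup.eq_of_le_of_card_ge (zpowers_le.2 a.2)
  rw [Nat.card_zpowers, hord, hc]

theorem IsMin.card_comm [Finite G] [hp : Fact p.Prime] (h : FF p V H Q) (hAH : A ≤ H)
    (hA : IsMin p V A) : Nat.card ↥⁅V, A⁆ = p := by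
  obtain ⟨a, -, rfl⟩ := hA.exists_gen h hAH
  have h1 := card_comm_mul_card_centralizer (ElemAb.le_centralizer h.hV)
    (h.hHV (hAH (mem_zpowers a)))
  rw [← hA.card_mul h hAH] at h1
  exact Nat.eq_of_mul_eq_mul_right Nat.card_pos h1

end H13.FF2
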