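import Mathlib.GroupTheory.Sylow
import Cfsg.Prelude.Def_PLocal
import Cfsg.Agent.Lib.H13.FF2
import Cfsg.Agent.Lib.H13.NatSL2

set_option autoImplicit false

/-!
Transvection groups and pairs of them.
-/

namespace H13.Trans

open Subgroup
open scoped commutatorElement

universe u

variable {G : Type u} [Group G] {p : ℕ}

theorem eq_of_le_of_card_prime [hp : Fact p.Prime] {K X : Subgroup G} (hX : Nat.card X = p)
    (hK : K ≤ X) (hne : K ≠ ⊥) : K = X := by
  have hfin : Finite X := Nat.finite_of_card_ne_zero (by rw [hX]; exact hp.out.ne_zero)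
  have hfinK : Finite K := Finite.of_injective _ (inclusion_injective hK)
  have h1 : Nat.card K ∣ p := by rw [← hX]; exact card_dvd_of_le hK
  rcases (Nat.dvd_prime hp.out).1 h1 with h2 | h2
  · exact absurd (card_eq_one.1 h2) hne
  · exact eq_of_le_of_card_ge hK (by rw [h2, hX])

theorem inf_eq_bot_of_not_le [hp : Fact p.Prime] {X Y : Subgroup G} (hX : Nat.card X = p)
    (h : ¬ X ≤ Y) : X ⊓ Y = ⊥ := by
  by_contra h1
  exact h (inf_eq_left.1 (eq_of_le_of_card_prime hX inf_le_left h1))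

theorem zpowers_eq_of_mem [hp : Fact p.Prime] {X : Subgroup G} (hX : Nat.card X = p) {x : G}
    (hx : x ∈ X) (hx1 : x ≠ 1) : zpowers x = X :=
  eq_of_le_of_card_prime hX (zpowers_le.2 hx) (by rwa [Ne, zpowers_eq_bot])

theorem exists_gen [hp : Fact p.Prime] {X : Subgroup G} (hX : Nat.card X = p) :
    ∃ x ∈ X, x ≠ 1 ∧ zpowers x = X := by
  have hfin : Finite X := Nat.finite_of_card_ne_zero (by rw [hX]; exact hp.out.ne_zero)
  have : Nontrivial X := by
    rw [← Finite.one_lt_card_iff_nontrivial, hX]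
    exact hp.out.one_lt
  obtain ⟨a, ha⟩ := exists_ne (1 : X)
  have h1 : (a : G) ≠ 1 := fun h1 => ha (Subtype.ext h1)
  exact ⟨a, a.2, h1, zpowers_eq_of_mem hX a.2 h1⟩

/-- Transvection groups. -/
structure TV (p : ℕ) (V A : Subgroup G) : Prop where
  cardA : Nat.card A = p
  nV : A ≤ normalizer (V : Set G)
  card : Nat.card ↥⁅V, A⁆ = p
  quad : ⁅⁅V, A⁆, A⁆ = ⊥

variable {V A B H Q : Subgroup G}

theorem TV.of_min [Finite G] [hp : Fact p.Prime] (h : FF2.FF p V H Q) (hAH : A ≤ H)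
    (hA : FF2.IsMin p V A) : TV p V A :=
  ⟨hA.card h hAH, hAH.trans h.hHV, hA.card_comm h hAH, hA.quadratic h hAH⟩

theorem map_conj_commutator (g : G) (A B : Subgroup G) :
    (⁅A, B⁆).map (MulAut.conj g).toMonoidHom =
      ⁅A.map (MulAut.conj g).toMonoidHom, B.map (MulAut.conj g).toMonoidHom⁆ :=
  map_commutator _ _ _

theorem card_map_conj (g : G) (A : Subgroup G) :
    Nat.card ↥(A.map (MulAut.conj g).toMonoidHom) = Nat.card A :=
  Thompson.card_map_of_injective (MulAut.conj g).injective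

theorem map_conj_le_normalizer {g : G} (hg : g ∈ normalizer (V : Set G))
    (hA : A ≤ normalizer (V : Set G)) :
    A.map (MulAut.conj g).toMonoidHom ≤ normalizer (V : Set G) := by
  rintro _ ⟨a, ha, rfl⟩
  exact mul_mem (mul_mem hg (hA ha)) (inv_mem hg)

theorem TV.conj {g : G} (hg : g ∈ normalizer (V : Set G)) (h : TV p V A) :
    TV p V (A.map (MulAut.conj g).toMonoidHom) := by
  have h1 : ⁅V, A.map (MulAut.conj g).toMonoidHom⁆ = (⁅V, A⁆).map (MulAut.conj g).toMonoidHom := by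
    rw [map_conj_commutator, Norm.map_conj_le_of_mem_normalizer hg]
  refine ⟨?_, map_conj_le_normalizer hg h.nV, ?_, ?_⟩
  · rw [card_map_conj, h.cardA]
  · rw [h1, card_map_conj, h.card]
  · rw [h1, ← map_conj_commutator, h.quad, Subgroup.map_bot]

theorem TV.comm_le (h : TV p V A) : ⁅V, A⁆ ≤ V := Act.comm_le h.nV le_rfl

theorem TV.le_centralizer (h : TV p V A) : ⁅V, A⁆ ≤ centralizer (A : Set G) :=
  commutator_eq_bot_iff_le_centralizer.1 h.quad

theorem TV.card_centralizer [Finite G] [hp : Fact p.Prime] (hV : Cfsg.IsElementaryAbelian p V)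
    (h : TV p V A) : p * Nat.card ↥(V ⊓ centralizer (A : Set G)) = Nat.card V := by
  obtain ⟨a, ha, -, hz⟩ := exists_gen h.cardA
  have h1 := FF2.card_comm_mul_card_centralizer (ElemAb.le_centralizer hV) (h.nV ha)
  rwa [hz, h.card] at h1

/-- `[V, A ⊔ B] = [V, A] ⊔ [V, B]`. -/
theorem comm_sup (hA : A ≤ normalizer (V : Set G)) (hB : B ≤ normalizer (V : Set G)) :
    ⁅V, A ⊔ B⁆ = ⁅V, A⁆ ⊔ ⁅V, B⁆ := by
  apply le_antisymm
  · have key : ∀ C : Subgroup G, C ≤ normalizer (V : Set G) → ⁅V, C⁆ ≤ ⁅V, A⁆ ⊔ ⁅V, B⁆ →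
        C ≤ Quad.actTriv V (⁅V, A⁆ ⊔ ⁅V, B⁆) := by
      intro C hC hC2
      refine Quad.le_actTriv hC ?_ hC2
      rw [le_normalizer_iff_commutator_le_left]
      exact (commutator_mono (sup_le (Act.comm_le hA le_rfl) (Act.comm_le hB le_rfl))
        le_rfl).trans hC2
    exact (commutator_mono le_rfl (sup_le (key A hA le_sup_left) (key B hB le_sup_right))).trans
      (Quad.commutator_actTriv_le _ _)
  · exact sup_le (commutator_mono le_rfl le_sup_left) (commutator_mono le_rfl le_sup_right)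

theorem comm_iSup {ι : Sort*} {A : ι → Subgroup G} (hA : ∀ i, A i ≤ normalizer (V : Set G)) :
    ⁅V, ⨆ i, A i⁆ = ⨆ i, ⁅V, A i⁆ := by
  apply le_antisymm
  · have key : ∀ i, A i ≤ Quad.actTriv V (⨆ i, ⁅V, A i⁆) := by
      intro i
      refine Quad.le_actTriv (hA i) ?_ (le_iSup (fun i => ⁅V, A i⁆) i)
      rw [le_normalizer_iff_commutator_le_left]
      exact (commutator_mono (iSup_le fun j => Act.comm_le (hA j) le_rfl) le_rfl).trans
        (le_iSup (fun i => ⁅V, A i⁆) i)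
    exact (commutator_mono le_rfl (iSup_le key)).trans (Quad.commutator_actTriv_le _ _)
  · exact iSup_le fun i => commutator_mono le_rfl (le_iSup A i)

/-- The data of a pair of transvection groups in general position. -/
structure GenPair (p : ℕ) (V A B : Subgroup G) : Prop where
  ex : ∃ a b w1 w2 : G, zpowers a = A ∧ zpowers b = B ∧ NatSL2.Pair p ⁅V, A ⊔ B⁆ a b w1 w2
  inf : ⁅V, A ⊔ B⁆ ⊓ centralizer ((A ⊔ B : Subgroup G) : Set G) = ⊥
  sup : ⁅V, A ⊔ B⁆ ⊔ (V ⊓ centralizer ((A ⊔ B : Subgroup G) : Set G)) = V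

theorem genPair_of [Finite G] [hp : Fact p.Prime] (hV : Cfsg.IsElementaryAbelian p V)
    (hA : TV p V A) (hB : TV p V B) (h1 : ¬ ⁅V, A⁆ ≤ centralizer (B : Set G))
    (h2 : ¬ ⁅V, B⁆ ≤ centralizer (A : Set G)) : GenPair p V A B := by
  have hVc := ElemAb.le_centralizer hV
  have hW := comm_sup hA.nV hB.nV
  have hXY : ⁅V, A⁆ ⊓ ⁅V, B⁆ = ⊥ := by
    apply inf_eq_bot_of_not_le hA.card
    intro h3
    exact h1 (h3.trans hB.le_centralizer)
  have hXA : ⁅V, B⁆ ⊓ centralizer (A : Set G) = ⊥ := inf_eq_bot_of_not_le hB.card h2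
  have hYB : ⁅V, A⁆ ⊓ centralizer (B : Set G) = ⊥ := inf_eq_bot_of_not_le hA.card h1
  have hXN : ⁅V, A⁆ ≤ normalizer ((⁅V, B⁆ : Subgroup G) : Set G) :=
    (hA.comm_le.trans (hVc.trans (centralizer_le (SetLike.coe_subset_coe.2 hB.comm_le)))).trans
      (centralizer_le_normalizer _)
  have hWV : ⁅V, A ⊔ B⁆ ≤ V := by
    rw [hW]; exact sup_le hA.comm_le hB.comm_le
  have hcW : Nat.card ↥⁅V, A ⊔ B⁆ = p ^ 2 := by
    have h3 := Thompson.card_sup_mul_card_inf hXN
    rw [hXY, card_bot, mul_one, hA.card, hB.card] at h3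
    rw [hW, h3, sq]
  have hinf : ⁅V, A ⊔ B⁆ ⊓ centralizer ((A ⊔ B : Subgroup G) : Set G) = ⊥ := by
    rw [eq_bot_iff]
    rintro w ⟨hw, hwc⟩
    have hw' : w ∈ ⁅V, A ⊔ B⁆ := hw
    rw [hW, Norm.mem_sup_of_le_normalizer hXN] at hw'
    obtain ⟨x, hx, y, hy, rfl⟩ := hw'
    have hwc : x * y ∈ centralizer ((A ⊔ B : Subgroup G) : Set G) := hwc
    rw [Norm.centralizer_sup] at hwc
    have hy1 : y ∈ ⁅V, B⁆ ⊓ centralizer (A : Set G) := by
      refine ⟨hy, ?_⟩
      have h4 : x⁻¹ * (x * y) ∈ centralizer (A : Set G) :=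
        mul_mem (inv_mem (hA.le_centralizer hx)) hwc.1
      rwa [inv_mul_cancel_left] at h4
    have hx1 : x ∈ ⁅V, A⁆ ⊓ centralizer (B : Set G) := by
      refine ⟨hx, ?_⟩
      have h4 : (x * y) * y⁻¹ ∈ centralizer (B : Set G) :=
        mul_mem hwc.2 (inv_mem (hB.le_centralizer hy))
      rwa [mul_inv_cancel_right] at h4
    rw [hXA, mem_bot] at hy1
    rw [hYB, mem_bot] at hx1
    rw [hx1, hy1, mul_one]
    exact one_mem _
  refine ⟨?_, hinf, ?_⟩
  · obtain ⟨a, haA, ha1, hza⟩ := exists_gen hA.cardA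
    obtain ⟨b₀, hbB, hb1, hzb⟩ := exists_gen hB.cardA
    obtain ⟨w2, hw2, hw2c⟩ : ∃ y ∈ ⁅V, B⁆, y ∉ centralizer (A : Set G) := by
      by_contra h3
      push Not at h3
      exact h2 h3
    have hw21 : w2 ≠ 1 := by
      rintro rfl
      exact hw2c (one_mem _)
    set w1 := ⁅a, w2⁆ with hw1
    have hw1X : w1 ∈ ⁅V, A⁆ := by
      rw [hw1, commutator_comm]
      exact commutator_mem_commutator haA (hB.comm_le hw2)
    have hw11 : w1 ≠ 1 := by
      intro h3
      apply hw2c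
      rw [← hza, FF2.centralizer_zpowers, mem_centralizer_iff]
      intro y hy
      rw [Set.mem_singleton_iff.1 hy]
      exact commutatorElement_eq_one_iff_mul_comm.1 h3
    have hX : zpowers w1 = ⁅V, A⁆ := zpowers_eq_of_mem hA.card hw1X hw11
    have hc0 : ⁅b₀, w1⁆ ∈ ⁅V, B⁆ := by
      rw [commutator_comm]
      exact commutator_mem_commutator hbB (hA.comm_le hw1X)
    have hc1 : ⁅b₀, w1⁆ ≠ 1 := by
      intro h3
      apply h1
      rw [← hX, zpowers_le, ← hzb, FF2.centralizer_zpowers, mem_centralizer_iff]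
      intro y hy
      rw [Set.mem_singleton_iff.1 hy]
      exact commutatorElement_eq_one_iff_mul_comm.1 h3
    have hY : zpowers ⁅b₀, w1⁆ = ⁅V, B⁆ := zpowers_eq_of_mem hB.card hc0 hc1
    obtain ⟨k, hk⟩ : ∃ k : ℤ, ⁅b₀, w1⁆ ^ k = w2 := by
      rw [← hY] at hw2
      exact mem_zpowers_iff.1 hw2
    have hcomm : Commute b₀ ⁅w1, b₀⁆ := by
      have h3 : ⁅w1, b₀⁆ ∈ centralizer (B : Set G) := by
        apply hB.le_centralizer
        exact commutator_mem_commutator (hA.comm_le hw1X) hbB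
      exact mem_centralizer_iff.1 h3 _ hbB
    have hbk : ⁅b₀ ^ k, w1⁆ = w2 := by
      rw [← hk, ← commutatorElement_inv w1 (b₀ ^ k), Quad2.comm_zpow_eq hcomm, ← inv_zpow,
        commutatorElement_inv]
    have hbB2 : b₀ ^ k ∈ B := zpow_mem hbB k
    have hb2 : b₀ ^ k ≠ 1 := by
      intro h3
      rw [h3, commutatorElement_one_left] at hbk
      exact hw21 hbk.symm
    have hw12 : w1 * w2 = w2 * w1 :=
      Act.mul_comm_of_mem hVc (hA.comm_le hw1X) (hB.comm_le hw2)
    refine ⟨a, b₀ ^ k, w1, w2, hza, zpowers_eq_of_mem hB.cardA hbB2 hb2, ?_⟩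
    have hN : A ⊔ B ≤ normalizer ((⁅V, A ⊔ B⁆ : Subgroup G) : Set G) :=
      normalizer_commutator_ge_right _ _
    refine ⟨ElemAb.of_le hV hWV, hcW, ?_, ?_, hw11, hN (le_sup_left (a := A) haA),
      hN (le_sup_right (b := B) hbB2), ?_, ?_, ?_, ?_⟩
    · rw [hW]; exact le_sup_left (a := ⁅V, A⁆) hw1X
    · rw [hW]; exact le_sup_right (b := ⁅V, B⁆) hw2
    · rw [mem_centralizer_iff.1 (hA.le_centralizer hw1X) a haA, mul_inv_cancel_right]
    · rw [hw1, commutatorElement_def]; group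
    · rw [hw12, ← hbk, commutatorElement_def]; group
    · rw [mem_centralizer_iff.1 (hB.le_centralizer hw2) _ hbB2, mul_inv_cancel_right]
  · have hle : ⁅V, A ⊔ B⁆ ⊔ (V ⊓ centralizer ((A ⊔ B : Subgroup G) : Set G)) ≤ V :=
      sup_le hWV inf_le_left
    apply eq_of_le_of_card_ge hle
    have hcen : V ⊓ centralizer ((A ⊔ B : Subgroup G) : Set G) =
        (V ⊓ centralizer (A : Set G)) ⊓ (V ⊓ centralizer (B : Set G)) := by
      rw [Norm.centralizer_sup, inf_inf_distrib_left]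
    have hab : ∀ {X Y : Subgroup G}, X ≤ V → Y ≤ V → X ≤ normalizer (Y : Set G) := by
      intro X Y hX hY
      exact (hX.trans (hVc.trans (centralizer_le (SetLike.coe_subset_coe.2 hY)))).trans
        (centralizer_le_normalizer _)
    have h3 := Thompson.card_sup_mul_card_inf
      (hab (inf_le_left : V ⊓ centralizer (A : Set G) ≤ V)
        (inf_le_left : V ⊓ centralizer (B : Set G) ≤ V))
    have h4 := Thompson.card_sup_mul_card_inf
      (hab hWV (inf_le_left : V ⊓ centralizer ((A ⊔ B : Subgroup G) : Set G) ≤ V))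
    have h5 : ⁅V, A ⊔ B⁆ ⊓ (V ⊓ centralizer ((A ⊔ B : Subgroup G) : Set G)) = ⊥ := by
      rw [eq_bot_iff, ← hinf]
      exact inf_le_inf_left _ inf_le_right
    rw [h5, card_bot, mul_one, hcW] at h4
    rw [← hcen] at h3
    have h6 : Nat.card ↥((V ⊓ centralizer (A : Set G)) ⊔ (V ⊓ centralizer (B : Set G))) ≤
        Nat.card V := card_le_of_le (sup_le inf_le_left inf_le_left)
    have h7 := hA.card_centralizer hV
    have h8 := hB.card_centralizer hV
    rw [h4]
    have hVpos : 0 < Nat.card V := Nat.card_pos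
    have h9 : Nat.card V * Nat.card V =
        (p ^ 2 * Nat.card ↥(V ⊓ centralizer ((A ⊔ B : Subgroup G) : Set G))) *
        Nat.card ↥((V ⊓ centralizer (A : Set G)) ⊔ (V ⊓ centralizer (B : Set G))) := by
      conv_lhs => rw [← h7]
      conv_lhs => rw [h7.trans h8.symm]
      calc p * Nat.card ↥(V ⊓ centralizer (B : Set G)) * (p * Nat.card ↥(V ⊓ centralizer (B : Set G)))
          = p * (Nat.card ↥(V ⊓ centralizer (A : Set G))) *
            (p * Nat.card ↥(V ⊓ centralizer (B : Set G))) := by rw [h7, h8]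
        _ = p ^ 2 * (Nat.card ↥(V ⊓ centralizer (A : Set G)) *
            Nat.card ↥(V ⊓ centralizer (B : Set G))) := by ring
        _ = _ := by rw [← h3]; ring
    have h10 : Nat.card V * Nat.card V ≤
        (p ^ 2 * Nat.card ↥(V ⊓ centralizer ((A ⊔ B : Subgroup G) : Set G))) * Nat.card V := by
      rw [h9]
      exact Nat.mul_le_mul_left _ h6
    exact Nat.le_of_mul_le_mul_right h10 hVpos

end H13.Trans
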