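import Mathlib.GroupTheory.Sylow
import Cfsg.Prelude.Def_PLocal
import Cfsg.Agent.Lib.H13.Trans

set_option autoImplicit false

/-!
Failure of factorization, part 3: a minimal offender and its conjugate under `Q`.
-/

namespace H13.FF3

open Subgroup
open H13.Trans
open scoped commutatorElement

universe u

variable {G : Type u} [Group G] {p : ℕ} {V A B H Q P : Subgroup G}

theorem inf_core [Finite G] [hp : Fact p.Prime] (h : FF2.FF p V H Q) (hA : IsPGroup p A) :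
    A ⊓ Q = ⊥ :=
  Transport.inf_eq_bot_of_isPGroup_of_coprime hA h.hQ

theorem eq_of_isPGroup [Finite G] [hp : Fact p.Prime] (h : FF2.FF p V H Q) (hAH : A ≤ H)
    (hP : IsPGroup p P) (hAP : A ≤ P) (hPQ : P ≤ A ⊔ Q) : P = A := by
  have h1 : (A ⊔ Q) ⊓ P = A ⊔ (Q ⊓ P) := Norm.modular hAP (hAH.trans h.hHQ)
  rw [inf_eq_right.2 hPQ, inf_comm, inf_core h hP, sup_bot_eq] at h1
  exact h1

theorem conj_le {x : G} (hx : x ∈ Q) : A.map (MulAut.conj x).toMonoidHom ≤ A ⊔ Q := by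
  rintro _ ⟨a, ha, rfl⟩
  have h1 : x ∈ A ⊔ Q := le_sup_right (b := Q) hx
  exact mul_mem (mul_mem h1 (le_sup_left (a := A) ha)) (inv_mem h1)

theorem comm_mem_core (h : FF2.FF p V H Q) (hAH : A ≤ H) {x a : G} (hx : x ∈ Q) (ha : a ∈ A) :
    ⁅x, a⁆ ∈ Q := by
  rw [commutatorElement_def, mul_assoc, mul_assoc, ← mul_assoc a]
  exact mul_mem hx (Norm.conj_mem (hAH.trans h.hHQ) ha (inv_mem hx))

theorem mem_centralizer_of_normalizes [Finite G] [hp : Fact p.Prime] (h : FF2.FF p V H Q)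
    (hAH : A ≤ H) (hA : IsPGroup p A) {x : G} (hx : x ∈ Q) (hxA : x ∈ normalizer (A : Set G)) :
    x ∈ centralizer (A : Set G) := by
  rw [mem_centralizer_iff_commutator_eq_one]
  intro a ha
  have h1 : ⁅x, a⁆ ∈ A ⊓ Q := by
    refine ⟨?_, comm_mem_core h hAH hx ha⟩
    rw [commutatorElement_def]
    exact A.mul_mem ((mem_normalizer_iff.1 hxA a).1 ha) (A.inv_mem ha)
  rw [inf_core h hA, mem_bot] at h1
  rw [← commutatorElement_inv, h1, inv_one]

theorem conj_le_H (h : FF2.FF p V H Q) (hAH : A ≤ H) {x : G} (hx : x ∈ Q) :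
    A.map (MulAut.conj x).toMonoidHom ≤ H :=
  (conj_le hx).trans (sup_le hAH h.hQH)

theorem isPGroup_of_card {A : Subgroup G} (h : Nat.card A = p) :
    IsPGroup p A := IsPGroup.of_card (n := 1) (by rw [h, pow_one])

theorem not_le_centralizer [Finite G] [hp : Fact p.Prime] (h : FF2.FF p V H Q)
    (hAH : A ≤ H) (hA : TV p V A) {x : G} (hx : x ∈ Q) (hxA : x ∉ centralizer (A : Set G)) :
    ¬ ⁅V, A⁆ ≤ centralizer ((A.map (MulAut.conj x).toMonoidHom : Subgroup G) : Set G) := by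
  intro hXB
  set B := A.map (MulAut.conj x).toMonoidHom with hB
  have hAp : IsPGroup p A := isPGroup_of_card hA.cardA
  have hBp : IsPGroup p B := hAp.map _
  have hBH : B ≤ H := conj_le_H h hAH hx
  set K := (A ⊔ B) ⊓ Quad.actTriv V ⁅V, A⁆ with hK
  have hEV : A ⊔ B ≤ normalizer (V : Set G) := sup_le (hAH.trans h.hHV) (hBH.trans h.hHV)
  have hEC : A ⊔ B ≤ centralizer ((⁅V, A⁆ : Subgroup G) : Set G) :=
    sup_le (le_centralizer_iff.1 hA.le_centralizer) (le_centralizer_iff.1 hXB)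
  have hEN : A ⊔ B ≤ normalizer ((⁅V, A⁆ : Subgroup G) : Set G) :=
    hEC.trans (centralizer_le_normalizer _)
  have hEK : A ⊔ B ≤ normalizer (K : Set G) :=
    Norm.le_normalizer_inf le_normalizer (Quad.le_normalizer_actTriv hEV hEN)
  have hKp : IsPGroup p K := by
    apply Quad.isPGroup_of_actTriv h.hV hA.comm_le inf_le_right (inf_le_left.trans hEC)
    rw [eq_bot_iff, ← h.hf]
    exact inf_le_inf_right _ (inf_le_left.trans (sup_le hAH hBH))
  have hAK : A ≤ K := le_inf le_sup_left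
    (Quad.le_actTriv hA.nV (le_sup_left.trans hEN) le_rfl)
  have hEQ : A ⊔ B ≤ A ⊔ Q := sup_le le_sup_left (conj_le hx)
  have hKA : K = A := eq_of_isPGroup h hAH hKp hAK (inf_le_left.trans hEQ)
  rw [hKA] at hEK
  have hEp : IsPGroup p ((A ⊔ B : Subgroup G)) := by
    rw [sup_comm]
    exact IsPGroup.to_sup_of_normal_right' hBp hAp (le_sup_right.trans hEK)
  have hEA : A ⊔ B = A := eq_of_isPGroup h hAH hEp le_sup_left hEQ
  have hBA : B ≤ A := by rw [← hEA]; exact le_sup_right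
  have hBeq : B = A := eq_of_le_of_card_ge hBA (by rw [hB, card_map_conj])
  apply hxA
  apply mem_centralizer_of_normalizes h hAH hAp hx
  apply Norm.mem_normalizer_of
  · intro a ha
    rw [← hBeq]
    exact ⟨a, ha, rfl⟩
  · intro a ha
    rw [← hBeq] at ha
    obtain ⟨a', ha', rfl⟩ := ha
    have : x⁻¹ * (MulAut.conj x).toMonoidHom a' * x = a' := by
      change x⁻¹ * (x * a' * x⁻¹) * x = a'
      group
    rw [this]
    exact ha'

theorem genPair [Finite G] [hp : Fact p.Prime] (h : FF2.FF p V H Q)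
    (hAH : A ≤ H) (hA : TV p V A) {x : G} (hx : x ∈ Q) (hxA : x ∉ centralizer (A : Set G)) :
    GenPair p V A (A.map (MulAut.conj x).toMonoidHom) := by
  have hxV : x ∈ normalizer (V : Set G) := h.hHV (h.hQH hx)
  refine genPair_of h.hV hA (hA.conj hxV) (not_le_centralizer h hAH hA hx hxA) ?_
  intro h1
  have h2 := not_le_centralizer h hAH hA (inv_mem hx) (fun h3 => hxA (by simpa using inv_mem h3))
  apply h2
  -- conjugate `h1` by `x⁻¹`
  intro v hv
  have h3 : x * v * x⁻¹ ∈ ⁅V, A.map (MulAut.conj x).toMonoidHom⁆ := by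
    have h4 : ⁅V, A.map (MulAut.conj x).toMonoidHom⁆ =
        (⁅V, A⁆).map (MulAut.conj x).toMonoidHom := by
      rw [map_conj_commutator, Norm.map_conj_le_of_mem_normalizer hxV]
    rw [h4]
    exact ⟨v, hv, rfl⟩
  have h5 := h1 h3
  rw [mem_centralizer_iff] at h5 ⊢
  rintro _ ⟨a, ha, rfl⟩
  have h6 := h5 a ha
  change x⁻¹ * a * x⁻¹⁻¹ * v = v * (x⁻¹ * a * x⁻¹⁻¹)
  calc x⁻¹ * a * x⁻¹⁻¹ * v = x⁻¹ * (a * (x * v * x⁻¹)) * x := by group
    _ = x⁻¹ * ((x * v * x⁻¹) * a) * x := by rw [h6]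
    _ = v * (x⁻¹ * a * x⁻¹⁻¹) := by group

/-- Faithfulness on `[V, E]`. -/
theorem _root_.H13.Trans.GenPair.faithful (h : FF2.FF p V H Q) (hAH : A ≤ H) (hBH : B ≤ H)
    (hg : GenPair p V A B) :
    (A ⊔ B) ⊓ centralizer ((⁅V, A ⊔ B⁆ : Subgroup G) : Set G) = ⊥ := by
  rw [eq_bot_iff, ← h.hf]
  refine le_inf (inf_le_left.trans (sup_le hAH hBH)) ?_
  conv_rhs => rw [← hg.sup, Norm.centralizer_sup]
  refine le_inf inf_le_right (inf_le_left.trans ?_)
  rw [le_centralizer_iff]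
  exact inf_le_right

theorem zpowers_sup_zpowers (a b : G) : zpowers a ⊔ zpowers b = closure {a, b} := by
  rw [zpowers_eq_closure, zpowers_eq_closure, ← Subgroup.closure_union]
  rfl

/-- The isomorphism with `SL(2,p)`. -/
theorem _root_.H13.Trans.GenPair.exists_equiv [Finite G] [hp : Fact p.Prime]
    (h : FF2.FF p V H Q) (hAH : A ≤ H) (hBH : B ≤ H)
    (hg : GenPair p V A B) : ∃ a ∈ A, a ≠ 1 ∧
      ∃ f : ↥(A ⊔ B) ≃* Matrix.SpecialLinearGroup (Fin 2) (ZMod p),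
        ∀ x : ↥(A ⊔ B), (x : G) = a → f x = NatSL2.up 1 := by
  obtain ⟨a, b, w1, w2, hza, hzb, hpair⟩ := hg.ex
  have hcl : closure {a, b} = A ⊔ B := by rw [← zpowers_sup_zpowers, hza, hzb]
  obtain ⟨f, hf, -⟩ := hpair.exists_equiv hcl (hg.faithful h hAH hBH)
  have haA : a ∈ A := by rw [← hza]; exact mem_zpowers a
  refine ⟨a, haA, ?_, f, hf⟩
  rintro rfl
  have h1 := hpair.a2
  rw [one_mul, inv_one, mul_one] at h1
  exact hpair.ne (by simpa using h1.symm)

/-- Commutators of elements of `E` with `A` lie in `Q`. -/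
theorem comm_mem_of_mem_sup (h : FF2.FF p V H Q) (hAH : A ≤ H) (hAc : A ≤ centralizer (A : Set G))
    {e a : G} (he : e ∈ A ⊔ Q) (ha : a ∈ A) : ⁅e, a⁆ ∈ ⁅Q, A⁆ := by
  rw [sup_comm, Norm.mem_sup_of_le_normalizer' (hAH.trans h.hHQ)] at he
  obtain ⟨q, hq, c, hc, rfl⟩ := he
  have h1 : ⁅q * c, a⁆ = ⁅q, a⁆ := by
    have h2 : a * c = c * a := mem_centralizer_iff.1 (hAc hc) a ha
    calc ⁅q * c, a⁆ = q * (c * a) * c⁻¹ * q⁻¹ * a⁻¹ := by rw [commutatorElement_def]; group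
      _ = q * (a * c) * c⁻¹ * q⁻¹ * a⁻¹ := by rw [h2]
      _ = ⁅q, a⁆ := by rw [commutatorElement_def]; group
  rw [h1]
  exact commutator_mem_commutator hq ha

/-- diagonal matrix -/
def dg {k : Type*} [Field k] (t : k) (ht : t ≠ 0) : Matrix.SpecialLinearGroup (Fin 2) k :=
  ⟨!![t, 0; 0, t⁻¹], by simp [ht]⟩

theorem dg_coe {k : Type*} [Field k] (t : k) (ht : t ≠ 0) :
    (dg t ht : Matrix (Fin 2) (Fin 2) k) = !![t, 0; 0, t⁻¹] := rfl

theorem dg_comm {k : Type*} [Field k] (t : k) (ht : t ≠ 0) :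
    ⁅dg t ht, NatSL2.up (1 : k)⁆ = NatSL2.up (t ^ 2 - 1) := by
  rw [commutatorElement_def, mul_inv_eq_iff_eq_mul, mul_inv_eq_iff_eq_mul]
  apply Subtype.ext
  ext i j
  fin_cases i <;> fin_cases j <;> simp [dg_coe]
  field_simp

theorem up_injective {k : Type*} [Field k] {s t : k} (h : NatSL2.up s = NatSL2.up t) : s = t := by
  have := congrArg (fun g : Matrix.SpecialLinearGroup (Fin 2) k =>
    (g : Matrix (Fin 2) (Fin 2) k) 0 1) h
  simpa using this

theorem prime_cases [Finite G] [hp : Fact p.Prime] (h : FF2.FF p V H Q)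
    (hAH : A ≤ H) (hA : TV p V A) {x : G} (hx : x ∈ Q) (hxA : x ∉ centralizer (A : Set G)) :
    p = 2 ∨ p = 3 := by
  by_cases hp2 : p = 2
  · exact Or.inl hp2
  right
  have hg := genPair h hAH hA hx hxA
  obtain ⟨a, haA, ha1, f, hf⟩ := hg.exists_equiv h hAH (conj_le_H h hAH hx)
  have h2 : (2 : ZMod p) ≠ 0 := by
    intro h3
    have h4 : ((2 : ℕ) : ZMod p) = 0 := by exact_mod_cast h3
    rw [ZMod.natCast_eq_zero_iff] at h4
    exact hp2 ((Nat.prime_dvd_prime_iff_eq hp.out Nat.prime_two).1 h4)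
  have haE : a ∈ A ⊔ A.map (MulAut.conj x).toMonoidHom := le_sup_left (a := A) haA
  set a' : ↥(A ⊔ A.map (MulAut.conj x).toMonoidHom) := ⟨a, haE⟩ with ha'
  set d := f.symm (dg 2 h2) with hd
  have h3 : f ⁅d, a'⁆ = f (a' ^ 3) := by
    rw [map_commutatorElement, hd, f.apply_symm_apply, hf a' rfl, dg_comm, map_pow, hf a' rfl,
      NatSL2.up_pow]
    congr 1
    norm_num
  have h4 : ⁅(d : G), a⁆ = a ^ 3 := congrArg Subtype.val (f.injective h3)
  have hAc : A ≤ centralizer (A : Set G) := by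
    obtain ⟨g, -, -, hz⟩ := exists_gen hA.cardA
    rw [← hz, zpowers_le, FF2.centralizer_zpowers, mem_centralizer_iff]
    intro y hy
    rw [Set.mem_singleton_iff.1 hy]
  have hEQ : A ⊔ A.map (MulAut.conj x).toMonoidHom ≤ A ⊔ Q := sup_le le_sup_left (conj_le hx)
  have h5 : a ^ 3 ∈ A ⊓ Q := by
    refine ⟨pow_mem haA 3, ?_⟩
    rw [← h4]
    have h6 := comm_mem_of_mem_sup h hAH hAc (hEQ d.2) haA
    exact Coprime.comm_le (hAH.trans h.hHQ) h6
  rw [inf_core h (isPGroup_of_card hA.cardA), mem_bot] at h5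
  have h7 : orderOf a = p := by
    have h8 := zpowers_eq_of_mem hA.cardA haA ha1
    rw [← Nat.card_zpowers, h8, hA.cardA]
  have h8 : p ∣ 3 := by rw [← h7]; exact orderOf_dvd_of_pow_eq_one h5
  exact (Nat.prime_dvd_prime_iff_eq hp.out Nat.prime_three).1 h8

end H13.FF3
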