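import Mathlib.GroupTheory.Sylow
import Cfsg.Prelude.Def_PLocal
import Cfsg.Agent.Lib.H13.FF3

set_option autoImplicit false

/-!
Failure of factorization, part 4: `[Q, A]` is an `r`-group.
-/

namespace H13.FF4

open Subgroup
open H13.Trans H13.FF3
open scoped commutatorElement

universe u

variable {G : Type u} [Group G] {p : ℕ} {V A B H Q P : Subgroup G}

/-- Some element of `Q` does not centralize `A`. -/
theorem exists_not_mem [Finite G] [hp : Fact p.Prime] (h : FF2.FF p V H Q)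
    (hAH : A ≤ H) (hA : TV p V A) : ∃ x ∈ Q, x ∉ centralizer (A : Set G) := by
  by_contra hcon
  push Not at hcon
  have h1 : Q ≤ centralizer (A : Set G) := hcon
  rw [le_centralizer_iff] at h1
  have hAp := isPGroup_of_card hA.cardA
  have h2 : A ≤ A ⊓ Q := le_inf le_rfl ((le_inf hAH h1).trans h.hCQ)
  rw [inf_core h hAp, le_bot_iff] at h2
  have h3 := hA.cardA
  rw [h2, card_bot] at h3
  exact hp.out.one_lt.ne h3

/-- If every `E_x` contains an element of order `r`, then `[Q, A]` is an `r`-group. -/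
theorem isPGroup_comm [Finite G] [hp : Fact p.Prime] (h : FF2.FF p V H Q)
    (hAH : A ≤ H) (hA : TV p V A) {r : ℕ} [hr : Fact r.Prime] (hrp : r ≠ p)
    (hE : ∃ g : Matrix.SpecialLinearGroup (Fin 2) (ZMod p), orderOf g = r) :
    IsPGroup r ↥⁅Q, A⁆ := by
  have hAp := isPGroup_of_card hA.cardA
  have hAQ : A ≤ normalizer (Q : Set G) := hAH.trans h.hHQ
  obtain ⟨R₀, hR₀⟩ := Coprime.exists_invariant_sylow hAp h.hQ hAQ r
  have key : ⁅Q, A⁆ ≤ (R₀ : Subgroup Q).map Q.subtype := by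
    apply CoprimeHyper.comm_le_sylow R₀ hR₀
    intro s hs hsr
    have hs' : Fact s.Prime := ⟨hs⟩
    obtain ⟨R, hR⟩ := Coprime.exists_invariant_sylow hAp h.hQ hAQ s
    refine ⟨R, ?_⟩
    intro x hx
    by_contra hxA
    have hxQ : x ∈ Q := map_subtype_le _ hx
    set R' := (R : Subgroup Q).map Q.subtype with hR'
    have hEl : A ⊔ A.map (MulAut.conj x).toMonoidHom ≤ A ⊔ R' := sup_le le_sup_left (conj_le hx)
    have hg := genPair h hAH hA hxQ hxA
    obtain ⟨a, -, -, f, -⟩ := hg.exists_equiv h hAH (conj_le_H h hAH hxQ)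
    obtain ⟨g, hg⟩ := hE
    have h1 : orderOf (f.symm g) = r := by
      rw [← hg]; exact f.symm.orderOf_eq g
    have h2 : r ∣ Nat.card ↥(A ⊔ R') := by
      rw [← h1]
      exact (_root_.orderOf_dvd_natCard _).trans (card_dvd_of_le hEl)
    have hR'p : IsPGroup s R' := R.isPGroup'.map _
    have h3 := Thompson.card_sup_mul_card_inf hR
    have h4 : Nat.card ↥(A ⊔ R') ∣ p * Nat.card R' := by
      rw [← hA.cardA, ← h3]
      exact Dvd.intro _ rfl
    obtain ⟨n, hn⟩ := IsPGroup.iff_card.1 hR'p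
    rw [hn] at h4
    have h5 := h2.trans h4
    rcases (hr.out.dvd_mul).1 h5 with h6 | h6
    · exact hrp ((Nat.prime_dvd_prime_iff_eq hr.out hp.out).1 h6)
    · exact hsr ((Nat.prime_dvd_prime_iff_eq hr.out hs).1 (hr.out.dvd_of_dvd_pow h6)).symm
  exact (R₀.isPGroup'.map Q.subtype).to_le key

theorem exists_order_three : ∃ g : Matrix.SpecialLinearGroup (Fin 2) (ZMod 2), orderOf g = 3 := by
  refine ⟨NatSL2.up 1 * NatSL2.lo 1, ?_⟩
  have : Fact (Nat.Prime 3) := ⟨Nat.prime_three⟩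
  apply orderOf_eq_prime
  · apply Subtype.ext
    ext i j
    fin_cases i <;> fin_cases j <;> simp [pow_succ] <;> decide
  · intro h
    have := congrArg (fun g : Matrix.SpecialLinearGroup (Fin 2) (ZMod 2) =>
      (g : Matrix (Fin 2) (Fin 2) (ZMod 2)) 0 1) h
    simp at this

theorem exists_order_two : ∃ g : Matrix.SpecialLinearGroup (Fin 2) (ZMod 3), orderOf g = 2 := by
  refine ⟨-1, ?_⟩
  have : Fact (Nat.Prime 2) := ⟨Nat.prime_two⟩
  apply orderOf_eq_prime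
  · rw [neg_one_sq]
  · intro h
    have := congrArg (fun g : Matrix.SpecialLinearGroup (Fin 2) (ZMod 3) =>
      (g : Matrix (Fin 2) (Fin 2) (ZMod 3)) 0 0) h
    revert this
    simp
    decide

theorem not_comm :
    ⁅NatSL2.lo (1 : ZMod 3), NatSL2.up (1 : ZMod 3)⁆ *
      ⁅NatSL2.lo (2 : ZMod 3), NatSL2.up (1 : ZMod 3)⁆ ≠
    ⁅NatSL2.lo (2 : ZMod 3), NatSL2.up (1 : ZMod 3)⁆ *
      ⁅NatSL2.lo (1 : ZMod 3), NatSL2.up (1 : ZMod 3)⁆ := by
  intro h
  have h1 := congrArg (fun g : Matrix.SpecialLinearGroup (Fin 2) (ZMod 3) =>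
      (g : Matrix (Fin 2) (Fin 2) (ZMod 3)) 0 1) h
  have h2 := congrArg (fun g : Matrix.SpecialLinearGroup (Fin 2) (ZMod 3) =>
      (g : Matrix (Fin 2) (Fin 2) (ZMod 3)) 0 0) h
  revert h1 h2
  simp [commutatorElement_def]
  decide

theorem isPGroup_two [Finite G] (h : FF2.FF 2 V H Q)
    (hAH : A ≤ H) (hA : TV 2 V A) : IsPGroup 3 ↥⁅Q, A⁆ := by
  have : Fact (Nat.Prime 3) := ⟨Nat.prime_three⟩
  have : Fact (Nat.Prime 2) := ⟨Nat.prime_two⟩
  exact isPGroup_comm h hAH hA (by norm_num) exists_order_three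

theorem isPGroup_three [Finite G] (h : FF2.FF 3 V H Q)
    (hAH : A ≤ H) (hA : TV 3 V A) : IsPGroup 2 ↥⁅Q, A⁆ := by
  have : Fact (Nat.Prime 3) := ⟨Nat.prime_three⟩
  have : Fact (Nat.Prime 2) := ⟨Nat.prime_two⟩
  exact isPGroup_comm h hAH hA (by norm_num) exists_order_two

theorem le_centralizer_self [hp : Fact p.Prime] (hA : Nat.card A = p) :
    A ≤ centralizer (A : Set G) := by
  obtain ⟨g, -, -, hz⟩ := exists_gen hA
  rw [← hz, zpowers_le, FF2.centralizer_zpowers, mem_centralizer_iff]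
  intro y hy
  rw [Set.mem_singleton_iff.1 hy]

/-- `[Q, A]` is nonabelian for `p = 3`. -/
theorem not_comm_three [Finite G] (h : FF2.FF 3 V H Q)
    (hAH : A ≤ H) (hA : TV 3 V A) : ¬ IsMulCommutative ↥⁅Q, A⁆ := by
  have : Fact (Nat.Prime 3) := ⟨Nat.prime_three⟩
  intro hcom
  obtain ⟨x, hx, hxA⟩ := exists_not_mem h hAH hA
  have hg := genPair h hAH hA hx hxA
  obtain ⟨a, haA, ha1, f, hf⟩ := hg.exists_equiv h hAH (conj_le_H h hAH hx)
  have haE : a ∈ A ⊔ A.map (MulAut.conj x).toMonoidHom := le_sup_left (a := A) haA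
  set a' : ↥(A ⊔ A.map (MulAut.conj x).toMonoidHom) := ⟨a, haE⟩ with ha'
  have hEQ : A ⊔ A.map (MulAut.conj x).toMonoidHom ≤ A ⊔ Q := sup_le le_sup_left (conj_le hx)
  have hAc := le_centralizer_self hA.cardA
  have hmem : ∀ t : ZMod 3, ((⁅f.symm (NatSL2.lo t), a'⁆ :
      ↥(A ⊔ A.map (MulAut.conj x).toMonoidHom)) : G) ∈ ⁅Q, A⁆ := by
    intro t
    exact comm_mem_of_mem_sup h hAH hAc (hEQ (f.symm (NatSL2.lo t)).2) haA
  apply not_comm
  have h1 := congrArg Subtype.val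
    (hcom.1.1 (⟨_, hmem 1⟩ : ↥⁅Q, A⁆) (⟨_, hmem 2⟩ : ↥⁅Q, A⁆))
  have h2 : ⁅f.symm (NatSL2.lo (1 : ZMod 3)), a'⁆ * ⁅f.symm (NatSL2.lo (2 : ZMod 3)), a'⁆ =
    ⁅f.symm (NatSL2.lo (2 : ZMod 3)), a'⁆ * ⁅f.symm (NatSL2.lo (1 : ZMod 3)), a'⁆ :=
    Subtype.ext h1
  have h3 := congrArg f h2
  simpa only [map_mul, map_commutatorElement, f.apply_symm_apply, hf a' rfl] using h3

end H13.FF4
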