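import Mathlib.GroupTheory.Sylow
import Cfsg.Prelude.Def_PLocal
import Cfsg.Agent.Lib.H13.FF4

set_option autoImplicit false

/-!
Failure of factorization, part 5: all the planes `[V, ⟨A, A^x⟩]` coincide.
-/

namespace H13.FF5

open Subgroup
open H13.Trans H13.FF3 H13.FF4
open scoped commutatorElement

universe u

variable {G : Type u} [Group G] {p : ℕ} {V A B H Q P : Subgroup G}

/-- Structure of `V` under `R A`, `R ≤ Q`. -/
structure Split (V R E : Subgroup G) : Prop where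
  cen : V ⊓ centralizer (R : Set G) = V ⊓ centralizer (E : Set G)
  com : ⁅V, R⁆ = ⁅V, E⁆
  sup : ⁅V, E⁆ ⊔ (V ⊓ centralizer (E : Set G)) = V
  inf : ⁅V, E⁆ ⊓ centralizer (E : Set G) = ⊥

theorem split_of [Finite G] [hp : Fact p.Prime] (h : FF2.FF p V H Q) (hA : TV p V A) {R : Subgroup G} (hRQ : R ≤ Q) (hAR : A ≤ normalizer (R : Set G))
    (hB : B ≤ R ⊔ A) (hXB : ¬ ⁅V, A⁆ ≤ centralizer (B : Set G)) : Split V R (R ⊔ A) := by
  have hVc := ElemAb.le_centralizer h.hV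
  have hVp := ElemAb.isPGroup h.hV
  have hRc : (Nat.card R).Coprime p := Coprime.coprime_of_le hRQ h.hQ
  have hRH : R ≤ H := hRQ.trans h.hQH
  have hRV : R ≤ normalizer (V : Set G) := hRH.trans h.hHV
  have hsup := Fix.comm_sup_centralizer hVc hVp hRc hRV
  have hinf := Fix.comm_inf_centralizer hVc hVp hRc hRV
  have hXR : ⁅V, A⁆ ⊓ centralizer (R : Set G) = ⊥ := by
    apply inf_eq_bot_of_not_le hA.card
    intro h1
    apply hXB
    have h2 : ⁅V, A⁆ ≤ centralizer ((R ⊔ A : Subgroup G) : Set G) := by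
      rw [Norm.centralizer_sup]
      exact le_inf h1 hA.le_centralizer
    exact h2.trans (centralizer_le (SetLike.coe_subset_coe.2 hB))
  have hACR : A ≤ normalizer ((V ⊓ centralizer (R : Set G) : Subgroup G) : Set G) :=
    Norm.le_normalizer_inf hA.nV (Norm.le_normalizer_centralizer hAR)
  have hCA : V ⊓ centralizer (R : Set G) ≤ centralizer (A : Set G) := by
    rw [← commutator_eq_bot_iff_le_centralizer, eq_bot_iff, ← hXR]
    refine le_inf (commutator_mono inf_le_left le_rfl) ?_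
    exact (le_normalizer_iff_commutator_le_left.1 hACR).trans inf_le_right
  have hcen : V ⊓ centralizer (R : Set G) = V ⊓ centralizer ((R ⊔ A : Subgroup G) : Set G) := by
    apply le_antisymm
    · rw [Norm.centralizer_sup]
      exact le_inf inf_le_left (le_inf inf_le_right hCA)
    · exact inf_le_inf_left _ (centralizer_le (SetLike.coe_subset_coe.2 le_sup_left))
  have hcom : ⁅V, R⁆ = ⁅V, R ⊔ A⁆ := by
    apply le_antisymm (commutator_mono le_rfl le_sup_left)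
    rw [comm_sup hRV hA.nV]
    refine sup_le le_rfl ?_
    have h1 : ⁅V, R⁆ ≤ V := Act.comm_le hRV le_rfl
    have hAVR : A ≤ normalizer ((⁅V, R⁆ : Subgroup G) : Set G) :=
      Norm.le_normalizer_commutator hA.nV hAR
    conv_lhs => rw [← hsup]
    rw [Act.sup_comm hVc hA.nV h1 inf_le_left, commutator_eq_bot_iff_le_centralizer.2 hCA,
      sup_bot_eq]
    exact le_normalizer_iff_commutator_le_left.1 hAVR
  refine ⟨hcen, hcom, ?_, ?_⟩
  · rw [← hcom, ← hcen, hsup]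
  · rw [← hcom, eq_bot_iff, ← hinf]
    exact inf_le_inf_left _ (centralizer_le (SetLike.coe_subset_coe.2 le_sup_left))

/-- `G₀ ⊓ Q ≤ [Q, A]` for `G₀` generated by `Q`-conjugates of `A`. -/
theorem inf_core_le [Finite G] [hp : Fact p.Prime] (h : FF2.FF p V H Q)
    (hAH : A ≤ H) (hA : IsPGroup p A) {G₀ : Subgroup G} (hG₀ : G₀ ≤ ⁅Q, A⁆ ⊔ A) :
    G₀ ⊓ Q ≤ ⁅Q, A⁆ := by
  have hAQ : A ≤ normalizer (Q : Set G) := hAH.trans h.hHQ
  have h1 : (⁅Q, A⁆ ⊔ A) ⊓ Q = ⁅Q, A⁆ ⊔ (A ⊓ Q) :=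
    Norm.modular' (Coprime.comm_le hAQ) (normalizer_commutator_ge_right _ _)
  rw [inf_core h hA, sup_bot_eq] at h1
  exact (inf_le_inf_right _ hG₀).trans h1.le

theorem conj_le_comm {x : G} (hx : x ∈ Q) :
    A.map (MulAut.conj x).toMonoidHom ≤ ⁅Q, A⁆ ⊔ A := by
  rintro _ ⟨a, ha, rfl⟩
  have h1 : (MulAut.conj x).toMonoidHom a = ⁅x, a⁆ * a := by
    change x * a * x⁻¹ = _
    rw [commutatorElement_def]; group
  rw [h1]
  exact mul_mem (le_sup_left (a := ⁅Q, A⁆) (commutator_mem_commutator hx ha))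
    (le_sup_right (b := A) ha)

theorem plane_eq_two [Finite G] (h : FF2.FF 2 V H Q)
    (hAH : A ≤ H) (hA : TV 2 V A) {x y : G} (hx : x ∈ Q) (hxA : x ∉ centralizer (A : Set G))
    (hy : y ∈ Q) (hyA : y ∉ centralizer (A : Set G)) :
    ⁅V, A ⊔ A.map (MulAut.conj x).toMonoidHom⁆ = ⁅V, A ⊔ A.map (MulAut.conj y).toMonoidHom⁆ := by
  have hp2 : Fact (Nat.Prime 2) := ⟨Nat.prime_two⟩
  have hp3 : Fact (Nat.Prime 3) := ⟨Nat.prime_three⟩
  by_contra hne
  have hVc := ElemAb.le_centralizer h.hV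
  have hAp : IsPGroup 2 A := isPGroup_of_card hA.cardA
  have hAQ : A ≤ normalizer (Q : Set G) := hAH.trans h.hHQ
  set B := A.map (MulAut.conj x).toMonoidHom with hB
  set C := A.map (MulAut.conj y).toMonoidHom with hC
  have hBT : TV 2 V B := hA.conj (h.hHV (h.hQH hx))
  have hCT : TV 2 V C := hA.conj (h.hHV (h.hQH hy))
  set G₀ := A ⊔ (B ⊔ C) with hG₀
  set R := G₀ ⊓ Q with hR
  have hG₀le : G₀ ≤ ⁅Q, A⁆ ⊔ A := sup_le le_sup_right (sup_le (conj_le_comm hx) (conj_le_comm hy))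
  have hR3 : IsPGroup 3 R := (isPGroup_two h hAH hA).to_le (inf_core_le h hAH hAp hG₀le)
  have hG₀Q : G₀ ≤ A ⊔ Q := hG₀le.trans
    (sup_le ((Coprime.comm_le hAQ).trans le_sup_right) le_sup_left)
  have hRA : R ⊔ A = G₀ := by
    have h1 : (A ⊔ Q) ⊓ G₀ = A ⊔ (Q ⊓ G₀) := Norm.modular le_sup_left hAQ
    rw [inf_eq_right.2 hG₀Q] at h1
    rw [sup_comm, hR, inf_comm, ← h1]
  have hAR : A ≤ normalizer (R : Set G) :=
    Norm.le_normalizer_inf ((le_sup_left : A ≤ G₀).trans le_normalizer) hAQ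
  have hBG : B ≤ R ⊔ A := by rw [hRA]; exact le_sup_left.trans le_sup_right
  have hsp := split_of h hA (inf_le_right : R ≤ Q) hAR hBG (not_le_centralizer h hAH hA hx hxA)
  rw [hRA] at hsp
  -- orders
  have hBV := hBT.nV
  have hCV := hCT.nV
  have hBCV : B ⊔ C ≤ normalizer (V : Set G) := sup_le hBV hCV
  have hU : ⁅V, G₀⁆ = ⁅V, A⁆ ⊔ (⁅V, B⁆ ⊔ ⁅V, C⁆) := by
    rw [hG₀, comm_sup hA.nV hBCV, comm_sup hBV hCV]
  have hab : ∀ {X Y : Subgroup G}, X ≤ V → Y ≤ V → X ≤ normalizer (Y : Set G) := by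
    intro X Y hX hY
    exact (hX.trans (hVc.trans (centralizer_le (SetLike.coe_subset_coe.2 hY)))).trans
      (centralizer_le_normalizer _)
  have hle : ∀ {X Y : Subgroup G}, X ≤ V → Y ≤ V →
      Nat.card ↥(X ⊔ Y) ≤ Nat.card X * Nat.card Y := by
    intro X Y hX hY
    rw [← Thompson.card_sup_mul_card_inf (hab hX hY)]
    exact Nat.le_mul_of_pos_right _ Nat.card_pos
  have hUle : Nat.card ↥⁅V, G₀⁆ ≤ 8 := by
    rw [hU]
    calc _ ≤ Nat.card ↥⁅V, A⁆ * Nat.card ↥(⁅V, B⁆ ⊔ ⁅V, C⁆) :=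
          hle hA.comm_le (sup_le hBT.comm_le hCT.comm_le)
      _ ≤ Nat.card ↥⁅V, A⁆ * (Nat.card ↥⁅V, B⁆ * Nat.card ↥⁅V, C⁆) :=
          Nat.mul_le_mul_left _ (hle hBT.comm_le hCT.comm_le)
      _ = 8 := by rw [hA.card, hBT.card, hCT.card]
  obtain ⟨_, _, _, _, _, _, hpx⟩ := (genPair h hAH hA hx hxA).ex
  obtain ⟨_, _, _, _, _, _, hpy⟩ := (genPair h hAH hA hy hyA).ex
  have hWx : ⁅V, A ⊔ B⁆ ≤ ⁅V, G₀⁆ := commutator_mono le_rfl (sup_le_sup_left le_sup_left _)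
  have hWy : ⁅V, A ⊔ C⁆ ≤ ⁅V, G₀⁆ := commutator_mono le_rfl (sup_le_sup_left le_sup_right _)
  have hlt : ⁅V, A ⊔ B⁆ < ⁅V, G₀⁆ := by
    refine lt_of_le_of_ne hWx ?_
    intro heq
    apply hne
    symm
    apply eq_of_le_of_card_ge (hWy.trans heq.ge)
    rw [hpx.card, hpy.card]
  have hUV : ⁅V, G₀⁆ ≤ V := Act.comm_le (sup_le hA.nV hBCV) le_rfl
  have hUge := FF1.card_ge_of_lt ((ElemAb.isPGroup h.hV).to_le hUV) hlt
  rw [hpx.card] at hUge
  have hU8 : Nat.card ↥⁅V, G₀⁆ = 8 := le_antisymm hUle hUge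
  -- fixed points of `R`
  have hRN : R ≤ normalizer ((⁅V, G₀⁆ : Subgroup G) : Set G) :=
    (inf_le_left : R ≤ G₀).trans (normalizer_commutator_ge_right _ _)
  have hfix : ∀ u ∈ ⁅V, G₀⁆, (∀ r ∈ R, r * u * r⁻¹ = u) → u = 1 := by
    intro u hu hru
    have h1 : u ∈ V ⊓ centralizer (R : Set G) := by
      refine mem_inf.2 ⟨hUV hu, mem_centralizer_iff.2 ?_⟩
      intro r hr
      calc r * u = r * u * r⁻¹ * r := by group
        _ = u * r := by rw [hru r hr]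
    rw [hsp.cen] at h1
    have h2 : u ∈ ⁅V, G₀⁆ ⊓ centralizer (G₀ : Set G) := mem_inf.2 ⟨hu, (mem_inf.1 h1).2⟩
    rwa [hsp.inf, mem_bot] at h2
  let act : MulAction R ↥⁅V, G₀⁆ :=
    { smul := fun r u => ⟨r * u * (r : G)⁻¹, Norm.conj_mem hRN r.2 u.2⟩
      one_smul := fun u => Subtype.ext (by
        change ((1 : R) : G) * u * ((1 : R) : G)⁻¹ = u
        rw [OneMemClass.coe_one]; group)
      mul_smul := fun r s u => Subtype.ext (by
        change ((r * s : R) : G) * u * ((r * s : R) : G)⁻¹ = r * (s * u * (s : G)⁻¹) * (r : G)⁻¹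
        rw [Subgroup.coe_mul]; group) }
  have hmod := hR3.card_modEq_card_fixedPoints (α := ↥⁅V, G₀⁆)
  have hone : Nat.card (MulAction.fixedPoints R ↥⁅V, G₀⁆) = 1 := by
    rw [Nat.card_eq_one_iff_unique]
    refine ⟨⟨?_⟩, ⟨⟨1, ?_⟩⟩⟩
    · rintro ⟨u, hu⟩ ⟨v, hv⟩
      have key : ∀ u : ↥⁅V, G₀⁆, u ∈ MulAction.fixedPoints R ↥⁅V, G₀⁆ → (u : G) = 1 := by
        intro u hu
        apply hfix u u.2
        intro r hr
        exact congrArg Subtype.val (hu ⟨r, hr⟩)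
      apply Subtype.ext
      apply Subtype.ext
      rw [key u hu, key v hv]
    · intro r
      apply Subtype.ext
      change (r : G) * 1 * (r : G)⁻¹ = 1
      group
  rw [hone, hU8] at hmod
  revert hmod
  decide

theorem pair_sup [Finite G] [hp : Fact p.Prime] {W : Subgroup G} {a b w1 w2 : G}
    (h : NatSL2.Pair p W a b w1 w2) : zpowers w1 ⊔ zpowers w2 = W := by
  have hc := ElemAb.le_centralizer h.hW
  have h2 : w2 ≠ 1 := by
    rintro rfl
    have := h.a2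
    rw [mul_one, mul_inv_cancel, mul_one] at this
    exact h.ne this.symm
  have o1 : orderOf w1 = p := orderOf_eq_prime (h.hW.2 _ h.m1) h.ne
  have o2 : orderOf w2 = p := orderOf_eq_prime (h.hW.2 _ h.m2) h2
  have hle : zpowers w1 ⊔ zpowers w2 ≤ W := sup_le (zpowers_le.2 h.m1) (zpowers_le.2 h.m2)
  have hinf : zpowers w1 ⊓ zpowers w2 = ⊥ := by
    rw [eq_bot_iff]
    rintro x ⟨⟨i, hi⟩, ⟨j, hj⟩⟩
    have hi' : w1 ^ i = x := hi
    have hj' : w2 ^ j = x := hj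
    have h3 : w1 ^ i * w2 ^ (-j) = 1 := by
      rw [zpow_neg, hi', hj', mul_inv_cancel]
    obtain ⟨h4, -⟩ := h.ind i (-j) h3
    rw [mem_bot, ← hi', ← orderOf_dvd_iff_zpow_eq_one, o1]
    exact h4
  apply eq_of_le_of_card_ge hle
  have h5 := Thompson.card_sup_mul_card_inf (A := zpowers w1) (B := zpowers w2)
    (((zpowers_le.2 h.m1).trans (hc.trans (centralizer_le (SetLike.coe_subset_coe.2
      (zpowers_le.2 h.m2))))).trans (centralizer_le_normalizer _))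
  rw [hinf, card_bot, mul_one, Nat.card_zpowers, Nat.card_zpowers, o1, o2] at h5
  rw [h5, h.card, sq]

/-- Elements acting on the generators by inversion act by inversion. -/
theorem pair_inverts [Finite G] [hp : Fact p.Prime] {W : Subgroup G} {a b w1 w2 : G}
    (h : NatSL2.Pair p W a b w1 w2) {z : G} (h1 : z * w1 * z⁻¹ = w1⁻¹)
    (h2 : z * w2 * z⁻¹ = w2⁻¹) {w : G} (hw : w ∈ W) : z * w * z⁻¹ = w⁻¹ := by
  have hc := ElemAb.le_centralizer h.hW
  rw [← pair_sup h, Norm.mem_sup_of_le_normalizer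
    (((zpowers_le.2 h.m1).trans (hc.trans (centralizer_le (SetLike.coe_subset_coe.2
      (zpowers_le.2 h.m2))))).trans (centralizer_le_normalizer _))] at hw
  obtain ⟨x, ⟨i, hi⟩, y, ⟨j, hj⟩, rfl⟩ := hw
  have hi' : w1 ^ i = x := hi
  have hj' : w2 ^ j = y := hj
  have h12 : Commute w1 w2 := mem_centralizer_iff.1 (hc h.m2) _ h.m1
  have hxy : x * y = y * x := by
    rw [← hi', ← hj']
    exact (h12.zpow_zpow i j).eq
  have hx : z * x * z⁻¹ = x⁻¹ := by rw [← hi', ← conj_zpow, h1, inv_zpow]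
  have hy : z * y * z⁻¹ = y⁻¹ := by rw [← hj', ← conj_zpow, h2, inv_zpow]
  calc z * (x * y) * z⁻¹ = (z * x * z⁻¹) * (z * y * z⁻¹) := by group
    _ = x⁻¹ * y⁻¹ := by rw [hx, hy]
    _ = (x * y)⁻¹ := by rw [hxy, mul_inv_rev]

/-- The central involution of `⟨a, b⟩`. -/
theorem pair_invol [Finite G] [hp : Fact p.Prime] {W : Subgroup G} {a b w1 w2 : G}
    (h : NatSL2.Pair p W a b w1 w2) {w : G} (hw : w ∈ W) :
    (a * b⁻¹ * a * (a * b⁻¹ * a)) * w * (a * b⁻¹ * a * (a * b⁻¹ * a))⁻¹ = w⁻¹ := by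
  have hc := ElemAb.le_centralizer h.hW
  have h12 : w1 * w2 = w2 * w1 := mem_centralizer_iff.1 (hc h.m2) _ h.m1
  have e1 : b⁻¹ * w1 * b = w1 * w2⁻¹ := by
    have : w1 = b * (w1 * w2⁻¹) * b⁻¹ := by
      calc w1 = (w1 * w2) * w2⁻¹ := by group
        _ = (b * w1 * b⁻¹) * (b * w2 * b⁻¹)⁻¹ := by rw [h.b1, h.b2]
        _ = b * (w1 * w2⁻¹) * b⁻¹ := by group
    calc b⁻¹ * w1 * b = b⁻¹ * (b * (w1 * w2⁻¹) * b⁻¹) * b := by rw [← this]
      _ = w1 * w2⁻¹ := by group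
  have e2 : b⁻¹ * w2 * b = w2 := by
    calc b⁻¹ * w2 * b = b⁻¹ * (b * w2 * b⁻¹) * b := by rw [h.b2]
      _ = w2 := by group
  have f1 : (a * b⁻¹ * a) * w1 * (a * b⁻¹ * a)⁻¹ = w2⁻¹ := by
    calc (a * b⁻¹ * a) * w1 * (a * b⁻¹ * a)⁻¹ = a * (b⁻¹ * (a * w1 * a⁻¹) * b) * a⁻¹ := by group
      _ = a * (w1 * w2⁻¹) * a⁻¹ := by rw [h.a1, e1]
      _ = (a * w1 * a⁻¹) * (a * w2 * a⁻¹)⁻¹ := by group
      _ = w1 * (w2 * w1)⁻¹ := by rw [h.a1, h.a2, h12]
      _ = w2⁻¹ := by group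
  have f2 : (a * b⁻¹ * a) * w2 * (a * b⁻¹ * a)⁻¹ = w1 := by
    calc (a * b⁻¹ * a) * w2 * (a * b⁻¹ * a)⁻¹ = a * (b⁻¹ * (a * w2 * a⁻¹) * b) * a⁻¹ := by group
      _ = a * ((b⁻¹ * w1 * b) * (b⁻¹ * w2 * b)) * a⁻¹ := by rw [h.a2]; group
      _ = a * w1 * a⁻¹ := by rw [e1, e2]; group
      _ = w1 := h.a1
  apply pair_inverts h _ _ hw
  · calc (a * b⁻¹ * a * (a * b⁻¹ * a)) * w1 * (a * b⁻¹ * a * (a * b⁻¹ * a))⁻¹
        = (a * b⁻¹ * a) * ((a * b⁻¹ * a) * w1 * (a * b⁻¹ * a)⁻¹) * (a * b⁻¹ * a)⁻¹ := by group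
      _ = ((a * b⁻¹ * a) * w2 * (a * b⁻¹ * a)⁻¹)⁻¹ := by rw [f1]; group
      _ = w1⁻¹ := by rw [f2]
  · calc (a * b⁻¹ * a * (a * b⁻¹ * a)) * w2 * (a * b⁻¹ * a * (a * b⁻¹ * a))⁻¹
        = (a * b⁻¹ * a) * ((a * b⁻¹ * a) * w2 * (a * b⁻¹ * a)⁻¹) * (a * b⁻¹ * a)⁻¹ := by group
      _ = w2⁻¹ := by rw [f2, f1]

/-- The central involution of `E_x` for `p = 3`. -/
theorem exists_invol [Finite G] (h : FF2.FF 3 V H Q)
    (hAH : A ≤ H) (hA : TV 3 V A) {x : G} (hx : x ∈ Q) (hxA : x ∉ centralizer (A : Set G)) :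
    ∃ z ∈ Q, z * z = 1 ∧ z ∈ A ⊔ A.map (MulAut.conj x).toMonoidHom ∧
      z ∈ centralizer (A : Set G) ∧
      ∀ w ∈ ⁅V, A ⊔ A.map (MulAut.conj x).toMonoidHom⁆, z * w * z⁻¹ = w⁻¹ := by
  have hp3 : Fact (Nat.Prime 3) := ⟨Nat.prime_three⟩
  have hBH := conj_le_H h hAH hx
  have hEQ : A ⊔ A.map (MulAut.conj x).toMonoidHom ≤ A ⊔ Q := sup_le le_sup_left (conj_le hx)
  set B := A.map (MulAut.conj x).toMonoidHom with hB
  have hg : GenPair 3 V A B := genPair h hAH hA hx hxA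
  have hfaith := hg.faithful h hAH hBH
  obtain ⟨a, b, w1, w2, hza, hzb, hp⟩ := hg.ex
  have haA : a ∈ A := by rw [← hza]; exact mem_zpowers a
  have hbB : b ∈ B := by rw [← hzb]; exact mem_zpowers b
  have haE : a ∈ A ⊔ B := le_sup_left (a := A) haA
  have hbE : b ∈ A ⊔ B := le_sup_right (b := B) hbB
  set z := a * b⁻¹ * a * (a * b⁻¹ * a) with hz
  have hzinv : ∀ w ∈ ⁅V, A ⊔ B⁆, z * w * z⁻¹ = w⁻¹ := fun w hw => pair_invol hp hw
  have hzE : z ∈ A ⊔ B := mul_mem (mul_mem (mul_mem haE (inv_mem hbE)) haE)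
    (mul_mem (mul_mem haE (inv_mem hbE)) haE)
  have hone : ∀ g ∈ A ⊔ B, (∀ w ∈ ⁅V, A ⊔ B⁆, g * w * g⁻¹ = w) → g = 1 := by
    intro g hg hgw
    have h1 : g ∈ (A ⊔ B) ⊓ centralizer ((⁅V, A ⊔ B⁆ : Subgroup G) : Set G) := by
      refine mem_inf.2 ⟨hg, mem_centralizer_iff.2 ?_⟩
      intro w hw
      calc w * g = (g * w * g⁻¹) * g := by rw [hgw w hw]
        _ = g * w := by group
    rwa [hfaith, mem_bot] at h1
  have hzz : z * z = 1 := by
    apply hone _ (mul_mem hzE hzE)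
    intro w hw
    calc (z * z) * w * (z * z)⁻¹ = z * (z * w * z⁻¹) * z⁻¹ := by group
      _ = z * w⁻¹ * z⁻¹ := by rw [hzinv w hw]
      _ = (z * w * z⁻¹)⁻¹ := by group
      _ = w := by rw [hzinv w hw, inv_inv]
  have hEN : A ⊔ B ≤ normalizer ((⁅V, A ⊔ B⁆ : Subgroup G) : Set G) :=
    normalizer_commutator_ge_right _ _
  have hzA : z ∈ centralizer (A : Set G) := by
    rw [← hza, FF2.centralizer_zpowers, mem_centralizer_iff]
    intro y hy
    rw [Set.mem_singleton_iff.1 hy]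
    have h1 : z * a * z⁻¹ * a⁻¹ = 1 := by
      apply hone _ (mul_mem (mul_mem (mul_mem hzE haE) (inv_mem hzE)) (inv_mem haE))
      intro w hw
      have hw' : a⁻¹ * w * a ∈ ⁅V, A ⊔ B⁆ := Norm.conj_mem' hEN haE hw
      have hw2 : z⁻¹ * (a⁻¹ * w * a) * z = (a⁻¹ * w * a)⁻¹ := by
        have h2 := hzinv _ ((⁅V, A ⊔ B⁆).inv_mem hw')
        rw [inv_inv] at h2
        conv_lhs => rw [← h2]
        group
      calc (z * a * z⁻¹ * a⁻¹) * w * (z * a * z⁻¹ * a⁻¹)⁻¹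
          = z * a * (z⁻¹ * (a⁻¹ * w * a) * z) * a⁻¹ * z⁻¹ := by group
        _ = (z * w * z⁻¹)⁻¹ := by rw [hw2]; group
        _ = w := by rw [hzinv w hw, inv_inv]
    calc a * z = (z * a * z⁻¹ * a⁻¹) * a * z := by rw [h1, one_mul]
      _ = z * a := by group
  have hzQ : z ∈ Q := by
    have h1 := hEQ hzE
    rw [sup_comm, Norm.mem_sup_of_le_normalizer' (hAH.trans h.hHQ)] at h1
    obtain ⟨q, hq, c, hc, hqc⟩ := h1
    have h2 : c * c ∈ A ⊓ Q := by
      refine mem_inf.2 ⟨mul_mem hc hc, ?_⟩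
      have h3 : c * c = (q * (c * q * c⁻¹))⁻¹ := by
        rw [← hqc] at hzz
        calc c * c = (q * (c * q * c⁻¹))⁻¹ * (q * c * (q * c)) := by group
          _ = _ := by rw [hzz, mul_one]
      rw [h3]
      exact inv_mem (mul_mem hq (Norm.conj_mem (hAH.trans h.hHQ) hc hq))
    have h5 : c = 1 := by
      rw [inf_core h (isPGroup_of_card hA.cardA), mem_bot] at h2
      have h6 : c ^ 3 = 1 := by
        have := pow_card_eq_one' (G := A) (x := ⟨c, hc⟩)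
        rw [hA.cardA] at this
        exact congrArg Subtype.val this
      calc c = c ^ 3 * (c * c)⁻¹ := by group
        _ = 1 := by rw [h6, h2]; group
    rw [← hqc, h5, mul_one]
    exact hq
  exact ⟨z, hzQ, hzz, hzE, hzA, hzinv⟩

theorem _root_.H13.Trans.GenPair.inf_centralizer [Finite G] [hp : Fact p.Prime]
    (hV : Cfsg.IsElementaryAbelian p V) (hA : TV p V A) (hB : TV p V B) (hg : GenPair p V A B) :
    ⁅V, A ⊔ B⁆ ⊓ centralizer (A : Set G) = ⁅V, A⁆ := by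
  have hVc := ElemAb.le_centralizer hV
  have hW := comm_sup hA.nV hB.nV
  have hXN : ⁅V, A⁆ ≤ normalizer ((⁅V, B⁆ : Subgroup G) : Set G) :=
    (hA.comm_le.trans (hVc.trans (centralizer_le (SetLike.coe_subset_coe.2 hB.comm_le)))).trans
      (centralizer_le_normalizer _)
  have h1 : ¬ ⁅V, B⁆ ≤ centralizer (A : Set G) := by
    intro h1
    obtain ⟨a, b, w1, w2, hza, hzb, hp⟩ := hg.ex
    have haA : a ∈ A := by rw [← hza]; exact mem_zpowers a
    have h2 : ⁅V, A ⊔ B⁆ ≤ centralizer (A : Set G) := by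
      rw [hW]; exact sup_le hA.le_centralizer h1
    have h3 := mem_centralizer_iff.1 (h2 hp.m2) a haA
    have h4 := hp.a2
    rw [h3, mul_inv_cancel_right] at h4
    exact hp.ne (by simpa using h4.symm)
  rw [hW, Norm.modular hA.le_centralizer hXN, inf_eq_bot_of_not_le hB.card h1, sup_bot_eq]

/-- Relations satisfied by the central involutions. -/
structure Inv3 (V A : Subgroup G) (z : G) : Prop where
  n : z ∈ normalizer (V : Set G)
  cA : z ∈ centralizer (A : Set G)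
  r1 : ∀ v ∈ V, (z * v * z⁻¹) * v ∈ centralizer (A : Set G)
  r2 : ∀ c ∈ V ⊓ centralizer (A : Set G), ⁅c, z⁆ ∈ ⁅V, A⁆
  r3 : ∀ u ∈ ⁅V, A⁆, z * u * z⁻¹ = u⁻¹

theorem inv3_of [Finite G] [hp : Fact p.Prime] (hV : Cfsg.IsElementaryAbelian p V)
    (hA : TV p V A) (hB : TV p V B)
    (hg : GenPair p V A B) {z : G} (hzE : z ∈ A ⊔ B)
    (hzA : z ∈ centralizer (A : Set G)) (hzw : ∀ w ∈ ⁅V, A ⊔ B⁆, z * w * z⁻¹ = w⁻¹) :
    Inv3 V A z := by
  have hVc := ElemAb.le_centralizer hV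
  have hEV : A ⊔ B ≤ normalizer (V : Set G) := sup_le hA.nV hB.nV
  have hWV : ⁅V, A ⊔ B⁆ ≤ V := Act.comm_le hEV le_rfl
  have hWN : ⁅V, A ⊔ B⁆ ≤
      normalizer ((V ⊓ centralizer ((A ⊔ B : Subgroup G) : Set G) : Subgroup G) : Set G) :=
    (hWV.trans (hVc.trans (centralizer_le (SetLike.coe_subset_coe.2 inf_le_left)))).trans
      (centralizer_le_normalizer _)
  have hdec : ∀ v ∈ V, ∃ w ∈ ⁅V, A ⊔ B⁆,
      ∃ c ∈ V ⊓ centralizer ((A ⊔ B : Subgroup G) : Set G), w * c = v := by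
    intro v hv
    rw [← hg.sup, Norm.mem_sup_of_le_normalizer hWN] at hv
    exact hv
  have hzc : ∀ c ∈ V ⊓ centralizer ((A ⊔ B : Subgroup G) : Set G), z * c * z⁻¹ = c := by
    intro c hc
    rw [mem_centralizer_iff.1 (mem_inf.1 hc).2 z hzE, mul_inv_cancel_right]
  have hcA : ∀ c ∈ V ⊓ centralizer ((A ⊔ B : Subgroup G) : Set G),
      c ∈ centralizer (A : Set G) := fun c hc =>
    centralizer_le (SetLike.coe_subset_coe.2 le_sup_left) (mem_inf.1 hc).2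
  refine ⟨hEV hzE, hzA, ?_, ?_, ?_⟩
  · intro v hv
    obtain ⟨w, hw, c, hc, rfl⟩ := hdec v hv
    have h1 : z * (w * c) * z⁻¹ * (w * c) = c * c := by
      have h2 : c * w = w * c := Act.mul_comm_of_mem hVc (mem_inf.1 hc).1 (hWV hw)
      calc z * (w * c) * z⁻¹ * (w * c) = (z * w * z⁻¹) * (z * c * z⁻¹) * (w * c) := by group
        _ = w⁻¹ * c * (c * w) := by rw [hzw w hw, hzc c hc, h2]
        _ = w⁻¹ * (c * (c * w)) := by group
        _ = w⁻¹ * (w * (c * c)) := by rw [h2, ← mul_assoc c w c, h2, mul_assoc w c c]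
        _ = c * c := by group
    rw [h1]
    exact mul_mem (hcA c hc) (hcA c hc)
  · intro c₀ hc₀
    obtain ⟨w, hw, c, hc, rfl⟩ := hdec c₀ (mem_inf.1 hc₀).1
    have hwX : w ∈ ⁅V, A⁆ := by
      rw [← hg.inf_centralizer hV hA hB]
      refine mem_inf.2 ⟨hw, ?_⟩
      have h1 := mul_mem (mem_inf.1 hc₀).2 (inv_mem (hcA c hc))
      rwa [mul_inv_cancel_right] at h1
    have h1 : ⁅w * c, z⁆ = w * w := by
      have h2 : c * w = w * c := Act.mul_comm_of_mem hVc (mem_inf.1 hc).1 (hWV hw)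
      calc ⁅w * c, z⁆ = w * c * (z * c * z⁻¹)⁻¹ * (z * w * z⁻¹)⁻¹ := by
            rw [commutatorElement_def]; group
        _ = w * w := by rw [hzw w hw, hzc c hc]; group
    rw [h1]
    exact mul_mem hwX hwX
  · intro u hu
    exact hzw u (commutator_mono le_rfl le_sup_left hu)

theorem inv3_mul_eq_one [Finite G] [hp : Fact p.Prime] (h : FF2.FF p V H Q)
    {z z' : G} (hz : Inv3 V A z) (hz' : Inv3 V A z') (hzQ : z ∈ Q) (hzQ' : z' ∈ Q) :
    z * z' = 1 := by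
  have hVc := ElemAb.le_centralizer h.hV
  have hVp := ElemAb.isPGroup h.hV
  set t := z * z' with ht
  have htQ : t ∈ Q := mul_mem hzQ hzQ'
  have hDQ : zpowers t ≤ Q := zpowers_le.2 htQ
  have hDc : (Nat.card ↥(zpowers t)).Coprime p := Coprime.coprime_of_le hDQ h.hQ
  have hDV : zpowers t ≤ normalizer (V : Set G) := hDQ.trans (h.hQH.trans h.hHV)
  have htA : t ∈ centralizer (A : Set G) := mul_mem hz.cA hz'.cA
  have htNA : t ∈ normalizer (A : Set G) := centralizer_le_normalizer _ htA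
  have htX : t ∈ normalizer ((⁅V, A⁆ : Subgroup G) : Set G) :=
    Norm.le_normalizer_commutator hDV (zpowers_le.2 htNA) (mem_zpowers t)
  have htC : t ∈ normalizer ((V ⊓ centralizer (A : Set G) : Subgroup G) : Set G) :=
    Norm.le_normalizer_inf hDV (Norm.le_normalizer_centralizer (zpowers_le.2 htNA)) (mem_zpowers t)
  have hzNC : z ∈ normalizer ((V ⊓ centralizer (A : Set G) : Subgroup G) : Set G) :=
    Norm.le_normalizer_inf (zpowers_le.2 hz.n)
      (Norm.le_normalizer_centralizer (zpowers_le.2 (centralizer_le_normalizer _ hz.cA)))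
      (mem_zpowers z)
  have hzNX : z ∈ normalizer ((⁅V, A⁆ : Subgroup G) : Set G) :=
    Norm.le_normalizer_commutator (zpowers_le.2 hz.n)
      (zpowers_le.2 (centralizer_le_normalizer _ hz.cA)) (mem_zpowers z)
  -- step 1
  have s1 : ⁅V, zpowers t⁆ ≤ V ⊓ centralizer (A : Set G) := by
    have h1 : zpowers t ≤ Quad.actTriv V (V ⊓ centralizer (A : Set G)) := by
      rw [zpowers_le]
      refine ⟨hDV (mem_zpowers t), htC, ?_⟩
      intro v hv
      have hk : z' * v * z'⁻¹ * v ∈ V ⊓ centralizer (A : Set G) :=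
        mem_inf.2 ⟨mul_mem (Act.conj_mem hz'.n hv) hv, hz'.r1 v hv⟩
      have hk' : z * v * z⁻¹ * v ∈ V ⊓ centralizer (A : Set G) :=
        mem_inf.2 ⟨mul_mem (Act.conj_mem hz.n hv) hv, hz.r1 v hv⟩
      have hk2 := (mem_normalizer_iff.1 hzNC _).1 hk
      have h2 : t * v * t⁻¹ * v⁻¹ =
          (z * (z' * v * z'⁻¹ * v) * z⁻¹) * (z * v * z⁻¹ * v)⁻¹ := by
        have h3 : z * v⁻¹ * z⁻¹ * v⁻¹ = v⁻¹ * (z * v⁻¹ * z⁻¹) :=
          Act.mul_comm_of_mem hVc (Act.conj_mem hz.n (inv_mem hv)) (inv_mem hv)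
        calc t * v * t⁻¹ * v⁻¹ = (z * (z' * v * z'⁻¹ * v) * z⁻¹) * (z * v⁻¹ * z⁻¹ * v⁻¹) := by
              rw [ht]; group
          _ = (z * (z' * v * z'⁻¹ * v) * z⁻¹) * (v⁻¹ * (z * v⁻¹ * z⁻¹)) := by rw [h3]
          _ = _ := by group
      have h4 : ⁅v, t⁆ = (t * v * t⁻¹ * v⁻¹)⁻¹ := by rw [commutatorElement_def]; group
      rw [h4, h2]
      exact inv_mem (mul_mem hk2 (inv_mem hk'))
    exact (commutator_mono le_rfl h1).trans (Quad.commutator_actTriv_le _ _)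
  have s2 : ⁅V ⊓ centralizer (A : Set G), zpowers t⁆ ≤ ⁅V, A⁆ := by
    have h1 : zpowers t ≤ Quad.actTriv (V ⊓ centralizer (A : Set G)) ⁅V, A⁆ := by
      rw [zpowers_le]
      refine ⟨htC, htX, ?_⟩
      intro c hc
      have h2 : ⁅c, t⁆ = ⁅c, z⁆ * (z * ⁅c, z'⁆ * z⁻¹) := by
        rw [ht, commutatorElement_def, commutatorElement_def, commutatorElement_def]; group
      rw [h2]
      exact mul_mem (hz.r2 c hc) ((mem_normalizer_iff.1 hzNX _).1 (hz'.r2 c hc))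
    exact (commutator_mono le_rfl h1).trans (Quad.commutator_actTriv_le _ _)
  have s3 : ⁅⁅V, A⁆, zpowers t⁆ = ⊥ := by
    rw [commutator_eq_bot_iff_le_centralizer, FF2.centralizer_zpowers]
    intro u hu
    rw [mem_centralizer_iff]
    intro y hy
    rw [Set.mem_singleton_iff.1 hy]
    have h1 : t * u * t⁻¹ = u := by
      calc t * u * t⁻¹ = z * (z' * u * z'⁻¹) * z⁻¹ := by rw [ht]; group
        _ = (z * u * z⁻¹)⁻¹ := by rw [hz'.r3 u hu]; group
        _ = u := by rw [hz.r3 u hu, inv_inv]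
    calc t * u = (t * u * t⁻¹) * t := by group
      _ = u * t := by rw [h1]
  have h4 := Fix.comm_comm hVc hVp hDc hDV
  have h5 : ⁅V, zpowers t⁆ = ⊥ := by
    rw [eq_bot_iff, ← s3]
    have h6 : ⁅V, zpowers t⁆ ≤ ⁅V, A⁆ := by
      rw [← h4]
      exact (commutator_mono s1 le_rfl).trans s2
    conv_lhs => rw [← h4]
    exact commutator_mono h6 le_rfl
  have h6 : t ∈ H ⊓ centralizer (V : Set G) := by
    refine mem_inf.2 ⟨h.hQH htQ, ?_⟩
    rw [commutator_comm, commutator_eq_bot_iff_le_centralizer, zpowers_le] at h5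
    exact h5
  rwa [h.hf, mem_bot] at h6

theorem plane_le_three [Finite G] (h : FF2.FF 3 V H Q)
    (hAH : A ≤ H) (hA : TV 3 V A) {x y : G} (hx : x ∈ Q) (hxA : x ∉ centralizer (A : Set G))
    (hy : y ∈ Q) (hyA : y ∉ centralizer (A : Set G)) :
    ⁅V, A ⊔ A.map (MulAut.conj x).toMonoidHom⁆ ≤ ⁅V, A ⊔ A.map (MulAut.conj y).toMonoidHom⁆ := by
  have hp3 : Fact (Nat.Prime 3) := ⟨Nat.prime_three⟩
  have hBT := hA.conj (h.hHV (h.hQH hx))
  have hCT := hA.conj (h.hHV (h.hQH hy))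
  have hgx := genPair h hAH hA hx hxA
  have hgy := genPair h hAH hA hy hyA
  obtain ⟨z, hzQ, hzz, hzE, hzA, hzw⟩ := exists_invol h hAH hA hx hxA
  obtain ⟨z', hzQ', hzz', hzE', hzA', hzw'⟩ := exists_invol h hAH hA hy hyA
  have hI := inv3_of h.hV hA hBT hgx hzE hzA hzw
  have hI' := inv3_of h.hV hA hCT hgy hzE' hzA' hzw'
  have h1 := inv3_mul_eq_one h hI hI' hzQ hzQ'
  have h2 : z = z' := by
    calc z = (z * z') * (z' * z')⁻¹ * z' := by group
      _ = z' := by rw [h1, hzz']; group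
  intro v hv
  have hVc := ElemAb.le_centralizer h.hV
  set B := A.map (MulAut.conj x).toMonoidHom with hB
  set C := A.map (MulAut.conj y).toMonoidHom with hC
  have hEV : A ⊔ B ≤ normalizer (V : Set G) := sup_le hA.nV hBT.nV
  have hWV : ⁅V, A ⊔ B⁆ ≤ V := Act.comm_le hEV le_rfl
  have hEV' : A ⊔ C ≤ normalizer (V : Set G) := sup_le hA.nV hCT.nV
  have hWV' : ⁅V, A ⊔ C⁆ ≤ V := Act.comm_le hEV' le_rfl
  have hWN : ⁅V, A ⊔ C⁆ ≤
      normalizer ((V ⊓ centralizer ((A ⊔ C : Subgroup G) : Set G) : Subgroup G) : Set G) :=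
    (hWV'.trans (hVc.trans (centralizer_le (SetLike.coe_subset_coe.2 inf_le_left)))).trans
      (centralizer_le_normalizer _)
  have hvV := hWV hv
  rw [← hgy.sup, Norm.mem_sup_of_le_normalizer hWN] at hvV
  obtain ⟨w, hw, c, hc, rfl⟩ := hvV
  have h3 := hzw _ hv
  rw [h2] at h3
  have h4 : z' * c * z'⁻¹ = c := by
    rw [mem_centralizer_iff.1 (mem_inf.1 hc).2 z' hzE', mul_inv_cancel_right]
  have h5 : z' * (w * c) * z'⁻¹ = w⁻¹ * c := by
    calc z' * (w * c) * z'⁻¹ = (z' * w * z'⁻¹) * (z' * c * z'⁻¹) := by group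
      _ = w⁻¹ * c := by rw [hzw' w hw, h4]
  rw [h5, mul_inv_rev, Act.mul_comm_of_mem hVc (inv_mem (mem_inf.1 hc).1) (inv_mem (hWV' hw))] at h3
  have h6 : c = c⁻¹ := mul_left_cancel h3
  have h7 : c ^ 3 = 1 := h.hV.2 c (mem_inf.1 hc).1
  have h8 : c = 1 := by
    calc c = c ^ 3 * (c * c)⁻¹ := by group
      _ = 1 := by
        have : c * c = 1 := by
          conv_lhs => rw [h6]
          rw [← h6]
          conv_lhs => arg 1; rw [h6]
          exact inv_mul_cancel c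
        rw [h7, this]; group
  rw [h8, mul_one]
  exact hw

theorem plane_eq [Finite G] [hp : Fact p.Prime] (h : FF2.FF p V H Q)
    (hAH : A ≤ H) (hA : TV p V A) {x y : G} (hx : x ∈ Q) (hxA : x ∉ centralizer (A : Set G))
    (hy : y ∈ Q) (hyA : y ∉ centralizer (A : Set G)) :
    ⁅V, A ⊔ A.map (MulAut.conj x).toMonoidHom⁆ = ⁅V, A ⊔ A.map (MulAut.conj y).toMonoidHom⁆ := by
  rcases prime_cases h hAH hA hx hxA with h2 | h3
  · subst h2
    exact plane_eq_two h hAH hA hx hxA hy hyA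
  · subst h3
    exact le_antisymm (plane_le_three h hAH hA hx hxA hy hyA)
      (plane_le_three h hAH hA hy hyA hx hxA)

end H13.FF5
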