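import Mathlib.GroupTheory.Sylow
import Cfsg.Prelude.Def_PLocal
import Cfsg.Agent.Lib.H13.FF5

set_option autoImplicit false

/-!
Failure of factorization, part 6: the structure of `[Q, A] A`.
-/

namespace H13.FF6

open Subgroup
open H13.Trans H13.FF3 H13.FF4 H13.FF5
open scoped commutatorElement

universe u

variable {G : Type u} [Group G] {p : ℕ} {V A B H Q P : Subgroup G}

/-- The component. -/
def comp (Q A : Subgroup G) : Subgroup G := ⁅Q, A⁆ ⊔ A

theorem comp_le_of (hA : ∀ x ∈ Q, A.map (MulAut.conj x).toMonoidHom ≤ P) (h1 : A ≤ P) :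
    comp Q A ≤ P := by
  refine sup_le ?_ h1
  rw [commutator_le]
  intro x hx a ha
  rw [commutatorElement_def]
  exact mul_mem (hA x hx ⟨a, ha, rfl⟩) (inv_mem (h1 ha))

theorem conj_le_comp {x : G} (hx : x ∈ Q) : A.map (MulAut.conj x).toMonoidHom ≤ comp Q A :=
  conj_le_comm hx

theorem map_conj_of_mem_centralizer {x : G} (hxA : x ∈ centralizer (A : Set G)) :
    A.map (MulAut.conj x).toMonoidHom = A :=
  Norm.map_conj_le_of_mem_normalizer (centralizer_le_normalizer _ hxA)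

theorem comp_le_H [Finite G] (h : FF2.FF p V H Q) (hAH : A ≤ H) : comp Q A ≤ H :=
  sup_le ((Coprime.comm_le (hAH.trans h.hHQ)).trans h.hQH) hAH

theorem comm_le_core [Finite G] (h : FF2.FF p V H Q) (hAH : A ≤ H) : ⁅Q, A⁆ ≤ Q :=
  Coprime.comm_le (hAH.trans h.hHQ)

/-- The data for `E = [Q, A] A`. -/
structure Comp (p : ℕ) (V Q A : Subgroup G) : Prop where
  ex : ∃ a b w1 w2 : G, zpowers a = A ∧ closure {a, b} = comp Q A ∧
    NatSL2.Pair p ⁅V, comp Q A⁆ a b w1 w2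
  split : Split V ⁅Q, A⁆ (comp Q A)
  faithful : comp Q A ⊓ centralizer ((⁅V, comp Q A⁆ : Subgroup G) : Set G) = ⊥

theorem comp_of [Finite G] [hp : Fact p.Prime] (h : FF2.FF p V H Q)
    (hAH : A ≤ H) (hA : TV p V A) : Comp p V Q A := by
  obtain ⟨x, hx, hxA⟩ := exists_not_mem h hAH hA
  have hAQ : A ≤ normalizer (Q : Set G) := hAH.trans h.hHQ
  have hBH := conj_le_H h hAH hx
  have hg := genPair h hAH hA hx hxA
  have hBT := hA.conj (h.hHV (h.hQH hx))
  have hsp : Split V ⁅Q, A⁆ (comp Q A) := split_of h hA (comm_le_core h hAH)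
    (normalizer_commutator_ge_right _ _) (conj_le_comm hx) (not_le_centralizer h hAH hA hx hxA)
  -- `[V, E] = W`
  have hW : ⁅V, comp Q A⁆ = ⁅V, A ⊔ A.map (MulAut.conj x).toMonoidHom⁆ := by
    apply le_antisymm
    · have h1 : comp Q A ≤ ⨆ y : Q, A.map (MulAut.conj (y : G)).toMonoidHom := by
        apply comp_le_of
        · intro y hy
          exact le_iSup (fun y : Q => A.map (MulAut.conj (y : G)).toMonoidHom) ⟨y, hy⟩
        · have h2 := le_iSup (fun y : Q => A.map (MulAut.conj (y : G)).toMonoidHom) 1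
          refine le_trans ?_ h2
          rw [OneMemClass.coe_one, map_one]
          intro a ha
          exact ⟨a, ha, rfl⟩
      refine (commutator_mono le_rfl h1).trans ?_
      rw [comm_iSup (fun y => (hA.conj (h.hHV (h.hQH y.2))).nV)]
      refine iSup_le fun y => ?_
      by_cases hyA : (y : G) ∈ centralizer (A : Set G)
      · rw [map_conj_of_mem_centralizer hyA]
        exact commutator_mono le_rfl le_sup_left
      · rw [plane_eq h hAH hA hx hxA y.2 hyA]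
        exact commutator_mono le_rfl le_sup_right
    · exact commutator_mono le_rfl (sup_le le_sup_right (conj_le_comp hx))
  have hEH : comp Q A ≤ H := comp_le_H h hAH
  have hf : comp Q A ⊓ centralizer ((⁅V, comp Q A⁆ : Subgroup G) : Set G) = ⊥ := by
    rw [eq_bot_iff, ← h.hf]
    refine le_inf (inf_le_left.trans hEH) ?_
    conv_rhs => rw [← hsp.sup, Norm.centralizer_sup]
    refine le_inf inf_le_right (inf_le_left.trans ?_)
    rw [le_centralizer_iff]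
    exact inf_le_right
  obtain ⟨a, b, w1, w2, hza, hzb, hpr⟩ := hg.ex
  rw [← hW] at hpr
  have hcl : closure {a, b} = A ⊔ A.map (MulAut.conj x).toMonoidHom := by
    rw [← zpowers_sup_zpowers, hza, hzb]
  have hEx : A ⊔ A.map (MulAut.conj x).toMonoidHom ≤ comp Q A :=
    sup_le le_sup_right (conj_le_comp hx)
  have hEN : comp Q A ≤ normalizer ((⁅V, comp Q A⁆ : Subgroup G) : Set G) :=
    normalizer_commutator_ge_right _ _
  have key : ∀ g ∈ comp Q A, g ^ p = 1 → g ∈ A ⊔ A.map (MulAut.conj x).toMonoidHom := by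
    intro g hg hgp
    obtain ⟨e, he, heg⟩ := hpr.exists_mem (hEN hg) (by rw [hgp]; exact one_mem _)
    rw [hcl] at he
    have h1 : e⁻¹ * g ∈ comp Q A ⊓ centralizer ((⁅V, comp Q A⁆ : Subgroup G) : Set G) :=
      mem_inf.2 ⟨mul_mem (inv_mem (hEx he)) hg, heg⟩
    rw [hf, mem_bot, inv_mul_eq_one] at h1
    rw [← h1]
    exact he
  have hpA : ∀ a ∈ A, a ^ p = 1 := by
    intro a ha
    have h1 := pow_card_eq_one' (G := A) (x := ⟨a, ha⟩)
    rw [hA.cardA] at h1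
    exact congrArg Subtype.val h1
  have hEeq : comp Q A = A ⊔ A.map (MulAut.conj x).toMonoidHom := by
    apply le_antisymm _ hEx
    apply comp_le_of _ le_sup_left
    rintro y hy _ ⟨g, hg, rfl⟩
    apply key
    · exact conj_le_comp hy ⟨g, hg, rfl⟩
    · rw [← map_pow, hpA g hg, map_one]
  refine ⟨⟨a, b, w1, w2, hza, ?_, hpr⟩, hsp, hf⟩
  rw [hEeq, hcl]

theorem Comp.card (h : Comp p V Q A) : Nat.card ↥⁅V, comp Q A⁆ = p ^ 2 := by
  obtain ⟨_, _, _, _, _, _, hp⟩ := h.ex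
  exact hp.card

theorem Comp.equiv [hp : Fact p.Prime] (h : Comp p V Q A) :
    Nonempty (↥(comp Q A) ≃* Matrix.SpecialLinearGroup (Fin 2) (ZMod p)) := by
  obtain ⟨_, _, _, _, _, h1, hp⟩ := h.ex
  obtain ⟨f, -, -⟩ := hp.exists_equiv h1 h.faithful
  exact ⟨f⟩

theorem Comp.inf_core (h : Comp p V Q A) :
    ⁅V, comp Q A⁆ ⊓ centralizer ((⁅Q, A⁆ : Subgroup G) : Set G) ⊓ V = ⊥ := by
  rw [eq_bot_iff, ← h.split.inf, inf_assoc]
  refine inf_le_inf_left _ ?_
  rw [inf_comm, h.split.cen]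
  exact inf_le_right

theorem norm_form {p : ℕ} (hp : p = 2 ∨ p = 3) (i j : ZMod p) (h : i * i - 3 * i * j + j * j = 0) :
    i = 0 ∧ j = 0 := by
  rcases hp with rfl | rfl
  · revert i j; decide
  · revert i j; decide

/-- A subgroup of `W` invariant under `⁅b, a⁆` is trivial or `W` (`p = 2, 3`). -/
theorem pair_irred [Finite G] [hp : Fact p.Prime] (hp23 : p = 2 ∨ p = 3) {W U : Subgroup G}
    {a b w1 w2 : G}
    (h : NatSL2.Pair p W a b w1 w2) (hUW : U ≤ W) (hU : ⁅b, a⁆ ∈ normalizer (U : Set G))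
    (hne : U ≠ ⊥) : U = W := by
  have hc := ElemAb.le_centralizer h.hW
  have h12 : Commute w1 w2 := mem_centralizer_iff.1 (hc h.m2) _ h.m1
  set c := ⁅b, a⁆ with hcdef
  -- action of `c`
  have a1' : a⁻¹ * w1 * a = w1 := by
    calc a⁻¹ * w1 * a = a⁻¹ * (a * w1 * a⁻¹) * a := by rw [h.a1]
      _ = w1 := by group
  have a2' : a⁻¹ * w2 * a = w1⁻¹ * w2 := by
    calc a⁻¹ * w2 * a = (a⁻¹ * w1 * a)⁻¹ * (a⁻¹ * (w1 * w2) * a) := by group
      _ = w1⁻¹ * (a⁻¹ * (a * w2 * a⁻¹) * a) := by rw [a1', h.a2]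
      _ = w1⁻¹ * w2 := by group
  have b2' : b⁻¹ * w2 * b = w2 := by
    calc b⁻¹ * w2 * b = b⁻¹ * (b * w2 * b⁻¹) * b := by rw [h.b2]
      _ = w2 := by group
  have b1' : b⁻¹ * w1 * b = w1 * w2⁻¹ := by
    calc b⁻¹ * w1 * b = (b⁻¹ * (w1 * w2) * b) * (b⁻¹ * w2 * b)⁻¹ := by group
      _ = (b⁻¹ * (b * w1 * b⁻¹) * b) * w2⁻¹ := by rw [b2', h.b1]
      _ = w1 * w2⁻¹ := by group
  have c1 : c * w1 * c⁻¹ = w2⁻¹ := by
    calc c * w1 * c⁻¹ = b * (a * (b⁻¹ * (a⁻¹ * w1 * a) * b) * a⁻¹) * b⁻¹ := by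
          rw [hcdef, commutatorElement_def]; group
      _ = b * ((a * w1 * a⁻¹) * (a * w2 * a⁻¹)⁻¹) * b⁻¹ := by rw [a1', b1']; group
      _ = b * (w1 * (w1 * w2)⁻¹) * b⁻¹ := by rw [h.a1, h.a2]
      _ = b * (w1 * (w2 * w1)⁻¹) * b⁻¹ := by rw [h12.eq]
      _ = (b * w2 * b⁻¹)⁻¹ := by group
      _ = w2⁻¹ := by rw [h.b2]
  have c2 : c * w2 * c⁻¹ = w1 * w2 ^ 3 := by
    calc c * w2 * c⁻¹ = b * (a * (b⁻¹ * (a⁻¹ * w2 * a) * b) * a⁻¹) * b⁻¹ := by
          rw [hcdef, commutatorElement_def]; group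
      _ = b * (a * ((b⁻¹ * w1 * b)⁻¹ * (b⁻¹ * w2 * b)) * a⁻¹) * b⁻¹ := by rw [a2']; group
      _ = b * ((a * w2 * a⁻¹) * (a * w1 * a⁻¹)⁻¹ * (a * w2 * a⁻¹)) * b⁻¹ := by rw [b1', b2']; group
      _ = b * (w1 * w2 * w1⁻¹ * (w1 * w2)) * b⁻¹ := by rw [h.a1, h.a2]
      _ = b * (w1 * w2 * w2) * b⁻¹ := by group
      _ = (b * w1 * b⁻¹) * (b * w2 * b⁻¹) * (b * w2 * b⁻¹) := by group
      _ = w1 * w2 * w2 * w2 := by rw [h.b1, h.b2]
      _ = w1 * w2 ^ 3 := by simp only [pow_succ, pow_zero, one_mul, mul_assoc]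
  -- an element of `U`
  obtain ⟨⟨u, hu⟩, hu1'⟩ := ne_bot_iff_exists_ne_one.1 hne
  have hu1 : u ≠ 1 := fun h => hu1' (Subtype.ext h)
  have huW := hUW hu
  rw [← pair_sup h, Norm.mem_sup_of_le_normalizer
    (((zpowers_le.2 h.m1).trans (hc.trans (centralizer_le (SetLike.coe_subset_coe.2
      (zpowers_le.2 h.m2))))).trans (centralizer_le_normalizer _))] at huW
  obtain ⟨x, ⟨i, hi⟩, y, ⟨j, hj⟩, hxy⟩ := huW
  have hi' : w1 ^ i = x := hi
  have hj' : w2 ^ j = y := hj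
  rw [← hi', ← hj'] at hxy
  have hcu : c * (w1 ^ i * w2 ^ j) * c⁻¹ = w1 ^ j * w2 ^ (3 * j - i) := by
    calc c * (w1 ^ i * w2 ^ j) * c⁻¹ = (c * w1 * c⁻¹) ^ i * (c * w2 * c⁻¹) ^ j := by
          rw [conj_zpow, conj_zpow]; group
      _ = w2⁻¹ ^ i * (w1 * w2 ^ 3) ^ j := by rw [c1, c2]
      _ = w2⁻¹ ^ i * (w1 ^ j * (w2 ^ 3) ^ j) := by rw [(h12.pow_right 3).mul_zpow]
      _ = (w2⁻¹ ^ i * w1 ^ j) * (w2 ^ 3) ^ j := by group
      _ = (w1 ^ j * w2⁻¹ ^ i) * (w2 ^ 3) ^ j := by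
          rw [((h12.inv_right.symm).zpow_zpow i j).eq]
      _ = w1 ^ j * w2 ^ (3 * j - i) := by
          rw [inv_zpow', ← zpow_natCast, ← zpow_mul, mul_assoc, ← zpow_add]
          congr 2
          push_cast
          ring
  have hu2 : w1 ^ i * w2 ^ j ∈ U := by rw [hxy]; exact hu
  have hu3 : w1 ^ j * w2 ^ (3 * j - i) ∈ U := by
    rw [← hcu]; exact (mem_normalizer_iff.1 hU _).1 hu2
  -- `w1 ^ N ∈ U`
  have hu4 : w1 ^ (i * (3 * j - i) - j * j) ∈ U := by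
    have h5 := mul_mem (zpow_mem hu2 (3 * j - i)) (zpow_mem hu3 (-j))
    have h6 : (w1 ^ i * w2 ^ j) ^ (3 * j - i) * (w1 ^ j * w2 ^ (3 * j - i)) ^ (-j) =
        w1 ^ (i * (3 * j - i) - j * j) := by
      rw [(h12.zpow_zpow i j).mul_zpow, (h12.zpow_zpow j (3 * j - i)).mul_zpow, ← zpow_mul,
        ← zpow_mul, ← zpow_mul, ← zpow_mul]
      have h7 : Commute (w2 ^ (j * (3 * j - i))) (w1 ^ (j * -j)) := (h12.symm).zpow_zpow _ _
      calc w1 ^ (i * (3 * j - i)) * w2 ^ (j * (3 * j - i)) *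
            (w1 ^ (j * -j) * w2 ^ ((3 * j - i) * -j))
          = w1 ^ (i * (3 * j - i)) * (w2 ^ (j * (3 * j - i)) * w1 ^ (j * -j)) *
            w2 ^ ((3 * j - i) * -j) := by group
        _ = w1 ^ (i * (3 * j - i)) * (w1 ^ (j * -j) * w2 ^ (j * (3 * j - i))) *
            w2 ^ ((3 * j - i) * -j) := by rw [h7.eq]
        _ = w1 ^ (i * (3 * j - i) + j * -j) * w2 ^ (j * (3 * j - i) + (3 * j - i) * -j) := by
            rw [zpow_add, zpow_add]; group
        _ = w1 ^ (i * (3 * j - i) - j * j) := by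
            have e1 : j * (3 * j - i) + (3 * j - i) * -j = 0 := by ring
            have e2 : i * (3 * j - i) + j * -j = i * (3 * j - i) - j * j := by ring
            rw [e1, e2, zpow_zero, mul_one]
    rwa [h6] at h5
  have hN : ((i * (3 * j - i) - j * j : ℤ) : ZMod p) ≠ 0 := by
    intro h5
    have h6 : (i : ZMod p) * i - 3 * i * j + j * j = 0 := by
      push_cast at h5
      linear_combination -h5
    obtain ⟨h7, h8⟩ := norm_form hp23 _ _ h6
    rw [ZMod.intCast_zmod_eq_zero_iff_dvd] at h7 h8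
    apply hu1
    rw [← hxy]
    have o1 : w1 ^ (p : ℤ) = 1 := by rw [zpow_natCast]; exact h.hW.2 _ h.m1
    have o2 : w2 ^ (p : ℤ) = 1 := by rw [zpow_natCast]; exact h.hW.2 _ h.m2
    obtain ⟨i', rfl⟩ := h7
    obtain ⟨j', rfl⟩ := h8
    rw [zpow_mul, zpow_mul, o1, o2, one_zpow, one_zpow, one_mul]
  have hw1 : w1 ∈ U := by
    have o1 : orderOf w1 = p := orderOf_eq_prime (h.hW.2 _ h.m1) h.ne
    have hX : Nat.card (zpowers w1) = p := by rw [Nat.card_zpowers, o1]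
    have h5 : w1 ^ (i * (3 * j - i) - j * j) ≠ 1 := by
      intro h6
      rw [← orderOf_dvd_iff_zpow_eq_one, o1] at h6
      exact hN ((ZMod.intCast_zmod_eq_zero_iff_dvd _ _).2 h6)
    have h6 := zpowers_eq_of_mem hX (zpow_mem (mem_zpowers w1) _) h5
    have h7 : w1 ∈ zpowers (w1 ^ (i * (3 * j - i) - j * j)) := by rw [h6]; exact mem_zpowers w1
    exact (zpowers_le.2 hu4) h7
  have hw2 : w2 ∈ U := by
    have h5 := (mem_normalizer_iff.1 hU _).1 hw1
    rw [c1] at h5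
    simpa using inv_mem h5
  apply le_antisymm hUW
  rw [← pair_sup h]
  exact sup_le (zpowers_le.2 hw1) (zpowers_le.2 hw2)

end H13.FF6
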