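import Mathlib.GroupTheory.Sylow
import Cfsg.Prelude.Def_PLocal
import Cfsg.Agent.Lib.H13.FF6

set_option autoImplicit false

/-!
Failure of factorization, part 7: two components are equal or commute.
-/

namespace H13.FF7

open Subgroup
open H13.Trans H13.FF3 H13.FF4 H13.FF5 H13.FF6
open scoped commutatorElement

universe u

variable {G : Type u} [Group G] {p : ℕ} {V A B H Q P : Subgroup G}

theorem core_le_normalizer (h : FF2.FF p V H Q) :
    Q ≤ normalizer ((⁅Q, A⁆ : Subgroup G) : Set G) := by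
  have _ := h.hQ
  exact normalizer_commutator_ge_left _ _

theorem plane_core (h : FF2.FF p V H Q) (hc : Comp p V Q A) :
    Q ≤ normalizer ((⁅V, comp Q A⁆ : Subgroup G) : Set G) := by
  rw [← hc.split.com]
  exact Norm.le_normalizer_commutator (h.hQH.trans h.hHV) (core_le_normalizer h)

theorem plane_le (h : FF2.FF p V H Q) (hA : A ≤ H) : ⁅V, comp Q A⁆ ≤ V := by
  apply Act.comm_le _ le_rfl
  refine sup_le ?_ (hA.trans h.hHV)
  rw [commutator_le]
  intro q hq a ha
  rw [commutatorElement_def]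
  have h1 := h.hQH.trans h.hHV
  have h2 := hA.trans h.hHV
  exact mul_mem (mul_mem (mul_mem (h1 hq) (h2 ha)) (inv_mem (h1 hq))) (inv_mem (h2 ha))

/-- Irreducibility of `[Q, A]` on the plane. -/
theorem irred [Finite G] [hp : Fact p.Prime] (h : FF2.FF p V H Q)
    (hAH : A ≤ H) (hA : TV p V A) (hc : Comp p V Q A) {U : Subgroup G} (hU : U ≤ ⁅V, comp Q A⁆)
    (hQU : ⁅Q, A⁆ ≤ normalizer (U : Set G)) (hne : U ≠ ⊥) : U = ⁅V, comp Q A⁆ := by
  obtain ⟨x, hx, hxA⟩ := exists_not_mem h hAH hA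
  have hp23 := prime_cases h hAH hA hx hxA
  obtain ⟨a, b, w1, w2, hza, hcl, hpr⟩ := hc.ex
  have haA : a ∈ A := by rw [← hza]; exact mem_zpowers a
  have hbE : b ∈ A ⊔ Q := by
    have h1 : b ∈ comp Q A := by rw [← hcl]; exact subset_closure (by simp)
    have h2 : comp Q A ≤ A ⊔ Q := sup_le ((comm_le_core h hAH).trans le_sup_right) le_sup_left
    exact h2 h1
  have hba : ⁅b, a⁆ ∈ ⁅Q, A⁆ := comm_mem_of_mem_sup h hAH (le_centralizer_self hA.cardA) hbE haA
  exact pair_irred hp23 hpr hU (hQU hba) hne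

/-- Other transvection groups normalize the plane. -/
theorem normalizes [Finite G] [hp : Fact p.Prime] (h : FF2.FF p V H Q)
    (hAH : A ≤ H) (hA : TV p V A) (hBH : B ≤ H) (hB : TV p V B) :
    B ≤ normalizer ((⁅V, comp Q A⁆ : Subgroup G) : Set G) := by
  have hc := comp_of h hAH hA
  have hVc := ElemAb.le_centralizer h.hV
  set W := ⁅V, comp Q A⁆ with hW
  have hWV : W ≤ V := plane_le h hAH
  have hQW : Q ≤ normalizer (W : Set G) := plane_core h hc
  intro b hb
  have hbV : b ∈ normalizer (V : Set G) := hB.nV hb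
  set W' := W.map (MulAut.conj b).toMonoidHom with hW'
  have hcard : Nat.card W' = Nat.card W := card_map_conj b W
  have hbQ : b ∈ normalizer (Q : Set G) := h.hHQ (hBH hb)
  have hQW' : Q ≤ normalizer (W' : Set G) := by
    intro q hq
    have key : ∀ q ∈ Q, ∀ w ∈ W', q * w * q⁻¹ ∈ W' := by
      rintro q hq _ ⟨w, hw, rfl⟩
      have hq' : b⁻¹ * q * b ∈ Q := (mem_normalizer_iff''.1 hbQ q).1 hq
      refine ⟨(b⁻¹ * q * b) * w * (b⁻¹ * q * b)⁻¹, Norm.conj_mem hQW hq' hw, ?_⟩
      change b * ((b⁻¹ * q * b) * w * (b⁻¹ * q * b)⁻¹) * b⁻¹ = q * (b * w * b⁻¹) * q⁻¹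
      group
    apply Norm.mem_normalizer_of (key q hq)
    intro w hw
    have := key q⁻¹ (inv_mem hq) w hw
    rwa [inv_inv] at this
  have hQU : ⁅Q, A⁆ ≤ normalizer ((W ⊓ W' : Subgroup G) : Set G) :=
    (comm_le_core h hAH).trans (Norm.le_normalizer_inf hQW hQW')
  by_cases hU : W ⊓ W' = ⊥
  · -- impossible
    exfalso
    have hinj : Function.Injective (fun w : W =>
        (⟨⁅(w : G), b⁆, commutator_mem_commutator (hWV w.2) hb⟩ : ↥⁅V, B⁆)) := by
      intro w v hwv
      have h1 : ⁅(w : G), b⁆ = ⁅(v : G), b⁆ := congrArg Subtype.val hwv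
      have h2 : ⁅(w : G) * (v : G)⁻¹, b⁆ = 1 := by
        rw [Act.comm_mul hVc hbV (hWV w.2) (inv_mem (hWV v.2)),
          Act.comm_inv hVc hbV (hWV v.2), h1, mul_inv_cancel]
      have h3 : (w : G) * (v : G)⁻¹ ∈ W ⊓ W' := by
        refine mem_inf.2 ⟨mul_mem w.2 (inv_mem v.2), ⟨(w : G) * (v : G)⁻¹,
          mul_mem w.2 (inv_mem v.2), ?_⟩⟩
        change b * ((w : G) * (v : G)⁻¹) * b⁻¹ = _
        rw [← commutatorElement_eq_one_iff_mul_comm.1 h2]
        group
      rw [hU, mem_bot, mul_inv_eq_one] at h3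
      exact Subtype.ext h3
    have h4 := Nat.card_le_card_of_injective _ hinj
    rw [hc.card, hB.card] at h4
    have := hp.out.one_lt
    nlinarith
  · have h1 := irred h hAH hA hc inf_le_left hQU hU
    have h2 : W ≤ W' := by rw [← inf_eq_left]; exact h1
    have h3 : W = W' := eq_of_le_of_card_ge h2 hcard.le
    apply Norm.mem_normalizer_of
    · intro w hw
      rw [h3]
      exact ⟨w, hw, rfl⟩
    · intro w hw
      rw [h3] at hw
      obtain ⟨v, hv, rfl⟩ := hw
      have : b⁻¹ * (MulAut.conj b).toMonoidHom v * b = v := by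
        change b⁻¹ * (b * v * b⁻¹) * b = v
        group
      rw [this]
      exact hv

/-- If the planes and the fixed points agree, the components agree. -/
theorem comp_le [Finite G] [hp : Fact p.Prime] (h : FF2.FF p V H Q)
    (hAH : A ≤ H) (hA : TV p V A) (hBH : B ≤ H) (hB : TV p V B)
    (hW : ⁅V, comp Q B⁆ = ⁅V, comp Q A⁆)
    (hC : V ⊓ centralizer ((comp Q B : Subgroup G) : Set G) =
      V ⊓ centralizer ((comp Q A : Subgroup G) : Set G)) : comp Q B ≤ comp Q A := by
  have hc := comp_of h hAH hA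
  obtain ⟨a, b, w1, w2, hza, hcl, hpr⟩ := hc.ex
  have key : ∀ g ∈ comp Q B, g ^ p = 1 → g ∈ comp Q A := by
    intro g hg hgp
    have hgN : g ∈ normalizer ((⁅V, comp Q A⁆ : Subgroup G) : Set G) := by
      rw [← hW]; exact normalizer_commutator_ge_right _ _ hg
    obtain ⟨e, he, heg⟩ := hpr.exists_mem hgN (by rw [hgp]; exact one_mem _)
    rw [hcl] at he
    have h1 : e⁻¹ * g ∈ H ⊓ centralizer (V : Set G) := by
      refine mem_inf.2 ⟨mul_mem (inv_mem (comp_le_H h hAH he)) (comp_le_H h hBH hg), ?_⟩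
      rw [← hc.split.sup, Norm.centralizer_sup]
      refine mem_inf.2 ⟨heg, ?_⟩
      have h2 : comp Q A ≤ centralizer
          ((V ⊓ centralizer ((comp Q A : Subgroup G) : Set G) : Subgroup G) : Set G) := by
        rw [le_centralizer_iff]; exact inf_le_right
      have h3 : comp Q B ≤ centralizer
          ((V ⊓ centralizer ((comp Q A : Subgroup G) : Set G) : Subgroup G) : Set G) := by
        rw [le_centralizer_iff, ← hC]; exact inf_le_right
      exact mul_mem (inv_mem (h2 he)) (h3 hg)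
    rw [h.hf, mem_bot, inv_mul_eq_one] at h1
    rw [← h1]
    exact he
  have hpB : ∀ a ∈ B, a ^ p = 1 := by
    intro a ha
    have h1 := pow_card_eq_one' (G := B) (x := ⟨a, ha⟩)
    rw [hB.cardA] at h1
    exact congrArg Subtype.val h1
  apply comp_le_of
  · rintro y hy _ ⟨g, hg, rfl⟩
    apply key
    · exact conj_le_comp hy ⟨g, hg, rfl⟩
    · rw [← map_pow, hpB g hg, map_one]
  · intro g hg
    exact key g (le_sup_right (a := ⁅Q, B⁆) hg) (hpB g hg)

/-- The dichotomy. -/
theorem dichotomy [Finite G] [hp : Fact p.Prime] (h : FF2.FF p V H Q)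
    (hAH : A ≤ H) (hA : TV p V A) (hBH : B ≤ H) (hB : TV p V B) :
    comp Q B = comp Q A ∨
      (comp Q B ≤ centralizer ((⁅V, comp Q A⁆ : Subgroup G) : Set G) ∧
        ⁅V, comp Q B⁆ ≤ centralizer ((comp Q A : Subgroup G) : Set G) ∧
        ⁅comp Q A, comp Q B⁆ = ⊥) := by
  have hcA := comp_of h hAH hA
  have hcB := comp_of h hBH hB
  have hVc := ElemAb.le_centralizer h.hV
  have hVp := ElemAb.isPGroup h.hV
  have hAV : comp Q A ≤ normalizer (V : Set G) := (comp_le_H h hAH).trans h.hHV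
  have hBV : comp Q B ≤ normalizer (V : Set G) := (comp_le_H h hBH).trans h.hHV
  have hWV : ⁅V, comp Q A⁆ ≤ V := plane_le h hAH
  have hWV' : ⁅V, comp Q B⁆ ≤ V := plane_le h hBH
  have hQW : Q ≤ normalizer ((⁅V, comp Q A⁆ : Subgroup G) : Set G) := plane_core h hcA
  have hQW' : Q ≤ normalizer ((⁅V, comp Q B⁆ : Subgroup G) : Set G) := plane_core h hcB
  have hBN := normalizes h hAH hA hBH hB
  have hRA := comm_le_core h hAH
  have hRB := comm_le_core h hBH
  by_cases hBW : B ≤ centralizer ((⁅V, comp Q A⁆ : Subgroup G) : Set G)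
  · right
    have hU : ⁅V, comp Q A⁆ ⊓ ⁅V, comp Q B⁆ = ⊥ := by
      by_contra hne
      have h1 := irred h hAH hA hcA inf_le_left (hRA.trans (Norm.le_normalizer_inf hQW hQW')) hne
      have h2 : ⁅V, comp Q A⁆ ≤ ⁅V, comp Q B⁆ := by rw [← inf_eq_left]; exact h1
      have h3 : ⁅V, comp Q A⁆ = ⁅V, comp Q B⁆ :=
        eq_of_le_of_card_ge h2 (by rw [hcA.card, hcB.card])
      rw [h3] at hBW
      have h4 : B ≤ comp Q B ⊓ centralizer ((⁅V, comp Q B⁆ : Subgroup G) : Set G) :=
        le_inf le_sup_right hBW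
      rw [hcB.faithful, le_bot_iff] at h4
      have h5 := hB.cardA
      rw [h4, card_bot] at h5
      exact hp.out.one_lt.ne h5
    have h1 : ⁅⁅V, comp Q A⁆, ⁅Q, B⁆⁆ = ⊥ := by
      rw [eq_bot_iff, ← hU]
      refine le_inf (le_normalizer_iff_commutator_le_left.1 (hRB.trans hQW)) ?_
      exact commutator_mono hWV le_sup_left
    have h2 : ⁅⁅V, comp Q B⁆, ⁅Q, A⁆⁆ = ⊥ := by
      rw [eq_bot_iff, ← hU]
      refine le_inf ?_ (le_normalizer_iff_commutator_le_left.1 (hRA.trans hQW'))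
      exact commutator_mono hWV' le_sup_left
    have h3 : comp Q B ≤ centralizer ((⁅V, comp Q A⁆ : Subgroup G) : Set G) := by
      refine sup_le ?_ hBW
      rw [le_centralizer_iff, ← commutator_eq_bot_iff_le_centralizer]
      exact h1
    have h4 : ⁅V, comp Q B⁆ ≤ centralizer ((comp Q A : Subgroup G) : Set G) := by
      have h5 : ⁅V, comp Q B⁆ ≤ V ⊓ centralizer ((⁅Q, A⁆ : Subgroup G) : Set G) :=
        le_inf hWV' (commutator_eq_bot_iff_le_centralizer.1 h2)
      rw [hcA.split.cen] at h5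
      exact h5.trans inf_le_right
    refine ⟨h3, h4, ?_⟩
    have h6 : ⁅⁅V, comp Q A⁆, comp Q B⁆ = ⊥ := by
      rw [commutator_comm, commutator_eq_bot_iff_le_centralizer]; exact h3
    have h7 : ⁅⁅V, comp Q B⁆, comp Q A⁆ = ⊥ := commutator_eq_bot_iff_le_centralizer.2 h4
    have h8 := FF1.three_sub h6 h7
    rw [eq_bot_iff, ← h.hf]
    refine le_inf ?_ (commutator_eq_bot_iff_le_centralizer.1 h8)
    exact (commutator_mono (comp_le_H h hAH) (comp_le_H h hBH)).trans
      (le_normalizer_iff_commutator_le_left.1 le_normalizer)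
  · left
    -- the planes agree
    have h1 : ⁅⁅V, comp Q A⁆, B⁆ = ⁅V, B⁆ := by
      apply eq_of_le_of_card_prime hB.card (commutator_mono hWV le_rfl)
      intro h2
      rw [commutator_comm, commutator_eq_bot_iff_le_centralizer] at h2
      exact hBW h2
    have h2 : ⁅V, B⁆ ≤ ⁅V, comp Q A⁆ := by
      rw [← h1]; exact le_normalizer_iff_commutator_le_left.1 hBN
    have h3 : ⁅V, comp Q B⁆ ≤ ⁅V, comp Q A⁆ := by
      have h4 : comp Q B ≤ Quad.actTriv V ⁅V, comp Q A⁆ := by
        apply comp_le_of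
        · rintro y hy
          have hyV : y ∈ normalizer (V : Set G) := h.hHV (h.hQH hy)
          have h5 : ⁅V, B.map (MulAut.conj y).toMonoidHom⁆ =
              (⁅V, B⁆).map (MulAut.conj y).toMonoidHom := by
            rw [map_conj_commutator, Norm.map_conj_le_of_mem_normalizer hyV]
          have h6 : (⁅V, B⁆).map (MulAut.conj y).toMonoidHom ≤ ⁅V, comp Q A⁆ := by
            rw [← Norm.map_conj_le_of_mem_normalizer (hQW hy)]
            exact map_mono h2
          apply Quad.le_actTriv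
          · exact map_conj_le_normalizer hyV hB.nV
          · exact map_conj_le_normalizer (hQW hy) hBN
          · rw [h5]; exact h6
        · exact Quad.le_actTriv hB.nV hBN h2
      exact (commutator_mono le_rfl h4).trans (Quad.commutator_actTriv_le _ _)
    have hWW : ⁅V, comp Q B⁆ = ⁅V, comp Q A⁆ :=
      eq_of_le_of_card_ge h3 (by rw [hcA.card, hcB.card])
    -- the fixed points agree
    have hR₂Q : ⁅Q, A⁆ ⊔ ⁅Q, B⁆ ≤ Q := sup_le hRA hRB
    have hR₂V : ⁅Q, A⁆ ⊔ ⁅Q, B⁆ ≤ normalizer (V : Set G) := hR₂Q.trans (h.hQH.trans h.hHV)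
    have hRAV := hRA.trans (h.hQH.trans h.hHV)
    have hRBV := hRB.trans (h.hQH.trans h.hHV)
    have e1 : ⁅V, ⁅Q, A⁆ ⊔ ⁅Q, B⁆⁆ = ⁅V, comp Q A⁆ := by
      rw [comm_sup hRAV hRBV, hcA.split.com, hcB.split.com, hWW, sup_idem]
    have c2 := Fix.card_mul_card hVc hVp (Coprime.coprime_of_le hR₂Q h.hQ) hR₂V
    have cA := Fix.card_mul_card hVc hVp (Coprime.coprime_of_le hRA h.hQ) hRAV
    have cB := Fix.card_mul_card hVc hVp (Coprime.coprime_of_le hRB h.hQ) hRBV
    rw [e1] at c2
    rw [hcA.split.com] at cA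
    rw [hcB.split.com, hWW] at cB
    have f1 : V ⊓ centralizer ((⁅Q, A⁆ ⊔ ⁅Q, B⁆ : Subgroup G) : Set G) =
        V ⊓ centralizer ((⁅Q, A⁆ : Subgroup G) : Set G) := by
      apply eq_of_le_of_card_ge
      · exact inf_le_inf_left _ (centralizer_le (SetLike.coe_subset_coe.2 le_sup_left))
      · rw [← c2] at cA
        exact (Nat.eq_of_mul_eq_mul_left Nat.card_pos cA).le
    have f2 : V ⊓ centralizer ((⁅Q, A⁆ ⊔ ⁅Q, B⁆ : Subgroup G) : Set G) =
        V ⊓ centralizer ((⁅Q, B⁆ : Subgroup G) : Set G) := by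
      apply eq_of_le_of_card_ge
      · exact inf_le_inf_left _ (centralizer_le (SetLike.coe_subset_coe.2 le_sup_right))
      · rw [← c2] at cB
        exact (Nat.eq_of_mul_eq_mul_left Nat.card_pos cB).le
    have hCC : V ⊓ centralizer ((comp Q B : Subgroup G) : Set G) =
        V ⊓ centralizer ((comp Q A : Subgroup G) : Set G) := by
      rw [← hcA.split.cen, ← hcB.split.cen, ← f1, ← f2]
    exact le_antisymm (comp_le h hAH hA hBH hB hWW hCC)
      (comp_le h hBH hB hAH hA hWW.symm hCC.symm)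

end H13.FF7
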