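import Mathlib.GroupTheory.Sylow
import Mathlib.Order.SupIndep
import Cfsg.Prelude.Def_PLocal
import Cfsg.Agent.Lib.H13.FF7

set_option autoImplicit false

/-!
Failure of factorization, part 8: best offenders are products of minimal ones; assembly.
-/

namespace H13.FF8

open Subgroup
open H13.Trans H13.FF3 H13.FF4 H13.FF5 H13.FF6 H13.FF7
open scoped commutatorElement

universe u

variable {G : Type u} [Group G] {p : ℕ} {V A B H Q P : Subgroup G}

/-- Splitting off a minimal best offender. -/
theorem split_off [Finite G] [hp : Fact p.Prime] (h : FF2.FF p V H Q)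
    (hBH : B ≤ H) (hB : Cfsg.IsBestOffenderOn p V B) (hAB : A ≤ B) (hA : FF2.IsMin p V A) :
    ∃ B₀ ≤ B, Cfsg.IsBestOffenderOn p V B₀ ∧ A ⊓ B₀ = ⊥ ∧ A ⊔ B₀ = B := by
  have hAH : A ≤ H := hAB.trans hBH
  have hAT := TV.of_min h hAH hA
  have hc := comp_of h hAH hAT
  have hVp := ElemAb.isPGroup h.hV
  have hVc := ElemAb.le_centralizer h.hV
  have hBe := FF2.bo_isElementaryAbelian h hBH hB
  have hBc := ElemAb.le_centralizer hBe
  have hBp := ElemAb.isPGroup hBe
  have hBV : B ≤ normalizer (V : Set G) := hBH.trans h.hHV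
  have hBA : B ≤ centralizer (A : Set G) := hBc.trans (centralizer_le (SetLike.coe_subset_coe.2 hAB))
  have hBNA : B ≤ normalizer (A : Set G) := hBA.trans (centralizer_le_normalizer _)
  have hWV : ⁅V, comp Q A⁆ ≤ V := plane_le h hAH
  set W := ⁅V, comp Q A⁆ with hW
  have hBW : B ≤ normalizer (W : Set G) := by
    rw [hW, ← hc.split.com]
    exact Norm.le_normalizer_commutator hBV
      (Norm.le_normalizer_commutator (hBH.trans h.hHQ) hBNA)
  have hBX : B ≤ normalizer ((⁅V, A⁆ : Subgroup G) : Set G) :=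
    Norm.le_normalizer_commutator hBV hBNA
  have hinf : A ⊓ (B ⊓ centralizer (W : Set G)) = ⊥ := by
    rw [eq_bot_iff, ← hc.faithful]
    exact le_inf (inf_le_left.trans le_sup_right) (inf_le_right.trans inf_le_right)
  -- `B` centralizes `X = [V, A]`
  have hXB : ⁅⁅V, A⁆, B⁆ = ⊥ := by
    by_contra hne
    have h1 : ⁅⁅V, A⁆, B⁆ = ⁅V, A⁆ := eq_of_le_of_card_prime hAT.card
      (le_normalizer_iff_commutator_le_left.1 hBX) hne
    have h2 := Nil.eq_bot_of_le_commutator_of_isPGroup (hVp.to_le hAT.comm_le) hBX hBp h1.ge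
    exact hA.ne h2
  have hXBc : ⁅V, A⁆ ≤ centralizer (B : Set G) := commutator_eq_bot_iff_le_centralizer.1 hXB
  obtain ⟨a, b, w1, w2, hza, hcl, hpr⟩ := hc.ex
  have haA : a ∈ A := by rw [← hza]; exact mem_zpowers a
  have hw1eq : w1 = ⁅a, w2⁆ := by
    rw [commutatorElement_def, hpr.a2]; group
  have hw1X : w1 ∈ ⁅V, A⁆ := by
    rw [hw1eq, commutator_comm]
    exact commutator_mem_commutator haA (hWV hpr.m2)
  have hX : zpowers w1 = ⁅V, A⁆ := zpowers_eq_of_mem hAT.card hw1X hpr.ne
  have hWBX : ⁅W, B⁆ = ⁅V, A⁆ := by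
    have h1 : ⁅V, A⁆ ≤ ⁅W, B⁆ := by
      rw [← hX, zpowers_le, hw1eq, commutator_comm]
      exact commutator_mem_commutator (hAB haA) hpr.m2
    symm
    apply eq_of_le_of_card_ge h1
    have h2 : ⁅W, B⁆ < W := by
      refine lt_of_le_of_ne (le_normalizer_iff_commutator_le_left.1 hBW) ?_
      intro h3
      have h4 := Nil.eq_bot_of_le_commutator_of_isPGroup (hVp.to_le hWV) hBW hBp h3.ge
      have h5 := hc.card
      rw [← hW, h4, card_bot] at h5
      have := hp.out.one_lt
      nlinarith
    have h3 := FF1.card_ge_of_lt (hVp.to_le hWV) h2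
    rw [hc.card, sq] at h3
    rw [hAT.card]
    exact Nat.le_of_mul_le_mul_left h3 hp.out.pos
  have hsup : A ⊔ (B ⊓ centralizer (W : Set G)) = B := by
    apply le_antisymm (sup_le hAB inf_le_left)
    intro g hg
    have h1 : ⁅g, w2⁆ ∈ zpowers w1 := by
      rw [hX, ← hWBX, commutator_comm]
      exact commutator_mem_commutator hg hpr.m2
    obtain ⟨k, hk⟩ := mem_zpowers_iff.1 h1
    have hak : a ^ k * w2 * (a ^ k)⁻¹ = w1 ^ k * w2 := by
      have hcomm : Commute a ⁅w2, a⁆ := by
        have h3 : ⁅w2, a⁆ ∈ centralizer (A : Set G) :=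
          hAT.le_centralizer (commutator_mem_commutator (hWV hpr.m2) haA)
        exact mem_centralizer_iff.1 h3 _ haA
      have h2 : ⁅a ^ k, w2⁆ = w1 ^ k := by
        rw [← commutatorElement_inv w2 (a ^ k), Quad2.comm_zpow_eq hcomm, ← inv_zpow,
          commutatorElement_inv, ← hw1eq]
      rw [← h2, commutatorElement_def]; group
    have hw1g : g * w1 * g⁻¹ = w1 := by
      rw [mem_centralizer_iff.1 (hXBc hw1X) g hg, mul_inv_cancel_right]
    have hgw2 : g * w2 * g⁻¹ = w1 ^ k * w2 := by
      rw [hk, commutatorElement_def]; group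
    set g' := (a ^ k)⁻¹ * g with hg'
    have haB : a ∈ B := hAB haA
    have hg'B : g' ∈ B := mul_mem (inv_mem (zpow_mem haB k)) hg
    have hg'w2 : g' * w2 * g'⁻¹ = w2 := by
      calc g' * w2 * g'⁻¹ = (a ^ k)⁻¹ * (g * w2 * g⁻¹) * a ^ k := by rw [hg']; group
        _ = (a ^ k)⁻¹ * (a ^ k * w2 * (a ^ k)⁻¹) * a ^ k := by rw [hgw2, ← hak]
        _ = w2 := by group
    have hg'W : g' ∈ centralizer (W : Set G) := by
      have h3 : W ≤ centralizer {g'} := by
        rw [hW, ← pair_sup hpr]
        refine sup_le (zpowers_le.2 ?_) (zpowers_le.2 ?_)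
        · rw [mem_centralizer_iff]
          intro y hy
          rw [Set.mem_singleton_iff.1 hy]
          exact mem_centralizer_iff.1 (hXBc hw1X) g' hg'B
        · rw [mem_centralizer_iff]
          intro y hy
          rw [Set.mem_singleton_iff.1 hy]
          calc g' * w2 = (g' * w2 * g'⁻¹) * g' := by group
            _ = w2 * g' := by rw [hg'w2]
      rw [mem_centralizer_iff]
      intro w hw
      exact (mem_centralizer_iff.1 (h3 hw) g' rfl).symm
    have : g = a ^ k * g' := by rw [hg']; group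
    rw [this]
    exact mul_mem (le_sup_left (a := A) (zpow_mem haA k))
      (le_sup_right (b := B ⊓ centralizer (W : Set G)) (mem_inf.2 ⟨hg'B, hg'W⟩))
  refine ⟨B ⊓ centralizer (W : Set G), inf_le_left, ?_, hinf, hsup⟩
  -- the value
  apply FF2.bo_of_val h (inf_le_left.trans hBH) (ElemAb.of_le hBe inf_le_left)
  set B₀ := B ⊓ centralizer (W : Set G) with hB₀
  have hcardB : Nat.card B = p * Nat.card B₀ := by
    have h1 := Thompson.card_sup_mul_card_inf (A := A) (B := B₀)
      ((hAB.trans (hBc.trans (centralizer_le (SetLike.coe_subset_coe.2 inf_le_left)))).trans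
        (centralizer_le_normalizer _))
    rw [hinf, hsup, card_bot, mul_one, hAT.cardA] at h1
    exact h1
  have hCW : V ⊓ centralizer (B : Set G) ⊔ W ≤ V ⊓ centralizer (B₀ : Set G) := by
    refine sup_le (inf_le_inf_left _ (centralizer_le (SetLike.coe_subset_coe.2 inf_le_left))) ?_
    refine le_inf hWV ?_
    rw [le_centralizer_iff]
    exact inf_le_right
  have hlt : (V ⊓ centralizer (B : Set G)) ⊓ W < W := by
    refine lt_of_le_of_ne inf_le_right ?_
    intro h1
    have h2 : W ≤ centralizer (B : Set G) := (inf_eq_right.1 h1).trans inf_le_right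
    have h3 := commutator_eq_bot_iff_le_centralizer.2 h2
    rw [hWBX] at h3
    exact hA.ne h3
  have h3 := FF1.card_ge_of_lt (hVp.to_le hWV) hlt
  have h4 := Thompson.card_sup_mul_card_inf (A := V ⊓ centralizer (B : Set G)) (B := W)
    (((inf_le_left : V ⊓ centralizer (B : Set G) ≤ V).trans
      (hVc.trans (centralizer_le (SetLike.coe_subset_coe.2 hWV)))).trans
        (centralizer_le_normalizer _))
  have h5 := card_le_of_le hCW
  have h6 := FF2.bo_val_eq h hBH hB
  unfold Replace.val at h6 ⊢
  rw [← h6, hcardB]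
  have h7 : p * Nat.card ↥(V ⊓ centralizer (B : Set G)) ≤
      Nat.card ↥(V ⊓ centralizer (B₀ : Set G)) := by
    have hpos : 0 < Nat.card W := Nat.card_pos
    have h8 : (p * Nat.card ↥(V ⊓ centralizer (B : Set G))) * Nat.card W ≤
        Nat.card ↥(V ⊓ centralizer (B₀ : Set G)) * Nat.card W := by
      calc (p * Nat.card ↥(V ⊓ centralizer (B : Set G))) * Nat.card W
          = p * (Nat.card ↥(V ⊓ centralizer (B : Set G) ⊔ W) *
              Nat.card ↥((V ⊓ centralizer (B : Set G)) ⊓ W)) := by rw [h4]; ring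
        _ = Nat.card ↥(V ⊓ centralizer (B : Set G) ⊔ W) *
              (p * Nat.card ↥((V ⊓ centralizer (B : Set G)) ⊓ W)) := by ring
        _ ≤ Nat.card ↥(V ⊓ centralizer (B₀ : Set G)) * Nat.card W := Nat.mul_le_mul h5 h3
    exact Nat.le_of_mul_le_mul_right h8 hpos
  calc p * Nat.card B₀ * Nat.card ↥(V ⊓ centralizer (B : Set G))
      = Nat.card B₀ * (p * Nat.card ↥(V ⊓ centralizer (B : Set G))) := by ring
    _ ≤ _ := Nat.mul_le_mul_left _ h7

/-- Existence of minimal best offenders. -/
theorem exists_min [Finite G] (h : FF2.FF p V H Q) (hBH : B ≤ H)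
    (hB : Cfsg.IsBestOffenderOn p V B) (hne : B ≠ ⊥) : ∃ A ≤ B, FF2.IsMin p V A := by
  have hBV : ⁅V, B⁆ ≠ ⊥ := fun h1 => hne (FF2.eq_bot_of_trivial h hBH h1)
  have hfin : {A : Subgroup G | A ≤ B ∧ Cfsg.IsBestOffenderOn p V A ∧ ⁅V, A⁆ ≠ ⊥}.Finite :=
    Set.toFinite _
  obtain ⟨A, hA⟩ := hfin.exists_minimal ⟨B, le_rfl, hB, hBV⟩
  refine ⟨A, hA.1.1, hA.1.2.1, hA.1.2.2, ?_⟩
  intro C hC hCbo hCV
  exact le_antisymm hC (hA.2 ⟨hC.trans hA.1.1, hCbo, hCV⟩ hC)

/-- Every best offender is the direct product of minimal ones. -/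
theorem exists_decomp [Finite G] [hp : Fact p.Prime] (h : FF2.FF p V H Q) (n : ℕ) :
    ∀ B : Subgroup G, Nat.card B ≤ n → B ≤ H → Cfsg.IsBestOffenderOn p V B →
      ∃ (k : ℕ) (A : Fin k → Subgroup G), (∀ i, A i ≤ B ∧ FF2.IsMin p V (A i)) ∧
        iSupIndep A ∧ ⨆ i, A i = B := by
  induction n with
  | zero =>
    intro B hB
    have : 0 < Nat.card B := Nat.card_pos
    omega
  | succ n ih =>
    intro B hBn hBH hB
    by_cases hne : B = ⊥
    · subst hne
      refine ⟨0, Fin.elim0, fun i => i.elim0, fun i => i.elim0, ?_⟩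
      simp
    · obtain ⟨A, hAB, hA⟩ := exists_min h hBH hB hne
      obtain ⟨B₀, hB₀, hB₀bo, hinf, hsup⟩ := split_off h hBH hB hAB hA
      have hAT := TV.of_min h (hAB.trans hBH) hA
      have hBc := ElemAb.le_centralizer (FF2.bo_isElementaryAbelian h hBH hB)
      have hlt : Nat.card B₀ ≤ n := by
        have h1 : B₀ < B := by
          refine lt_of_le_of_ne hB₀ ?_
          rintro rfl
          rw [inf_eq_left.2 hAB] at hinf
          have h2 := hAT.cardA
          rw [hinf, card_bot] at h2
          exact hp.out.one_lt.ne h2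
        have h2 : Nat.card B₀ < Nat.card B := by
          refine lt_of_le_of_ne (card_le_of_le hB₀) ?_
          intro h2
          exact h1.ne (eq_of_le_of_card_ge hB₀ h2.ge)
        omega
      obtain ⟨k, C, hC, hCi, hCs⟩ := ih B₀ hlt (hB₀.trans hBH) hB₀bo
      refine ⟨k + 1, Fin.cons A C, ?_, ?_, ?_⟩
      · intro i
        refine Fin.cases ?_ (fun j => ?_) i
        · exact ⟨hAB, hA⟩
        · exact ⟨(hC j).1.trans hB₀, (hC j).2⟩
      · -- independence
        intro i
        refine Fin.cases ?_ (fun j => ?_) i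
        · rw [Fin.cons_zero, disjoint_iff, eq_bot_iff, ← hinf]
          refine inf_le_inf_left _ ?_
          refine iSup_le fun j => iSup_le fun hj => ?_
          obtain ⟨l, rfl⟩ := Fin.exists_succ_eq.2 hj
          rw [Fin.cons_succ]
          exact (hC l).1
        · rw [Fin.cons_succ, disjoint_iff, eq_bot_iff, ← (disjoint_iff.1 (hCi j))]
          have h1 : (⨆ (l : Fin (k + 1)) (_ : l ≠ j.succ), (Fin.cons A C : Fin (k+1) → _) l) ≤
              (⨆ (l : Fin k) (_ : l ≠ j), C l) ⊔ A := by
            refine iSup_le fun l => iSup_le fun hl => ?_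
            revert hl
            refine Fin.cases ?_ (fun m => ?_) l
            · intro _
              exact le_sup_right
            · intro hl
              rw [Fin.cons_succ]
              have hm : m ≠ j := fun h => hl (by rw [h])
              exact (le_iSup₂_of_le (f := fun (l : Fin k) (_ : l ≠ j) => C l) m hm le_rfl).trans
                le_sup_left
          have hD : (⨆ (l : Fin k) (_ : l ≠ j), C l) ≤ B₀ :=
            iSup_le fun l => iSup_le fun _ => (hC l).1
          have h2 : ((⨆ (l : Fin k) (_ : l ≠ j), C l) ⊔ A) ⊓ B₀ =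
              (⨆ (l : Fin k) (_ : l ≠ j), C l) ⊔ (A ⊓ B₀) := by
            apply Norm.modular hD
            exact ((hD.trans hB₀).trans (hBc.trans
              (centralizer_le (SetLike.coe_subset_coe.2 hAB)))).trans (centralizer_le_normalizer _)
          rw [hinf, sup_bot_eq] at h2
          refine le_inf inf_le_left ?_
          calc C j ⊓ _ ≤ ((⨆ (l : Fin k) (_ : l ≠ j), C l) ⊔ A) ⊓ B₀ :=
                le_inf (inf_le_right.trans h1) (inf_le_left.trans (hC j).1)
            _ = _ := h2
      · rw [← hsup]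
        apply le_antisymm
        · refine iSup_le fun i => ?_
          refine Fin.cases ?_ (fun j => ?_) i
          · exact le_sup_left
          · rw [Fin.cons_succ]
            exact (hC j).1.trans le_sup_right
        · refine sup_le ?_ ?_
          · exact le_iSup (Fin.cons A C : Fin (k+1) → Subgroup G) 0
          · rw [← hCs]
            refine iSup_le fun j => ?_
            have := le_iSup (Fin.cons A C : Fin (k+1) → Subgroup G) j.succ
            rwa [Fin.cons_succ] at this

end H13.FF8
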