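import Mathlib.GroupTheory.Sylow
import Mathlib.Order.SupIndep
import Cfsg.Prelude.Def_PLocal
import Cfsg.Agent.Lib.H13.FF8

set_option autoImplicit false

/-!
Failure of factorization, part 9: assembly.
-/

namespace H13.FF9

open Subgroup
open H13.Trans H13.FF3 H13.FF4 H13.FF5 H13.FF6 H13.FF7 H13.FF8
open scoped commutatorElement

universe u

variable {G : Type u} [Group G] {p : ℕ} {V A B H Q P : Subgroup G}

/-- `H` is generated by minimal best offenders. -/
theorem le_of_min [Finite G] [hp : Fact p.Prime] (h : FF2.FF p V H Q)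
    (hS3 : H = ⨆ A : {A : Subgroup G // A ≤ H ∧ Cfsg.IsBestOffenderOn p V A}, (A : Subgroup G))
    (hP : ∀ A ≤ H, FF2.IsMin p V A → A ≤ P) : H ≤ P := by
  rw [hS3]
  refine iSup_le fun B => ?_
  obtain ⟨k, A, hA, -, hs⟩ := exists_decomp h _ (B : Subgroup G) le_rfl B.2.1 B.2.2
  rw [← hs]
  exact iSup_le fun i => hP _ ((hA i).1.trans B.2.1) (hA i).2

/-- The direct factor statement. -/
structure Factor (p : ℕ) (V H E : Subgroup G) : Prop where
  norm : H ≤ normalizer (E : Set G)
  normW : H ≤ normalizer ((⁅V, E⁆ : Subgroup G) : Set G)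
  sup : E ⊔ (H ⊓ centralizer ((⁅V, E⁆ : Subgroup G) : Set G)) = H
  inf : E ⊓ (H ⊓ centralizer ((⁅V, E⁆ : Subgroup G) : Set G)) = ⊥
  comm : ⁅E, H ⊓ centralizer ((⁅V, E⁆ : Subgroup G) : Set G)⁆ = ⊥

theorem factor_of [Finite G] [hp : Fact p.Prime] (h : FF2.FF p V H Q)
    (hS3 : H = ⨆ A : {A : Subgroup G // A ≤ H ∧ Cfsg.IsBestOffenderOn p V A}, (A : Subgroup G))
    (hAH : A ≤ H) (hA : TV p V A) : Factor p V H (comp Q A) := by
  have hc := comp_of h hAH hA
  have hEH := comp_le_H h hAH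
  have hN : H ≤ normalizer ((comp Q A : Subgroup G) : Set G) := by
    apply le_of_min h hS3
    intro B hBH hB
    rcases dichotomy h hAH hA hBH (TV.of_min h hBH hB) with h1 | ⟨-, -, h1⟩
    · rw [← h1]
      exact (le_sup_right : B ≤ comp Q B).trans le_normalizer
    · rw [commutator_comm, commutator_eq_bot_iff_le_centralizer] at h1
      exact ((le_sup_right : B ≤ comp Q B).trans h1).trans (centralizer_le_normalizer _)
  have hW : H ≤ normalizer ((⁅V, comp Q A⁆ : Subgroup G) : Set G) :=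
    Norm.le_normalizer_commutator h.hHV hN
  have hinf : comp Q A ⊓ (H ⊓ centralizer ((⁅V, comp Q A⁆ : Subgroup G) : Set G)) = ⊥ := by
    rw [eq_bot_iff, ← hc.faithful]
    exact inf_le_inf_left _ inf_le_right
  refine ⟨hN, hW, ?_, hinf, ?_⟩
  · apply le_antisymm (sup_le hEH inf_le_left)
    apply le_of_min h hS3
    intro B hBH hB
    rcases dichotomy h hAH hA hBH (TV.of_min h hBH hB) with h1 | ⟨h1, -, -⟩
    · rw [← h1]
      exact (le_sup_right : B ≤ comp Q B).trans le_sup_left
    · exact (le_inf hBH ((le_sup_right : B ≤ comp Q B).trans h1)).trans le_sup_right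
  · rw [eq_bot_iff, ← hinf]
    refine le_inf ?_ ?_
    · exact le_normalizer_iff_commutator_le_left.1 ((inf_le_left).trans hN)
    · rw [commutator_comm]
      apply le_normalizer_iff_commutator_le_left.1
      exact hEH.trans (Norm.le_normalizer_inf le_normalizer (Norm.le_normalizer_centralizer hW))

theorem comm_le_centralizer (h : FF2.FF p V H Q)
    (hAH : A ≤ H) (hc : Comp p V Q A) (hf : Factor p V H (comp Q A)) :
    ⁅V, H ⊓ centralizer ((⁅V, comp Q A⁆ : Subgroup G) : Set G)⁆ ≤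
      V ⊓ centralizer ((comp Q A : Subgroup G) : Set G) := by
  have hVc := ElemAb.le_centralizer h.hV
  set D := H ⊓ centralizer ((⁅V, comp Q A⁆ : Subgroup G) : Set G) with hD
  have hDV : D ≤ normalizer (V : Set G) := inf_le_left.trans h.hHV
  have hDE : D ≤ centralizer ((comp Q A : Subgroup G) : Set G) := by
    rw [← commutator_eq_bot_iff_le_centralizer, commutator_comm]; exact hf.comm
  have h1 : D ≤ normalizer ((V ⊓ centralizer ((comp Q A : Subgroup G) : Set G) : Subgroup G) :
      Set G) :=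
    Norm.le_normalizer_inf hDV
      (Norm.le_normalizer_centralizer (hDE.trans (centralizer_le_normalizer _)))
  have h2 : ⁅⁅V, comp Q A⁆, D⁆ = ⊥ := by
    rw [commutator_comm, commutator_eq_bot_iff_le_centralizer]; exact inf_le_right
  conv_lhs => rw [← hc.split.sup]
  rw [Act.sup_comm hVc hDV (plane_le h hAH) inf_le_left, h2, bot_sup_eq]
  exact le_normalizer_iff_commutator_le_left.1 h1

/-- Complete family of components. -/
structure Family (p : ℕ) (V H Q : Subgroup G) {ι : Type*} (E : ι → Subgroup G) : Prop where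
  inj : Function.Injective E
  ex : ∀ i, ∃ A ≤ H, FF2.IsMin p V A ∧ E i = comp Q A
  all : ∀ A ≤ H, FF2.IsMin p V A → ∃ i, E i = comp Q A

variable {ι : Type*} {E : ι → Subgroup G}

theorem Family.iSup_eq [Finite G] [hp : Fact p.Prime] (h : FF2.FF p V H Q)
    (hS3 : H = ⨆ A : {A : Subgroup G // A ≤ H ∧ Cfsg.IsBestOffenderOn p V A}, (A : Subgroup G))
    (hF : Family p V H Q E) : ⨆ i, E i = H := by
  apply le_antisymm
  · refine iSup_le fun i => ?_
    obtain ⟨A, hAH, -, hi⟩ := hF.ex i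
    rw [hi]
    exact comp_le_H h hAH
  · apply le_of_min h hS3
    intro A hAH hA
    obtain ⟨i, hi⟩ := hF.all A hAH hA
    exact (le_sup_right : A ≤ comp Q A).trans (hi.ge.trans (le_iSup E i))

theorem Family.ne_rel [Finite G] [hp : Fact p.Prime] (h : FF2.FF p V H Q)
    (hF : Family p V H Q E) {i j : ι} (hij : i ≠ j) :
    E j ≤ centralizer ((⁅V, E i⁆ : Subgroup G) : Set G) ∧
      ⁅V, E j⁆ ≤ centralizer (E i : Set G) := by
  obtain ⟨A, hAH, hA, hi⟩ := hF.ex i
  obtain ⟨B, hBH, hB, hj⟩ := hF.ex j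
  rcases dichotomy h hAH (TV.of_min h hAH hA) hBH (TV.of_min h hBH hB) with h1 | ⟨h1, h2, -⟩
  · exfalso
    apply hij
    apply hF.inj
    rw [hi, hj, h1]
  · rw [hi, hj]
    exact ⟨h1, h2⟩

theorem Family.indep [Finite G] [hp : Fact p.Prime] (h : FF2.FF p V H Q)
    (hF : Family p V H Q E) : iSupIndep E := by
  intro i
  obtain ⟨A, hAH, hA, hi⟩ := hF.ex i
  have hc := comp_of h hAH (TV.of_min h hAH hA)
  rw [disjoint_iff, eq_bot_iff, ← hc.faithful, ← hi]
  refine inf_le_inf_left _ ?_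
  exact iSup_le fun j => iSup_le fun hj => (hF.ne_rel h hj.symm).1

/-- The subgroup `⨆ [Q, A]`. -/
theorem Family.exists_core [Finite G] [hp : Fact p.Prime] (h : FF2.FF p V H Q)
    (hS3 : H = ⨆ A : {A : Subgroup G // A ≤ H ∧ Cfsg.IsBestOffenderOn p V A}, (A : Subgroup G))
    (hF : Family p V H Q E) :
    (⨆ i, ⁅V, E i⁆) ⊔ (V ⊓ centralizer (H : Set G)) = V ∧
      (⨆ i, ⁅V, E i⁆) ⊓ (V ⊓ centralizer (H : Set G)) = ⊥ := by
  have hVc := ElemAb.le_centralizer h.hV
  have hVp := ElemAb.isPGroup h.hV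
  choose A hAH hA hi using hF.ex
  have hc : ∀ i, Comp p V Q (A i) := fun i => comp_of h (hAH i) (TV.of_min h (hAH i) (hA i))
  have hRi : ∀ i, ⁅Q, A i⁆ ≤ Q := fun i => comm_le_core h (hAH i)
  have hRQ : (⨆ i, ⁅Q, A i⁆) ≤ Q := iSup_le hRi
  have hQV : Q ≤ normalizer (V : Set G) := h.hQH.trans h.hHV
  have e1 : ⁅V, ⨆ i, ⁅Q, A i⁆⁆ = ⨆ i, ⁅V, E i⁆ := by
    rw [comm_iSup (fun i => (hRi i).trans hQV)]
    exact iSup_congr (fun i => by rw [hi i, (hc i).split.com])
  have e2 : V ⊓ centralizer ((⨆ i, ⁅Q, A i⁆ : Subgroup G) : Set G) =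
      V ⊓ centralizer (H : Set G) := by
    apply le_antisymm
    · refine le_inf inf_le_left ?_
      rw [← hF.iSup_eq h hS3, Norm.centralizer_iSup E]
      apply le_iInf
      intro i
      have h1 : V ⊓ centralizer ((⨆ i, ⁅Q, A i⁆ : Subgroup G) : Set G) ≤
          V ⊓ centralizer ((⁅Q, A i⁆ : Subgroup G) : Set G) :=
        inf_le_inf_left _ (centralizer_le (SetLike.coe_subset_coe.2
          (le_iSup (fun i => ⁅Q, A i⁆) i)))
      rw [(hc i).split.cen, ← hi i] at h1
      exact h1.trans inf_le_right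
    · exact inf_le_inf_left _ (centralizer_le (SetLike.coe_subset_coe.2 (hRQ.trans h.hQH)))
  have h1 := Fix.main hVc hVp (Coprime.coprime_of_le hRQ h.hQ) (hRQ.trans hQV)
  rw [e1, e2] at h1
  refine ⟨h1.1, ?_⟩
  rw [eq_bot_iff, ← h1.2]
  refine inf_le_inf_left _ ?_
  rw [← e2]
  exact inf_le_right

theorem Family.indep_planes [Finite G] [hp : Fact p.Prime] (h : FF2.FF p V H Q)
    (hS3 : H = ⨆ A : {A : Subgroup G // A ≤ H ∧ Cfsg.IsBestOffenderOn p V A}, (A : Subgroup G))
    (hF : Family p V H Q E) :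
    iSupIndep (fun o : Option ι => o.elim (V ⊓ centralizer (H : Set G)) (fun i => ⁅V, E i⁆)) := by
  intro o
  cases o with
  | none =>
    simp only [Option.elim_none]
    rw [disjoint_iff, eq_bot_iff, ← (hF.exists_core h hS3).2, inf_comm]
    refine inf_le_inf_right _ ?_
    refine iSup_le fun o => iSup_le fun ho => ?_
    cases o with
    | none => exact absurd rfl ho
    | some i => exact le_iSup (fun i => ⁅V, E i⁆) i
  | some i =>
    simp only [Option.elim_some]
    obtain ⟨A, hAH, hA, hi⟩ := hF.ex i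
    have hc := comp_of h hAH (TV.of_min h hAH hA)
    rw [disjoint_iff, eq_bot_iff, ← hc.split.inf, ← hi]
    refine inf_le_inf_left _ ?_
    refine iSup_le fun o => iSup_le fun ho => ?_
    cases o with
    | none =>
      simp only [Option.elim_none]
      refine inf_le_right.trans (centralizer_le (SetLike.coe_subset_coe.2 ?_))
      rw [hi]
      exact comp_le_H h hAH
    | some j =>
      simp only [Option.elim_some]
      exact (hF.ne_rel h (fun hij => ho (by rw [hij]))).2

end H13.FF9
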