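import Mathlib
import Cfsg.Prelude.Def_PLocal
import Cfsg.Agent.Lib.H13.FF9
import Cfsg.Agent.Lib.H25.SL2Card
import Cfsg.Agent.Lib.H11.SubnormalMore

set_option autoImplicit false

/-!
Coprime operators on the components of an FF-group.
-/

namespace H13.FFX

open Subgroup H13.FF6 H13.FF7 H13.Trans
open scoped commutatorElement

universe u

variable {G : Type u} [Group G] {p q : ℕ} {V A B H Q P X R : Subgroup G}

/-- a coprime operator group -/
structure Data (p q : ℕ) (V H Q X : Subgroup G) : Prop where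
  ff : FF2.FF p V H Q
  hX : IsPGroup q X
  hq : (Nat.card H).Coprime q
  nV : X ≤ normalizer (V : Set G)
  nH : X ≤ normalizer (H : Set G)
  nQ : X ≤ normalizer (Q : Set G)

theorem map_conj_comp (g : G) (Q A : Subgroup G) :
    (comp Q A).map (MulAut.conj g).toMonoidHom =
      comp (Q.map (MulAut.conj g).toMonoidHom) (A.map (MulAut.conj g).toMonoidHom) := by
  unfold comp
  rw [Subgroup.map_sup, map_conj_commutator]

theorem Data.map_comp (h : Data p q V H Q X) {x : G} (hx : x ∈ X) :
    (comp Q A).map (MulAut.conj x).toMonoidHom = comp Q (A.map (MulAut.conj x).toMonoidHom) := by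
  rw [map_conj_comp, Norm.map_conj_le_of_mem_normalizer (h.nQ hx)]

theorem Data.conj_le (h : Data p q V H Q X) (hAH : A ≤ H) {x : G} (hx : x ∈ X) :
    A.map (MulAut.conj x).toMonoidHom ≤ H := by
  rw [← Norm.map_conj_le_of_mem_normalizer (h.nH hx)]
  exact map_mono hAH

theorem Data.tv_conj (h : Data p q V H Q X) (hA : TV p V A) {x : G} (hx : x ∈ X) :
    TV p V (A.map (MulAut.conj x).toMonoidHom) := hA.conj (h.nV hx)

theorem coprime_six {p q : ℕ} (hq : (p * (p ^ 2 - 1)).Coprime q) :
    q.Coprime p ∧ (p ^ 2 - 1).Coprime q ∧ (p ^ 2 - p).Coprime q := by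
  have h1 : p.Coprime q := Nat.Coprime.coprime_dvd_left (dvd_mul_right _ _) hq
  have h2 : (p ^ 2 - 1).Coprime q := Nat.Coprime.coprime_dvd_left (dvd_mul_left _ _) hq
  refine ⟨h1.symm, h2, ?_⟩
  have h3 : p ^ 2 - p = p * (p - 1) := by rw [Nat.mul_sub, pow_two, mul_one]
  rw [h3]
  have h4 : p - 1 ∣ p ^ 2 - 1 := by
    have := Nat.sub_dvd_pow_sub_pow p 1 2
    simpa using this
  exact Nat.Coprime.mul_left h1 (Nat.Coprime.coprime_dvd_left h4 h2)

/-- A `q`-element acting on a plane, with `q` prime to `|SL(2,p)|`, acts trivially. -/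
theorem trivial_on_plane [Finite G] [hp : Fact p.Prime] [hqf : Fact q.Prime] {W X₀ : Subgroup G}
    (hW : Nat.card W = p ^ 2) (hX : IsPGroup q X₀) (hn : X₀ ≤ normalizer (W : Set G))
    (hq : (p * (p ^ 2 - 1)).Coprime q) : X₀ ≤ centralizer (W : Set G) := by
  obtain ⟨c1, c2, c3⟩ := coprime_six hq
  let act : MulAction X₀ W :=
    MulAction.compHom W ((W.normalizerMonoidHom).comp (inclusion hn))
  have hact : ∀ (x : X₀) (w : W), ((x • w : W) : G) = x * w * (x : G)⁻¹ := fun x w => rfl
  have hfix : Nat.card (MulAction.fixedPoints X₀ W) = Nat.card ↥(W ⊓ centralizer (X₀ : Set G)) := by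
    refine Nat.card_congr ⟨fun w => ⟨w.1, mem_inf.2 ⟨w.1.2, ?_⟩⟩, fun w => ⟨⟨w, w.2.1⟩, ?_⟩, ?_, ?_⟩
    · rw [mem_centralizer_iff]
      intro x hx
      have h1 := congrArg Subtype.val (w.2 ⟨x, hx⟩)
      rw [hact] at h1
      have h2 : x * (w.1 : G) * x⁻¹ = w.1 := h1
      calc x * (w.1 : G) = x * (w.1 : G) * x⁻¹ * x := by group
        _ = _ := by rw [h2]
    · intro x
      apply Subtype.ext
      rw [hact]
      have h1 := mem_centralizer_iff.1 w.2.2 x x.2
      change (x : G) * w * (x : G)⁻¹ = w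
      rw [h1]
      group
    · intro w
      rfl
    · intro w
      rfl
  have hmod := hX.card_modEq_card_fixedPoints W
  rw [hfix, hW] at hmod
  have hdvd : Nat.card ↥(W ⊓ centralizer (X₀ : Set G)) ∣ p ^ 2 := by
    rw [← hW]
    exact card_dvd_of_le inf_le_left
  obtain ⟨k, hk, hk2⟩ := (Nat.dvd_prime_pow hp.out).1 hdvd
  have hqp : q.Prime := hqf.out
  have hk2' : k = 2 := by
    rw [hk2] at hmod
    have h1 : q ∣ p ^ 2 - p ^ k := by
      exact (Nat.modEq_iff_dvd' (Nat.pow_le_pow_right hp.out.pos hk)).1 hmod.symm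
    interval_cases k
    · exfalso
      have := Nat.Coprime.eq_one_of_dvd c2.symm (by simpa using h1)
      exact hqp.one_lt.ne' this
    · exfalso
      have := Nat.Coprime.eq_one_of_dvd c3.symm (by simpa using h1)
      exact hqp.one_lt.ne' this
    · rfl
  have h2 : W ⊓ centralizer (X₀ : Set G) = W := by
    apply eq_of_le_of_card_ge inf_le_left
    rw [hW, hk2, hk2']
  rw [le_centralizer_iff]
  rw [inf_eq_left] at h2
  exact h2

theorem Data.coprime_sl2 [Finite G] [hp : Fact p.Prime] (h : Data p q V H Q X)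
    (hAH : A ≤ H) (hA : TV p V A) : (p * (p ^ 2 - 1)).Coprime q := by
  obtain ⟨e⟩ := (comp_of h.ff hAH hA).equiv
  have h1 : Nat.card ↥(comp Q A) = p * (p ^ 2 - 1) := by
    rw [Nat.card_congr e.toEquiv, H25.SL2Card.card_SL2, ZMod.card]
  rw [← h1]
  exact Nat.Coprime.coprime_dvd_left (card_dvd_of_le (comp_le_H h.ff hAH)) h.hq

/-- elements of `X` normalizing a component centralize it, and its plane -/
theorem Data.stab [Finite G] [hp : Fact p.Prime] [hqf : Fact q.Prime] (h : Data p q V H Q X)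
    (hAH : A ≤ H) (hA : TV p V A) {x : G} (hx : x ∈ X)
    (hxE : (comp Q A).map (MulAut.conj x).toMonoidHom = comp Q A) :
    x ∈ centralizer ((⁅V, comp Q A⁆ : Subgroup G) : Set G) ∧
      x ∈ centralizer ((comp Q A : Subgroup G) : Set G) := by
  have hc := comp_of h.ff hAH hA
  have hxW : (⁅V, comp Q A⁆ : Subgroup G).map (MulAut.conj x).toMonoidHom = ⁅V, comp Q A⁆ := by
    rw [map_conj_commutator, hxE, Norm.map_conj_le_of_mem_normalizer (h.nV hx)]
  have hnorm : ∀ {K : Subgroup G}, K.map (MulAut.conj x).toMonoidHom = K →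
      x ∈ normalizer (K : Set G) := by
    intro K hK
    rw [mem_normalizer_iff]
    intro y
    constructor
    · intro hy
      rw [← hK]
      exact ⟨y, hy, rfl⟩
    · intro hy
      rw [← hK] at hy
      obtain ⟨z, hz, hzy⟩ := hy
      have h1 : x * z * x⁻¹ = x * y * x⁻¹ := hzy
      have : z = y := by simpa using h1
      rwa [← this]
  have h1 : zpowers x ≤ centralizer ((⁅V, comp Q A⁆ : Subgroup G) : Set G) := by
    refine trivial_on_plane (p := p) (q := q) hc.card (h.hX.to_le ?_) ?_ (h.coprime_sl2 hAH hA)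
    · rw [zpowers_le]
      exact hx
    · rw [zpowers_le]
      exact hnorm hxW
  have hxc := h1 (mem_zpowers x)
  refine ⟨hxc, ?_⟩
  have hxn := hnorm hxE
  rw [mem_centralizer_iff]
  intro e he
  have h2 : ⁅x, e⁆ ∈ comp Q A ⊓ centralizer ((⁅V, comp Q A⁆ : Subgroup G) : Set G) := by
    refine mem_inf.2 ⟨?_, ?_⟩
    · rw [commutatorElement_def]
      exact mul_mem ((mem_normalizer_iff.1 hxn e).1 he) (inv_mem he)
    · have hEn : comp Q A ≤ normalizer ((⁅V, comp Q A⁆ : Subgroup G) : Set G) := by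
        rw [commutator_comm]
        exact Norm.le_normalizer_commutator le_normalizer
          ((comp_le_H h.ff hAH).trans h.ff.hHV)
      have hcn := (Norm.le_normalizer_centralizer hEn) he
      rw [commutatorElement_def, mul_assoc, mul_assoc]
      refine mul_mem hxc ?_
      rw [← mul_assoc]
      exact (mem_normalizer_iff.1 hcn _).1 (inv_mem hxc)
  rw [hc.faithful, mem_bot, commutatorElement_eq_one_iff_mul_comm] at h2
  exact h2.symm

theorem map_eq_iff {x : G} {K : Subgroup G} :
    K.map (MulAut.conj x).toMonoidHom = K ↔ x ∈ normalizer (K : Set G) := by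
  constructor
  · intro hK
    rw [mem_normalizer_iff]
    intro y
    constructor
    · intro hy
      rw [← hK]
      exact ⟨y, hy, rfl⟩
    · intro hy
      rw [← hK] at hy
      obtain ⟨z, hz, hzy⟩ := hy
      have h1 : x * z * x⁻¹ = x * y * x⁻¹ := hzy
      have : z = y := by simpa using h1
      rwa [← this]
  · exact Norm.map_conj_le_of_mem_normalizer

/-- the conjugates outside the stabilizer -/
theorem Data.outside [Finite G] [hp : Fact p.Prime] (h : Data p q V H Q X)
    (hAH : A ≤ H) (hA : TV p V A) {x : G} (hx : x ∈ X)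
    (hxE : x ∉ normalizer ((comp Q A : Subgroup G) : Set G)) :
    (comp Q A).map (MulAut.conj x).toMonoidHom ≤ centralizer ((comp Q A : Subgroup G) : Set G) ∧
    (comp Q A).map (MulAut.conj x).toMonoidHom ≤
      centralizer ((⁅V, comp Q A⁆ : Subgroup G) : Set G) ∧
    (⁅V, comp Q A⁆ : Subgroup G).map (MulAut.conj x).toMonoidHom ≤
      centralizer ((comp Q A : Subgroup G) : Set G) := by
  have hd := dichotomy h.ff hAH hA (h.conj_le hAH hx) (h.tv_conj hA hx)
  rw [← h.map_comp hx] at hd
  rcases hd with hd | ⟨h1, h2, h3⟩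
  · exact absurd (map_eq_iff.1 hd) hxE
  · refine ⟨?_, h1, ?_⟩
    · rw [commutator_comm, commutator_eq_bot_iff_le_centralizer] at h3
      exact h3
    · rw [map_conj_commutator, Norm.map_conj_le_of_mem_normalizer (h.nV hx)]
      exact h2

theorem prod_form {ι : Type*} [DecidableEq ι] (N : ι → Prop) [DecidablePred N] (f : ι → G)
    (C : Subgroup G)
    (e : G) (h1 : ∀ x, N x → f x = e) (h2 : ∀ x, ¬ N x → f x ∈ C)
    (hC : ∀ c ∈ C, Commute c e) (s : Finset ι) :
    ∀ (comm : (s : Set ι).Pairwise (Function.onFun Commute f)),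
      ∃ c ∈ C, s.noncommProd f comm = e ^ (s.filter N).card * c := by
  induction s using Finset.induction_on with
  | empty =>
    intro comm
    exact ⟨1, one_mem _, by simp⟩
  | insert a s ha ih =>
    intro comm
    obtain ⟨c, hc, hcs⟩ := ih (comm.mono (by simp))
    rw [Finset.noncommProd_insert_of_notMem _ _ _ _ ha, hcs]
    by_cases hN : N a
    · refine ⟨c, hc, ?_⟩
      rw [Finset.filter_insert, if_pos hN, Finset.card_insert_of_notMem (by simp [ha]), h1 a hN,
        pow_succ', mul_assoc]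
    · refine ⟨f a * c, mul_mem (h2 a hN) hc, ?_⟩
      rw [Finset.filter_insert, if_neg hN]
      have := (hC _ (h2 a hN)).pow_right (s.filter N).card
      rw [← mul_assoc, this.eq, mul_assoc]

theorem noncommProd_reindex {ι M : Type*} [Fintype ι] [Monoid M] (f g : ι → M) (σ : ι ≃ ι)
    (hg : ∀ i, g i = f (σ i))
    (comm : ((Finset.univ : Finset ι) : Set ι).Pairwise (Function.onFun Commute f))
    (comm' : ((Finset.univ : Finset ι) : Set ι).Pairwise (Function.onFun Commute g)) :
    Finset.univ.noncommProd g comm' = Finset.univ.noncommProd f comm := by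
  unfold Finset.noncommProd
  congr 1
  have h1 : Multiset.map g (Finset.univ : Finset ι).val =
      Multiset.map f (Multiset.map σ (Finset.univ : Finset ι).val) := by
    rw [Multiset.map_map]
    exact Multiset.map_congr rfl (fun i _ => hg i)
  rw [h1, Multiset.map_univ_val_equiv]

/-- A product over the conjugates under `X` is centralized by `X`. -/
theorem fixed_prod [Fintype X] {e : G}
    (comm : ((Finset.univ : Finset X) : Set X).Pairwise
      (Function.onFun Commute (fun x : X => (x : G) * e * (x : G)⁻¹))) :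
    Finset.univ.noncommProd (fun x : X => (x : G) * e * (x : G)⁻¹) comm ∈
      centralizer (X : Set G) := by
  rw [mem_centralizer_iff]
  intro y hy
  set d := Finset.univ.noncommProd (fun x : X => (x : G) * e * (x : G)⁻¹) comm with hd
  have h1 : (MulAut.conj y).toMonoidHom d = d := by
    rw [hd, Finset.map_noncommProd]
    refine noncommProd_reindex _ _ (Equiv.mulLeft (⟨y, hy⟩ : X)) ?_ _ _
    intro x
    change y * ((x : G) * e * (x : G)⁻¹) * y⁻¹ = (y * x) * e * (y * x)⁻¹
    group
  have h2 : y * d * y⁻¹ = d := h1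
  calc y * d = y * d * y⁻¹ * y := by group
    _ = d * y := by rw [h2]

theorem Data.commute_conj [Finite G] [hp : Fact p.Prime] [hqf : Fact q.Prime]
    (h : Data p q V H Q X) (hAH : A ≤ H) (hA : TV p V A) {e : G} (he : e ∈ comp Q A)
    {x y : G} (hx : x ∈ X) (hy : y ∈ X) : Commute (x * e * x⁻¹) (y * e * y⁻¹) := by
  have hz : x⁻¹ * y ∈ X := mul_mem (inv_mem hx) hy
  have key : Commute e ((x⁻¹ * y) * e * (x⁻¹ * y)⁻¹) := by
    by_cases hn : x⁻¹ * y ∈ normalizer ((comp Q A : Subgroup G) : Set G)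
    · have h1 := (h.stab hAH hA hz (map_eq_iff.2 hn)).2
      have h2 := mem_centralizer_iff.1 h1 e he
      rw [← h2]
      have : e * (x⁻¹ * y) * (x⁻¹ * y)⁻¹ = e := by group
      rw [this]
    · have h1 := (h.outside hAH hA hz hn).1
      exact mem_centralizer_iff.1 (h1 ⟨e, he, rfl⟩) e he
  have h3 := key.map (MulAut.conj x).toMonoidHom
  have h4 : (MulAut.conj x).toMonoidHom ((x⁻¹ * y) * e * (x⁻¹ * y)⁻¹) = y * e * y⁻¹ := by
    change x * ((x⁻¹ * y) * e * (x⁻¹ * y)⁻¹) * x⁻¹ = _
    group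
  rw [h4] at h3
  exact h3

theorem Data.card_stab [Finite G] [hqf : Fact q.Prime] (h : Data p q V H Q X) (K : Subgroup G) :
    ∃ k, Nat.card ((normalizer (K : Set G)).subgroupOf X) = q ^ k :=
  (h.hX.to_subgroup _).exists_card_eq

/-- Every element of a component is congruent to a fixed element. -/
theorem Data.exists_fixed [Finite G] [hp : Fact p.Prime] [hqf : Fact q.Prime]
    (h : Data p q V H Q X) (hAH : A ≤ H) (hA : TV p V A) {e₀ : G} (he₀ : e₀ ∈ comp Q A)
    {J : Subgroup G} (hJ : comp Q A ≤ J) (hXJ : X ≤ normalizer (J : Set G)) :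
    ∃ d ∈ J ⊓ centralizer (X : Set G), ∃ c ∈ centralizer ((comp Q A : Subgroup G) : Set G) ⊓
      centralizer ((⁅V, comp Q A⁆ : Subgroup G) : Set G), d = e₀ * c := by
  classical
  have : Fintype X := Fintype.ofFinite X
  set E := comp Q A with hE
  set C := centralizer (E : Set G) ⊓ centralizer ((⁅V, E⁆ : Subgroup G) : Set G) with hC
  obtain ⟨k, hk⟩ := h.card_stab E
  have hcop : (Nat.card E).Coprime (q ^ k) :=
    Nat.Coprime.pow_right k (Nat.Coprime.coprime_dvd_left
      (card_dvd_of_le (comp_le_H h.ff hAH)) h.hq)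
  obtain ⟨⟨e, he⟩, hee⟩ := (powCoprime hcop).surjective ⟨e₀, he₀⟩
  have hee' : e ^ (q ^ k) = e₀ := congrArg Subtype.val hee
  have comm : ((Finset.univ : Finset X) : Set X).Pairwise
      (Function.onFun Commute (fun x : X => (x : G) * e * (x : G)⁻¹)) := by
    intro x _ y _ _
    exact h.commute_conj hAH hA he x.2 y.2
  obtain ⟨c, hc, hcs⟩ := prod_form (fun x : X => (x : G) ∈ normalizer (E : Set G))
    (fun x : X => (x : G) * e * (x : G)⁻¹) C e
    (by
      intro x hx
      have h1 := (h.stab hAH hA x.2 (map_eq_iff.2 hx)).2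
      have h2 := mem_centralizer_iff.1 h1 e he
      change (x : G) * e * (x : G)⁻¹ = e
      rw [← h2]
      group)
    (by
      intro x hx
      have h1 := h.outside hAH hA x.2 hx
      exact mem_inf.2 ⟨h1.1 ⟨e, he, rfl⟩, h1.2.1 ⟨e, he, rfl⟩⟩)
    (by
      intro c hc
      exact (mem_centralizer_iff.1 (mem_inf.1 hc).1 e he).symm)
    Finset.univ comm
  refine ⟨Finset.univ.noncommProd (fun x : X => (x : G) * e * (x : G)⁻¹) comm,
    mem_inf.2 ⟨?_, fixed_prod comm⟩, c, hc, ?_⟩
  · apply Subgroup.noncommProd_mem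
    intro x _
    exact (mem_normalizer_iff.1 (hXJ x.2) e).1 (hJ he)
  · rw [hcs]
    have h1 : (Finset.univ.filter (fun x : X => (x : G) ∈ normalizer (E : Set G))).card = q ^ k := by
      rw [← hk, ← Fintype.card_subtype, ← Nat.card_eq_fintype_card]
      rfl
    rw [h1, hee']

/-- A subgroup containing the fixed points of `X` and a Sylow `p`-subgroup of the component
contains the component. -/
theorem Data.comp_le [Finite G] [hp : Fact p.Prime] [hqf : Fact q.Prime]
    (h : Data p q V H Q X) (hAH : A ≤ H) (hA : TV p V A) {R : Subgroup G}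
    (hR : H ⊓ centralizer (X : Set G) ≤ R) {E : Subgroup G} (hE : E = comp Q A)
    (P : Sylow p E) (hP : (P : Subgroup E).map E.subtype ≤ R) :
    E ≤ R := by
  have hc := comp_of h.ff hAH hA
  have hEH : E ≤ H := by rw [hE]; exact comp_le_H h.ff hAH
  have hex : ∀ e ∈ E, ∃ d ∈ H ⊓ centralizer (X : Set G), ∃ c ∈ centralizer (E : Set G) ⊓
      centralizer ((⁅V, E⁆ : Subgroup G) : Set G), d = e * c := by
    rw [hE]
    intro e he
    exact h.exists_fixed hAH hA he (comp_le_H h.ff hAH) h.nH
  have hcl' : ∃ a b w1 w2 : G, closure {a, b} = E ∧ NatSL2.Pair p ⁅V, E⁆ a b w1 w2 ∧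
      E ⊓ centralizer ((⁅V, E⁆ : Subgroup G) : Set G) = ⊥ := by
    rw [hE]
    obtain ⟨a, b, w1, w2, hz, hcl, hpair⟩ := hc.ex
    exact ⟨a, b, w1, w2, hcl, hpair, hc.faithful⟩
  -- every Sylow subgroup lies in `R`
  have h1 : ∀ P' : Sylow p E, (P' : Subgroup E).map E.subtype ≤ R := by
    intro P'
    obtain ⟨e, rfl⟩ := MulAction.exists_smul_eq E P P'
    rintro _ ⟨y, hy, rfl⟩
    have hy' : y ∈ ((e • P : Sylow p E) : Subgroup E) := hy
    rw [Sylow.coe_subgroup_smul] at hy'
    obtain ⟨z, hz, rfl⟩ := hy'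
    obtain ⟨d, hd, c, hc', hdc⟩ := hex e e.2
    have hdR : d ∈ R := hR hd
    have hzR : (z : G) ∈ R := hP ⟨z, hz, rfl⟩
    have h2 : ((((MulDistribMulAction.toMonoidEnd (MulAut E) E) (MulAut.conj e)) z : E) : G) =
        d * z * d⁻¹ := by
      have h3 : Commute c (z : G) := (mem_centralizer_iff.1 (mem_inf.1 hc').1 z z.2).symm
      rw [hdc]
      change (e : G) * z * (e : G)⁻¹ = e * c * z * (e * c)⁻¹
      calc (e : G) * z * (e : G)⁻¹ = e * (z * c) * c⁻¹ * (e : G)⁻¹ := by group
        _ = _ := by rw [← h3.eq]; group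
    change ((((MulDistribMulAction.toMonoidEnd (MulAut E) E) (MulAut.conj e)) z : E) : G) ∈ R
    rw [h2]
    exact mul_mem (mul_mem hdR hzR) (inv_mem hdR)
  obtain ⟨a, b, w1, w2, hcl, hpair, hfai⟩ := hcl'
  have key : ∀ g : G, g ∈ E → g ^ p = 1 → g ∈ R := by
    intro g hg hgp
    have h3 : IsPGroup p (zpowers (⟨g, hg⟩ : E)) := by
      apply ElemAb.isPGroup
      apply ElemAb.zpowers
      exact Subtype.ext hgp
    obtain ⟨P', hP'⟩ := h3.exists_le_sylow
    exact h1 P' ⟨⟨g, hg⟩, hP' (mem_zpowers _), rfl⟩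
  rw [← hcl, closure_le]
  have haE : a ∈ E := by
    rw [← hcl]
    exact subset_closure (Set.mem_insert _ _)
  have hbE : b ∈ E := by
    rw [← hcl]
    exact subset_closure (Set.mem_insert_of_mem _ rfl)
  -- both generators have order `p`
  obtain ⟨f, hfa, hfb⟩ := hpair.exists_equiv hcl hfai
  rintro g (rfl | rfl)
  · apply key g haE
    have h4 : (⟨g, haE⟩ : E) ^ p = 1 := by
      apply f.injective
      rw [map_pow, hfa ⟨g, haE⟩ rfl, NatSL2.up_pow, CharP.cast_eq_zero, map_one]
      apply Subtype.ext; ext i j; fin_cases i <;> fin_cases j <;> simp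
    exact congrArg Subtype.val h4
  · apply key g hbE
    have h4 : (⟨g, hbE⟩ : E) ^ p = 1 := by
      apply f.injective
      rw [map_pow, hfb ⟨g, hbE⟩ rfl, NatSL2.lo_pow, CharP.cast_eq_zero, map_one]
      apply Subtype.ext; ext i j; fin_cases i <;> fin_cases j <;> simp
    exact congrArg Subtype.val h4

end H13.FFX
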