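import Mathlib
import Cfsg.Prelude.Def_PLocal
import Cfsg.Agent.Lib.H13.FFX

set_option autoImplicit false

/-!
The diagonal plane centralized by a coprime operator group.
-/

namespace H13.FFPlane

open Subgroup H13.FF6 H13.FF7 H13.Trans H13.FFX
open scoped commutatorElement
open Matrix (SpecialLinearGroup)

universe u

variable {G : Type u} [Group G] {p q : ℕ} {V A B H Q X R : Subgroup G}

theorem coprime_p [Finite G] [hp : Fact p.Prime] (h : Data p q V H Q X)
    (hAH : A ≤ H) (hA : TV p V A) : p.Coprime q :=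
  (coprime_six (h.coprime_sl2 hAH hA)).1.symm

theorem exists_T [Finite G] [hp : Fact p.Prime] [hqf : Fact q.Prime] (h : Data p q V H Q X) :
    ∃ T : V →* V, (∀ v, ((T v : V) : G) ∈ centralizer (X : Set G)) ∧
      (∀ g ∈ normalizer (V : Set G), g ∈ centralizer (X : Set G) → ∀ v w : V,
        (w : G) = g * v * g⁻¹ → ((T w : V) : G) = g * T v * g⁻¹) ∧
      (∀ A ≤ H, TV p V A → ∃ n : ℕ, p.Coprime n ∧ ∀ w : V, (w : G) ∈ ⁅V, comp Q A⁆ →
        ∃ c : V, (c : G) ∈ centralizer ((comp Q A : Subgroup G) : Set G) ∧ T w = w ^ n * c) := by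
  classical
  have : Fintype X := Fintype.ofFinite X
  let _ : CommGroup V := { (inferInstance : Group V) with
    mul_comm := fun x y => Subtype.ext (ElemAb.comm h.ff.hV x.2 y.2) }
  let a : X →* MulAut V := V.normalizerMonoidHom.comp (inclusion h.nV)
  have ha : ∀ (x : X) (v : V), ((a x v : V) : G) = x * v * (x : G)⁻¹ := fun x v => rfl
  let T : V →* V :=
    { toFun := fun v => ∏ x : X, a x v
      map_one' := by simp
      map_mul' := fun v w => by simp [Finset.prod_mul_distrib] }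
  have hT : ∀ v, T v = ∏ x : X, a x v := fun v => rfl
  refine ⟨T, ?_, ?_, ?_⟩
  · intro v
    rw [mem_centralizer_iff]
    intro y hy
    have h1 : a ⟨y, hy⟩ (T v) = T v := by
      rw [hT, map_prod]
      refine Fintype.prod_equiv (Equiv.mulLeft (⟨y, hy⟩ : X)) _ _ ?_
      intro x
      rw [Equiv.coe_mulLeft, map_mul]
      rfl
    have h2 : y * (T v : G) * y⁻¹ = T v := congrArg Subtype.val h1
    calc y * (T v : G) = y * (T v : G) * y⁻¹ * y := by group
      _ = _ := by rw [h2]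
  · intro g hg hgX v w hw
    have h1 : w = V.normalizerMonoidHom ⟨g, hg⟩ v := Subtype.ext hw
    have h2 : T w = V.normalizerMonoidHom ⟨g, hg⟩ (T v) := by
      rw [hT, hT, map_prod]
      refine Finset.prod_congr rfl (fun x _ => ?_)
      apply Subtype.ext
      rw [ha, hw]
      change (x : G) * (g * v * g⁻¹) * (x : G)⁻¹ = g * ((x : G) * v * (x : G)⁻¹) * g⁻¹
      have h3 := mem_centralizer_iff.1 hgX x x.2
      have h4 : (x : G) * g = g * x := h3
      have h5 : g⁻¹ * (x : G)⁻¹ = (x : G)⁻¹ * g⁻¹ := by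
        rw [← mul_inv_rev, ← mul_inv_rev, h4]
      calc (x : G) * (g * v * g⁻¹) * (x : G)⁻¹ = (x * g) * v * (g⁻¹ * (x : G)⁻¹) := by group
        _ = (g * x) * v * ((x : G)⁻¹ * g⁻¹) := by rw [h4, h5]
        _ = _ := by group
    rw [h2]
    rfl
  · intro A hAH hA
    obtain ⟨k, hk⟩ := h.card_stab (comp Q A)
    refine ⟨q ^ k, Nat.Coprime.pow_right k (coprime_p h hAH hA), ?_⟩
    intro w hw
    let N : X → Prop := fun x => (x : G) ∈ normalizer ((comp Q A : Subgroup G) : Set G)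
    refine ⟨∏ x ∈ Finset.univ.filter (fun x => ¬ N x), a x w, ?_, ?_⟩
    · have h1 : ∀ x ∈ Finset.univ.filter (fun x => ¬ N x), a x w ∈
          (centralizer ((comp Q A : Subgroup G) : Set G)).subgroupOf V := by
        intro x hx
        have h2 : ¬ N x := (Finset.mem_filter.1 hx).2
        exact (h.outside hAH hA x.2 h2).2.2 ⟨w, hw, rfl⟩
      exact Subgroup.prod_mem _ h1
    · rw [hT, ← Finset.prod_filter_mul_prod_filter_not Finset.univ N]
      congr 1
      have h1 : ∀ x ∈ Finset.univ.filter N, a x w = w := by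
        intro x hx
        have h2 : N x := (Finset.mem_filter.1 hx).2
        have h3 := (h.stab hAH hA x.2 (map_eq_iff.2 h2)).1
        apply Subtype.ext
        rw [ha, ← mem_centralizer_iff.1 h3 w hw]
        group
      rw [Finset.prod_congr rfl h1, Finset.prod_const]
      congr 1
      rw [← hk, ← Fintype.card_subtype, ← Nat.card_eq_fintype_card]
      rfl

theorem plane [Finite G] [hp : Fact p.Prime] [hqf : Fact q.Prime] (h : Data p q V H Q X)
    (hAH : A ≤ H) (hA : TV p V A) :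
    ∃ (W J : Subgroup G) (τ : ↥(J ⊓ centralizer (X : Set G)) →* SpecialLinearGroup (Fin 2) (ZMod p)),
      W ≤ V ⊓ centralizer (X : Set G) ∧ Nat.card W = p ^ 2 ∧ J ≤ H ∧
      J ⊓ centralizer (X : Set G) ≤ normalizer (W : Set G) ∧ Function.Surjective τ ∧
      ∀ d, τ d = 1 ↔ (d : G) ∈ centralizer (W : Set G) := by
  have hc := comp_of h.ff hAH hA
  obtain ⟨T, hT1, hT2, hT3⟩ := exists_T h
  obtain ⟨n, hn, hTn⟩ := hT3 A hAH hA
  obtain ⟨E, hE⟩ : ∃ E : Subgroup G, E = comp Q A := ⟨_, rfl⟩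
  rw [← hE] at hTn
  set W₀ : Subgroup G := ⁅V, E⁆ with hW₀
  have hEH : E ≤ H := by rw [hE]; exact comp_le_H h.ff hAH
  have hW₀V : W₀ ≤ V := by rw [hW₀, hE]; exact plane_le h.ff hAH
  have hcard : Nat.card W₀ = p ^ 2 := by rw [hW₀, hE]; exact hc.card
  have hEn : E ≤ normalizer (W₀ : Set G) := by
    rw [hW₀, commutator_comm]
    exact Norm.le_normalizer_commutator le_normalizer (hEH.trans h.ff.hHV)
  have hW₀E : W₀ ⊓ centralizer (E : Set G) = ⊥ := by
    rw [hW₀, hE]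
    exact hc.split.inf
  -- `T` is injective on `W₀`
  have hTinj : ∀ w : V, (w : G) ∈ W₀ → T w = 1 → w = 1 := by
    intro w hw hTw
    obtain ⟨c, hc1, hc2⟩ := hTn w hw
    rw [hTw] at hc2
    have h1 : w ^ n = c⁻¹ := eq_inv_of_mul_eq_one_left hc2.symm
    have h2 : (w : G) ^ n ∈ W₀ ⊓ centralizer (E : Set G) := by
      refine mem_inf.2 ⟨pow_mem hw _, ?_⟩
      have h3 : (w : G) ^ n = (c : G)⁻¹ := congrArg Subtype.val h1
      rw [h3]
      exact inv_mem hc1
    rw [hW₀E, mem_bot] at h2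
    have h4 : (w : G) ^ p = 1 := (ElemAb.iff_mem.1 h.ff.hV).2 w w.2
    have h5 : orderOf (w : G) ∣ 1 := by
      rw [← hn.gcd_eq_one]
      exact Nat.dvd_gcd (orderOf_dvd_of_pow_eq_one h4) (orderOf_dvd_of_pow_eq_one h2)
    exact Subtype.ext (orderOf_eq_one_iff.1 (Nat.dvd_one.1 h5))
  let W : Subgroup G := ((W₀.subgroupOf V).map T).map V.subtype
  have hWmem : ∀ {y : G}, y ∈ W ↔ ∃ w : V, (w : G) ∈ W₀ ∧ ((T w : V) : G) = y := by
    intro y
    constructor
    · rintro ⟨_, ⟨w, hw, rfl⟩, rfl⟩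
      exact ⟨w, hw, rfl⟩
    · rintro ⟨w, hw, rfl⟩
      exact ⟨_, ⟨w, hw, rfl⟩, rfl⟩
  have hWcard : Nat.card W = p ^ 2 := by
    rw [← hcard, ← Coprime.card_subgroupOf hW₀V]
    refine (Nat.card_congr (Equiv.ofBijective
      (fun w : W₀.subgroupOf V => (⟨T w, hWmem.2 ⟨w, w.2, rfl⟩⟩ : W)) ⟨?_, ?_⟩)).symm
    · rintro ⟨w, hw⟩ ⟨w', hw'⟩ hww
      have h0 : ((T w : V) : G) = T w' := congrArg (fun z : W => (z : G)) hww
      have h1 : T w = T w' := Subtype.ext h0
      have h2 : T ((w : V) * (w' : V)⁻¹) = 1 := by rw [map_mul, map_inv, h1, mul_inv_cancel]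
      have h3 := hTinj _ (show (((w : V) * (w' : V)⁻¹ : V) : G) ∈ W₀ from
        mul_mem (mem_subgroupOf.1 hw) (inv_mem (mem_subgroupOf.1 hw'))) h2
      exact Subtype.ext (mul_inv_eq_one.1 h3)
    · rintro ⟨y, hy⟩
      obtain ⟨w, hw, hwy⟩ := hWmem.1 hy
      exact ⟨⟨w, hw⟩, Subtype.ext hwy⟩
  -- the group `J`
  let J : Subgroup G := ⨆ x : X, E.map (MulAut.conj (x : G)).toMonoidHom
  have hEJ : E ≤ J := by
    have h1 := le_iSup (fun x : X => E.map (MulAut.conj (x : G)).toMonoidHom) (1 : X)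
    refine le_trans ?_ h1
    intro e he
    exact ⟨e, he, by simp⟩
  have hJH : J ≤ H := by
    refine iSup_le ?_
    intro x
    rw [hE, h.map_comp x.2]
    exact comp_le_H h.ff (h.conj_le hAH x.2)
  have hXJ : X ≤ normalizer (J : Set G) := by
    intro y hy
    have key : ∀ y ∈ X, ∀ j ∈ J, y * j * y⁻¹ ∈ J := by
      intro y hy j hj
      have h1 : J.map (MulAut.conj y).toMonoidHom ≤ J := by
        rw [Subgroup.map_iSup]
        refine iSup_le (fun x => ?_)
        refine le_trans ?_ (le_iSup (fun x : X => E.map (MulAut.conj (x : G)).toMonoidHom)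
          (⟨y, hy⟩ * x))
        rintro _ ⟨_, ⟨e, he, rfl⟩, rfl⟩
        refine ⟨e, he, ?_⟩
        change (y * x) * e * (y * x)⁻¹ = y * (x * e * (x : G)⁻¹) * y⁻¹
        group
      exact h1 ⟨j, hj, rfl⟩
    apply Norm.mem_normalizer_of (key y hy)
    intro j hj
    have := key y⁻¹ (inv_mem hy) j hj
    rwa [inv_inv] at this
  have hJE : J ≤ E ⊔ centralizer (W₀ : Set G) := by
    refine iSup_le (fun x => ?_)
    by_cases hx : (x : G) ∈ normalizer (E : Set G)
    · rw [map_eq_iff.2 hx]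
      exact le_sup_left
    · refine le_trans ?_ le_sup_right
      rw [hW₀, hE]
      rw [hE] at hx
      exact (h.outside hAH hA x.2 hx).2.1
  have hJn : J ≤ normalizer (W₀ : Set G) :=
    hJE.trans (sup_le hEn (centralizer_le_normalizer _))
  -- the representation
  obtain ⟨a, b, w1, w2, -, hcl, hpair⟩ := hc.ex
  rw [← hE] at hcl hpair
  obtain ⟨ρ, σ, r1, r2, r3, r4, r5, r6⟩ := hpair.exists_hom
  have hdet : ∀ j (hj : j ∈ J), ∃ e : closure {a, b}, ρ ⟨j, hJn hj⟩ = σ e := by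
    intro j hj
    obtain ⟨e, he, c, hc, hec⟩ := (Norm.mem_sup_of_le_normalizer
      (hEn.trans (Norm.normalizer_le_normalizer_centralizer _))).1 (hJE hj)
    refine ⟨⟨e, by rw [hcl]; exact he⟩, ?_⟩
    rw [r4]
    apply r2
    change j⁻¹ * e ∈ _
    rw [← hec]
    have : (e * c)⁻¹ * e = c⁻¹ := by group
    rw [this]
    exact inv_mem hc
  let τ : ↥(J ⊓ centralizer (X : Set G)) →* SpecialLinearGroup (Fin 2) (ZMod p) :=
    { toFun := fun j => ⟨ρ ⟨j, hJn (mem_inf.1 j.2).1⟩, by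
        obtain ⟨e, he⟩ := hdet j (mem_inf.1 j.2).1
        rw [he]
        exact (σ e).2⟩
      map_one' := Subtype.ext (map_one ρ)
      map_mul' := fun x y => Subtype.ext
        (map_mul ρ ⟨x, hJn (mem_inf.1 x.2).1⟩ ⟨y, hJn (mem_inf.1 y.2).1⟩) }
  have hτ : ∀ j, ((τ j : SpecialLinearGroup (Fin 2) (ZMod p)) : Matrix _ _ _) =
      ρ ⟨j, hJn (mem_inf.1 j.2).1⟩ := fun j => rfl
  have hτ1 : ∀ j, τ j = 1 ↔ (j : G) ∈ centralizer (W₀ : Set G) := by
    intro j
    constructor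
    · intro hj
      have h1 : ρ 1 = ρ ⟨j, hJn (mem_inf.1 j.2).1⟩ := by
        rw [← hτ, hj, map_one]
        rfl
      have h2 := r1 _ _ h1
      rwa [OneMemClass.coe_one, inv_one, one_mul] at h2
    · intro hj
      apply Subtype.ext
      rw [hτ]
      have h1 : ρ 1 = ρ ⟨j, hJn (mem_inf.1 j.2).1⟩ := by
        apply r2
        rwa [OneMemClass.coe_one, inv_one, one_mul]
      rw [← h1, map_one]
      rfl
  -- the action on `W`
  have hact : ∀ d ∈ J ⊓ centralizer (X : Set G), ∀ w : V, (w : G) ∈ W₀ →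
      ∃ w' : V, (w' : G) ∈ W₀ ∧ (w' : G) = d * w * d⁻¹ ∧ ((T w' : V) : G) = d * T w * d⁻¹ := by
    intro d hd w hw
    obtain ⟨hdJ, hdX⟩ := mem_inf.1 hd
    have h1 : d * w * d⁻¹ ∈ W₀ := (mem_normalizer_iff.1 (hJn hdJ) w).1 hw
    exact ⟨⟨d * w * d⁻¹, hW₀V h1⟩, h1, rfl, hT2 d (h.ff.hHV (hJH hdJ)) hdX w _ rfl⟩
  refine ⟨W, J, τ, ?_, hWcard, hJH, ?_, ?_, ?_⟩
  · intro y hy
    obtain ⟨w, hw, rfl⟩ := hWmem.1 hy
    exact mem_inf.2 ⟨(T w).2, hT1 w⟩
  · intro d hd
    have key : ∀ d ∈ J ⊓ centralizer (X : Set G), ∀ y ∈ W, d * y * d⁻¹ ∈ W := by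
      intro d hd y hy
      obtain ⟨w, hw, rfl⟩ := hWmem.1 hy
      obtain ⟨w', h1, h2, h3⟩ := hact d hd w hw
      exact hWmem.2 ⟨w', h1, h3⟩
    apply Norm.mem_normalizer_of (key d hd)
    intro j hj
    have := key d⁻¹ (inv_mem hd) j hj
    rwa [inv_inv] at this
  · intro s
    obtain ⟨e, he⟩ := r3 s
    have heE : (e : G) ∈ E := hcl.le e.2
    obtain ⟨d, hd, c, hc', hdc⟩ := h.exists_fixed (J := J) hAH hA (e₀ := (e : G))
      (by rw [← hE]; exact heE) (by rw [← hE]; exact hEJ) hXJ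
    refine ⟨⟨d, hd⟩, ?_⟩
    apply Subtype.ext
    rw [hτ, ← he, r4]
    apply r2
    change d⁻¹ * e ∈ _
    rw [hdc]
    have h1 : ((e : G) * c)⁻¹ * e = c⁻¹ := by group
    rw [h1]
    apply inv_mem
    rw [hE]
    exact (mem_inf.1 hc').2
  · intro d
    rw [hτ1, mem_centralizer_iff, mem_centralizer_iff]
    constructor
    · intro hd y hy
      obtain ⟨w, hw, rfl⟩ := hWmem.1 hy
      obtain ⟨w', h1, h2, h3⟩ := hact d d.2 w hw
      have h4 : w' = w := by
        apply Subtype.ext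
        rw [h2, ← hd w hw]
        group
      rw [h4] at h3
      calc ((T w : V) : G) * d = d * (T w : V) * (d : G)⁻¹ * d := by rw [← h3]
        _ = d * (T w : V) := by group
    · intro hd w hw
      obtain ⟨w', h1, h2, h3⟩ := hact d d.2 ⟨w, hW₀V hw⟩ hw
      have h4 : ((T ⟨w, hW₀V hw⟩ : V) : G) ∈ W := hWmem.2 ⟨_, hw, rfl⟩
      rw [← hd _ h4] at h3
      have h5 : T w' = T ⟨w, hW₀V hw⟩ := by
        apply Subtype.ext
        rw [h3]
        group
      have h6 : T (w' * (⟨w, hW₀V hw⟩ : V)⁻¹) = 1 := by rw [map_mul, map_inv, h5, mul_inv_cancel]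
      have h7 := hTinj _ (mul_mem h1 (inv_mem hw)) h6
      have h8 : (w' : G) = w := congrArg Subtype.val (mul_inv_eq_one.1 h7)
      rw [h8] at h2
      have h9 : w = d * w * (d : G)⁻¹ := h2
      calc w * d = d * w * (d : G)⁻¹ * d := by rw [← h9]
        _ = d * w := by group

end H13.FFPlane
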