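import Mathlib
import Cfsg.Prelude.Def_PLocal
import Cfsg.Agent.Lib.H13.ElemAb
import Cfsg.Agent.Lib.H13.Act
import Cfsg.Agent.Lib.H13.Norm
import Cfsg.Agent.Lib.H13.CoresQuot
import Cfsg.Agent.Lib.H13.Coprime
import Cfsg.Agent.Lib.H13.Thompson

set_option autoImplicit false

/-!
The holomorph of `V` as a place where the normalizer of `V` acts faithfully.
-/

namespace H13.Hol

open Subgroup
open scoped commutatorElement

universe u

variable {G : Type u} [Group G] {V A B K X : Subgroup G} {p : ℕ}

/-- the holomorph -/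
abbrev Γ (V : Subgroup G) : Type u := V ⋊[MonoidHom.id (MulAut V)] MulAut V

instance [Finite G] (V : Subgroup G) : Finite (MulAut V) :=
  Finite.of_injective (fun e : MulAut V => (e : V → V)) DFunLike.coe_injective

instance [Finite G] (V : Subgroup G) : Finite (Γ V) :=
  Finite.of_equiv _ (SemidirectProduct.equivProd (φ := MonoidHom.id (MulAut V))).symm

/-- the action map -/
def th (V : Subgroup G) : normalizer (V : Set G) →* Γ V :=
  SemidirectProduct.inr.comp V.normalizerMonoidHom

/-- the embedding of `V` -/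
def inV (V : Subgroup G) : V →* Γ V := SemidirectProduct.inl

theorem inV_injective (V : Subgroup G) : Function.Injective (inV V) :=
  SemidirectProduct.inl_injective

theorem inV_inj {v w : V} : inV V v = inV V w ↔ v = w := (inV_injective V).eq_iff

/-- the image of `V` -/
def VV (V : Subgroup G) : Subgroup (Γ V) := (inV V).range

instance VV_normal (V : Subgroup G) : (VV V).Normal := by
  unfold VV inV
  rw [SemidirectProduct.range_inl_eq_ker_rightHom]
  infer_instance

theorem mem_VV {x : Γ V} : x ∈ VV V ↔ ∃ v : V, inV V v = x := MonoidHom.mem_range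

theorem th_conj (n : normalizer (V : Set G)) (v : V) :
    th V n * inV V v * (th V n)⁻¹ = inV V (V.normalizerMonoidHom n v) := by
  have h := SemidirectProduct.inl_aut (φ := MonoidHom.id (MulAut V)) (V.normalizerMonoidHom n) v
  rw [← map_inv] at h
  rw [inV, th, ← map_inv]
  exact h.symm

theorem nmh_coe (n : normalizer (V : Set G)) (v : V) :
    ((V.normalizerMonoidHom n v : V) : G) = n * v * (n : G)⁻¹ := rfl

theorem comm_th (n : normalizer (V : Set G)) (v : V) :
    ⁅inV V v, th V n⁆ = inV V (v * (V.normalizerMonoidHom n v)⁻¹) := by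
  rw [commutatorElement_def, map_mul, map_inv, ← th_conj]
  group

theorem comm_coe (n : normalizer (V : Set G)) (v : V) :
    ((v * (V.normalizerMonoidHom n v)⁻¹ : V) : G) = ⁅(v : G), (n : G)⁆ := by
  rw [commutatorElement_def]
  push_cast
  rw [nmh_coe]
  group

theorem th_eq_one_iff {n : normalizer (V : Set G)} : th V n = 1 ↔ (n : G) ∈ centralizer (V : Set G) := by
  rw [mem_centralizer_iff]
  constructor
  · intro h v hv
    have h1 := th_conj n ⟨v, hv⟩
    rw [h, one_mul, inv_one, mul_one] at h1
    have h2 := congrArg Subtype.val (inV_inj.1 h1)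
    have h3 : v = (n : G) * v * (n : G)⁻¹ := h2
    conv_lhs => rw [h3]
    group
  · intro h
    have h1 : V.normalizerMonoidHom n = 1 := by
      apply MulEquiv.ext
      intro v
      apply Subtype.ext
      rw [nmh_coe, ← h v v.2]
      change (v : G) * n * (n : G)⁻¹ = v
      group
    change SemidirectProduct.inr (V.normalizerMonoidHom n) = 1
    rw [h1, map_one]

theorem mem_centralizer_VV {n : normalizer (V : Set G)} :
    th V n ∈ centralizer (VV V : Set (Γ V)) ↔ (n : G) ∈ centralizer (V : Set G) := by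
  rw [← th_eq_one_iff]
  constructor
  · intro h
    rw [th_eq_one_iff, mem_centralizer_iff]
    intro v hv
    have h1 := mem_centralizer_iff.1 h (inV V ⟨v, hv⟩) ⟨_, rfl⟩
    have h2 := th_conj n ⟨v, hv⟩
    rw [← h1, mul_assoc, mul_inv_cancel, mul_one] at h2
    have h4 := congrArg Subtype.val (inV_inj.1 h2)
    have h3 : v = (n : G) * v * (n : G)⁻¹ := h4
    conv_lhs => rw [h3]
    group
  · intro h
    rw [h]
    exact one_mem _

/-- the image of a subgroup -/
def bar (V A : Subgroup G) : Subgroup (Γ V) := (A.subgroupOf (normalizer (V : Set G))).map (th V)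

theorem mem_bar {x : Γ V} : x ∈ bar V A ↔ ∃ n : normalizer (V : Set G), (n : G) ∈ A ∧ th V n = x := by
  constructor
  · rintro ⟨n, hn, rfl⟩
    exact ⟨n, hn, rfl⟩
  · rintro ⟨n, hn, rfl⟩
    exact ⟨n, hn, rfl⟩

theorem th_mem_bar {n : normalizer (V : Set G)} (h : (n : G) ∈ A) : th V n ∈ bar V A :=
  mem_bar.2 ⟨n, h, rfl⟩

theorem bar_mono (h : A ≤ B) : bar V A ≤ bar V B := by
  intro x hx
  obtain ⟨n, hn, rfl⟩ := mem_bar.1 hx
  exact th_mem_bar (h hn)

theorem bar_le_normalizer : bar V A ≤ normalizer (VV V : Set (Γ V)) := by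
  rw [normalizer_eq_top]
  exact le_top

theorem bar_inf_centralizer : bar V A ⊓ centralizer (VV V : Set (Γ V)) = ⊥ := by
  rw [eq_bot_iff]
  intro x hx
  obtain ⟨h1, h2⟩ := mem_inf.1 hx
  obtain ⟨n, hn, rfl⟩ := mem_bar.1 h1
  rw [mem_bot, th_eq_one_iff]
  exact mem_centralizer_VV.1 h2

theorem isElementaryAbelian_VV (h : Cfsg.IsElementaryAbelian p V) :
    Cfsg.IsElementaryAbelian p (VV V) := by
  rw [ElemAb.iff_mem]
  rw [ElemAb.iff_mem] at h
  constructor
  · rintro _ ⟨v, rfl⟩ _ ⟨w, rfl⟩
    rw [← map_mul, ← map_mul]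
    congr 1
    exact Subtype.ext (h.1 v v.2 w w.2)
  · rintro _ ⟨v, rfl⟩
    rw [← map_pow]
    have : v ^ p = 1 := Subtype.ext (h.2 v v.2)
    rw [this, map_one]

theorem card_VV : Nat.card (VV V) = Nat.card V :=
  (Nat.card_congr (MonoidHom.ofInjective (inV_injective V)).toEquiv).symm

theorem inV_mem_centralizer_bar (hA : A ≤ normalizer (V : Set G)) {v : V} :
    inV V v ∈ centralizer (bar V A : Set (Γ V)) ↔ (v : G) ∈ centralizer (A : Set G) := by
  rw [mem_centralizer_iff, mem_centralizer_iff]
  constructor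
  · intro h a ha
    have h1 := h (th V ⟨a, hA ha⟩) (th_mem_bar ha)
    have h2 := th_conj ⟨a, hA ha⟩ v
    rw [h1, mul_assoc, mul_inv_cancel, mul_one] at h2
    have h3 : (v : G) = a * v * a⁻¹ := congrArg Subtype.val (inV_inj.1 h2)
    conv_rhs => rw [h3]
    group
  · intro h x hx
    obtain ⟨n, hn, rfl⟩ := mem_bar.1 hx
    have h1 : V.normalizerMonoidHom n v = v := by
      apply Subtype.ext
      rw [nmh_coe, h n hn]
      group
    have h2 := th_conj n v
    rw [h1] at h2
    calc th V n * inV V v = th V n * inV V v * (th V n)⁻¹ * th V n := by group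
      _ = _ := by rw [h2]

theorem card_fix (hA : A ≤ normalizer (V : Set G)) :
    Nat.card ↥(VV V ⊓ centralizer (bar V A : Set (Γ V))) =
      Nat.card ↥(V ⊓ centralizer (A : Set G)) := by
  have h1 : VV V ⊓ centralizer (bar V A : Set (Γ V)) =
      ((V ⊓ centralizer (A : Set G)).subgroupOf V).map (inV V) := by
    ext x
    rw [mem_inf, mem_VV, mem_map]
    constructor
    · rintro ⟨⟨v, rfl⟩, h⟩
      exact ⟨v, ⟨v.2, (inV_mem_centralizer_bar hA).1 h⟩, rfl⟩
    · rintro ⟨v, h, rfl⟩
      exact ⟨⟨v, rfl⟩, (inV_mem_centralizer_bar hA).2 h.2⟩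
  rw [h1, card_map_of_injective (inV_injective V), Coprime.card_subgroupOf inf_le_left]

theorem card_bar [Finite G] (hA : A ≤ normalizer (V : Set G)) :
    Nat.card A = Nat.card ↥(A ⊓ centralizer (V : Set G)) * Nat.card (bar V A) := by
  have h1 : A = (A.subgroupOf (normalizer (V : Set G))).map (normalizer (V : Set G)).subtype := by
    rw [subgroupOf_map_subtype, inf_eq_left.2 hA]
  have h2 : Nat.card A = Nat.card (A.subgroupOf (normalizer (V : Set G))) :=
    (Coprime.card_subgroupOf hA).symm
  rw [h2, bar]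
  set A' := A.subgroupOf (normalizer (V : Set G)) with hA'
  have h3 : Nat.card A' = Nat.card ↥(A' ⊓ (th V).ker) * Nat.card (A'.map (th V)) := by
    have h4 := Subgroup.relIndex_ker (K := A') (th V)
    rw [← h4, ← inf_relIndex_left]
    exact CoresQuot.card_eq_mul_relIndex inf_le_left
  rw [h3]
  congr 1
  have h5 : A' ⊓ (th V).ker = (A ⊓ centralizer (V : Set G)).subgroupOf (normalizer (V : Set G)) := by
    ext x
    rw [mem_inf, MonoidHom.mem_ker, th_eq_one_iff]
    rfl
  rw [h5, Coprime.card_subgroupOf (inf_le_left.trans hA)]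

theorem bar_commutator_le (hA : A ≤ normalizer (V : Set G)) (hB : B ≤ normalizer (V : Set G)) :
    ⁅bar V A, bar V B⁆ = bar V ⁅A, B⁆ := by
  rw [bar, bar, ← map_commutator, bar]
  congr 1
  apply Subgroup.map_injective (normalizer (V : Set G)).subtype_injective
  rw [map_commutator, subgroupOf_map_subtype, subgroupOf_map_subtype, subgroupOf_map_subtype,
    inf_eq_left.2 hA, inf_eq_left.2 hB, inf_eq_left.2]
  rw [commutator_le]
  intro a ha b hb
  rw [commutatorElement_def]
  exact mul_mem (mul_mem (mul_mem (hA ha) (hB hb)) (inv_mem (hA ha))) (inv_mem (hB hb))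

end H13.Hol
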