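import Mathlib
import Cfsg.Prelude.Def_PLocal
import Cfsg.Agent.Lib.H13.Hol
import Cfsg.Agent.Lib.H13.FFPlane
import Cfsg.Agent.Lib.H13.PSolvMap
import Cfsg.Agent.Lib.H13.Subnormal
import Cfsg.Agent.Lib.H66.PRed

set_option autoImplicit false

/-!
FF theory in the holomorph.
-/

namespace H13.Hol2

open Subgroup H13.Hol H13.FF6 H13.FF7 H13.Trans H13.FFX
open scoped commutatorElement

universe u

variable {G : Type u} [Group G] {V A B K X R H Q : Subgroup G} {p q : ℕ}

/-- maximal elementary abelian subgroups are best offenders -/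
theorem bo_of_max [Finite G] (hV : Cfsg.IsElementaryAbelian p V) (hVK : V ≤ K) (hAK : A ≤ K)
    (hA : Cfsg.IsElementaryAbelian p A)
    (hmax : ∀ B ≤ K, Cfsg.IsElementaryAbelian p B → Nat.card B ≤ Nat.card A) :
    Cfsg.IsBestOffenderOn p V A := by
  have hAc := ElemAb.le_centralizer hA
  refine ⟨fun B hB => ?_, ?_, ?_⟩
  · have h1 : B ≤ centralizer ((V ⊓ centralizer (B : Set G) : Subgroup G) : Set G) :=
      le_centralizer_iff.1 inf_le_right
    have h2 : Cfsg.IsElementaryAbelian p (B ⊔ (V ⊓ centralizer (B : Set G))) :=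
      ElemAb.sup (ElemAb.of_le hA hB) (ElemAb.of_le hV inf_le_left) h1
    have h3 := hmax _ (sup_le (hB.trans hAK) (inf_le_left.trans hVK)) h2
    have h4 := Thompson.card_sup_mul_card_inf (A := B) (B := V ⊓ centralizer (B : Set G))
      (h1.trans (centralizer_le_normalizer _))
    have h5 : Nat.card ↥(B ⊓ (V ⊓ centralizer (B : Set G))) ≤
        Nat.card ↥(V ⊓ centralizer (A : Set G)) := by
      apply card_le_of_le
      refine le_inf (inf_le_right.trans inf_le_left) ?_
      exact inf_le_left.trans (hB.trans hAc)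
    rw [← h4]
    exact Nat.mul_le_mul h3 h5
  · rw [(commutator_eq_bot_iff_le_centralizer).2 hAc]
    exact bot_le
  · intro a ha
    rw [hA.2 a ha]
    exact one_mem _

theorem card_val_bar [Finite G] (hA : A ≤ normalizer (V : Set G)) :
    Nat.card A * Nat.card ↥(V ⊓ centralizer (A : Set G)) =
      Nat.card ↥(A ⊓ centralizer (V : Set G)) * (Nat.card (bar V A) *
        Nat.card ↥(VV V ⊓ centralizer (bar V A : Set (Γ V)))) := by
  rw [card_fix hA, card_bar hA, mul_assoc]

theorem bo_bar [Finite G] (hA : A ≤ normalizer (V : Set G)) (h : Cfsg.IsBestOffenderOn p V A) :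
    Cfsg.IsBestOffenderOn p (VV V) (bar V A) := by
  refine ⟨?_, ?_, ?_⟩
  · intro B' hB'
    let B : Subgroup G := ((B'.comap (th V)) ⊓ A.subgroupOf (normalizer (V : Set G))).map
      (normalizer (V : Set G)).subtype
    have hB : ∀ {b : G}, b ∈ B ↔ b ∈ A ∧ ∃ n : normalizer (V : Set G), (n : G) = b ∧ th V n ∈ B' := by
      intro b
      constructor
      · rintro ⟨n, hn, rfl⟩
        exact ⟨hn.2, n, rfl, hn.1⟩
      · rintro ⟨h1, n, rfl, h2⟩
        exact ⟨n, ⟨h2, h1⟩, rfl⟩
    have hBA : B ≤ A := fun b hb => (hB.1 hb).1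
    have hBN : B ≤ normalizer (V : Set G) := hBA.trans hA
    have hbar : bar V B = B' := by
      ext x
      constructor
      · intro hx
        obtain ⟨n, hn, rfl⟩ := mem_bar.1 hx
        obtain ⟨h1, m, hm, h2⟩ := hB.1 hn
        have : m = n := Subtype.ext hm
        rwa [← this]
      · intro hx
        obtain ⟨n, hn, rfl⟩ := mem_bar.1 (hB' hx)
        exact th_mem_bar (hB.2 ⟨hn, n, rfl, hx⟩)
    have hinf : B ⊓ centralizer (V : Set G) = A ⊓ centralizer (V : Set G) := by
      apply le_antisymm (inf_le_inf_right _ hBA)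
      intro x hx
      obtain ⟨h1, h2⟩ := mem_inf.1 hx
      refine mem_inf.2 ⟨hB.2 ⟨h1, ⟨x, hA h1⟩, rfl, ?_⟩, h2⟩
      have h3 : th V ⟨x, hA h1⟩ = 1 := th_eq_one_iff.2 h2
      rw [h3]
      exact one_mem _
    have h1 := h.1 B hBA
    rw [card_val_bar hA, card_val_bar hBN, hbar, hinf] at h1
    exact Nat.le_of_mul_le_mul_left h1 Nat.card_pos
  · rw [bar_commutator_le hA hA]
    intro x hx
    obtain ⟨n, hn, rfl⟩ := mem_bar.1 hx
    exact mem_centralizer_VV.2 (h.2.1 hn)
  · intro x hx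
    obtain ⟨n, hn, rfl⟩ := mem_bar.1 hx
    rw [← map_pow]
    exact mem_centralizer_VV.2 (h.2.2 _ hn)

theorem isPSolvable_bar [hp : Fact p.Prime] (hK : K ≤ normalizer (V : Set G))
    (hsol : Cfsg.IsPSolvable p K) : Cfsg.IsPSolvable p (bar V K) := by
  have h1 : Cfsg.IsPSolvable p (K.subgroupOf (normalizer (V : Set G))) :=
    PSolvMap.of_equiv hsol (subgroupOfEquivOfLe hK).symm
  exact PSolvMap.map h1 (th V)

theorem ff_bar [Finite G] [hp : Fact p.Prime] (hV : Cfsg.IsElementaryAbelian p V)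
    (hK : K ≤ normalizer (V : Set G)) (hsol : Cfsg.IsPSolvable p K)
    (hO : Cfsg.pCore p (bar V K) = ⊥) :
    FF2.FF p (VV V) (bar V K) ((Cfsg.pPrimeCore p (bar V K)).map (bar V K).subtype) :=
  FF2.ff_of (isElementaryAbelian_VV hV) bar_le_normalizer bar_inf_centralizer
    (H66.PRed.centralizer_pPrimeCore_le (isPSolvable_bar hK hsol) hO)

theorem isPGroup_bar (hX : IsPGroup q X) : IsPGroup q (bar V X) := by
  intro x
  obtain ⟨x, hx⟩ := x
  obtain ⟨n, hn, rfl⟩ := mem_bar.1 hx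
  obtain ⟨k, hk⟩ := hX ⟨n, hn⟩
  refine ⟨k, ?_⟩
  apply Subtype.ext
  change th V n ^ q ^ k = 1
  rw [← map_pow]
  have h0 : (n : G) ^ q ^ k = 1 := congrArg Subtype.val hk
  have h1 : n ^ q ^ k = 1 := Subtype.ext h0
  rw [h1, map_one]

theorem card_bar_dvd [Finite G] (hA : A ≤ normalizer (V : Set G)) :
    Nat.card (bar V A) ∣ Nat.card A := by
  rw [card_bar hA]
  exact dvd_mul_left _ _

theorem bar_normalizer (hXK : X ≤ normalizer (K : Set G)) :
    bar V X ≤ normalizer (bar V K : Set (Γ V)) := by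
  intro x hx
  have key : ∀ x ∈ bar V X, ∀ y ∈ bar V K, x * y * x⁻¹ ∈ bar V K := by
    intro x hx y hy
    obtain ⟨n, hn, rfl⟩ := mem_bar.1 hx
    obtain ⟨m, hm, rfl⟩ := mem_bar.1 hy
    rw [← map_inv, ← map_mul, ← map_mul]
    exact th_mem_bar ((mem_normalizer_iff.1 (hXK hn) m).1 hm)
  apply Norm.mem_normalizer_of (key x hx)
  intro y hy
  have := key x⁻¹ (inv_mem hx) y hy
  rwa [inv_inv] at this

theorem data_bar [Finite G] [hp : Fact p.Prime]
    (hV : Cfsg.IsElementaryAbelian p V)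
    (hK : K ≤ normalizer (V : Set G)) (hsol : Cfsg.IsPSolvable p K)
    (hO : Cfsg.pCore p (bar V K) = ⊥) (hX : IsPGroup q X) (hq : (Nat.card K).Coprime q)
    (hXK : X ≤ normalizer (K : Set G)) :
    Data p q (VV V) (bar V K) ((Cfsg.pPrimeCore p (bar V K)).map (bar V K).subtype)
      (bar V X) where
  ff := ff_bar hV hK hsol hO
  hX := isPGroup_bar hX
  hq := Nat.Coprime.coprime_dvd_left (card_bar_dvd hK) hq
  nV := bar_le_normalizer
  nH := bar_normalizer hXK
  nQ := (bar_normalizer hXK).trans (Cores.normalizer_le_normalizer_map_pPrimeCore _)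

/-- fixed points of `X` lift -/
theorem fixed_lift [Finite G] [hqf : Fact q.Prime]
    (hK : K ≤ normalizer (V : Set G)) (hX : IsPGroup q X) (hq : (Nat.card K).Coprime q)
    (hXV : X ≤ normalizer (V : Set G)) (hXK : X ≤ normalizer (K : Set G)) :
    bar V K ⊓ centralizer (bar V X : Set (Γ V)) ≤ bar V (K ⊓ centralizer (X : Set G)) := by
  intro y hy
  obtain ⟨h1, h2⟩ := mem_inf.1 hy
  obtain ⟨k, hk, rfl⟩ := mem_bar.1 h1
  set C := K ⊓ centralizer (V : Set G) with hC
  have hXC : X ≤ normalizer (C : Set G) :=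
    Norm.le_normalizer_inf hXK (Norm.le_normalizer_centralizer hXV)
  have hKC : K ≤ normalizer (C : Set G) :=
    Norm.le_normalizer_inf le_normalizer (Norm.le_normalizer_centralizer hK)
  have hCq : (Nat.card C).Coprime q :=
    Nat.Coprime.coprime_dvd_left (card_dvd_of_le inf_le_left) hq
  have hcomm : ∀ x ∈ X, ⁅(k : G), x⁆ ∈ C := by
    intro x hx
    refine mem_inf.2 ⟨?_, ?_⟩
    · rw [commutatorElement_def, mul_assoc, mul_assoc]
      refine mul_mem hk ?_
      rw [← mul_assoc]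
      exact (mem_normalizer_iff.1 (hXK hx) _).1 (inv_mem hk)
    · have h3 := mem_centralizer_iff.1 h2 (th V ⟨x, hXV hx⟩) (th_mem_bar hx)
      have h4 : th V ⁅k, (⟨x, hXV hx⟩ : normalizer (V : Set G))⁆ = 1 := by
        rw [map_commutatorElement, commutatorElement_eq_one_iff_mul_comm]
        exact h3.symm
      exact th_eq_one_iff.1 h4
  obtain ⟨c, hc, n, hn, hkn⟩ := Coprime.exists_mul_centralizer hX hCq hXC (hKC hk) hcomm
  obtain ⟨hcK, hcV⟩ := mem_inf.1 hc
  have hnK : n ∈ K := by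
    have : n = c⁻¹ * k := by rw [hkn]; group
    rw [this]
    exact mul_mem (inv_mem hcK) hk
  have h5 : th V k = th V ⟨n, hK hnK⟩ := by
    have h6 : k = (⟨c, hK hcK⟩ : normalizer (V : Set G)) * ⟨n, hK hnK⟩ := Subtype.ext hkn
    have h7 : th V ⟨c, hK hcK⟩ = 1 := th_eq_one_iff.2 hcV
    rw [h6, map_mul, h7, one_mul]
  rw [h5]
  exact th_mem_bar (mem_inf.2 ⟨hnK, hn⟩)

theorem mem_of_bar_le (hA : A ≤ normalizer (V : Set G)) (h : bar V A ≤ bar V R)
    (hC : ∀ a ∈ A, ∀ r ∈ R, a * r⁻¹ ∈ centralizer (V : Set G) → a * r⁻¹ ∈ R) : A ≤ R := by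
  intro a ha
  obtain ⟨n, hn, hna⟩ := mem_bar.1 (h (th_mem_bar (n := ⟨a, hA ha⟩) ha))
  have h1 : th V ((⟨a, hA ha⟩ : normalizer (V : Set G)) * n⁻¹) = 1 := by
    rw [map_mul, map_inv, hna, mul_inv_cancel]
  have h2 := hC a ha n hn (th_eq_one_iff.1 h1)
  have : a = a * (n : G)⁻¹ * n := by group
  rw [this]
  exact mul_mem h2 hn

/-- components are subnormal -/
theorem isSubnormal_comp [Finite G] [hp : Fact p.Prime] (h : FF2.FF p V H Q) (hAH : A ≤ H)
    (hA : TV p V A) : ((comp Q A).subgroupOf H).IsSubnormal := by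
  set J : Subgroup G := ⨆ B : {B : Subgroup G // B ≤ H ∧ TV p V B}, (B : Subgroup G) with hJ
  have hJH : J ≤ H := iSup_le (fun B => B.2.1)
  have hHJ : H ≤ normalizer (J : Set G) := by
    have key : ∀ g ∈ H, ∀ j ∈ J, g * j * g⁻¹ ∈ J := by
      intro g hg j hj
      have h1 : J.map (MulAut.conj g).toMonoidHom ≤ J := by
        rw [hJ, Subgroup.map_iSup]
        refine iSup_le (fun B => ?_)
        have hBH : (B : Subgroup G).map (MulAut.conj g).toMonoidHom ≤ H := by
          rintro _ ⟨b, hb, rfl⟩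
          exact mul_mem (mul_mem hg (B.2.1 hb)) (inv_mem hg)
        exact le_iSup (fun B : {B : Subgroup G // B ≤ H ∧ TV p V B} => (B : Subgroup G))
          ⟨_, hBH, B.2.2.conj (h.hHV hg)⟩
      exact h1 ⟨j, hj, rfl⟩
    intro g hg
    apply Norm.mem_normalizer_of (key g hg)
    intro y hy
    have := key g⁻¹ (inv_mem hg) y hy
    rwa [inv_inv] at this
  have hAJ : A ≤ J := le_iSup (fun B : {B : Subgroup G // B ≤ H ∧ TV p V B} => (B : Subgroup G))
    ⟨A, hAH, hA⟩
  have hEJ : comp Q A ≤ J := by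
    refine sup_le ?_ hAJ
    have h1 : ⁅Q, A⁆ ≤ ⁅H, J⁆ := commutator_mono h.hQH hAJ
    refine h1.trans ?_
    rw [commutator_comm]
    exact le_normalizer_iff_commutator_le_left.1 hHJ
  have hJE : J ≤ normalizer ((comp Q A : Subgroup G) : Set G) := by
    refine iSup_le (fun B => ?_)
    have hB : (B : Subgroup G) ≤ comp Q B := le_sup_right
    refine hB.trans ?_
    rcases dichotomy h hAH hA B.2.1 B.2.2 with h1 | ⟨-, -, h1⟩
    · rw [h1]
      exact le_normalizer
    · rw [commutator_comm, commutator_eq_bot_iff_le_centralizer] at h1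
      exact h1.trans (centralizer_le_normalizer _)
  refine Subnormal.isSubnormal_of_subgroupOf (K := J.subgroupOf H) ?_ ?_ ?_
  · intro x hx
    exact hEJ hx
  · have hn : (((comp Q A).subgroupOf H).subgroupOf (J.subgroupOf H)).Normal := by
      constructor
      intro x hx g
      exact (mem_normalizer_iff.1 (hJE g.2) x).1 hx
    exact hn.isSubnormal
  · have hn : (J.subgroupOf H).Normal := by
      constructor
      intro x hx g
      exact (mem_normalizer_iff.1 (hHJ g.2) x).1 hx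
    exact hn.isSubnormal

/-- the Sylow subgroup of a component -/
theorem exists_sylow_comp [Finite G] [hp : Fact p.Prime] (h : FF2.FF p V H Q) (hAH : A ≤ H)
    (hA : TV p V A) (S : Sylow p H) {E : Subgroup G} (hE : E = comp Q A) :
    ∃ P : Sylow p E, (P : Subgroup E).map E.subtype ≤ (S : Subgroup H).map H.subtype := by
  have hEH : E ≤ H := by rw [hE]; exact comp_le_H h hAH
  have hsub : (E.subgroupOf H).IsSubnormal := by
    rw [hE]
    exact isSubnormal_comp h hAH hA
  obtain ⟨P, hP⟩ := H11.SubnormalMore.exists_sylow_eq_subgroupOf p (E.subgroupOf H) hsub S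
  let e : E.subgroupOf H ≃* E := subgroupOfEquivOfLe hEH
  refine ⟨P.mapSurjective (f := e.toMonoidHom) e.surjective, ?_⟩
  rintro _ ⟨_, ⟨y, hy, rfl⟩, rfl⟩
  have hy' : y ∈ (P : Subgroup (E.subgroupOf H)) := hy
  rw [hP] at hy'
  exact ⟨(y : H), hy', rfl⟩

end H13.Hol2
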