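import Mathlib
import Cfsg.Prelude.Def_PLocal
import Cfsg.Agent.Lib.H13.Hol2
import Cfsg.Agent.Lib.H13.Omega
import Cfsg.Agent.Lib.H13.Quot
import Cfsg.Agent.Lib.H13.SylowN

set_option autoImplicit false

/-!
Thompson factorization in `p`-solvable groups: the failure case.
-/

namespace H13.FFThom

open Subgroup H13.Hol H13.Hol2 H13.FF6 H13.FF7 H13.Trans H13.FFX
open scoped commutatorElement
open Matrix (SpecialLinearGroup)

universe u

variable {G : Type u} [Group G] {V A B K X R H Q : Subgroup G} {p q : ℕ}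

theorem pCore_eq_bot_of {L : Type*} [Group L] {H' : Type*} [Group H'] (f : L →* H')
    (hf : Function.Surjective f)
    (C : Subgroup L) [C.Normal] (hC : ∀ x, f x = 1 ↔ x ∈ C) (h : Cfsg.pCore p (L ⧸ C) = ⊥) :
    Cfsg.pCore p H' = ⊥ := by
  rw [Cores.pCore_eq_bot_iff]
  intro N hN hNp
  have h1 : (N.comap f).map (QuotientGroup.mk' C) ≤ Cfsg.pCore p (L ⧸ C) := by
    apply Cores.le_pCore
    · exact (hN.comap f).map _ (QuotientGroup.mk'_surjective C)
    · rintro ⟨_, x, hx, rfl⟩
      obtain ⟨k, hk⟩ := hNp ⟨f x, hx⟩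
      refine ⟨k, ?_⟩
      apply Subtype.ext
      change (QuotientGroup.mk' C x) ^ p ^ k = 1
      rw [← map_pow]
      apply (QuotientGroup.eq_one_iff _).2
      rw [← hC, map_pow]
      exact congrArg Subtype.val hk
  rw [eq_bot_iff]
  intro n hn
  obtain ⟨x, rfl⟩ := hf n
  have h2 := h1 ⟨x, hn, rfl⟩
  rw [h, mem_bot] at h2
  exact (hC x).2 ((QuotientGroup.eq_one_iff x).1 h2)

/-- the action map to the holomorph -/
def fK (hK : K ≤ normalizer (V : Set G)) : K →* bar V K :=
  ((th V).comp (inclusion hK)).codRestrict (bar V K) (fun k => th_mem_bar k.2)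

theorem fK_coe (hK : K ≤ normalizer (V : Set G)) (k : K) :
    ((fK hK k : bar V K) : Γ V) = th V ⟨k, hK k.2⟩ := rfl

theorem fK_surjective (hK : K ≤ normalizer (V : Set G)) : Function.Surjective (fK hK) := by
  rintro ⟨x, hx⟩
  obtain ⟨n, hn, rfl⟩ := mem_bar.1 hx
  exact ⟨⟨n, hn⟩, rfl⟩

theorem fK_eq_one (hK : K ≤ normalizer (V : Set G)) {k : K} :
    fK hK k = 1 ↔ (k : G) ∈ centralizer (V : Set G) := by
  rw [← Subtype.coe_inj, fK_coe]
  exact th_eq_one_iff

theorem pCore_bar_top [hn : V.Normal] (h : Cfsg.pCore p (G ⧸ centralizer (V : Set G)) = ⊥) :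
    Cfsg.pCore p (bar V (⊤ : Subgroup G)) = ⊥ := by
  have hK : (⊤ : Subgroup G) ≤ normalizer (V : Set G) := by rw [normalizer_eq_top]
  let f : G →* bar V (⊤ : Subgroup G) := (fK hK).comp topEquiv.symm.toMonoidHom
  refine pCore_eq_bot_of f ((fK_surjective hK).comp topEquiv.symm.surjective)
    (centralizer (V : Set G)) ?_ h
  intro x
  exact fK_eq_one hK

theorem pCore_bar_sub {V₀ : Subgroup K} [hn : V₀.Normal]
    (h : Cfsg.pCore p (K ⧸ centralizer (V₀ : Set K)) = ⊥)
    (hK : K ≤ normalizer ((V₀.map K.subtype : Subgroup G) : Set G)) :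
    Cfsg.pCore p (bar (V₀.map K.subtype) K) = ⊥ := by
  refine pCore_eq_bot_of (fK hK) (fK_surjective hK) (centralizer (V₀ : Set K)) ?_ h
  intro x
  rw [fK_eq_one, mem_centralizer_iff, mem_centralizer_iff]
  constructor
  · intro h v hv
    exact Subtype.ext (h v ⟨v, hv, rfl⟩)
  · rintro h _ ⟨v, hv, rfl⟩
    exact congrArg Subtype.val (h v hv)

theorem pCore_omegaClosure [Finite G] [hp : Fact p.Prime] :
    Cfsg.pCore p (G ⧸ centralizer ((Omega.omegaClosure p G : Subgroup G) : Set G)) = ⊥ := by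
  rw [Quot.pCore_quotient_eq_bot_iff]
  exact Omega.le_centralizer_omegaClosure (fun S => Quot.comap_pCore_le_sylow_sup _ S)

/-- exactness -/
theorem card_eq_of_bo [Finite G] [hp : Fact p.Prime] [hn : V.Normal]
    (hV : Cfsg.IsElementaryAbelian p V) (hsol : Cfsg.IsPSolvable p G)
    (hO : Cfsg.pCore p (G ⧸ centralizer (V : Set G)) = ⊥) (hA : Cfsg.IsBestOffenderOn p V A) :
    Nat.card A * Nat.card ↥(V ⊓ centralizer (A : Set G)) =
      Nat.card ↥(A ⊓ centralizer (V : Set G)) * Nat.card V := by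
  have hK : (⊤ : Subgroup G) ≤ normalizer (V : Set G) := by rw [normalizer_eq_top]
  have hff := ff_bar hV hK (H37.PSolv.subgroup hsol ⊤) (pCore_bar_top hO)
  have h1 := FF2.bo_val_eq hff (bar_mono le_top) (bo_bar (le_top.trans hK) hA)
  have h2 : Nat.card (bar V A) * Nat.card ↥(VV V ⊓ centralizer (bar V A : Set (Γ V))) =
      Nat.card (VV V) := h1
  rw [card_val_bar (le_top.trans hK), h2, card_VV]

/-- the action map on the whole group -/
def thG (V : Subgroup G) [V.Normal] : G →* Γ V :=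
  (th V).comp ((MonoidHom.id G).codRestrict (normalizer (V : Set G))
    (fun g => by rw [normalizer_eq_top]; exact mem_top g))

theorem thG_eq (V : Subgroup G) [V.Normal] (n : normalizer (V : Set G)) :
    thG V (n : G) = th V n := rfl

theorem mem_bar_iff_thG [V.Normal] {x : Γ V} : x ∈ bar V A ↔ ∃ a ∈ A, thG V a = x := by
  rw [mem_bar]
  constructor
  · rintro ⟨n, hn, rfl⟩
    exact ⟨n, hn, rfl⟩
  · rintro ⟨a, ha, rfl⟩
    exact ⟨⟨a, by rw [normalizer_eq_top]; exact mem_top a⟩, ha, rfl⟩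

theorem thG_ker (V : Subgroup G) [V.Normal] : (thG V).ker = centralizer (V : Set G) := by
  ext x
  rw [MonoidHom.mem_ker]
  exact th_eq_one_iff

theorem quot_equiv {H' : Type*} [Group H'] (f : G →* H') (E' : Subgroup H')
    (hE' : E' ≤ f.range) (C : Subgroup G) (hC : f.ker = C) :
    ∃ hn : (C.subgroupOf (E'.comap f)).Normal,
      Nonempty (((E'.comap f : Subgroup G) ⧸ C.subgroupOf (E'.comap f)) ≃* E') := by
  let g : (E'.comap f : Subgroup G) →* E' := f.subgroupComap E'
  have hg : Function.Surjective g := by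
    rintro ⟨y, hy⟩
    obtain ⟨x, rfl⟩ := hE' hy
    exact ⟨⟨x, hy⟩, rfl⟩
  have hker : g.ker = C.subgroupOf (E'.comap f) := by
    ext x
    rw [MonoidHom.mem_ker, mem_subgroupOf, ← hC, MonoidHom.mem_ker]
    exact Subtype.ext_iff
  have hn : (C.subgroupOf (E'.comap f)).Normal := by
    rw [← hker]
    infer_instance
  exact ⟨hn, ⟨(QuotientGroup.quotientMulEquivOfEq hker.symm).trans
    (QuotientGroup.quotientKerEquivOfSurjective g hg)⟩⟩

/-- a minimal offender inside the image of a noncentral best offender -/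
theorem exists_min_bar [Finite G] [hp : Fact p.Prime] (hV : Cfsg.IsElementaryAbelian p V)
    (hK : K ≤ normalizer (V : Set G)) (hsol : Cfsg.IsPSolvable p K)
    (hO : Cfsg.pCore p (bar V K) = ⊥) (hAK : A ≤ K) (hA : Cfsg.IsBestOffenderOn p V A)
    (hAV : ¬ A ≤ centralizer (V : Set G)) :
    ∃ A' ≤ bar V A, FF2.IsMin p (VV V) A' := by
  refine FF8.exists_min (ff_bar hV hK hsol hO) (bar_mono hAK) (bo_bar (hAK.trans hK) hA) ?_
  intro h
  apply hAV
  intro a ha
  have h1 := th_mem_bar (V := V) (n := ⟨a, hK (hAK ha)⟩) ha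
  rw [h, mem_bot] at h1
  exact th_eq_one_iff.1 h1

/-- the image of a best offender normalizes every component -/
theorem bar_le_normalizer_comp [Finite G] [hp : Fact p.Prime] (h : FF2.FF p V H Q)
    (hAH : A ≤ H) (hA : TV p V A) (hBH : B ≤ H) (hB : Cfsg.IsBestOffenderOn p V B) :
    B ≤ normalizer ((comp Q A : Subgroup G) : Set G) := by
  obtain ⟨k, D, hD, -, hsup⟩ := FF8.exists_decomp h _ B le_rfl hBH hB
  rw [← hsup]
  refine iSup_le (fun i => ?_)
  have hDH : D i ≤ H := (hD i).1.trans hBH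
  have hD' : D i ≤ comp Q (D i) := le_sup_right
  refine hD'.trans ?_
  rcases dichotomy h hAH hA hDH (TV.of_min h hDH (hD i).2) with h1 | ⟨-, -, h1⟩
  · rw [h1]
    exact le_normalizer
  · rw [commutator_comm, commutator_eq_bot_iff_le_centralizer] at h1
    exact h1.trans (centralizer_le_normalizer _)

theorem centralizer_iSup_set {ι : Sort*} (Z : ι → Subgroup G) :
    centralizer (⨆ i, (Z i : Set G)) = centralizer ((⨆ i, Z i : Subgroup G) : Set G) := by
  rw [Norm.centralizer_iSup]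
  ext x
  rw [mem_iInf, mem_centralizer_iff]
  constructor
  · intro h i
    rw [mem_centralizer_iff]
    intro y hy
    exact h y (by rw [Set.iSup_eq_iUnion]; exact Set.mem_iUnion.2 ⟨i, hy⟩)
  · intro h y hy
    rw [Set.iSup_eq_iUnion] at hy
    obtain ⟨i, hi⟩ := Set.mem_iUnion.1 hy
    exact mem_centralizer_iff.1 (h i) y hi

end H13.FFThom
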