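import Mathlib
import Cfsg.Prelude.Def_PLocal
import Cfsg.Agent.Lib.H26.Components
import Cfsg.Agent.Lib.H55.BaerSuzuki
import Cfsg.Agent.Lib.H4.Burnside

set_option autoImplicit false

/-!
Elementary facts on quasisimple subgroups, used for the `P(G,V)` theorem.
-/

namespace H13.PGV

open Subgroup
open scoped commutatorElement

universe u v

variable {G : Type u} [Group G]

/-- perfect, and every normal subgroup is central or everything -/
structure QS (K : Subgroup G) : Prop where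
  perf : ⁅K, K⁆ = K
  qs : ∀ N : Subgroup G, N ≤ K → (∀ k ∈ K, ∀ n ∈ N, k * n * k⁻¹ ∈ N) → N = K ∨ ∀ n ∈ N, ∀ k ∈ K, n * k = k * n
  ne : ∃ y ∈ K, ∃ k ∈ K, y * k ≠ k * y

theorem QS.of_isQuasisimple {K : Subgroup G} (h : Cfsg.IsQuasisimple K) : QS K where
  perf := by
    have h1 := H26.Quasisimple.commutator_eq_top h
    have h2 := congrArg (Subgroup.map K.subtype) h1
    rw [Subgroup.map_subtype_commutator, ← MonoidHom.range_eq_map, Subgroup.range_subtype] at h2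
    exact h2
  qs := by
    intro N hN hn
    have h1 : (N.subgroupOf K).Normal := by
      refine ⟨fun n hn' k => ?_⟩
      exact hn k k.2 n hn'
    rcases H26.Components.normal_eq_or_le_center_of_le h h1 hN with h2 | h2
    · exact Or.inl h2
    · right
      intro n hn' k hk
      rw [← commutatorElement_eq_one_iff_mul_comm]
      have h3 : ⁅n, k⁆ ∈ ⁅N, K⁆ := Subgroup.commutator_mem_commutator hn' hk
      rwa [h2, Subgroup.mem_bot] at h3
  ne := by
    by_contra hcon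
    push Not at hcon
    exact H26.Quasisimple.not_isMulCommutative h ⟨⟨fun a b => Subtype.ext (hcon a a.2 b b.2)⟩⟩

variable {K : Subgroup G}

/-- noncentral element -/
def Nc (K : Subgroup G) (y : G) : Prop := y ∈ K ∧ ∃ k ∈ K, y * k ≠ k * y

theorem Nc.mem {y : G} (h : Nc K y) : y ∈ K := h.1

theorem not_nc {y : G} (hy : y ∈ K) (h : ¬ Nc K y) : ∀ k ∈ K, y * k = k * y := by
  intro k hk
  by_contra hcon
  exact h ⟨hy, k, hk, hcon⟩

/-- a subgroup of `K`, normal in `K`, with a noncentral element is `K` -/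
theorem QS.le_of_nc (hK : QS K) {y : G} (hy : Nc K y) {M : Subgroup G} (hM : ∀ g ∈ K, g * y * g⁻¹ ∈ M) : K ≤ M := by
  let N : Subgroup G := Subgroup.closure {x | ∃ g ∈ K, g * y * g⁻¹ = x}
  have h1 : N ≤ K := by
    rw [Subgroup.closure_le]
    rintro _ ⟨g, hg, rfl⟩
    exact mul_mem (mul_mem hg hy.1) (inv_mem hg)
  have h2 : ∀ k ∈ K, ∀ n ∈ N, k * n * k⁻¹ ∈ N := by
    intro k hk n hn
    refine Subgroup.closure_induction (p := fun n _ => k * n * k⁻¹ ∈ N) ?_ ?_ ?_ ?_ hn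
    · rintro _ ⟨g, hg, rfl⟩
      refine Subgroup.subset_closure ⟨k * g, mul_mem hk hg, ?_⟩
      group
    · rw [mul_one, mul_inv_cancel]
      exact one_mem _
    · intro a b _ _ ha hb
      have e : k * (a * b) * k⁻¹ = (k * a * k⁻¹) * (k * b * k⁻¹) := by group
      rw [e]
      exact mul_mem ha hb
    · intro a _ ha
      have e : k * a⁻¹ * k⁻¹ = (k * a * k⁻¹)⁻¹ := by group
      rw [e]
      exact inv_mem ha
  rcases hK.qs N h1 h2 with h3 | h3
  · rw [← h3, Subgroup.closure_le]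
    rintro _ ⟨g, hg, rfl⟩
    exact hM g hg
  · exfalso
    obtain ⟨hyK, k, hk, hne⟩ := hy
    apply hne
    refine h3 y (Subgroup.subset_closure ⟨1, one_mem _, ?_⟩) k hk
    group

/-- if all `[k, x]` are central in `K` then `x` centralizes `K` -/
theorem QS.comm_of_comm (hK : QS K) {x : G} (hx : x ∈ normalizer (K : Set G))
    (h : ∀ k ∈ K, ∀ l ∈ K, (x * k * x⁻¹ * k⁻¹) * l = l * (x * k * x⁻¹ * k⁻¹)) : ∀ k ∈ K, x * k = k * x := by
  -- `k ↦ [x,k]` is a homomorphism of `K` into the centre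
  let S : Subgroup G :=
    { carrier := {k | k ∈ K ∧ x * k * x⁻¹ * k⁻¹ = 1}
      one_mem' := ⟨one_mem _, by group⟩
      mul_mem' := by
        rintro a b ⟨ha, ha'⟩ ⟨hb, hb'⟩
        refine ⟨mul_mem ha hb, ?_⟩
        have e1 : x * a * x⁻¹ = a := by rwa [mul_inv_eq_one] at ha'
        have e2 : x * b * x⁻¹ = b := by rwa [mul_inv_eq_one] at hb'
        have e : x * (a * b) * x⁻¹ * (a * b)⁻¹ = (x * a * x⁻¹) * (x * b * x⁻¹) * (a * b)⁻¹ := by group
        rw [e, e1, e2, mul_inv_cancel]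
      inv_mem' := by
        rintro a ⟨ha, ha'⟩
        refine ⟨inv_mem ha, ?_⟩
        have e1 : x * a * x⁻¹ = a := by rwa [mul_inv_eq_one] at ha'
        have e : x * a⁻¹ * x⁻¹ * a⁻¹⁻¹ = (x * a * x⁻¹)⁻¹ * a := by group
        rw [e, e1, inv_mul_cancel] }
  have hS : K ≤ S := by
    conv_lhs => rw [← hK.perf]
    rw [Subgroup.commutator_le]
    intro a ha b hb
    refine ⟨?_, ?_⟩
    · rw [← hK.perf]
      exact Subgroup.commutator_mem_commutator ha hb
    · -- x a x⁻¹ = z a, x b x⁻¹ = w b with z, w central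
      obtain ⟨z, hz⟩ : ∃ z, z = x * a * x⁻¹ * a⁻¹ := ⟨_, rfl⟩
      obtain ⟨w, hw⟩ : ∃ w, w = x * b * x⁻¹ * b⁻¹ := ⟨_, rfl⟩
      have hzc : ∀ l ∈ K, z * l = l * z := by
        intro l hl
        rw [hz]
        exact h a ha l hl
      have hwc : ∀ l ∈ K, w * l = l * w := by
        intro l hl
        rw [hw]
        exact h b hb l hl
      have ea : x * a * x⁻¹ = z * a := by
        rw [hz]
        group
      have eb : x * b * x⁻¹ = w * b := by
        rw [hw]
        group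
      have hzK : z ∈ K := by
        rw [hz]
        exact mul_mem ((mem_normalizer_iff.1 hx a).1 ha) (inv_mem ha)
      have e : x * ⁅a, b⁆ * x⁻¹ * ⁅a, b⁆⁻¹ =
          (x * a * x⁻¹) * (x * b * x⁻¹) * (x * a * x⁻¹)⁻¹ * (x * b * x⁻¹)⁻¹ * ⁅a, b⁆⁻¹ := by
        rw [commutatorElement_def]
        group
      rw [e, ea, eb, commutatorElement_def, mul_inv_rev, mul_inv_rev]
      have e1 : z * a * (w * b) * (a⁻¹ * z⁻¹) * (b⁻¹ * w⁻¹) = z * (a * w) * b * a⁻¹ * (z⁻¹ * b⁻¹) * w⁻¹ := by group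
      have hzb : z⁻¹ * b⁻¹ = b⁻¹ * z⁻¹ := by
        have h1 := congrArg (·⁻¹) (hzc b hb)
        simp only [mul_inv_rev] at h1
        exact h1.symm
      have e2 : z * (w * a) * b * a⁻¹ * (b⁻¹ * z⁻¹) * w⁻¹ = z * (w * (a * b * a⁻¹ * b⁻¹)) * z⁻¹ * w⁻¹ := by group
      have hab : a * b * a⁻¹ * b⁻¹ ∈ K := mul_mem (mul_mem (mul_mem ha hb) (inv_mem ha)) (inv_mem hb)
      rw [e1, ← hwc a ha, hzb, e2, hwc _ hab]
      have e3 : z * (a * b * a⁻¹ * b⁻¹ * w) * z⁻¹ * w⁻¹ * (a * b * a⁻¹ * b⁻¹)⁻¹ =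
        (z * (a * b * a⁻¹ * b⁻¹)) * (w * z⁻¹) * w⁻¹ * (a * b * a⁻¹ * b⁻¹)⁻¹ := by group
      have hwz : w * z⁻¹ = z⁻¹ * w := hwc _ (inv_mem hzK)
      rw [e3, hzc _ hab, hwz]
      group
  intro k hk
  have h1 := (hS hk).2
  rw [mul_inv_eq_one, mul_inv_eq_iff_eq_mul] at h1
  exact h1

/-- if `x` normalizes but does not centralize `K`, and `M` contains all `[x,k]` and is invariant, then `K ≤ M` -/
theorem QS.le_of_comm (hK : QS K) {x : G} (hx : x ∈ normalizer (K : Set G)) (hxK : ¬ ∀ k ∈ K, x * k = k * x)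
    {M : Subgroup G} (hM : ∀ k ∈ K, x * k * x⁻¹ * k⁻¹ ∈ M) (hn : ∀ k ∈ K, ∀ m ∈ M, m ∈ K → k * m * k⁻¹ ∈ M) :
    K ≤ M := by
  by_contra hcon
  apply hxK
  apply hK.comm_of_comm hx
  intro k hk
  have hmem : x * k * x⁻¹ * k⁻¹ ∈ K := mul_mem ((mem_normalizer_iff.1 hx k).1 hk) (inv_mem hk)
  by_contra hcon2
  push Not at hcon2
  apply hcon
  refine hK.le_of_nc ⟨hmem, hcon2⟩ ?_
  intro g hg
  exact hn g hg _ (hM k hk) hmem

theorem QS.exists_comm_nc (hK : QS K) {y : G} (hy : Nc K y) : ∃ k ∈ K, Nc K (y * k * y⁻¹ * k⁻¹) := by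
  by_contra hcon
  push Not at hcon
  obtain ⟨hyK, k, hk, hne⟩ := hy
  apply hne
  refine hK.comm_of_comm (le_normalizer hyK) ?_ k hk
  intro l hl
  exact not_nc (mul_mem (mul_mem (mul_mem hyK hl) (inv_mem hyK)) (inv_mem hl)) (hcon l hl)

theorem QS.conj (hK : QS K) (g : G) : QS (K.map (MulAut.conj g).toMonoidHom) where
  perf := by
    rw [← Subgroup.map_commutator, hK.perf]
  qs := by
    intro N hN hn
    have hN' : N.map (MulAut.conj g⁻¹).toMonoidHom ≤ K := by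
      rintro _ ⟨n, hn', rfl⟩
      obtain ⟨k, hk, hkn⟩ := hN hn'
      have e : (MulAut.conj g⁻¹).toMonoidHom n = k := by
        rw [← hkn]
        simp [mul_assoc]
      rw [e]
      exact hk
    rcases hK.qs _ hN' (by
      rintro k hk _ ⟨n, hn', rfl⟩
      refine ⟨(g * k * g⁻¹) * n * (g * k * g⁻¹)⁻¹, hn _ ⟨k, hk, rfl⟩ n hn', ?_⟩
      simp [mul_assoc]) with h1 | h1
    · left
      apply le_antisymm hN
      rintro _ ⟨k, hk, rfl⟩
      rw [← h1] at hk
      obtain ⟨n, hn', rfl⟩ := hk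
      have e : (MulAut.conj g).toMonoidHom ((MulAut.conj g⁻¹).toMonoidHom n) = n := by simp [mul_assoc]
      rw [e]
      exact hn'
    · right
      rintro n hn' _ ⟨k, hk, rfl⟩
      have h2 := h1 _ ⟨n, hn', rfl⟩ k hk
      have h3 : g * ((MulAut.conj g⁻¹).toMonoidHom n * k) * g⁻¹ = g * (k * (MulAut.conj g⁻¹).toMonoidHom n) * g⁻¹ := by
        rw [h2]
      have e1 : g * ((MulAut.conj g⁻¹).toMonoidHom n * k) * g⁻¹ = n * (MulAut.conj g).toMonoidHom k := by
        simp [mul_assoc]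
      have e2 : g * (k * (MulAut.conj g⁻¹).toMonoidHom n) * g⁻¹ = (MulAut.conj g).toMonoidHom k * n := by
        simp [mul_assoc]
      rw [e1, e2] at h3
      exact h3
  ne := by
    obtain ⟨y, hy, k, hk, hne⟩ := hK.ne
    refine ⟨_, ⟨y, hy, rfl⟩, _, ⟨k, hk, rfl⟩, fun h => hne ?_⟩
    rw [← map_mul, ← map_mul] at h
    exact (MulAut.conj g).injective h

theorem QS.subgroupOf (hK : QS K) {H : Subgroup G} (hKH : K ≤ H) : QS (K.subgroupOf H) where
  perf := by
    apply Subgroup.map_injective (Subgroup.subtype_injective H)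
    rw [Subgroup.map_commutator, Subgroup.map_subgroupOf_eq_of_le hKH, hK.perf]
  qs := by
    intro N hN hn
    have h1 : N.map H.subtype ≤ K := by
      rintro _ ⟨n, hn', rfl⟩
      exact hN hn'
    rcases hK.qs _ h1 (by
      rintro k hk _ ⟨n, hn', rfl⟩
      exact ⟨_, hn ⟨k, hKH hk⟩ hk n hn', rfl⟩) with h2 | h2
    · left
      apply Subgroup.map_injective (Subgroup.subtype_injective H)
      rw [h2, Subgroup.map_subgroupOf_eq_of_le hKH]
    · right
      intro n hn' k hk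
      exact Subtype.ext (h2 n ⟨n, hn', rfl⟩ k hk)
  ne := by
    obtain ⟨y, hy, k, hk, hne⟩ := hK.ne
    exact ⟨⟨y, hKH hy⟩, hy, ⟨k, hKH hk⟩, hk, fun h => hne (congrArg Subtype.val h)⟩

end H13.PGV
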