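import Mathlib
import Cfsg.Agent.Lib.H13.PGV1

set_option autoImplicit false

/-!
Elements of quasisimple subgroups, used for the `P(G,V)` theorem.
-/

namespace H13.PGV

open Subgroup
open scoped commutatorElement

universe u v

variable {G : Type u} [Group G]

theorem exists_lift {X : Type u} [Group X] [Finite X] {N : Subgroup X} [N.Normal] {p r : ℕ} (hp : p.Prime) (hr : r.Prime)
    (hpr : p ≠ r) {q : X ⧸ N} (hq : orderOf q = r) :
    ∃ y : X, (orderOf y).Coprime p ∧ orderOf (QuotientGroup.mk' N y) = r := by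
  obtain ⟨x, rfl⟩ := QuotientGroup.mk'_surjective N q
  have h0 : orderOf x ≠ 0 := (orderOf_pos x).ne'
  obtain ⟨s, m, hm, hs⟩ := Nat.exists_eq_pow_mul_and_not_dvd h0 p hp.ne_one
  refine ⟨x ^ p ^ s, ?_, ?_⟩
  · rw [orderOf_pow, hs, Nat.gcd_eq_right (Dvd.intro _ rfl), Nat.mul_div_cancel_left _ (pow_pos hp.pos s)]
    exact (Nat.Prime.coprime_iff_not_dvd hp).2 hm |>.symm
  · rw [map_pow]
    rw [Nat.Coprime.orderOf_pow, hq]
    rw [hq]
    exact Nat.Coprime.pow_right s ((Nat.coprime_primes hr hp).2 hpr.symm)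

variable {K : Subgroup G}

theorem QS.nc_of_mk (y : K) (hy : QuotientGroup.mk' (center K) y ≠ 1) : Nc K (y : G) := by
  refine ⟨y.2, ?_⟩
  by_contra hcon
  push Not at hcon
  apply hy
  rw [QuotientGroup.mk'_apply, QuotientGroup.eq_one_iff, mem_center_iff]
  intro g
  exact Subtype.ext (hcon g g.2).symm

theorem QS.mk_of_nc {y : G} (hy : Nc K y) : QuotientGroup.mk' (center K) ⟨y, hy.1⟩ ≠ 1 := by
  intro h1
  rw [QuotientGroup.mk'_apply, QuotientGroup.eq_one_iff, mem_center_iff] at h1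
  obtain ⟨hyK, k, hk, hne⟩ := hy
  exact hne (congrArg Subtype.val (h1 ⟨k, hk⟩)).symm

theorem QS.not_isSolvable (hK : QS K) : ¬ Group.IsSolvable (K ⧸ center K) := by
  intro h
  have h1 : Group.IsSolvable K := by
    have : Group.IsSolvable (center K) :=
      Group.isSolvable_of_comm fun a b => Subtype.ext (mem_center_iff.1 b.2 a)
    refine Group.isSolvable_of_ker_le_range (center K).subtype (QuotientGroup.mk' (center K)) ?_
    rw [QuotientGroup.ker_mk', Subgroup.range_subtype]
  have h2 : commutator K = ⊤ := by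
    apply Subgroup.map_injective (Subgroup.subtype_injective K)
    rw [Subgroup.map_subtype_commutator, hK.perf, ← MonoidHom.range_eq_map, Subgroup.range_subtype]
  obtain ⟨y, hy, k, hk, hne⟩ := hK.ne
  have : Nontrivial K := ⟨⟨⟨y, hy⟩ * ⟨k, hk⟩, ⟨k, hk⟩ * ⟨y, hy⟩, fun h => hne (congrArg Subtype.val h)⟩⟩
  exact (Group.IsSolvable.commutator_lt_top_of_nontrivial K).ne h2

theorem QS.exists_pprime [Finite G] (hK : QS K) {p : ℕ} (hp : p.Prime) : ∃ y, Nc K y ∧ (orderOf y).Coprime p := by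
  by_cases h : ∀ r : ℕ, r.Prime → r ∣ Nat.card (K ⧸ center K) → r = p
  · exfalso
    apply hK.not_isSolvable
    have h1 : Nat.card (K ⧸ center K) = p ^ (Nat.card (K ⧸ center K)).factorization p := by
      apply Nat.eq_pow_of_factorization_eq_single Nat.card_pos.ne'
      ext r
      by_cases hr : r = p
      · rw [hr]
        simp
      · rw [Finsupp.single_apply, if_neg (fun h3 => hr h3.symm)]
        by_cases hrp : r.Prime
        · exact Nat.factorization_eq_zero_of_not_dvd (fun h3 => hr (h r hrp h3))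
        · exact Nat.factorization_eq_zero_of_not_prime _ hrp
    exact H4.Burnside.isSolvable_of_card_eq p p hp hp _ (K ⧸ center K) rfl
      ⟨(Nat.card (K ⧸ center K)).factorization p, 0, by rw [pow_zero, mul_one]; exact h1⟩
  · push Not at h
    obtain ⟨r, hr, hrd, hrp⟩ := h
    have := Fact.mk hr
    obtain ⟨q, hq⟩ := exists_prime_orderOf_dvd_card' r hrd
    obtain ⟨y, hy, hyr⟩ := exists_lift hp hr (fun h => hrp h.symm) hq
    refine ⟨y, QS.nc_of_mk y ?_, by rwa [Subgroup.orderOf_coe]⟩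
    intro h1
    rw [h1, orderOf_one] at hyr
    exact hr.one_lt.ne hyr

theorem QS.exists_cube [Finite G] (hK : QS K) : ∃ y, Nc K y ∧ Odd (orderOf y) ∧ Nc K (y ^ 3) := by
  by_cases h : ∀ r : ℕ, r.Prime → r ∣ Nat.card (K ⧸ center K) → r = 2 ∨ r = 3
  · exfalso
    apply hK.not_isSolvable
    set n := Nat.card (K ⧸ center K) with hn
    have hn0 : n ≠ 0 := Nat.card_pos.ne'
    have h1 : n = 2 ^ n.factorization 2 * 3 ^ n.factorization 3 := by
      apply Nat.eq_of_factorization_eq hn0 (by positivity)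
      intro r
      rw [Nat.factorization_mul (by positivity) (by positivity), Nat.Prime.factorization_pow Nat.prime_two,
        Nat.Prime.factorization_pow Nat.prime_three, Finsupp.add_apply, Finsupp.single_apply, Finsupp.single_apply]
      by_cases h2 : r = 2
      · rw [h2]
        simp
      by_cases h3 : r = 3
      · rw [h3]
        simp
      rw [if_neg (fun h => h2 h.symm), if_neg (fun h => h3 h.symm)]
      by_cases hrp : r.Prime
      · refine Nat.factorization_eq_zero_of_not_dvd ?_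
        intro h4
        rcases h r hrp h4 with h5 | h5
        · exact h2 h5
        · exact h3 h5
      · exact Nat.factorization_eq_zero_of_not_prime _ hrp
    exact H4.Burnside.isSolvable_of_card_eq 2 3 Nat.prime_two Nat.prime_three _ (K ⧸ center K) rfl ⟨_, _, h1⟩
  · push Not at h
    obtain ⟨r, hr, hrd, hr2, hr3⟩ := h
    have := Fact.mk hr
    obtain ⟨q, hq⟩ := exists_prime_orderOf_dvd_card' r hrd
    obtain ⟨y, hy, hyr⟩ := exists_lift Nat.prime_two hr (fun h => hr2 h.symm) hq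
    refine ⟨y, QS.nc_of_mk y ?_, ?_, ?_⟩
    · intro h1
      rw [h1, orderOf_one] at hyr
      exact hr.one_lt.ne hyr
    · rw [Subgroup.orderOf_coe]
      exact Nat.Coprime.odd_of_right hy
    · have h2 : ((y : G) ^ 3) = ((y ^ 3 : K) : G) := rfl
      rw [h2]
      apply QS.nc_of_mk
      intro h1
      rw [map_pow] at h1
      have h3 := orderOf_dvd_of_pow_eq_one h1
      rw [hyr] at h3
      exact hr3 ((Nat.prime_dvd_prime_iff_eq hr Nat.prime_three).1 h3)

theorem sq_mem {t : G} (ht : t * t = 1) (htn : t ∈ normalizer (K : Set G)) {x : G} (hx : x ∈ K ⊔ zpowers t) :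
    x * x ∈ K := by
  have hti : t⁻¹ = t := inv_eq_of_mul_eq_one_right ht
  have hc : ∀ k ∈ K, t * k * t ∈ K := by
    intro k hk
    have h1 := (mem_normalizer_iff.1 htn k).1 hk
    rwa [hti] at h1
  let S : Subgroup G :=
    { carrier := {x | x ∈ K ∨ x * t ∈ K}
      one_mem' := Or.inl (one_mem _)
      mul_mem' := by
        rintro a b (ha | ha) (hb | hb)
        · exact Or.inl (mul_mem ha hb)
        · right
          rw [mul_assoc]
          exact mul_mem ha hb
        · right
          have e : a * b * t = (a * t) * (t * b * t) * (t * t) := by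
            have e1 : (a * t) * (t * b * t) * (t * t) = a * (t * t) * b * t * (t * t) := by group
            rw [e1, ht]
            group
          rw [e, ht, mul_one]
          exact mul_mem ha (hc b hb)
        · left
          have e : a * b = (a * t) * (t * (b * t) * t) := by
            have e1 : (a * t) * (t * (b * t) * t) = a * (t * t) * b * (t * t) := by group
            rw [e1, ht]
            group
          rw [e]
          exact mul_mem ha (hc _ hb)
      inv_mem' := by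
        rintro a (ha | ha)
        · exact Or.inl (inv_mem ha)
        · right
          have e : a⁻¹ * t = t * (a * t)⁻¹ * t := by
            rw [mul_inv_rev, hti]
            have e1 : t * (t * a⁻¹) * t = (t * t) * a⁻¹ * t := by group
            rw [e1, ht, one_mul]
          rw [e]
          exact hc _ (inv_mem ha) }
  have hS : K ⊔ zpowers t ≤ S := by
    rw [sup_le_iff, zpowers_le]
    refine ⟨fun k hk => Or.inl hk, Or.inr ?_⟩
    rw [ht]
    exact one_mem _
  rcases hS hx with h1 | h1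
  · exact mul_mem h1 h1
  · have e : x * x = (x * t) * (t * (x * t) * t) := by
      have e1 : (x * t) * (t * (x * t) * t) = x * (t * t) * x * (t * t) := by group
      rw [e1, ht]
      group
    rw [e]
    exact mul_mem h1 (hc _ h1)

theorem QS.exists_inverted [Finite G] (hK : QS K) {t : G} (ht : t * t = 1) (htn : t ∈ normalizer (K : Set G))
    (htc : ¬ ∀ k ∈ K, t * k = k * t) : ∃ y, Nc K y ∧ Odd (orderOf y) ∧ t * y * t⁻¹ = y⁻¹ := by
  have htH : t ∈ K ⊔ zpowers t := mem_sup_right (mem_zpowers t)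
  have hKn : (K.subgroupOf (K ⊔ zpowers t)).Normal := by
    rw [normal_subgroupOf_iff le_sup_left]
    intro h g hh hg
    have h1 : K ⊔ zpowers t ≤ normalizer (K : Set G) := by
      rw [sup_le_iff, zpowers_le]
      exact ⟨le_normalizer, htn⟩
    exact (mem_normalizer_iff.1 (h1 hg) h).1 hh
  have hZn : ((K ⊓ centralizer (K : Set G)).subgroupOf (K ⊔ zpowers t)).Normal := by
    rw [normal_subgroupOf_iff (inf_le_left.trans le_sup_left)]
    intro h g hh hg
    have h1 : K ⊔ zpowers t ≤ normalizer (K : Set G) := by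
      rw [sup_le_iff, zpowers_le]
      exact ⟨le_normalizer, htn⟩
    refine mem_inf.2 ⟨(mem_normalizer_iff.1 (h1 hg) h).1 hh.1, ?_⟩
    rw [mem_centralizer_iff]
    intro k hk
    have h2 := (mem_normalizer_iff.1 (inv_mem (h1 hg)) k).1 hk
    rw [inv_inv] at h2
    have h3 := (mem_centralizer_iff.1 hh.2) _ h2
    have h4 : g * (g⁻¹ * k * g * h) * g⁻¹ = g * (h * (g⁻¹ * k * g)) * g⁻¹ := by rw [h3]
    have e1 : g * (g⁻¹ * k * g * h) * g⁻¹ = k * (g * h * g⁻¹) := by group
    have e2 : g * (h * (g⁻¹ * k * g)) * g⁻¹ = g * h * g⁻¹ * k := by group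
    rwa [e1, e2] at h4
  set H := K ⊔ zpowers t with hH
  set Z' := (K ⊓ centralizer (K : Set G)).subgroupOf H with hZ'
  let T : H := ⟨t, htH⟩
  let π := QuotientGroup.mk' Z'
  have hπ : ∀ x : H, π x = 1 ↔ (x : G) ∈ K ∧ ∀ k ∈ K, k * (x : G) = x * k := by
    intro x
    rw [QuotientGroup.mk'_apply, QuotientGroup.eq_one_iff]
    exact Iff.rfl
  have hex : ∃ q : H ⧸ Z', Odd (orderOf q) ∧ π T * q * (π T)⁻¹ = q⁻¹ ∧ q ≠ 1 := by
    by_contra hcon
    push Not at hcon
    obtain ⟨N, hN, hN2, hTN⟩ := H55.BaerSuzuki.exists_normal_of_involution (π T) (by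
      rw [← map_mul]
      have : T * T = 1 := Subtype.ext ht
      rw [this, map_one]) (fun x hx hx' => hcon x hx hx')
    -- the intersection of `N` with `K`
    let M : Subgroup G := ((N.comap π) ⊓ K.subgroupOf H).map H.subtype
    have hMK : M ≤ K := by
      rintro _ ⟨x, hx, rfl⟩
      exact hx.2
    have hMn : ∀ k ∈ K, ∀ n ∈ M, k * n * k⁻¹ ∈ M := by
      rintro k hk _ ⟨x, hx, rfl⟩
      have hNn : (N.comap π).Normal := hN.comap _
      exact ⟨_, ⟨hNn.conj_mem x hx.1 ⟨k, mem_sup_left hk⟩, hKn.conj_mem x hx.2 ⟨k, mem_sup_left hk⟩⟩, rfl⟩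
    rcases hK.qs M hMK hMn with h1 | h1
    · -- then `K` is a 2-group modulo its centre
      apply hK.not_isSolvable
      have hK2 : IsPGroup 2 (K ⧸ center K) := by
        intro q
        obtain ⟨k, rfl⟩ := QuotientGroup.mk'_surjective _ q
        have hkM : (k : G) ∈ M := by
          rw [h1]
          exact k.2
        obtain ⟨x, hx, hxk⟩ := hkM
        obtain ⟨n, hn⟩ := hN2 ⟨π x, hx.1⟩
        refine ⟨n, ?_⟩
        rw [← map_pow, QuotientGroup.mk'_apply, QuotientGroup.eq_one_iff, mem_center_iff]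
        have h2 : π (x ^ 2 ^ n) = 1 := by
          rw [map_pow]
          exact congrArg Subtype.val hn
        rw [hπ] at h2
        intro g
        apply Subtype.ext
        have h3 := h2.2 g g.2
        have h4 : ((x ^ 2 ^ n : H) : G) = ((k ^ 2 ^ n : K) : G) := by
          rw [Subgroup.coe_pow, Subgroup.coe_pow, ← hxk]
          rfl
        rw [h4] at h3
        exact h3
      have : Group.IsNilpotent (K ⧸ center K) := hK2.isNilpotent
      infer_instance
    · -- then `t` centralizes `K`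
      apply htc
      apply hK.comm_of_comm htn
      intro k hk l hl
      refine h1 _ ?_ l hl
      have hkH : k ∈ H := mem_sup_left hk
      have hNn : (N.comap π).Normal := hN.comap _
      have hTN' : T ∈ N.comap π := hTN
      refine ⟨T * ⟨k, hkH⟩ * T⁻¹ * ⟨k, hkH⟩⁻¹, ⟨?_, ?_⟩, rfl⟩
      · have e : T * ⟨k, hkH⟩ * T⁻¹ * ⟨k, hkH⟩⁻¹ = T * (⟨k, hkH⟩ * T⁻¹ * ⟨k, hkH⟩⁻¹) := by group
        rw [e]
        exact mul_mem hTN' (hNn.conj_mem _ (inv_mem hTN') _)
      · change t * k * t⁻¹ * k⁻¹ ∈ K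
        exact mul_mem ((mem_normalizer_iff.1 htn k).1 hk) (inv_mem hk)
  obtain ⟨q, hqo, hqi, hq1⟩ := hex
  obtain ⟨x, rfl⟩ := QuotientGroup.mk'_surjective Z' q
  change Odd (orderOf (π x)) at hqo
  change π T * π x * (π T)⁻¹ = (π x)⁻¹ at hqi
  change π x ≠ 1 at hq1
  -- move into `K`
  obtain ⟨m, hm⟩ := hqo
  have hx1 : π ((x * x) ^ (m + 1)) = π x := by
    rw [map_pow, map_mul, ← pow_two, ← pow_mul]
    have e : 2 * (m + 1) = orderOf (π x) + 1 := by omega
    rw [e, pow_add, pow_orderOf_eq_one, one_mul, pow_one]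
  have hxK : (((x * x) ^ (m + 1) : H) : G) ∈ K := by
    rw [Subgroup.coe_pow]
    exact pow_mem (sq_mem ht htn x.2) _
  obtain ⟨z, hz⟩ : ∃ z : H, z = (x * x) ^ (m + 1) := ⟨_, rfl⟩
  rw [← hz] at hx1 hxK
  -- the commutator
  obtain ⟨y₀, hy₀⟩ : ∃ y₀ : H, y₀ = T * z * T⁻¹ * z⁻¹ := ⟨_, rfl⟩
  have hy₀K : (y₀ : G) ∈ K := by
    rw [hy₀]
    exact mul_mem ((mem_normalizer_iff.1 htn _).1 hxK) (inv_mem hxK)
  have hTi : T⁻¹ = T := inv_eq_of_mul_eq_one_right (Subtype.ext ht)
  have hy₀t : T * y₀ * T⁻¹ = y₀⁻¹ := by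
    rw [hy₀, hTi]
    have e1 : T * (T * z * T * z⁻¹) * T = (T * T) * z * T * z⁻¹ * T := by group
    have e2 : T * T = 1 := Subtype.ext ht
    rw [e1, e2, one_mul]
    have e3 : (T * z * T * z⁻¹)⁻¹ = z * T⁻¹ * z⁻¹ * T⁻¹ := by group
    rw [e3, hTi]
  have hπy : π y₀ = (π x)⁻¹ * (π x)⁻¹ := by
    rw [hy₀, map_mul, map_mul, map_mul, map_inv, map_inv, hx1, hqi]
  have h0 : orderOf y₀ ≠ 0 := (orderOf_pos y₀).ne'
  obtain ⟨s, n, hn, hs⟩ := Nat.exists_eq_pow_mul_and_not_dvd h0 2 (by norm_num)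
  have hord : orderOf (y₀ ^ 2 ^ s) = n := by
    rw [orderOf_pow, hs, Nat.gcd_eq_right (Dvd.intro _ rfl), Nat.mul_div_cancel_left _ (pow_pos two_pos s)]
  refine ⟨((y₀ ^ 2 ^ s : H) : G), ?_, ?_, ?_⟩
  · have hmem : ((y₀ ^ 2 ^ s : H) : G) ∈ K := by
      rw [Subgroup.coe_pow]
      exact pow_mem hy₀K _
    refine ⟨hmem, ?_⟩
    by_contra hcon
    push Not at hcon
    have h1 : π (y₀ ^ 2 ^ s) = 1 := by
      rw [hπ]
      exact ⟨hmem, fun k hk => (hcon k hk).symm⟩
    have h2 : (π x) ^ (2 ^ (s + 1)) = 1 := by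
      rw [map_pow, hπy, ← mul_inv_rev, inv_pow, inv_eq_one, ← pow_two, ← pow_mul] at h1
      rwa [pow_succ, mul_comm (2 ^ s) 2]
    have h3 := orderOf_dvd_of_pow_eq_one h2
    have h4 : Nat.Coprime (orderOf (π x)) (2 ^ (s + 1)) := by
      apply Nat.Coprime.pow_right
      rw [hm]
      exact Nat.Coprime.symm (by simp)
    have h5 := Nat.Coprime.eq_one_of_dvd h4 h3
    exact hq1 (orderOf_eq_one_iff.1 h5)
  · rw [Subgroup.orderOf_coe, hord]
    rw [← Nat.not_even_iff_odd, even_iff_two_dvd]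
    exact hn
  · have h1 : T * y₀ ^ 2 ^ s * T⁻¹ = (y₀ ^ 2 ^ s)⁻¹ := by
      rw [← conj_pow, hy₀t, inv_pow]
    exact congrArg Subtype.val h1

end H13.PGV
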