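import Mathlib
import Cfsg.Agent.Lib.H13.PGV2

set_option autoImplicit false

/-!
Linear part of the `P(G,V)` theorem: best offenders, Timmesfeld replacement.
-/

namespace H13.PGV

open Subgroup

universe u v

variable {p : ℕ} [hp : Fact p.Prime] {G : Type u} [Group G] {V : Type v} [AddCommGroup V] [Module (ZMod p) V]
  (ρ : G →* Module.End (ZMod p) V)

theorem ap (g h : G) (v : V) : ρ (g * h) v = ρ g (ρ h v) := by
  rw [map_mul]
  rfl

theorem ap_one (v : V) : ρ 1 v = v := by
  rw [map_one]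
  rfl

theorem inv_ap (g : G) (v : V) : ρ g⁻¹ (ρ g v) = v := by
  rw [← ap, inv_mul_cancel, ap_one]

theorem ap_inv (g : G) (v : V) : ρ g (ρ g⁻¹ v) = v := by
  rw [← ap, mul_inv_cancel, ap_one]

theorem ap_inj {g : G} {v w : V} (h : ρ g v = ρ g w) : v = w := by
  rw [← inv_ap ρ g v, h, inv_ap]

/-- fixed points -/
def fx (B : Subgroup G) : Submodule (ZMod p) V where
  carrier := {v | ∀ b ∈ B, ρ b v = v}
  add_mem' := by
    intro x y hx hy b hb
    rw [map_add, hx b hb, hy b hb]
  zero_mem' := by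
    intro b _
    exact map_zero _
  smul_mem' := by
    intro c x hx b hb
    rw [map_smul, hx b hb]

theorem mem_fx {B : Subgroup G} {v : V} : v ∈ fx ρ B ↔ ∀ b ∈ B, ρ b v = v := Iff.rfl

theorem fx_anti {B C : Subgroup G} (h : B ≤ C) : fx ρ C ≤ fx ρ B := fun _ hv b hb => hv b (h hb)

theorem fx_sup (B C : Subgroup G) : fx ρ (B ⊔ C) = fx ρ B ⊓ fx ρ C := by
  apply le_antisymm
  · exact le_inf (fx_anti ρ le_sup_left) (fx_anti ρ le_sup_right)
  · rintro v ⟨h1, h2⟩ x hx
    let S : Subgroup G :=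
      { carrier := {g | ρ g v = v}
        one_mem' := ap_one ρ v
        mul_mem' := by
          intro a b ha hb
          change ρ (a * b) v = v
          rw [ap, show ρ b v = v from hb, show ρ a v = v from ha]
        inv_mem' := by
          intro a ha
          change ρ a⁻¹ v = v
          conv_lhs => rw [← show ρ a v = v from ha]
          exact inv_ap ρ a v }
    have hS : B ⊔ C ≤ S := sup_le (fun b hb => h1 b hb) (fun c hc => h2 c hc)
    exact hS hx

/-- the value `|B| |C_V(B)|` -/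
noncomputable def val (B : Subgroup G) : ℕ := Nat.card B * Nat.card (fx ρ B)

/-- elements fixing pointwise the image of an operator -/
def rstab (x : Module.End (ZMod p) V) : Subgroup G where
  carrier := {g | ∀ v, ρ g (x v) = x v}
  one_mem' := fun v => ap_one ρ _
  mul_mem' := by
    intro a b ha hb v
    rw [ap, hb v, ha v]
  inv_mem' := by
    intro a ha v
    conv_lhs => rw [← ha v]
    exact inv_ap ρ a _

theorem mem_rstab {x : Module.End (ZMod p) V} {g : G} : g ∈ rstab ρ x ↔ ∀ v, ρ g (x v) = x v := Iff.rfl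

/-- `p'`-elements act semisimply -/
theorem fix_of_sq {g : G} (hg : (orderOf g).Coprime p) {v : V} (h : ρ g (ρ g v - v) = ρ g v - v) : ρ g v = v := by
  set u := ρ g v - v with hu
  have h1 : ∀ n : ℕ, ρ (g ^ n) v = v + n • u := by
    intro n
    induction n with
    | zero => rw [pow_zero, ap_one, zero_smul, add_zero]
    | succ n ih =>
      rw [pow_succ', ap, ih, map_add, map_nsmul, h, add_smul, one_smul, ← add_assoc, add_right_comm]
      congr 1
      rw [hu]
      abel
  have h2 := h1 (orderOf g)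
  rw [pow_orderOf_eq_one, ap_one, left_eq_add] at h2
  have h3 : ((orderOf g : ℕ) : ZMod p) • u = 0 := by
    rw [← h2, Nat.cast_smul_eq_nsmul]
  have h4 : IsUnit ((orderOf g : ℕ) : ZMod p) := (ZMod.isUnit_iff_coprime _ _).2 hg
  have h5 : u = 0 := by
    obtain ⟨c, hc⟩ := h4
    have h6 : (c⁻¹ : (ZMod p)ˣ).val • (((orderOf g : ℕ) : ZMod p) • u) = 0 := by rw [h3, smul_zero]
    rw [← hc, smul_smul, Units.inv_mul, one_smul] at h6
    exact h6
  rw [hu, sub_eq_zero] at h5
  exact h5

theorem one_of_sq {g : G} (hg : (orderOf g).Coprime p) (h : (ρ g - 1) * (ρ g - 1) = 0) : ρ g = 1 := by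
  ext v
  apply fix_of_sq ρ hg
  have h1 := DFunLike.congr_fun h v
  change ρ g (ρ g v - v) - (ρ g v - v) = 0 at h1
  exact sub_eq_zero.1 h1

/-- nonzero fixed vectors in invariant submodules -/
theorem exists_fixed [Finite V] {A : Subgroup G} (hA : IsPGroup p A) {W : Submodule (ZMod p) V} (hW : ∀ a ∈ A, ∀ w ∈ W, ρ a w ∈ W)
    (h0 : W ≠ ⊥) : ∃ w ∈ W, w ≠ 0 ∧ ∀ a ∈ A, ρ a w = w := by
  let _ : MulAction A W :=
    { smul := fun a w => ⟨ρ a w, hW a a.2 w w.2⟩
      one_smul := fun w => Subtype.ext (ap_one ρ _)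
      mul_smul := fun a b w => Subtype.ext (ap ρ _ _ _) }
  have hs : ∀ (a : A) (w : W), ((a • w : W) : V) = ρ a w := fun a w => rfl
  have hd : p ∣ Nat.card W := by
    have h1 : Module.finrank (ZMod p) W ≠ 0 := by
      intro h2
      exact h0 (Submodule.finrank_eq_zero.1 h2)
    have h2 : Nat.card W = p ^ Module.finrank (ZMod p) W := by
      rw [Module.natCard_eq_pow_finrank (K := ZMod p), Nat.card_zmod]
    rw [h2]
    exact dvd_pow_self p h1
  obtain ⟨w, hw, hw0⟩ := hA.exists_fixed_point_of_prime_dvd_card_of_fixed_point W hd (a := (0 : W)) (by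
    intro a
    exact Subtype.ext (map_zero _))
  refine ⟨w, w.2, ?_, ?_⟩
  · intro h1
    apply hw0
    exact Subtype.ext h1.symm
  · intro a ha
    exact congrArg Subtype.val (hw ⟨a, ha⟩)

/-- `[V,A]` plus fixed points -/
def cv (A : Subgroup G) : Submodule (ZMod p) V := (⨆ b : A, LinearMap.range (ρ b - 1)) ⊔ fx ρ A

theorem mem_cv {A : Subgroup G} {b : G} (hb : b ∈ A) (v : V) : ρ b v - v ∈ cv ρ A := by
  apply Submodule.mem_sup_left
  exact Submodule.mem_iSup_of_mem (⟨b, hb⟩ : A) ⟨v, rfl⟩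

theorem cv_ne_top [Finite V] {A : Subgroup G} (hA : IsPGroup p A) (h : ∃ a ∈ A, ρ a ≠ 1) : cv ρ A ≠ ⊤ := by
  intro htop
  obtain ⟨a, ha, ha1⟩ := h
  have hfx : fx ρ A ≠ ⊤ := by
    intro h1
    apply ha1
    ext v
    have h2 : v ∈ fx ρ A := by
      rw [h1]
      exact Submodule.mem_top
    exact h2 a ha
  have : Finite (Module.Dual (ZMod p) V) := Module.finite_of_finite (ZMod p)
  have hW : (fx ρ A).dualAnnihilator ≠ ⊥ := by
    intro h1
    exact hfx (Subspace.dualAnnihilator_inj.1 (by rw [h1, Submodule.dualAnnihilator_top]))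
  obtain ⟨φ, hφ, hφ0, hφA⟩ := exists_fixed (Representation.dual ρ) hA (W := (fx ρ A).dualAnnihilator) (by
    intro b hb φ hφ
    rw [Submodule.mem_dualAnnihilator] at hφ ⊢
    intro w hw
    change φ (ρ b⁻¹ w) = 0
    rw [hw b⁻¹ (inv_mem hb)]
    exact hφ w hw) hW
  apply hφ0
  have h3 : cv ρ A ≤ LinearMap.ker φ := by
    apply sup_le
    · apply iSup_le
      rintro ⟨b, hb⟩ _ ⟨v, rfl⟩
      rw [LinearMap.mem_ker]
      change φ (ρ b v - v) = 0
      rw [map_sub, sub_eq_zero]
      have h4 := DFunLike.congr_fun (hφA b⁻¹ (inv_mem hb)) v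
      change φ (ρ b⁻¹⁻¹ v) = φ v at h4
      rwa [inv_inv] at h4
    · intro v hv
      rw [LinearMap.mem_ker]
      exact (Submodule.mem_dualAnnihilator φ).1 hφ v hv
  rw [htop] at h3
  ext v
  exact h3 (Submodule.mem_top : v ∈ ⊤)

end H13.PGV
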