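import Mathlib
import Cfsg.Agent.Lib.H13.PGV3
import Cfsg.Agent.Lib.H13.Thompson

set_option autoImplicit false

/-!
Linear part of the `P(G,V)` theorem: Timmesfeld replacement.
-/

namespace H13.PGV

open Subgroup

universe u v

variable {p : ℕ} [hp : Fact p.Prime] {G : Type u} [Group G] {V : Type v} [AddCommGroup V] [Module (ZMod p) V]
  (ρ : G →* Module.End (ZMod p) V)

/-- best offender (relative form) -/
def Best (A : Subgroup G) : Prop := ∀ B ≤ A, val ρ B ≤ val ρ A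

theorem card_submodule [Finite V] (W : Submodule (ZMod p) V) : Nat.card W = p ^ Module.finrank (ZMod p) W := by
  rw [Module.natCard_eq_pow_finrank (K := ZMod p), Nat.card_zmod]

theorem card_sup_inf [Finite V] (W₁ W₂ : Submodule (ZMod p) V) :
    Nat.card (W₁ ⊔ W₂ : Submodule (ZMod p) V) * Nat.card (W₁ ⊓ W₂ : Submodule (ZMod p) V) =
      Nat.card W₁ * Nat.card W₂ := by
  rw [card_submodule, card_submodule, card_submodule, card_submodule, ← pow_add, ← pow_add,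
    Submodule.finrank_sup_add_finrank_inf_eq]

theorem card_le_of_le [Finite V] {W₁ W₂ : Submodule (ZMod p) V} (h : W₁ ≤ W₂) : Nat.card W₁ ≤ Nat.card W₂ :=
  Nat.card_le_card_of_injective _ (Submodule.inclusion_injective h)

theorem eq_of_le_of_card [Finite V] {W₁ W₂ : Submodule (ZMod p) V} (h : W₁ ≤ W₂) (hc : Nat.card W₂ ≤ Nat.card W₁) :
    W₁ = W₂ := by
  apply SetLike.coe_injective
  apply Set.eq_of_subset_of_ncard_le h
  · exact hc

theorem card_top [Finite V] : Nat.card (⊤ : Submodule (ZMod p) V) = Nat.card V :=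
  Nat.card_congr Submodule.topEquiv.toEquiv

theorem card_ker_mul_range [Finite V] (f : Module.End (ZMod p) V) :
    Nat.card (LinearMap.ker f) * Nat.card (LinearMap.range f) = Nat.card V := by
  rw [card_submodule, card_submodule, ← pow_add, add_comm, LinearMap.finrank_range_add_finrank_ker,
    Module.natCard_eq_pow_finrank (K := ZMod p), Nat.card_zmod]

/-- the centralizer in `A` of `[v,A]` -/
def av (A : Subgroup G) (v : V) : Subgroup G where
  carrier := {a | a ∈ A ∧ ∀ b ∈ A, ρ a (ρ b v - v) = ρ b v - v}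
  one_mem' := ⟨one_mem _, fun b _ => ap_one ρ _⟩
  mul_mem' := by
    rintro a c ⟨ha, ha'⟩ ⟨hc, hc'⟩
    refine ⟨mul_mem ha hc, fun b hb => ?_⟩
    rw [ap, hc' b hb, ha' b hb]
  inv_mem' := by
    rintro a ⟨ha, ha'⟩
    refine ⟨inv_mem ha, fun b hb => ?_⟩
    conv_lhs => rw [← ha' b hb]
    exact inv_ap ρ a _

theorem av_le (A : Subgroup G) (v : V) : av ρ A v ≤ A := fun _ h => h.1

variable [Finite G] [Finite V]

theorem card_av {A : Subgroup G} (hab : ∀ a ∈ A, ∀ b ∈ A, a * b = b * a) (v : V) :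
    val ρ A ≤ Nat.card (av ρ A v) * Nat.card (fx ρ (av ρ A v) ⊓ cv ρ A : Submodule (ZMod p) V) := by
  classical
  let Q := A ⧸ (av ρ A v).subgroupOf A
  let f : Q × fx ρ A → (fx ρ (av ρ A v) ⊓ cv ρ A : Submodule (ZMod p) V) := fun x =>
    ⟨ρ (x.1.out : A) v - v + x.2, by
      refine ⟨?_, ?_⟩
      · intro a ha
        rw [map_add, ha.2 _ (x.1.out : A).2]
        rw [(x.2).2 a ha.1]
      · exact Submodule.add_mem _ (mem_cv ρ (x.1.out : A).2 v) (Submodule.mem_sup_right x.2.2)⟩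
  have hf : Function.Injective f := by
    rintro ⟨q, c⟩ ⟨q', c'⟩ h
    have h1 : ρ (q.out : A) v - v + c = ρ (q'.out : A) v - v + c' := congrArg Subtype.val h
    obtain ⟨a, ha⟩ : ∃ a : A, a = q.out := ⟨_, rfl⟩
    obtain ⟨a', ha'⟩ : ∃ a : A, a = q'.out := ⟨_, rfl⟩
    rw [← ha, ← ha'] at h1
    have h2 : ρ a v - ρ a' v ∈ fx ρ A := by
      have e : ρ a v - ρ a' v = (c' : V) - c := by
        have h3 : ρ a v + (c : V) = ρ a' v + c' := by
          have := congrArg (fun z => z + v) h1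
          beta_reduce at this
          have e1 : ρ (a : G) v - v + (c : V) + v = ρ a v + c := by abel
          have e2 : ρ (a' : G) v - v + (c' : V) + v = ρ a' v + c' := by abel
          rwa [e1, e2] at this
        rw [sub_eq_sub_iff_add_eq_add, h3, add_comm]
      rw [e]
      exact Submodule.sub_mem _ c'.2 c.2
    have h3 : ρ ((a' : G)⁻¹ * a) v - v ∈ fx ρ A := by
      have e : ρ ((a' : G)⁻¹ * a) v - v = ρ (a' : G)⁻¹ (ρ a v - ρ a' v) := by
        rw [map_sub, ← ap, inv_ap]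
      rw [e]
      rw [h2 _ (inv_mem a'.2)]
      exact h2
    have h4 : (a' : G)⁻¹ * a ∈ av ρ A v := by
      refine ⟨mul_mem (inv_mem a'.2) a.2, fun b hb => ?_⟩
      have h5 := h3 b hb
      rw [map_sub, ← ap] at h5 ⊢
      rw [hab b hb _ (mul_mem (inv_mem a'.2) a.2), sub_eq_sub_iff_add_eq_add] at h5
      rw [sub_eq_sub_iff_add_eq_add, h5]
      exact add_comm _ _
    have h6 : q = q' := by
      rw [← QuotientGroup.out_eq' q, ← QuotientGroup.out_eq' q', ← ha, ← ha']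
      refine (QuotientGroup.eq.2 ?_).symm
      exact h4
    subst h6
    have h7 : c = c' := by
      apply Subtype.ext
      rw [← ha'] at ha
      rw [ha] at h1
      exact add_left_cancel h1
    rw [h7]
  have h1 := Nat.card_le_card_of_injective f hf
  rw [Nat.card_prod] at h1
  have h2 : Nat.card A = Nat.card Q * Nat.card (av ρ A v) := by
    rw [Subgroup.card_eq_card_quotient_mul_card_subgroup ((av ρ A v).subgroupOf A)]
    congr 1
    exact Nat.card_congr (subgroupOfEquivOfLe (av_le ρ A v)).toEquiv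
  rw [val, h2]
  calc Nat.card Q * Nat.card (av ρ A v) * Nat.card (fx ρ A)
      = Nat.card (av ρ A v) * (Nat.card Q * Nat.card (fx ρ A)) := by ring
    _ ≤ _ := Nat.mul_le_mul_left _ h1

/-- the good subgroups -/
def Gds (A D : Subgroup G) : Prop := D ≤ A ∧ val ρ D = val ρ A ∧ fx ρ D ≤ cv ρ A

theorem gds_av {A : Subgroup G} (hab : ∀ a ∈ A, ∀ b ∈ A, a * b = b * a) (hA : Best ρ A) (v : V) :
    Gds ρ A (av ρ A v) := by
  have h1 := card_av ρ hab v
  have h2 : Nat.card (av ρ A v) * Nat.card (fx ρ (av ρ A v) ⊓ cv ρ A : Submodule (ZMod p) V) ≤ val ρ (av ρ A v) :=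
    Nat.mul_le_mul_left _ (card_le_of_le inf_le_left)
  have h3 := hA _ (av_le ρ A v)
  refine ⟨av_le ρ A v, le_antisymm h3 (h1.trans h2), ?_⟩
  have h4 : fx ρ (av ρ A v) ⊓ cv ρ A = fx ρ (av ρ A v) := by
    apply eq_of_le_of_card inf_le_left
    have h5 := h3.trans h1
    exact Nat.le_of_mul_le_mul_left h5 Nat.card_pos
  exact inf_eq_left.1 h4

theorem gds_inf {A D₁ D₂ : Subgroup G} (hab : ∀ a ∈ A, ∀ b ∈ A, a * b = b * a) (hA : Best ρ A)
    (h₁ : Gds ρ A D₁) (h₂ : Gds ρ A D₂) : Gds ρ A (D₁ ⊓ D₂) := by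
  have hn : D₁ ≤ normalizer (D₂ : Set G) := by
    refine le_trans ?_ (centralizer_le_normalizer _)
    intro x hx
    rw [mem_centralizer_iff]
    intro y hy
    exact hab y (h₂.1 hy) x (h₁.1 hx)
  have c1 := Thompson.card_sup_mul_card_inf hn
  have c2 := card_sup_inf (fx ρ D₁) (fx ρ D₂)
  have i1 : Nat.card (D₁ ⊔ D₂ : Subgroup G) * Nat.card (fx ρ D₁ ⊓ fx ρ D₂ : Submodule (ZMod p) V) ≤ val ρ A := by
    have h3 := hA (D₁ ⊔ D₂) (sup_le h₁.1 h₂.1)
    rwa [val, fx_sup] at h3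
  have hle : fx ρ D₁ ⊔ fx ρ D₂ ≤ fx ρ (D₁ ⊓ D₂) := sup_le (fx_anti ρ inf_le_left) (fx_anti ρ inf_le_right)
  have i2 : val ρ (D₁ ⊓ D₂) ≤ val ρ A := hA _ (inf_le_left.trans h₁.1)
  have i3 : Nat.card (D₁ ⊓ D₂ : Subgroup G) * Nat.card (fx ρ D₁ ⊔ fx ρ D₂ : Submodule (ZMod p) V) ≤ val ρ (D₁ ⊓ D₂) :=
    Nat.mul_le_mul_left _ (card_le_of_le hle)
  have v1 : val ρ A = Nat.card D₁ * Nat.card (fx ρ D₁) := h₁.2.1.symm
  have v2 : val ρ A = Nat.card D₂ * Nat.card (fx ρ D₂) := h₂.2.1.symm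
  have hprod : (Nat.card (D₁ ⊓ D₂ : Subgroup G) * Nat.card (fx ρ D₁ ⊔ fx ρ D₂ : Submodule (ZMod p) V)) *
      (Nat.card (D₁ ⊔ D₂ : Subgroup G) * Nat.card (fx ρ D₁ ⊓ fx ρ D₂ : Submodule (ZMod p) V)) = val ρ A * val ρ A := by
    calc _ = (Nat.card (D₁ ⊔ D₂ : Subgroup G) * Nat.card (D₁ ⊓ D₂ : Subgroup G)) *
        (Nat.card (fx ρ D₁ ⊔ fx ρ D₂ : Submodule (ZMod p) V) * Nat.card (fx ρ D₁ ⊓ fx ρ D₂ : Submodule (ZMod p) V)) := by ring
      _ = (Nat.card D₁ * Nat.card (fx ρ D₁)) * (Nat.card D₂ * Nat.card (fx ρ D₂)) := by rw [c1, c2]; ring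
      _ = _ := by rw [← v1, ← v2]
  have hpos : 0 < val ρ A := Nat.mul_pos Nat.card_pos Nat.card_pos
  have i4 : val ρ A ≤ Nat.card (D₁ ⊓ D₂ : Subgroup G) * Nat.card (fx ρ D₁ ⊔ fx ρ D₂ : Submodule (ZMod p) V) := by
    by_contra hlt
    push Not at hlt
    have : (Nat.card (D₁ ⊓ D₂ : Subgroup G) * Nat.card (fx ρ D₁ ⊔ fx ρ D₂ : Submodule (ZMod p) V)) *
      (Nat.card (D₁ ⊔ D₂ : Subgroup G) * Nat.card (fx ρ D₁ ⊓ fx ρ D₂ : Submodule (ZMod p) V)) < val ρ A * val ρ A :=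
      calc _ ≤ (Nat.card (D₁ ⊓ D₂ : Subgroup G) * Nat.card (fx ρ D₁ ⊔ fx ρ D₂ : Submodule (ZMod p) V)) * val ρ A :=
            Nat.mul_le_mul_left _ i1
        _ < _ := Nat.mul_lt_mul_of_pos_right hlt hpos
    omega
  refine ⟨inf_le_left.trans h₁.1, le_antisymm i2 (i4.trans i3), ?_⟩
  have h5 : fx ρ D₁ ⊔ fx ρ D₂ = fx ρ (D₁ ⊓ D₂) := by
    apply eq_of_le_of_card hle
    exact Nat.le_of_mul_le_mul_left (i2.trans i4) Nat.card_pos
  rw [← h5]
  exact sup_le h₁.2.2 h₂.2.2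

/-- Timmesfeld replacement -/
theorem timmesfeld {A : Subgroup G} (hab : ∀ a ∈ A, ∀ b ∈ A, a * b = b * a) (hA : Best ρ A) (hpA : IsPGroup p A)
    (hne : ∃ a ∈ A, ρ a ≠ 1) :
    ∃ D ≤ A, val ρ D = val ρ A ∧ (∀ d ∈ D, ∀ b ∈ A, ∀ v, ρ d (ρ b v - v) = ρ b v - v) ∧ ∃ d ∈ D, ρ d ≠ 1 := by
  classical
  -- a minimal good subgroup
  have hex : ∃ n, ∃ D, Gds ρ A D ∧ Nat.card D = n := ⟨_, av ρ A (0 : V), gds_av ρ hab hA 0, rfl⟩
  obtain ⟨D, hD, hDn⟩ := Nat.find_spec hex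
  have hmin : ∀ D', Gds ρ A D' → Nat.card D ≤ Nat.card D' := by
    intro D' hD'
    rw [hDn]
    exact Nat.find_min' hex ⟨D', hD', rfl⟩
  refine ⟨D, hD.1, hD.2.1, ?_, ?_⟩
  · intro d hd b hb v
    have h1 : Gds ρ A (D ⊓ av ρ A v) := gds_inf ρ hab hA hD (gds_av ρ hab hA v)
    have h2 : D ⊓ av ρ A v = D := Subgroup.eq_of_le_of_card_ge inf_le_left (hmin _ h1)
    have h3 : d ∈ av ρ A v := (inf_eq_left.1 h2) hd
    exact h3.2 b hb
  · by_contra hcon
    push Not at hcon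
    apply cv_ne_top ρ hpA hne
    rw [eq_top_iff]
    refine le_trans ?_ hD.2.2
    intro v _ d hd
    rw [hcon d hd]
    rfl

end H13.PGV
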