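import Mathlib
import Cfsg.Agent.Lib.H13.PGV4

set_option autoImplicit false

/-!
The `P(G,V)` theorem: configuration and the case of odd primes.
-/

namespace H13.PGV

open Subgroup

universe u v

section ring

variable {R : Type*} [Ring R]

theorem ring_quad {α g g' gi : R} (h1 : (α - 1) * (α - 1) = 0) (h2 : (g * α - 1) * (g * α - 1) = 0)
    (h3 : α * g = g' * α) (hgi : gi * g = 1) : 2 * (g' - 1) * α = g' - gi := by
  have e1 : α * α = 2 * α - 1 := by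
    have e : α * α = (α - 1) * (α - 1) + (2 * α - 1) := by noncomm_ring
    rw [e, h1, zero_add]
  have e2 : g * (α * g) * α - 2 * (g * α) + 1 = 0 := by
    have e : g * (α * g) * α - 2 * (g * α) + 1 = (g * α - 1) * (g * α - 1) := by noncomm_ring
    rw [e, h2]
  rw [h3] at e2
  have e3 : gi * (g * (g' * α) * α - 2 * (g * α) + 1) = 0 := by rw [e2, mul_zero]
  have e4 : gi * (g * (g' * α) * α - 2 * (g * α) + 1) = (gi * g) * (g' * (α * α)) - 2 * ((gi * g) * α) + gi := by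
    noncomm_ring
  rw [e4, hgi, e1, one_mul, one_mul] at e3
  have e5 : 2 * (g' - 1) * α = (g' * (2 * α - 1) - 2 * α + gi) + (g' - gi) := by noncomm_ring
  rw [e5, e3, zero_add]

theorem ring_conj_quad {α u ui : R} (h1 : (α - 1) * (α - 1) = 0) (hu : ui * u = 1) (hu' : u * ui = 1) :
    (u * α * ui - 1) * (u * α * ui - 1) = 0 := by
  have e : u * α * ui - 1 = u * (α - 1) * ui := by
    rw [mul_sub, sub_mul, mul_one, hu']
  rw [e]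
  have e2 : u * (α - 1) * ui * (u * (α - 1) * ui) = u * (α - 1) * (ui * u) * (α - 1) * ui := by noncomm_ring
  rw [e2, hu, mul_one, mul_assoc u, h1, mul_zero, zero_mul]

end ring

variable {p : ℕ} [hp : Fact p.Prime] {G : Type u} [Group G] {V : Type v} [AddCommGroup V] [Module (ZMod p) V]
  (ρ : G →* Module.End (ZMod p) V)

/-- minimal counterexample -/
structure Cfg (A K : Subgroup G) : Prop where
  ab : ∀ a ∈ A, ∀ b ∈ A, a * b = b * a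
  el : ∀ a ∈ A, a ^ p = 1
  qs : QS K
  cm : ∀ a ∈ A, a ∉ normalizer (K : Set G) → ∀ k ∈ K, ∀ l ∈ K, k * (a * l * a⁻¹) = (a * l * a⁻¹) * k
  nt : ∃ k ∈ K, ρ k ≠ 1
  mv : ¬ A ≤ normalizer (K : Set G)
  best : Best ρ A
  mn : ∀ W : Submodule (ZMod p) V, (∀ a ∈ A, ∀ w ∈ W, ρ a w ∈ W) → (∀ k ∈ K, ∀ w ∈ W, ρ k w ∈ W) →
    W = ⊤ ∨ ∀ k ∈ K, ∀ w ∈ W, ρ k w = w

variable {ρ} {A K : Subgroup G}

theorem Cfg.isPGroup (h : Cfg ρ A K) : IsPGroup p A := by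
  intro a
  refine ⟨1, ?_⟩
  rw [pow_one]
  exact Subtype.ext (h.el a a.2)

theorem Cfg.exists_mv (h : Cfg ρ A K) : ∃ a ∈ A, a ∉ normalizer (K : Set G) := by
  have h1 := h.mv
  rw [SetLike.not_le_iff_exists] at h1
  exact h1

theorem Cfg.ne_one (h : Cfg ρ A K) {y : G} (hy : Nc K y) : ρ y ≠ 1 := by
  intro h1
  obtain ⟨k, hk, hk1⟩ := h.nt
  apply hk1
  have h2 : K ≤ ρ.ker := by
    apply h.qs.le_of_nc hy
    intro g _
    rw [MonoidHom.mem_ker, map_mul, map_mul, h1, mul_one, ← map_mul, mul_inv_cancel, map_one]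
  exact h2 hk

theorem Cfg.not_comm (h : Cfg ρ A K) {y : G} (hy : Nc K y) (hc : ∀ k ∈ K, ρ y * ρ k = ρ k * ρ y) : False := by
  obtain ⟨k, hk, hn⟩ := h.qs.exists_comm_nc hy
  apply h.ne_one hn
  rw [map_mul, map_mul, map_mul, hc k hk, mul_assoc (ρ k), ← map_mul, mul_inv_cancel, map_one, mul_one, ← map_mul,
    mul_inv_cancel, map_one]

theorem Cfg.move_ne (h : Cfg ρ A K) {a : G} (ha : a ∈ A) (hn : a ∉ normalizer (K : Set G)) {y : G} (hy : Nc K y) :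
    ρ (a * y * a⁻¹) ≠ ρ y := by
  intro h1
  refine h.not_comm hy ?_
  intro k hk
  rw [← h1, ← map_mul, ← map_mul, h.cm a ha hn k hk y hy.1]

theorem Cfg.normalizes (h : Cfg ρ A K) {a : G} (ha : a ∈ A) (h1 : ρ a = 1) : a ∈ normalizer (K : Set G) := by
  by_contra hn
  obtain ⟨y, hy, k, hk, hne⟩ := h.qs.ne
  refine h.move_ne ha hn ⟨hy, k, hk, hne⟩ ?_
  have h2 : ρ a⁻¹ = 1 := by
    have h3 : ρ a⁻¹ * ρ a = 1 := by rw [← map_mul, inv_mul_cancel, map_one]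
    rwa [h1, mul_one] at h3
  rw [map_mul, map_mul, h1, one_mul, h2, mul_one]

theorem Cfg.one_of_comm [Finite G] [Finite V] (h : Cfg ρ A K) {a : G} (ha : a ∈ A) (hc : ∀ k ∈ K, a * k = k * a) :
    ρ a = 1 := by
  let C : Subgroup G := A ⊓ centralizer (K : Set G)
  have hC : ∀ c ∈ C, ∀ k ∈ K, c * k = k * c := by
    intro c hc k hk
    exact (mem_centralizer_iff.1 hc.2 k hk).symm
  have haC : a ∈ C := mem_inf.2 ⟨ha, mem_centralizer_iff.2 fun k hk => (hc k hk).symm⟩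
  rcases h.mn (fx ρ C) (by
    intro b hb w hw c hc'
    rw [← ap, h.ab c hc'.1 b hb, ap, hw c hc']) (by
    intro k hk w hw c hc'
    rw [← ap, hC c hc' k hk, ap, hw c hc']) with h1 | h1
  · ext v
    have h2 : v ∈ fx ρ C := by
      rw [h1]
      exact Submodule.mem_top
    exact h2 a haC
  · exfalso
    obtain ⟨y, hy, hyp⟩ := h.qs.exists_pprime hp.out
    apply h.ne_one hy
    by_contra hne
    have hW : LinearMap.range (ρ y - 1) ≠ ⊥ := by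
      intro h2
      apply hne
      rw [LinearMap.range_eq_bot] at h2
      exact sub_eq_zero.1 h2
    have hCp : IsPGroup p C := h.isPGroup.to_le inf_le_left
    obtain ⟨w, hw, hw0, hwC⟩ := exists_fixed ρ hCp (by
      rintro c hc' _ ⟨v, rfl⟩
      refine ⟨ρ c v, ?_⟩
      change ρ y (ρ c v) - ρ c v = ρ c (ρ y v - v)
      rw [map_sub, ← ap, ← ap, hC c hc' y hy.1]) hW
    obtain ⟨v, rfl⟩ := hw
    apply hw0
    have h2 : ρ y v = v := fix_of_sq ρ hyp (h1 y hy.1 _ hwC)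
    change ρ y v - v = 0
    rw [h2, sub_self]

/-! ### odd primes -/

theorem two_cancel (hp2 : p ≠ 2) {x : Module.End (ZMod p) V} (hx : 2 * x = 0) : x = 0 := by
  have h2 : (2 : ZMod p) ≠ 0 := by
    intro h
    have h3 : ((2 : ℕ) : ZMod p) = 0 := by exact_mod_cast h
    rw [ZMod.natCast_eq_zero_iff] at h3
    exact hp2 ((Nat.prime_dvd_prime_iff_eq hp.out Nat.prime_two).1 h3)
  have h3 : (2 : ZMod p) • x = 0 := by
    rw [two_smul, ← two_mul, hx]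
  exact (smul_eq_zero.1 h3).resolve_left h2

theorem inv_mul_map (g : G) : ρ g⁻¹ * ρ g = 1 := by rw [← map_mul, inv_mul_cancel, map_one]

theorem mul_inv_map (g : G) : ρ g * ρ g⁻¹ = 1 := by rw [← map_mul, mul_inv_cancel, map_one]

theorem ring_of_vec {a b : G} (h : ∀ v, ρ b (ρ a v - v) = ρ a v - v) : (ρ b - 1) * (ρ a - 1) = 0 := by
  ext v
  change ρ b (ρ a v - v) - (ρ a v - v) = 0
  rw [h v, sub_self]

/-- a quadratic element acting on commuting `p'`-elements `y, y^a, y^{a²}`, `p` odd -/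
theorem quad_move [Finite G] (hp2 : p ≠ 2) {a y : G} (hy : (orderOf y).Coprime p)
    (hq : (ρ a - 1) * (ρ a - 1) = 0) (c01 : y * (a * y * a⁻¹) = (a * y * a⁻¹) * y)
    (c02 : y * (a * (a * y * a⁻¹) * a⁻¹) = (a * (a * y * a⁻¹) * a⁻¹) * y)
    (c12 : (a * y * a⁻¹) * (a * (a * y * a⁻¹) * a⁻¹) = (a * (a * y * a⁻¹) * a⁻¹) * (a * y * a⁻¹)) :
    ρ (a * y * a⁻¹) = ρ y := by
  obtain ⟨y₁, hy₁⟩ : ∃ y₁, y₁ = a * y * a⁻¹ := ⟨_, rfl⟩
  rw [← hy₁] at c01 c02 c12 ⊢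
  obtain ⟨y₂, hy₂⟩ : ∃ y₂, y₂ = a * y₁ * a⁻¹ := ⟨_, rfl⟩
  rw [← hy₂] at c02 c12
  have hc02 : Commute y y₂ := c02
  have hc01 : Commute y y₁ := c01
  have hc12 : Commute y₁ y₂ := c12
  have k1 : (ρ (y * y₁⁻¹) * ρ a - 1) * (ρ (y * y₁⁻¹) * ρ a - 1) = 0 := by
    have e : ρ (y * y₁⁻¹) * ρ a = ρ y * ρ a * ρ y⁻¹ := by
      rw [← map_mul, ← map_mul, ← map_mul]
      congr 1
      rw [hy₁]
      group
    rw [e]
    exact ring_conj_quad hq (inv_mul_map y) (mul_inv_map y)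
  have k2 : ρ a * ρ (y * y₁⁻¹) = ρ (y₁ * y₂⁻¹) * ρ a := by
    rw [← map_mul, ← map_mul]
    congr 1
    rw [hy₂, hy₁]
    group
  have key := ring_quad hq k1 k2 (inv_mul_map (y * y₁⁻¹))
  -- conjugate by `y₁`
  have key2 : 2 * (ρ (y₁ * y₂⁻¹) - 1) * (ρ (y₁ * y₂⁻¹) * ρ a) = ρ (y₁ * y₂⁻¹) - ρ (y * y₁⁻¹)⁻¹ := by
    have e1 : ρ y₁ * (2 * (ρ (y₁ * y₂⁻¹) - 1) * ρ a) * ρ y₁⁻¹ = ρ y₁ * (ρ (y₁ * y₂⁻¹) - ρ (y * y₁⁻¹)⁻¹) * ρ y₁⁻¹ := by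
      rw [key]
    have c1 : ρ y₁ * ρ (y₁ * y₂⁻¹) = ρ (y₁ * y₂⁻¹) * ρ y₁ := by
      rw [← map_mul, ← map_mul]
      congr 1
      exact ((Commute.refl y₁).mul_right (hc12.inv_right))
    have c2 : ρ y₁ * ρ (y * y₁⁻¹)⁻¹ = ρ (y * y₁⁻¹)⁻¹ * ρ y₁ := by
      rw [← map_mul, ← map_mul]
      congr 1
      exact ((hc01.symm).mul_right (Commute.refl y₁).inv_right).inv_right
    have c3 : ρ (y₁ * y₂⁻¹) * ρ a = ρ y₁ * ρ a * ρ y₁⁻¹ := by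
      rw [← map_mul, ← map_mul, ← map_mul]
      congr 1
      rw [hy₂]
      group
    have e2 : ρ y₁ * (2 * (ρ (y₁ * y₂⁻¹) - 1) * ρ a) * ρ y₁⁻¹ = 2 * (ρ (y₁ * y₂⁻¹) - 1) * (ρ y₁ * ρ a * ρ y₁⁻¹) := by
      have e : ρ y₁ * (2 * (ρ (y₁ * y₂⁻¹) - 1) * ρ a) * ρ y₁⁻¹ =
        2 * (ρ y₁ * ρ (y₁ * y₂⁻¹) - ρ y₁) * ρ a * ρ y₁⁻¹ := by noncomm_ring
      rw [e, c1]
      noncomm_ring
    have e3 : ρ y₁ * (ρ (y₁ * y₂⁻¹) - ρ (y * y₁⁻¹)⁻¹) * ρ y₁⁻¹ = ρ (y₁ * y₂⁻¹) - ρ (y * y₁⁻¹)⁻¹ := by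
      rw [mul_sub, c1, c2, ← sub_mul, mul_assoc, mul_inv_map, mul_one]
    rw [e2, e3] at e1
    rw [c3, e1]
  have key3 : 2 * ((ρ (y₁ * y₂⁻¹) - 1) * (ρ (y₁ * y₂⁻¹) - 1)) = 0 := by
    have e1 : 2 * (ρ (y₁ * y₂⁻¹) - 1) * (ρ (y₁ * y₂⁻¹) * ρ a) - 2 * (ρ (y₁ * y₂⁻¹) - 1) * ρ a = 0 := by
      rw [key, key2, sub_self]
    have e2 : (2 * (ρ (y₁ * y₂⁻¹) - 1) * (ρ (y₁ * y₂⁻¹) * ρ a) - 2 * (ρ (y₁ * y₂⁻¹) - 1) * ρ a) * ρ a⁻¹ =
        2 * ((ρ (y₁ * y₂⁻¹) - 1) * (ρ (y₁ * y₂⁻¹) - 1)) := by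
      have e3 : (2 * (ρ (y₁ * y₂⁻¹) - 1) * (ρ (y₁ * y₂⁻¹) * ρ a) - 2 * (ρ (y₁ * y₂⁻¹) - 1) * ρ a) * ρ a⁻¹ =
        2 * ((ρ (y₁ * y₂⁻¹) - 1) * (ρ (y₁ * y₂⁻¹) - 1)) * (ρ a * ρ a⁻¹) := by noncomm_ring
      rw [e3, mul_inv_map, mul_one]
    rw [← e2, e1, zero_mul]
  have key4 := two_cancel hp2 key3
  have hord : (orderOf (y₁ * y₂⁻¹)).Coprime p := by
    have h1 : (y₁ * y₂⁻¹) ^ orderOf y = 1 := by
      rw [(hc12.inv_right).mul_pow, inv_pow]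
      have e1 : y₁ ^ orderOf y = 1 := by
        rw [hy₁, conj_pow, pow_orderOf_eq_one, mul_one, mul_inv_cancel]
      have e2 : y₂ ^ orderOf y = 1 := by
        rw [hy₂, conj_pow, e1, mul_one, mul_inv_cancel]
      rw [e1, e2, inv_one, mul_one]
    exact Nat.Coprime.coprime_dvd_left (orderOf_dvd_of_pow_eq_one h1) hy
  have key5 := one_of_sq ρ hord key4
  have key6 : ρ y₁ = ρ y₂ := by
    have h1 : ρ (y₁ * y₂⁻¹) * ρ y₂ = ρ y₂ := by rw [key5, one_mul]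
    rwa [← map_mul, inv_mul_cancel_right] at h1
  have h1 : ρ y = ρ a⁻¹ * ρ y₁ * ρ a := by
    rw [← map_mul, ← map_mul]
    congr 1
    rw [hy₁]
    group
  have h2 : ρ y₁ = ρ a⁻¹ * ρ y₂ * ρ a := by
    rw [← map_mul, ← map_mul]
    congr 1
    rw [hy₂]
    group
  rw [h1, key6, ← h2]
  exact key6.symm

theorem Cfg.odd_quad [Finite G] (h : Cfg ρ A K) (hp2 : p ≠ 2) {a : G} (ha : a ∈ A) (hn : a ∉ normalizer (K : Set G))
    (hq : ∀ v, ρ a (ρ a v - v) = ρ a v - v) : False := by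
  obtain ⟨y, hy, hyp⟩ := h.qs.exists_pprime hp.out
  have hn2 : a * a ∉ normalizer (K : Set G) := by
    intro h1
    apply hn
    obtain ⟨m, hm⟩ := hp.out.odd_of_ne_two hp2
    have h2 : a = (a * a) ^ (m + 1) := by
      rw [← pow_two, ← pow_mul]
      have e : 2 * (m + 1) = p + 1 := by omega
      rw [e, pow_succ, h.el a ha, one_mul]
    rw [h2]
    exact pow_mem h1 _
  refine h.move_ne ha hn hy (quad_move hp2 hyp (ring_of_vec hq) (h.cm a ha hn y hy.1 y hy.1) ?_ ?_)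
  · have h1 := h.cm (a * a) (mul_mem ha ha) hn2 y hy.1 y hy.1
    have e : a * (a * y * a⁻¹) * a⁻¹ = a * a * y * (a * a)⁻¹ := by group
    rw [e]
    exact h1
  · have h1 := h.cm a ha hn y hy.1 y hy.1
    have h2 : a * (y * (a * y * a⁻¹)) * a⁻¹ = a * ((a * y * a⁻¹) * y) * a⁻¹ := by rw [h1]
    have e1 : a * (y * (a * y * a⁻¹)) * a⁻¹ = (a * y * a⁻¹) * (a * (a * y * a⁻¹) * a⁻¹) := by group
    have e2 : a * ((a * y * a⁻¹) * y) * a⁻¹ = (a * (a * y * a⁻¹) * a⁻¹) * (a * y * a⁻¹) := by group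
    rwa [e1, e2] at h2

/-- a quadratic element `b` normalizing the commuting subgroups `K`, `K^a` -/
theorem quad_two {b : G} (hq : (ρ b - 1) * (ρ b - 1) = 0) {c e : G} (hc : ∃ z, c = z * b * z⁻¹ * b⁻¹)
    (he : ∃ w, e = w * b * w⁻¹ * b⁻¹) (hce : ∃ x, e * c = x * b * x⁻¹ * b⁻¹)
    (h1 : Commute c e) :
    (ρ (e * (b * e * b⁻¹)) - 1) * (ρ c - 1) = 0 := by
  obtain ⟨c', hc'⟩ : ∃ c', c' = b * c * b⁻¹ := ⟨_, rfl⟩
  obtain ⟨e', he'⟩ : ∃ e', e' = b * e * b⁻¹ := ⟨_, rfl⟩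
  rw [← he']
  have hcq : ∀ x : G, (∃ z, x = z * b * z⁻¹ * b⁻¹) → (ρ x * ρ b - 1) * (ρ x * ρ b - 1) = 0 := by
    rintro x ⟨z, rfl⟩
    have e1 : ρ (z * b * z⁻¹ * b⁻¹) * ρ b = ρ z * ρ b * ρ z⁻¹ := by
      rw [← map_mul, ← map_mul, ← map_mul, inv_mul_cancel_right]
    rw [e1]
    exact ring_conj_quad hq (inv_mul_map z) (mul_inv_map z)
  have hb : ∀ x : G, ρ b * ρ x = ρ (b * x * b⁻¹) * ρ b := by
    intro x
    rw [← map_mul, ← map_mul, inv_mul_cancel_right]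
  have E1 := ring_quad hq (hcq c hc) (hb c) (inv_mul_map c)
  have E2 := ring_quad hq (hcq e he) (hb e) (inv_mul_map e)
  have E3 := ring_quad hq (hcq (e * c) hce) (hb (e * c)) (inv_mul_map (e * c))
  rw [← hc'] at E1
  rw [← he'] at E2
  have e3 : b * (e * c) * b⁻¹ = e' * c' := by
    rw [hc', he']
    group
  rw [e3] at E3
  have e4 : ρ (e' * c') - 1 = ρ e' * (ρ c' - 1) + (ρ e' - 1) := by
    rw [map_mul]
    noncomm_ring
  have e5 : 2 * (ρ (e' * c') - 1) * ρ b = ρ e' * (2 * (ρ c' - 1) * ρ b) + 2 * (ρ e' - 1) * ρ b := by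
    rw [e4]
    noncomm_ring
  rw [e5, E1, E2, mul_inv_rev] at E3
  -- now simplify
  have e6 : (ρ e' - ρ e⁻¹) * (1 - ρ c⁻¹) = 0 := by
    have h5 : ρ (c⁻¹ * e⁻¹) = ρ e⁻¹ * ρ c⁻¹ := by
      rw [← map_mul]
      congr 1
      exact (h1.inv_inv)
    have h6 : ρ (e' * c') = ρ e' * ρ c' := map_mul _ _ _
    rw [h5, h6] at E3
    have e7 : (ρ e' - ρ e⁻¹) * (1 - ρ c⁻¹) =
        (ρ e' * (ρ c' - ρ c⁻¹) + (ρ e' - ρ e⁻¹)) - (ρ e' * ρ c' - ρ e⁻¹ * ρ c⁻¹) := by noncomm_ring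
    rw [e7, E3, sub_self]
  have e8 : (ρ (e * e') - 1) * (ρ c - 1) = ρ e * ((ρ e' - ρ e⁻¹) * (1 - ρ c⁻¹)) * ρ c := by
    have e9 : ρ e * ((ρ e' - ρ e⁻¹) * (1 - ρ c⁻¹)) * ρ c =
      (ρ e * ρ e' - ρ e * ρ e⁻¹) * (ρ c - ρ c⁻¹ * ρ c) := by noncomm_ring
    rw [e9, mul_inv_map, inv_mul_map, map_mul]
  rw [e8, e6, mul_zero, zero_mul]

end H13.PGV
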