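import Mathlib
import Cfsg.Agent.Lib.H13.PGV5

set_option autoImplicit false

/-!
The `P(G,V)` theorem: the case of odd primes.
-/

namespace H13.PGV

open Subgroup

universe u v

variable {p : ℕ} [hp : Fact p.Prime] {G : Type u} [Group G] {V : Type v} [AddCommGroup V] [Module (ZMod p) V]
  {ρ : G →* Module.End (ZMod p) V} {A K : Subgroup G}

theorem Cfg.odd_two [Finite G] (h : Cfg ρ A K) (hp2 : p ≠ 2) {a b : G} (ha : a ∈ A) (hn : a ∉ normalizer (K : Set G))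
    (hb : b ∈ A) (hbn : b ∈ normalizer (K : Set G)) (hbK : ¬ ∀ k ∈ K, b * k = k * b)
    (hqb : ∀ v, ρ b (ρ b v - v) = ρ b v - v) (hqa : ∀ v, ρ b (ρ a v - v) = ρ a v - v) : False := by
  have hab : a * b = b * a := h.ab a ha b hb
  have hbn' : ∀ k ∈ K, b * k * b⁻¹ ∈ K := fun k hk => (mem_normalizer_iff.1 hbn k).1 hk
  have hbi' : ∀ k ∈ K, b⁻¹ * k * b ∈ K := by
    intro k hk
    have h1 := (mem_normalizer_iff.1 (inv_mem hbn) k).1 hk
    rwa [inv_inv] at h1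
  obtain ⟨K₁, hK₁⟩ : ∃ K₁ : Subgroup G, K₁ = K.map (MulAut.conj a).toMonoidHom := ⟨_, rfl⟩
  have qs₁ : QS K₁ := hK₁ ▸ h.qs.conj a
  have hmem₁ : ∀ {x : G}, x ∈ K₁ ↔ ∃ k ∈ K, a * k * a⁻¹ = x := by
    intro x
    rw [hK₁]
    exact Iff.rfl
  have hc01 : ∀ k ∈ K, ∀ l ∈ K₁, k * l = l * k := by
    intro k hk l hl
    obtain ⟨k', hk', rfl⟩ := hmem₁.1 hl
    exact h.cm a ha hn k hk k' hk'
  have hbn₁ : ∀ l ∈ K₁, b * l * b⁻¹ ∈ K₁ := by
    intro l hl
    obtain ⟨k, hk, rfl⟩ := hmem₁.1 hl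
    refine hmem₁.2 ⟨b * k * b⁻¹, hbn' k hk, ?_⟩
    have e1 : a * (b * k * b⁻¹) * a⁻¹ = (a * b) * k * (a * b)⁻¹ := by group
    have e2 : b * (a * k * a⁻¹) * b⁻¹ = (b * a) * k * (b * a)⁻¹ := by group
    rw [e1, e2, hab]
  have hbi₁ : ∀ l ∈ K₁, b⁻¹ * l * b ∈ K₁ := by
    intro l hl
    obtain ⟨k, hk, rfl⟩ := hmem₁.1 hl
    refine hmem₁.2 ⟨b⁻¹ * k * b, hbi' k hk, ?_⟩
    have e1 : a * (b⁻¹ * k * b) * a⁻¹ = (b * a⁻¹)⁻¹ * k * (b * a⁻¹) := by group
    have e2 : b⁻¹ * (a * k * a⁻¹) * b = (a⁻¹ * b)⁻¹ * k * (a⁻¹ * b) := by group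
    have e3 : b * a⁻¹ = a⁻¹ * b := by
      rw [mul_inv_eq_iff_eq_mul, mul_assoc, ← hab, inv_mul_cancel_left]
    rw [e1, e2, e3]
  have hbN₁ : b ∈ normalizer (K₁ : Set G) := by
    rw [mem_normalizer_iff]
    intro l
    refine ⟨hbn₁ l, fun hl => ?_⟩
    have h1 := hbi₁ _ hl
    have e : b⁻¹ * (b * l * b⁻¹) * b = l := by group
    rwa [e] at h1
  have hbK₁ : ¬ ∀ l ∈ K₁, (b * b) * l = l * (b * b) := by
    intro hcon
    apply hbK
    -- `b` is a power of `b²`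
    obtain ⟨m, hm⟩ := hp.out.odd_of_ne_two hp2
    have h2 : b = (b * b) ^ (m + 1) := by
      rw [← pow_two, ← pow_mul]
      have e : 2 * (m + 1) = p + 1 := by omega
      rw [e, pow_succ, h.el b hb, one_mul]
    intro k hk
    have h3 : Commute (b * b) (a * k * a⁻¹) := hcon _ (hmem₁.2 ⟨k, hk, rfl⟩)
    have h4 : Commute b (a * k * a⁻¹) := by
      rw [h2]
      exact h3.pow_left _
    have h5 : Commute b a := hab.symm
    have h6 := (h5.inv_right.mul_right h4).mul_right h5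
    have e : a⁻¹ * (a * k * a⁻¹) * a = k := by group
    rw [e] at h6
    exact h6
  have hqb' := ring_of_vec hqb
  -- (i)
  have s1 : ∀ z ∈ K, ∀ w ∈ K₁, (ρ (w * (b * b) * w⁻¹ * (b * b)⁻¹) - 1) * (ρ (z * b * z⁻¹ * b⁻¹) - 1) = 0 := by
    intro z hz w hw
    have hcK : z * b * z⁻¹ * b⁻¹ ∈ K := by
      have e : z * b * z⁻¹ * b⁻¹ = z * (b * z⁻¹ * b⁻¹) := by group
      rw [e]
      exact mul_mem hz (hbn' _ (inv_mem hz))
    have heK : w * b * w⁻¹ * b⁻¹ ∈ K₁ := by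
      have e : w * b * w⁻¹ * b⁻¹ = w * (b * w⁻¹ * b⁻¹) := by group
      rw [e]
      exact mul_mem hw (hbn₁ _ (inv_mem hw))
    have h1 := quad_two (ρ := ρ) (b := b) hqb' (c := z * b * z⁻¹ * b⁻¹) (e := w * b * w⁻¹ * b⁻¹) ⟨z, rfl⟩ ⟨w, rfl⟩
      ⟨z * w, by
        have e1 : z * w * b * (z * w)⁻¹ * b⁻¹ = z * (w * b * w⁻¹ * b⁻¹) * (b * z⁻¹ * b⁻¹) := by group
        rw [e1, hc01 z hz _ heK]
        group⟩ (hc01 _ hcK _ heK)
    have e2 : w * b * w⁻¹ * b⁻¹ * (b * (w * b * w⁻¹ * b⁻¹) * b⁻¹) = w * (b * b) * w⁻¹ * (b * b)⁻¹ := by group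
    rwa [e2] at h1
  have hbbK₁ : ∀ w ∈ K₁, w * (b * b) * w⁻¹ * (b * b)⁻¹ ∈ K₁ := by
    intro w hw
    have e : w * (b * b) * w⁻¹ * (b * b)⁻¹ = w * (b * (b * w⁻¹ * b⁻¹) * b⁻¹) := by group
    rw [e]
    exact mul_mem hw (hbn₁ _ (hbn₁ _ (inv_mem hw)))
  -- (ii)
  have s2 : ∀ k ∈ K, ∀ w ∈ K₁, (ρ (w * (b * b) * w⁻¹ * (b * b)⁻¹) - 1) * (ρ k - 1) = 0 := by
    let M : Subgroup G :=
      { carrier := {m | ∀ w ∈ K₁, (ρ (w * (b * b) * w⁻¹ * (b * b)⁻¹) - 1) * (ρ m - 1) = 0}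
        one_mem' := by
          intro w _
          rw [map_one, sub_self, mul_zero]
        mul_mem' := by
          intro g g' hg hg' w hw
          have e : ρ (g * g') - 1 = (ρ g - 1) * ρ g' + (ρ g' - 1) := by
            rw [map_mul]
            noncomm_ring
          rw [e, mul_add, ← mul_assoc, hg w hw, zero_mul, zero_add, hg' w hw]
        inv_mem' := by
          intro g hg w hw
          have e : ρ g⁻¹ - 1 = -((ρ g - 1) * ρ g⁻¹) := by
            rw [sub_mul, mul_inv_map, one_mul, neg_sub]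
          rw [e, mul_neg, ← mul_assoc, hg w hw, zero_mul, neg_zero] }
    have hM : K ≤ M := by
      refine h.qs.le_of_comm hbn hbK ?_ ?_
      · intro z hz
        have e : b * z * b⁻¹ * z⁻¹ = (z * b * z⁻¹ * b⁻¹)⁻¹ := by group
        rw [e]
        exact inv_mem (fun w hw => s1 z hz w hw)
      · intro k hk m hm _ w hw
        have h1 := hm w hw
        have hcomm : (ρ (w * (b * b) * w⁻¹ * (b * b)⁻¹) - 1) * ρ k = ρ k * (ρ (w * (b * b) * w⁻¹ * (b * b)⁻¹) - 1) := by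
          rw [sub_mul, mul_sub, one_mul, mul_one, ← map_mul, ← map_mul, hc01 k hk _ (hbbK₁ w hw)]
        have e : ρ (k * m * k⁻¹) - 1 = ρ k * (ρ m - 1) * ρ k⁻¹ := by
          rw [mul_sub, sub_mul, mul_one, mul_inv_map, ← map_mul, ← map_mul]
        rw [e, ← mul_assoc, ← mul_assoc, hcomm, mul_assoc (ρ k), h1, mul_zero, zero_mul]
    intro k hk w hw
    exact hM hk w hw
  -- (iii)
  have s3 : ∀ l ∈ K₁, ∀ k ∈ K, (ρ l - 1) * (ρ k - 1) = 0 := by
    let M : Subgroup G :=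
      { carrier := {l | ∀ k ∈ K, (ρ l - 1) * (ρ k - 1) = 0}
        one_mem' := by
          intro w _
          rw [map_one, sub_self, zero_mul]
        mul_mem' := by
          intro g g' hg hg' w hw
          have e : ρ (g * g') - 1 = ρ g * (ρ g' - 1) + (ρ g - 1) := by
            rw [map_mul]
            noncomm_ring
          rw [e, add_mul, mul_assoc, hg' w hw, mul_zero, zero_add, hg w hw]
        inv_mem' := by
          intro g hg w hw
          have e : ρ g⁻¹ - 1 = -(ρ g⁻¹ * (ρ g - 1)) := by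
            rw [mul_sub, inv_mul_map, mul_one, neg_sub]
          rw [e, neg_mul, mul_assoc, hg w hw, mul_zero, neg_zero] }
    have hM : K₁ ≤ M := by
      refine qs₁.le_of_comm (mul_mem hbN₁ hbN₁) hbK₁ ?_ ?_
      · intro w hw
        have e : b * b * w * (b * b)⁻¹ * w⁻¹ = (w * (b * b) * w⁻¹ * (b * b)⁻¹)⁻¹ := by
          simp only [mul_inv_rev, inv_inv, mul_assoc]
        rw [e]
        exact inv_mem (fun k hk => s2 k hk w hw)
      · intro g hg m hm _ k hk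
        have h1 := hm k hk
        have hcomm : ρ g⁻¹ * (ρ k - 1) = (ρ k - 1) * ρ g⁻¹ := by
          rw [sub_mul, mul_sub, one_mul, mul_one, ← map_mul, ← map_mul, hc01 k hk _ (inv_mem hg)]
        have e : ρ (g * m * g⁻¹) - 1 = ρ g * (ρ m - 1) * ρ g⁻¹ := by
          rw [mul_sub, sub_mul, mul_one, mul_inv_map, ← map_mul, ← map_mul]
        rw [e, mul_assoc, hcomm, ← mul_assoc, mul_assoc (ρ g), h1, mul_zero, zero_mul]
    intro l hl k hk
    exact hM hl k hk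
  -- vector forms
  have t1 : ∀ l ∈ K₁, ∀ k ∈ K, ∀ v, ρ l (ρ k v - v) = ρ k v - v := by
    intro l hl k hk v
    have h1 := DFunLike.congr_fun (s3 l hl k hk) v
    change ρ l (ρ k v - v) - (ρ k v - v) = 0 at h1
    exact sub_eq_zero.1 h1
  have t2 : ∀ l ∈ K₁, ∀ k ∈ K, ∀ v, ρ k (ρ l v - v) = ρ l v - v := by
    intro l hl k hk v
    have h1 := t1 l hl k hk v
    rw [map_sub, ← ap] at h1 ⊢
    rw [hc01 k hk l hl, ap]
    rw [ap] at h1
    -- l k v - l v = k v - v, so l k v - k v = l v - v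
    have h2 : ρ l (ρ k v) = ρ k v - v + ρ l v := by
      rw [← h1]
      abel
    rw [h2]
    abel
  -- the vectors
  let X : V → Prop := fun v => (∀ l ∈ K₁, ρ l v = v) ∧ ∀ k ∈ K, ρ k (ρ a v) = ρ a v
  have hX1 : ∀ k ∈ K, ∀ v, X (ρ k v - v) := by
    intro k hk v
    refine ⟨fun l hl => t1 l hl k hk v, fun k' hk' => ?_⟩
    have e : ρ a (ρ k v - v) = ρ (a * k * a⁻¹) (ρ a v) - ρ a v := by
      rw [map_sub, ← ap, ← ap, inv_mul_cancel_right]
    rw [e]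
    exact t2 _ (hmem₁.2 ⟨k, hk, rfl⟩) k' hk' _
  have hX2 : ∀ m ∈ K, ∀ v, X v → X (ρ m v) := by
    intro m hm v hv
    refine ⟨fun l hl => ?_, fun k hk => ?_⟩
    · rw [← ap, ← hc01 m hm l hl, ap, hv.1 l hl]
    · have e : ρ a (ρ m v) = ρ (a * m * a⁻¹) (ρ a v) := by
        rw [← ap, ← ap, inv_mul_cancel_right]
      rw [e, ← ap, hc01 k hk _ (hmem₁.2 ⟨m, hm, rfl⟩), ap, hv.2 k hk]
  -- (v)
  have s5 : ∀ v, X v → ∀ k ∈ K, ρ k (ρ b v - v) = ρ b v - v := by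
    intro v hv k hk
    have e : ρ b v - v = ρ b (ρ a v) - ρ a v := by
      have h1 := hqa v
      rw [map_sub] at h1
      have h2 : ρ b (ρ a v) = ρ a v - v + ρ b v := by
        rw [← h1]
        abel
      rw [h2]
      abel
    rw [e, map_sub, hv.2 k hk]
    congr 1
    have e2 : ρ k (ρ b (ρ a v)) = ρ b (ρ (b⁻¹ * k * b) (ρ a v)) := by
      rw [← ap, ← ap, ← ap, ← ap]
      congr 2
      group
    rw [e2, hv.2 _ (hbi' k hk)]
  -- (vi)
  let M : Subgroup G :=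
    { carrier := {m | m ∈ K ∧ ∀ k ∈ K, ∀ v, X v → ρ k (ρ m v - v) = ρ m v - v}
      one_mem' := by
        refine ⟨one_mem _, fun k _ v _ => ?_⟩
        rw [ap_one, sub_self, map_zero]
      mul_mem' := by
        rintro m m' ⟨hm, hm'⟩ ⟨hn, hn'⟩
        refine ⟨mul_mem hm hn, fun k hk v hv => ?_⟩
        have e : ρ (m * m') v - v = (ρ m (ρ m' v) - ρ m' v) + (ρ m' v - v) := by
          rw [ap]
          abel
        rw [e, map_add, hm' k hk _ (hX2 _ hn v hv), hn' k hk v hv]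
      inv_mem' := by
        rintro m ⟨hm, hm'⟩
        refine ⟨inv_mem hm, fun k hk v hv => ?_⟩
        have e : ρ m⁻¹ v - v = -(ρ m (ρ m⁻¹ v) - ρ m⁻¹ v) := by
          rw [ap_inv]
          abel
        rw [e, map_neg, hm' k hk _ (hX2 _ (inv_mem hm) v hv)] }
  have hM : K ≤ M := by
    refine h.qs.le_of_comm hbn hbK ?_ ?_
    · intro z hz
      have e : b * z * b⁻¹ * z⁻¹ = (z * b * z⁻¹ * b⁻¹)⁻¹ := by group
      rw [e]
      apply inv_mem
      have hcK : z * b * z⁻¹ * b⁻¹ ∈ K := by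
        have e : z * b * z⁻¹ * b⁻¹ = z * (b * z⁻¹ * b⁻¹) := by group
        rw [e]
        exact mul_mem hz (hbn' _ (inv_mem hz))
      refine ⟨hcK, fun k hk v hv => ?_⟩
      obtain ⟨c, hc⟩ : ∃ c, c = z * b * z⁻¹ * b⁻¹ := ⟨_, rfl⟩
      rw [← hc] at hcK ⊢
      have h1 : ∀ k ∈ K, ρ k (ρ (c * b) v - v) = ρ (c * b) v - v := by
        intro k hk
        have h2 := s5 _ (hX2 _ (inv_mem hz) v hv) (z⁻¹ * k * z) (mul_mem (mul_mem (inv_mem hz) hk) hz)
        have h3 := congrArg (ρ z) h2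
        rw [map_sub (ρ z), ap_inv, map_sub (ρ (z⁻¹ * k * z)), map_sub (ρ z)] at h3
        have e1 : ρ z (ρ b (ρ z⁻¹ v)) = ρ (c * b) v := by
          rw [← ap, ← ap, hc]
          congr 2
          group
        have e2 : ρ z (ρ (z⁻¹ * k * z) (ρ b (ρ z⁻¹ v))) = ρ k (ρ (c * b) v) := by
          rw [← ap, ← ap, ← ap, ← ap, hc]
          congr 2
          group
        have e3 : ρ z (ρ (z⁻¹ * k * z) (ρ z⁻¹ v)) = ρ k v := by
          rw [← ap, ← ap]
          congr 2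
          group
        rw [e1, e2, e3] at h3
        rw [map_sub, h3]
      have h2 := s5 v hv c hcK
      have e2 : ρ c v - v = (ρ (c * b) v - v) - (ρ b v - v) := by
        rw [map_sub, ← ap] at h2
        have h3 : ρ c v = ρ (c * b) v - (ρ b v - v) := by
          rw [← h2]
          abel
        rw [h3]
        abel
      rw [e2, map_sub, h1 k hk, s5 v hv k hk]
    · intro g hg m hm _
      refine ⟨mul_mem (mul_mem hg hm.1) (inv_mem hg), fun k hk v hv => ?_⟩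
      have e : ρ (g * m * g⁻¹) v - v = ρ g (ρ m (ρ g⁻¹ v) - ρ g⁻¹ v) := by
        rw [map_sub, ap_inv, ← ap, ← ap, mul_assoc]
      rw [e, ← ap]
      have e2 : k * g = g * (g⁻¹ * k * g) := by group
      rw [e2, ap, hm.2 _ (mul_mem (mul_mem (inv_mem hg) hk) hg) _ (hX2 _ (inv_mem hg) v hv)]
  -- conclusion
  obtain ⟨y, hy, hyp⟩ := h.qs.exists_pprime hp.out
  apply h.ne_one hy
  ext v
  have h1 := (hM hy.1).2 y hy.1 _ (hX1 y hy.1 v)
  have h2 := fix_of_sq ρ hyp h1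
  exact fix_of_sq ρ hyp h2

theorem Cfg.odd_false [Finite G] [Finite V] (h : Cfg ρ A K) (hp2 : p ≠ 2) : False := by
  obtain ⟨a, ha, hn⟩ := h.exists_mv
  obtain ⟨D, hDA, -, hDq, d, hd, hd1⟩ := timmesfeld ρ h.ab h.best h.isPGroup
    ⟨a, ha, fun h1 => hn (h.normalizes ha h1)⟩
  by_cases hDK : D ≤ normalizer (K : Set G)
  · refine h.odd_two hp2 ha hn (hDA hd) (hDK hd) (fun hc => hd1 (h.one_of_comm (hDA hd) hc)) (hDq d hd d (hDA hd))
      (hDq d hd a ha)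
  · rw [SetLike.not_le_iff_exists] at hDK
    obtain ⟨e, he, hen⟩ := hDK
    exact h.odd_quad hp2 (hDA he) hen (hDq e he e (hDA he))

end H13.PGV
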