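import Mathlib
import Cfsg.Agent.Lib.H13.PGV6

set_option autoImplicit false

/-!
The `P(G,V)` theorem: the prime two.
-/

namespace H13.PGV

open Subgroup

universe u v

variable {G : Type u} [Group G] {V : Type v} [AddCommGroup V] [Module (ZMod 2) V]
  {ρ : G →* Module.End (ZMod 2) V} {A K : Subgroup G}

theorem Cfg.sq (h : Cfg ρ A K) {a : G} (ha : a ∈ A) : a * a = 1 := by
  rw [← pow_two]
  exact h.el a ha

theorem Cfg.inv_eq (h : Cfg ρ A K) {a : G} (ha : a ∈ A) : a⁻¹ = a := inv_eq_of_mul_eq_one_right (h.sq ha)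

theorem add_self_two (v : V) : v + v = 0 := by
  have h1 : (2 : ZMod 2) • v = 0 := by
    rw [show (2 : ZMod 2) = 0 from rfl, zero_smul]
  rwa [two_smul] at h1

theorem neg_two (v : V) : -v = v := by
  rw [neg_eq_iff_add_eq_zero, add_self_two]

/-- minimal counterexample in which the diagonal subgroup of `K K^a` centralizes `[V,a]` -/
structure Cfg2 (ρ : G →* Module.End (ZMod 2) V) (A K : Subgroup G) : Prop extends Cfg ρ A K where
  H : ∀ a ∈ A, a ∉ normalizer (K : Set G) → ∀ k ∈ K, ∀ v, ρ (k * (a * k * a⁻¹)) (ρ a v - v) = ρ a v - v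

/-- `a` commutes with `k k^a` -/
theorem Cfg.comm_diag (h : Cfg ρ A K) {a : G} (ha : a ∈ A) (hn : a ∉ normalizer (K : Set G)) {k : G} (hk : k ∈ K) :
    a * (k * (a * k * a⁻¹)) = (k * (a * k * a⁻¹)) * a := by
  have h1 := h.cm a ha hn k hk k hk
  have h2 := h.sq ha
  have e : a * (k * (a * k * a⁻¹)) = (a * k * a⁻¹) * ((a * a) * k * a⁻¹) := by group
  rw [e, h2, one_mul, h1]
  have e2 : a * k * a⁻¹ * k * a = (a * k * a⁻¹) * (k * a) := by group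
  rw [h.inv_eq ha] at e2 ⊢
  rw [e2]

theorem Cfg.diag_mul (h : Cfg ρ A K) {a : G} (ha : a ∈ A) (hn : a ∉ normalizer (K : Set G)) {k l : G} (hk : k ∈ K)
    (hl : l ∈ K) : (k * l) * (a * (k * l) * a⁻¹) = (k * (a * k * a⁻¹)) * (l * (a * l * a⁻¹)) := by
  have h1 := h.cm a ha hn l hl k hk
  have e : (k * l) * (a * (k * l) * a⁻¹) = k * (l * (a * k * a⁻¹)) * (a * l * a⁻¹) := by group
  rw [e, h1]
  group

theorem Cfg2.a_fix (h : Cfg2 ρ A K) {a : G} (ha : a ∈ A) (hn : a ∉ normalizer (K : Set G)) {y : G} (hy : y ∈ K) (v : V) :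
    ρ a (ρ (y * (a * y * a⁻¹)) v - v) = ρ (y * (a * y * a⁻¹)) v - v := by
  have h1 := h.H a ha hn y hy v
  have h2 := h.comm_diag ha hn hy
  rw [map_sub, ← ap] at h1 ⊢
  rw [← h2] at h1
  have h3 : ρ (a * (y * (a * y * a⁻¹))) v = ρ a v - v + ρ (y * (a * y * a⁻¹)) v := by
    rw [← h1]
    abel
  rw [h3]
  abel

theorem Cfg2.lemma_one (h : Cfg2 ρ A K) {a : G} (ha : a ∈ A) (hn : a ∉ normalizer (K : Set G)) {y : G} (hy : y ∈ K) (v : V) :
    ρ y (ρ (y * (a * y * a⁻¹)) v - v) = ρ (a * y * a⁻¹) (ρ (y * (a * y * a⁻¹)) v - v) := by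
  obtain ⟨d, hd⟩ : ∃ d, d = y * (a * y * a⁻¹) := ⟨_, rfl⟩
  rw [← hd]
  have hcd : y * d = d * y := by
    rw [hd, h.cm a ha hn y hy y hy, ← mul_assoc, h.cm a ha hn y hy y hy]
  have h1 : ρ y (ρ d v - v) = ρ d (ρ y v) - ρ y v := by
    rw [map_sub, ← ap, ← ap, hcd]
  have h2 : ρ a (ρ y (ρ d v - v)) = ρ y (ρ d v - v) := by
    rw [h1, hd]
    exact h.a_fix ha hn hy _
  have h3 : ρ a (ρ d v - v) = ρ d v - v := by
    rw [hd]
    exact h.a_fix ha hn hy v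
  have h4 : ρ a (ρ y (ρ d v - v)) = ρ (a * y * a⁻¹) (ρ a (ρ d v - v)) := by
    rw [← ap, ← ap, inv_mul_cancel_right]
  rw [← h2, h4, h3]

theorem Cfg2.lemma_two (h : Cfg2 ρ A K) {a : G} (ha : a ∈ A) (hn : a ∉ normalizer (K : Set G)) {y g : G} (hy : y ∈ K)
    (hg : g ∈ K) (v : V) :
    ρ y (ρ (y * (a * (g * y * g⁻¹) * a⁻¹)) v - v) = ρ (a * (g * y * g⁻¹) * a⁻¹) (ρ (y * (a * (g * y * g⁻¹) * a⁻¹)) v - v) := by
  obtain ⟨w, hw⟩ : ∃ w, w = a * g * a⁻¹ := ⟨_, rfl⟩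
  have hwy : w * y = y * w := by
    rw [hw]
    exact (h.cm a ha hn y hy g hg).symm
  have e1 : a * (g * y * g⁻¹) * a⁻¹ = w * (a * y * a⁻¹) * w⁻¹ := by
    rw [hw]
    group
  have e2 : y * (a * (g * y * g⁻¹) * a⁻¹) = w * (y * (a * y * a⁻¹)) * w⁻¹ := by
    rw [e1]
    have e3 : w * (y * (a * y * a⁻¹)) * w⁻¹ = (w * y) * (a * y * a⁻¹) * w⁻¹ := by group
    rw [e3, hwy]
    group
  rw [e2, e1]
  have e4 : ρ (w * (y * (a * y * a⁻¹)) * w⁻¹) v - v = ρ w (ρ (y * (a * y * a⁻¹)) (ρ w⁻¹ v) - ρ w⁻¹ v) := by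
    rw [map_sub, ap_inv, ← ap, ← ap]
  rw [e4]
  have h1 := h.lemma_one ha hn hy (ρ w⁻¹ v)
  obtain ⟨t, ht⟩ : ∃ t, t = ρ (y * (a * y * a⁻¹)) (ρ w⁻¹ v) - ρ w⁻¹ v := ⟨_, rfl⟩
  rw [← ht] at h1 ⊢
  rw [← ap, ← hwy, ap, h1, ← ap, ← ap ρ (w * (a * y * a⁻¹) * w⁻¹) w, inv_mul_cancel_right]

theorem odd_coprime {n : ℕ} (h : Odd n) : n.Coprime 2 := Nat.Coprime.symm (Nat.coprime_two_left.2 h)

/-- fixed points of `y` are fixed by `K^a` -/
theorem Cfg2.fix_one [Finite G] (h : Cfg2 ρ A K) {a : G} (ha : a ∈ A) (hn : a ∉ normalizer (K : Set G)) {y : G} (hy : Nc K y)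
    (hyo : Odd (orderOf y)) {v : V} (hv : ρ y v = v) : ∀ k ∈ K, ρ (a * k * a⁻¹) v = v := by
  let M : Subgroup G :=
    { carrier := {x | ρ (a * x * a⁻¹) v = v}
      one_mem' := by
        change ρ (a * 1 * a⁻¹) v = v
        rw [mul_one, mul_inv_cancel, ap_one]
      mul_mem' := by
        intro x x' hx hx'
        change ρ (a * (x * x') * a⁻¹) v = v
        have e : a * (x * x') * a⁻¹ = (a * x * a⁻¹) * (a * x' * a⁻¹) := by group
        rw [e, ap, show ρ (a * x' * a⁻¹) v = v from hx', show ρ (a * x * a⁻¹) v = v from hx]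
      inv_mem' := by
        intro x hx
        change ρ (a * x⁻¹ * a⁻¹) v = v
        have e : a * x⁻¹ * a⁻¹ = (a * x * a⁻¹)⁻¹ := by group
        rw [e]
        conv_lhs => rw [← show ρ (a * x * a⁻¹) v = v from hx]
        exact inv_ap ρ _ v }
  have hM : K ≤ M := by
    refine h.qs.le_of_nc hy ?_
    intro g hg
    change ρ (a * (g * y * g⁻¹) * a⁻¹) v = v
    have h1 := h.lemma_two ha hn hy.1 hg v
    obtain ⟨z, hz⟩ : ∃ z, z = a * (g * y * g⁻¹) * a⁻¹ := ⟨_, rfl⟩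
    rw [← hz] at h1 ⊢
    have hgy : g * y * g⁻¹ ∈ K := mul_mem (mul_mem hg hy.1) (inv_mem hg)
    have hyz : y * z = z * y := by
      rw [hz]
      exact h.cm a ha hn y hy.1 _ hgy
    have e1 : ρ (y * z) v = ρ z v := by rw [hyz, ap, hv]
    rw [e1] at h1
    have e2 : ρ y (ρ z v - v) = ρ z v - v := by
      rw [map_sub, ← ap, e1, hv]
    rw [e2] at h1
    apply fix_of_sq ρ (g := z) ?_ h1.symm
    have h3 : orderOf z = orderOf y := by
      have e4 : z = (a * g) * y * (a * g)⁻¹ := by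
        rw [hz]
        group
      rw [e4]
      exact MulEquiv.orderOf_eq (MulAut.conj (a * g)) y
    rw [h3]
    exact odd_coprime hyo
  intro k hk
  exact hM hk

theorem Cfg2.fix_conj [Finite G] (h : Cfg2 ρ A K) {a : G} (ha : a ∈ A) (hn : a ∉ normalizer (K : Set G)) {y : G} (hy : Nc K y)
    (hyo : Odd (orderOf y)) {v : V} (hv : ρ (a * y * a⁻¹) v = v) : ∀ k ∈ K, ρ k v = v := by
  have h3 : ρ y (ρ a⁻¹ v) = ρ a⁻¹ v := by
    apply ap_inj ρ (g := a)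
    rw [← ap, ← ap, hv, ap_inv]
  intro k hk
  have h4 := h.fix_one ha hn hy hyo h3 k hk
  have h5 := congrArg (ρ a) h4
  rw [ap_inv, ← ap, ← ap] at h5
  have e : a * (a * k * a⁻¹) * a⁻¹ = (a * a) * k * (a * a)⁻¹ := by group
  rw [e, h.sq ha] at h5
  simpa using h5

theorem Cfg2.fix_two [Finite G] (h : Cfg2 ρ A K) {y : G} (hy : Nc K y)
    (hyo : Odd (orderOf y)) {v : V} (hv : ρ y v = v) : ∀ k ∈ K, ρ k v = v := by
  obtain ⟨a, ha, hn⟩ := h.exists_mv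
  exact h.fix_conj ha hn hy hyo (h.fix_one ha hn hy hyo hv y hy.1)

end H13.PGV
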