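import Mathlib
import Cfsg.Agent.Lib.H13.PGV7

set_option autoImplicit false

/-!
The `P(G,V)` theorem: the prime two, structure of the module.
-/

namespace H13.PGV

open Subgroup
open scoped commutatorElement

universe u v

variable {G : Type u} [Group G] {V : Type v} [AddCommGroup V] [Module (ZMod 2) V]
  {ρ : G →* Module.End (ZMod 2) V} {A K : Subgroup G} [Finite G] [Finite V]

theorem split_vec {y : G} (hyo : Odd (orderOf y)) (v : V) : ∃ c w, ρ y c = c ∧ v = (ρ y w - w) + c := by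
  have h1 : LinearMap.range (ρ y - 1) ⊓ LinearMap.ker (ρ y - 1) = ⊥ := by
    rw [eq_bot_iff]
    rintro _ ⟨⟨w, rfl⟩, hw⟩
    rw [SetLike.mem_coe, LinearMap.mem_ker] at hw
    change ρ y (ρ y w - w) - (ρ y w - w) = 0 at hw
    have h2 := fix_of_sq ρ (odd_coprime hyo) (sub_eq_zero.1 hw)
    rw [Submodule.mem_bot]
    change ρ y w - w = 0
    rw [h2, sub_self]
  have h2 : LinearMap.range (ρ y - 1) ⊔ LinearMap.ker (ρ y - 1) = ⊤ := by
    apply eq_of_le_of_card le_top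
    rw [card_top]
    have h3 := card_sup_inf (LinearMap.range (ρ y - 1)) (LinearMap.ker (ρ y - 1))
    have h4 := card_ker_mul_range (ρ y - 1)
    rw [h1, Nat.mul_comm (Nat.card (LinearMap.range (ρ y - 1))), h4] at h3
    have h5 : Nat.card (⊥ : Submodule (ZMod 2) V) = 1 := Nat.card_unique
    rw [h5, mul_one] at h3
    exact h3.ge
  have h3 : v ∈ LinearMap.range (ρ y - 1) ⊔ LinearMap.ker (ρ y - 1) := by
    rw [h2]
    exact Submodule.mem_top
  obtain ⟨_, ⟨w, rfl⟩, c, hc, hv⟩ := Submodule.mem_sup.1 h3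
  refine ⟨c, w, ?_, hv.symm⟩
  rw [LinearMap.mem_ker] at hc
  exact sub_eq_zero.1 hc

theorem mem_range_of_comm {y l : G} (hyo : Odd (orderOf y)) (hc : y * l = l * y) (hf : ∀ c, ρ y c = c → ρ l c = c) (v : V) :
    ρ l v - v ∈ LinearMap.range (ρ y - 1) := by
  obtain ⟨c, w, hc', hv⟩ := split_vec (ρ := ρ) hyo v
  refine ⟨ρ l w - w, ?_⟩
  change ρ y (ρ l w - w) - (ρ l w - w) = ρ l v - v
  rw [hv, map_add, hf c hc', map_sub, map_sub, ← ap, ← ap, hc]
  abel

theorem Cfg2.fix_zero (h : Cfg2 ρ A K) {y : G} (hy : Nc K y) (hyo : Odd (orderOf y)) {v : V} (hv : ρ y v = v) :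
    v = 0 := by
  obtain ⟨a, ha, hn⟩ := h.exists_mv
  obtain ⟨y₁, hy₁⟩ : ∃ y₁, y₁ = a * y * a⁻¹ := ⟨_, rfl⟩
  have hyy : y * y₁ = y₁ * y := by
    rw [hy₁]
    exact h.cm a ha hn y hy.1 y hy.1
  have hy₁o : Odd (orderOf y₁) := by
    rw [hy₁, show a * y * a⁻¹ = MulAut.conj a y from rfl, MulEquiv.orderOf_eq]
    exact hyo
  have hU : LinearMap.range (ρ y - 1) ≤ LinearMap.range (ρ y₁ - 1) := by
    rintro _ ⟨w, rfl⟩
    exact mem_range_of_comm hy₁o hyy.symm (fun c hc => h.fix_conj ha hn hy hyo (hy₁ ▸ hc) y hy.1) w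
  have hU' : LinearMap.range (ρ y₁ - 1) ≤ LinearMap.range (ρ y - 1) := by
    rintro _ ⟨w, rfl⟩
    refine mem_range_of_comm hyo hyy (fun c hc => ?_) w
    rw [hy₁]
    exact h.fix_one ha hn hy hyo hc y hy.1
  have hUK : ∀ k ∈ K, ∀ w, ρ k w - w ∈ LinearMap.range (ρ y - 1) := by
    intro k hk w
    apply hU'
    refine mem_range_of_comm hy₁o ?_ (fun c hc => h.fix_conj ha hn hy hyo (hy₁ ▸ hc) k hk) w
    rw [hy₁]
    exact (h.cm a ha hn k hk y hy.1).symm
  rcases h.mn (LinearMap.range (ρ y - 1)) (by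
    rintro b hb _ ⟨w, rfl⟩
    have e : ρ b ((ρ y - 1) w) = ρ (b * y * b⁻¹) (ρ b w) - ρ b w := by
      change ρ b (ρ y w - w) = _
      rw [map_sub, ← ap, ← ap, inv_mul_cancel_right]
    rw [e]
    by_cases hbn : b ∈ normalizer (K : Set G)
    · exact hUK _ ((mem_normalizer_iff.1 hbn y).1 hy.1) _
    · refine mem_range_of_comm hyo (h.cm b hb hbn y hy.1 y hy.1) (fun c hc => ?_) _
      exact h.fix_one hb hbn hy hyo hc y hy.1) (by
    intro k hk w hw
    have e : ρ k w = (ρ k w - w) + w := by abel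
    rw [e]
    exact Submodule.add_mem _ (hUK k hk w) hw) with h1 | h1
  · -- `ρ y - 1` is surjective, hence injective
    have h2 := card_ker_mul_range (ρ y - 1)
    rw [h1, card_top] at h2
    have h3 : Nat.card (LinearMap.ker (ρ y - 1)) = 1 := by
      have h4 : 0 < Nat.card V := Nat.card_pos
      exact Nat.eq_of_mul_eq_mul_right h4 (by rw [h2, one_mul])
    have h4 : v ∈ LinearMap.ker (ρ y - 1) := by
      rw [LinearMap.mem_ker]
      change ρ y v - v = 0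
      rw [hv, sub_self]
    have h5 := (Nat.card_eq_one_iff_unique.1 h3).1
    exact congrArg Subtype.val (h5.elim (⟨v, h4⟩ : LinearMap.ker (ρ y - 1)) 0)
  · exfalso
    apply h.ne_one hy
    apply one_of_sq ρ (odd_coprime hyo)
    ext w
    have h2 : ρ y (ρ y w - w) = ρ y w - w := h1 y hy.1 _ ⟨w, rfl⟩
    change ρ y (ρ y w - w) - (ρ y w - w) = 0
    rw [h2, sub_self]

omit [Finite G] [Finite V] in
theorem Cfg2.diag_ne (h : Cfg2 ρ A K) {a : G} (ha : a ∈ A) (hn : a ∉ normalizer (K : Set G)) {y : G} (hy : Nc K y) :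
    ρ (y * (a * y * a⁻¹)) ≠ 1 := by
  intro h1
  refine h.not_comm hy ?_
  intro k hk
  have h2 : ρ y = ρ (a * y * a⁻¹)⁻¹ := by
    have h3 : ρ (y * (a * y * a⁻¹)) * ρ (a * y * a⁻¹)⁻¹ = ρ y := by
      rw [← map_mul, mul_inv_cancel_right]
    rw [← h3, h1, one_mul]
  rw [h2, ← map_mul, ← map_mul]
  have h4 := h.cm a ha hn k hk y hy.1
  have h5 : Commute k (a * y * a⁻¹) := h4
  rw [(h5.inv_right).eq]

/-- `A` normalizes `K` up to index two -/
theorem Cfg2.two_cosets (h : Cfg2 ρ A K) {a b : G} (ha : a ∈ A) (hn : a ∉ normalizer (K : Set G))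
    (hb : b ∈ A) (hbn : b ∉ normalizer (K : Set G)) : a * b ∈ normalizer (K : Set G) := by
  by_contra hab
  obtain ⟨y, hy, hyp⟩ := h.qs.exists_pprime Nat.prime_two
  have hyo : Odd (orderOf y) := Nat.Coprime.odd_of_right hyp
  obtain ⟨d, hd⟩ : ∃ d, d = y * (a * y * a⁻¹) := ⟨_, rfl⟩
  apply h.diag_ne ha hn hy
  rw [← hd]
  -- `k₃ = b k b⁻¹` commutes with `d`
  have hcd : ∀ k ∈ K, (b * k * b⁻¹) * d = d * (b * k * b⁻¹) := by
    intro k hk
    have h1 : Commute y (b * k * b⁻¹) := h.cm b hb hbn y hy.1 k hk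
    have h2 : Commute (a * y * a⁻¹) (b * k * b⁻¹) := by
      have h3 := h.cm (a * b) (mul_mem ha hb) hab y hy.1 k hk
      have h4 : a * (y * (a * b * k * (a * b)⁻¹)) * a⁻¹ = a * ((a * b * k * (a * b)⁻¹) * y) * a⁻¹ := by rw [h3]
      have e1 : a * (y * (a * b * k * (a * b)⁻¹)) * a⁻¹ = (a * y * a⁻¹) * ((a * a) * (b * k * b⁻¹) * (a * a)⁻¹) := by group
      have e2 : a * ((a * b * k * (a * b)⁻¹) * y) * a⁻¹ = ((a * a) * (b * k * b⁻¹) * (a * a)⁻¹) * (a * y * a⁻¹) := by group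
      rw [e1, e2, h.sq ha, one_mul, inv_one, mul_one] at h4
      exact h4
    rw [hd]
    exact ((h1.symm).mul_right h2.symm).eq
  have hG : ∀ k ∈ K, ∀ v, ρ (a * (b * k * b⁻¹) * a⁻¹) (ρ d v - v) = ρ (b * k * b⁻¹) (ρ d v - v) := by
    intro k hk v
    have h1 : ρ a (ρ d v - v) = ρ d v - v := by
      rw [hd]
      exact h.a_fix ha hn hy.1 v
    have h2 : ρ (b * k * b⁻¹) (ρ d v - v) = ρ d (ρ (b * k * b⁻¹) v) - ρ (b * k * b⁻¹) v := by
      rw [map_sub, ← ap, ← ap, hcd k hk]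
    have h3 : ρ a (ρ (b * k * b⁻¹) (ρ d v - v)) = ρ (b * k * b⁻¹) (ρ d v - v) := by
      rw [h2, hd]
      exact h.a_fix ha hn hy.1 _
    have h4 : ρ a (ρ (b * k * b⁻¹) (ρ d v - v)) = ρ (a * (b * k * b⁻¹) * a⁻¹) (ρ a (ρ d v - v)) := by
      rw [← ap, ← ap, inv_mul_cancel_right]
    rw [← h3, h4, h1]
  let M : Subgroup G :=
    { carrier := {x | x ∈ K ∧ ∀ v, ρ (b * x * b⁻¹) (ρ d v - v) = ρ d v - v}
      one_mem' := by
        refine ⟨one_mem _, fun v => ?_⟩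
        rw [mul_one, mul_inv_cancel, ap_one]
      mul_mem' := by
        rintro x x' ⟨hx, hx'⟩ ⟨hz, hz'⟩
        refine ⟨mul_mem hx hz, fun v => ?_⟩
        have e : b * (x * x') * b⁻¹ = (b * x * b⁻¹) * (b * x' * b⁻¹) := by group
        rw [e, ap, hz', hx']
      inv_mem' := by
        rintro x ⟨hx, hx'⟩
        refine ⟨inv_mem hx, fun v => ?_⟩
        have e : b * x⁻¹ * b⁻¹ = (b * x * b⁻¹)⁻¹ := by group
        rw [e]
        conv_lhs => rw [← hx' v]
        exact inv_ap ρ _ _ }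
  have hM : K ≤ M := by
    conv_lhs => rw [← h.qs.perf]
    rw [Subgroup.commutator_le]
    intro k hk l hl
    refine ⟨by
      rw [← h.qs.perf]
      exact Subgroup.commutator_mem_commutator hk hl, fun v => ?_⟩
    obtain ⟨k', hk'⟩ : ∃ k', k' = b * k * b⁻¹ := ⟨_, rfl⟩
    obtain ⟨l', hl'⟩ : ∃ l', l' = b * l * b⁻¹ := ⟨_, rfl⟩
    have e : b * ⁅k, l⁆ * b⁻¹ = k' * l' * (l' * k')⁻¹ := by
      rw [commutatorElement_def, hk', hl']
      group
    rw [e]
    have key : ∀ v, ρ (k' * l') (ρ d v - v) = ρ (l' * k') (ρ d v - v) := by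
      intro v
      have hcm : k' * (a * l' * a⁻¹) = (a * l' * a⁻¹) * k' := by
        have h3 := h.cm a ha hn k hk l hl
        have h4 : b * (k * (a * l * a⁻¹)) * b⁻¹ = b * ((a * l * a⁻¹) * k) * b⁻¹ := by rw [h3]
        have hba : b * a = a * b := h.ab b hb a ha
        have e1 : b * (k * (a * l * a⁻¹)) * b⁻¹ = (b * k * b⁻¹) * ((b * a) * l * (b * a)⁻¹) := by group
        have e2 : b * ((a * l * a⁻¹) * k) * b⁻¹ = ((b * a) * l * (b * a)⁻¹) * (b * k * b⁻¹) := by group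
        rw [e1, e2, hba] at h4
        have e3 : a * l' * a⁻¹ = a * b * l * (a * b)⁻¹ := by
          rw [hl']
          group
        rw [hk', e3]
        exact h4
      have h1 := hG l hl v
      rw [← hl'] at h1
      rw [ap, ← h1, ← ap, hcm, ap]
      have h2 : ρ k' (ρ d v - v) = ρ d (ρ k' v) - ρ k' v := by
        rw [hk', map_sub, ← ap, ← ap, hcd k hk]
      rw [h2]
      have h3 := hG l hl (ρ k' v)
      rw [← hl'] at h3
      rw [h3, ap, h2]
    obtain ⟨g, hg⟩ : ∃ g, g = (l' * k')⁻¹ := ⟨_, rfl⟩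
    have h5 : ρ g (ρ d v - v) = ρ d (ρ g v) - ρ g v := by
      have hkd : Commute k' d := by
        rw [hk']
        exact hcd k hk
      have hld : Commute l' d := by
        rw [hl']
        exact hcd l hl
      have hgd : Commute g d := by
        rw [hg]
        exact (hld.mul_left hkd).inv_left
      rw [map_sub, ← ap, ← ap, hgd.eq]
    rw [← hg, ap, h5, key, ← h5, hg, ap_inv]
  ext v
  have h1 := (hM hy.1).2 v
  have h2 : ρ y (ρ b⁻¹ (ρ d v - v)) = ρ b⁻¹ (ρ d v - v) := by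
    apply ap_inj ρ (g := b)
    rw [← ap, ← ap, h1, ap_inv]
  have h3 := h.fix_zero hy hyo h2
  have h4 : ρ d v - v = 0 := by
    apply ap_inj ρ (g := b⁻¹)
    rw [h3, map_zero]
  exact sub_eq_zero.1 h4

end H13.PGV
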