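import Mathlib
import Cfsg.Agent.Lib.H13.PGV8

set_option autoImplicit false

/-!
The `P(G,V)` theorem: the prime two, counting.
-/

namespace H13.PGV

open Subgroup
open scoped commutatorElement

universe u v

variable {G : Type u} [Group G] {V : Type v} [AddCommGroup V] [Module (ZMod 2) V]
  {ρ : G →* Module.End (ZMod 2) V} {A K : Subgroup G}

theorem mem_ker' {g : G} {v : V} : v ∈ LinearMap.ker (ρ g - 1) ↔ ρ g v = v := by
  rw [LinearMap.mem_ker]
  change ρ g v - v = 0 ↔ _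
  rw [sub_eq_zero]

theorem mem_range' {g : G} {v : V} : v ∈ LinearMap.range (ρ g - 1) ↔ ∃ w, ρ g w - w = v := Iff.rfl

/-- involutions act quadratically in characteristic two -/
theorem sq_fix {a : G} (ha : a * a = 1) (v : V) : ρ a (ρ a v - v) = ρ a v - v := by
  rw [map_sub, ← ap, ha, ap_one, ← neg_sub, neg_two]

theorem nc_pow {y : G} (hy : Nc K y) (hyo : Odd (orderOf y)) : Nc K (y * y) := by
  refine ⟨mul_mem hy.1 hy.1, ?_⟩
  by_contra hcon
  push Not at hcon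
  obtain ⟨hyK, k, hk, hne⟩ := hy
  apply hne
  obtain ⟨m, hm⟩ := hyo
  have h1 : y = (y * y) ^ (m + 1) := by
    rw [← pow_two, ← pow_mul]
    have e : 2 * (m + 1) = orderOf y + 1 := by omega
    rw [e, pow_succ, pow_orderOf_eq_one, one_mul]
  have h2 : Commute (y * y) k := hcon k hk
  rw [h1]
  exact (h2.pow_left _).eq

theorem odd_sq {y : G} (hyo : Odd (orderOf y)) : Odd (orderOf (y * y)) := by
  rw [← pow_two]
  exact Odd.of_dvd_nat hyo (orderOf_pow_dvd 2)

variable [Finite G] [Finite V]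

theorem card_map_eq (g : G) (W : Submodule (ZMod 2) V) : Nat.card (W.map (ρ g)) = Nat.card W := by
  refine (Nat.card_congr (Submodule.equivMapOfInjective (ρ g) ?_ W).toEquiv).symm
  intro v w hvw
  exact ap_inj ρ hvw

theorem Cfg2.core (h : Cfg2 ρ A K) {a : G} (ha : a ∈ A) (hn : a ∉ normalizer (K : Set G)) {y : G} (hy : Nc K y)
    (hyo : Odd (orderOf y)) :
    LinearMap.ker (ρ (y * (a * y * a⁻¹)) - 1) ⊓ LinearMap.ker (ρ a - 1) = LinearMap.range (ρ a - 1) ∧
    Nat.card (LinearMap.ker (ρ (y * (a * y * a⁻¹)) - 1)) =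
      Nat.card (LinearMap.range (ρ a - 1)) * Nat.card (LinearMap.range (ρ a - 1)) := by
  obtain ⟨d, hd⟩ : ∃ d, d = y * (a * y * a⁻¹) := ⟨_, rfl⟩
  rw [← hd]
  have hyy : y * (a * y * a⁻¹) = (a * y * a⁻¹) * y := h.cm a ha hn y hy.1 y hy.1
  set Vm := LinearMap.ker (ρ d - 1) with hVm
  set Ca := LinearMap.ker (ρ a - 1) with hCa
  set R := LinearMap.range (ρ a - 1) with hR
  have hRC : R ≤ Vm ⊓ Ca := by
    rintro _ ⟨v, rfl⟩
    refine ⟨?_, ?_⟩
    · rw [SetLike.mem_coe, hVm, mem_ker', hd]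
      exact h.H a ha hn y hy.1 v
    · rw [SetLike.mem_coe, hCa, mem_ker']
      exact sq_fix (h.sq ha) v
  have h1 : Nat.card (Vm ⊓ Ca : Submodule (ZMod 2) V) * Nat.card (Vm ⊓ Ca : Submodule (ZMod 2) V) ≤ Nat.card Vm := by
    have hle : (Vm ⊓ Ca) ⊔ (Vm ⊓ Ca).map (ρ y) ≤ Vm := by
      apply sup_le inf_le_left
      rintro _ ⟨v, ⟨hv, -⟩, rfl⟩
      rw [SetLike.mem_coe, hVm, mem_ker'] at hv
      rw [hVm, mem_ker', ← ap]
      have e : d * y = y * d := by
        rw [hd]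
        conv_rhs => rw [hyy]
        group
      rw [e, ap, hv]
    have hinf : (Vm ⊓ Ca) ⊓ (Vm ⊓ Ca).map (ρ y) = ⊥ := by
      rw [eq_bot_iff]
      rintro _ ⟨⟨hv, hva⟩, ⟨w, ⟨hw, hwa⟩, rfl⟩⟩
      rw [SetLike.mem_coe, hVm, mem_ker'] at hv hw
      rw [SetLike.mem_coe, hCa, mem_ker'] at hva hwa
      -- `ρ (a y a⁻¹)` agrees with `ρ y` on `w`
      have e1 : ρ (a * y * a⁻¹) w = ρ y w := by
        have e2 : ρ a (ρ y w) = ρ (a * y * a⁻¹) (ρ a w) := by
          rw [← ap, ← ap, inv_mul_cancel_right]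
        rw [hwa] at e2
        rw [← e2, hva]
      have e3 : ρ (y * y) w = w := by
        rw [ap, ← e1, ← ap, ← hd, hw]
      have e4 := h.fix_zero (nc_pow hy hyo) (odd_sq hyo) e3
      rw [e4, map_zero]
      exact Submodule.zero_mem _
    have h2 := card_sup_inf (Vm ⊓ Ca) ((Vm ⊓ Ca).map (ρ y))
    rw [hinf, card_map_eq, show Nat.card (⊥ : Submodule (ZMod 2) V) = 1 from Nat.card_unique, mul_one] at h2
    rw [← h2]
    exact card_le_of_le hle
  have h2 : Nat.card Vm ≤ Nat.card R * Nat.card (Vm ⊓ Ca : Submodule (ZMod 2) V) := by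
    have h3 := card_sup_inf Vm Ca
    have h4 := card_ker_mul_range (ρ a - 1)
    rw [← hCa, ← hR] at h4
    have h5 : Nat.card (Vm ⊔ Ca : Submodule (ZMod 2) V) ≤ Nat.card V := by
      rw [← card_top (p := 2) (V := V)]
      exact card_le_of_le le_top
    have h6 : Nat.card Vm * Nat.card Ca ≤ (Nat.card R * Nat.card (Vm ⊓ Ca : Submodule (ZMod 2) V)) * Nat.card Ca := by
      calc Nat.card Vm * Nat.card Ca = Nat.card (Vm ⊔ Ca : Submodule (ZMod 2) V) * Nat.card (Vm ⊓ Ca : Submodule (ZMod 2) V) := h3.symm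
        _ ≤ Nat.card V * Nat.card (Vm ⊓ Ca : Submodule (ZMod 2) V) := Nat.mul_le_mul_right _ h5
        _ = _ := by rw [← h4]; ring
    exact Nat.le_of_mul_le_mul_right h6 Nat.card_pos
  have h3 : Nat.card (Vm ⊓ Ca : Submodule (ZMod 2) V) ≤ Nat.card R :=
    Nat.le_of_mul_le_mul_right (h1.trans h2) Nat.card_pos
  have h4 : R = Vm ⊓ Ca := eq_of_le_of_card hRC h3
  refine ⟨h4.symm, ?_⟩
  rw [← h4] at h1 h2
  exact le_antisymm h2 h1

theorem Cfg2.vm_ne (h : Cfg2 ρ A K) {a : G} (ha : a ∈ A) (hn : a ∉ normalizer (K : Set G)) {y : G} (hy : Nc K y)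
    (hyo : Odd (orderOf y)) : ∃ v, v ≠ 0 ∧ ρ (y * (a * y * a⁻¹)) v = v := by
  have h1 : 1 < Nat.card (LinearMap.range (ρ a - 1)) := by
    by_contra hcon
    push Not at hcon
    have h2 : Nat.card (LinearMap.range (ρ a - 1)) = 1 := le_antisymm hcon Nat.card_pos
    apply hn
    apply h.normalizes ha
    ext v
    have h3 := (Nat.card_eq_one_iff_unique.1 h2).1
    have h4 := congrArg Subtype.val (h3.elim (⟨(ρ a - 1) v, v, rfl⟩ : LinearMap.range (ρ a - 1)) 0)
    exact sub_eq_zero.1 h4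
  obtain ⟨hC, -⟩ := h.core ha hn hy hyo
  have h2 : Nontrivial (LinearMap.range (ρ a - 1)) := (Finite.one_lt_card_iff_nontrivial).1 h1
  obtain ⟨w, hw⟩ := exists_ne (0 : LinearMap.range (ρ a - 1))
  have h3 : (w : V) ∈ LinearMap.ker (ρ (y * (a * y * a⁻¹)) - 1) ⊓ LinearMap.ker (ρ a - 1) := by
    rw [hC]
    exact w.2
  exact ⟨w, fun h4 => hw (Subtype.ext h4), mem_ker'.1 h3.1⟩

theorem Cfg2.not_le_two (h : Cfg2 ρ A K) {a : G} (ha : a ∈ A) (hn : a ∉ normalizer (K : Set G))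
    (hc : Nat.card (LinearMap.range (ρ a - 1)) ≤ 2) : False := by
  obtain ⟨y, hy, hyo, hy3⟩ := h.qs.exists_cube
  obtain ⟨-, hV⟩ := h.core ha hn hy hyo
  obtain ⟨v, hv0, hv⟩ := h.vm_ne ha hn hy hyo
  have hyy : y * (a * y * a⁻¹) = (a * y * a⁻¹) * y := h.cm a ha hn y hy.1 y hy.1
  have hmem : ∀ n : ℕ, ρ (y ^ n) v ∈ LinearMap.ker (ρ (y * (a * y * a⁻¹)) - 1) := by
    intro n
    rw [mem_ker', ← ap]
    have e : Commute (y * (a * y * a⁻¹)) (y ^ n) := by
      apply Commute.pow_right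
      have h1 : Commute y (a * y * a⁻¹) := hyy
      exact ((Commute.refl y).mul_left h1.symm)
    rw [e.eq, ap, hv]
  have hne : ∀ n : ℕ, ρ (y ^ n) v ≠ 0 := by
    intro n h1
    apply hv0
    apply ap_inj ρ (g := y ^ n)
    rw [h1, map_zero]
  have h3o : Odd (orderOf (y ^ 3)) := Odd.of_dvd_nat hyo (orderOf_pow_dvd 3)
  -- five distinct elements
  let f : Fin 5 → LinearMap.ker (ρ (y * (a * y * a⁻¹)) - 1) :=
    ![0, ⟨_, hmem 0⟩, ⟨_, hmem 1⟩, ⟨_, hmem 2⟩, ⟨_, hmem 3⟩]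
  have d1 : ∀ n : ℕ, ρ (y ^ n) v ≠ ρ (y ^ (n + 1)) v := by
    intro n h1
    rw [pow_succ', ap] at h1
    exact hne n (h.fix_zero hy hyo h1.symm)
  have d2 : ∀ n : ℕ, ρ (y ^ n) v ≠ ρ (y ^ (n + 2)) v := by
    intro n h1
    have e : y ^ (n + 2) = (y * y) * y ^ n := by
      rw [pow_add, pow_two]
      exact ((Commute.refl y).mul_right (Commute.refl y) |>.pow_left n).eq
    rw [e, ap] at h1
    exact hne n (h.fix_zero (nc_pow hy hyo) (odd_sq hyo) h1.symm)
  have d3 : ρ (y ^ 0) v ≠ ρ (y ^ 3) v := by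
    intro h1
    rw [pow_zero, ap_one] at h1
    exact hv0 (h.fix_zero hy3 h3o h1.symm)
  have hf : Function.Injective f := by
    intro i j hij
    have hij' := congrArg Subtype.val hij
    fin_cases i <;> fin_cases j
    all_goals first
      | rfl
      | exact absurd hij'.symm (hne _)
      | exact absurd hij' (hne _)
      | exact absurd hij' (d1 _)
      | exact absurd hij'.symm (d1 _)
      | exact absurd hij' (d2 _)
      | exact absurd hij'.symm (d2 _)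
      | exact absurd hij' d3
      | exact absurd hij'.symm d3
  have h5 := Nat.card_le_card_of_injective f hf
  rw [Nat.card_fin, hV] at h5
  have h6 : Nat.card (LinearMap.range (ρ a - 1)) * Nat.card (LinearMap.range (ρ a - 1)) ≤ 2 * 2 := Nat.mul_le_mul hc hc
  omega

end H13.PGV
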