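import Mathlib
import Cfsg.Agent.Lib.H13.PGV9

set_option autoImplicit false

/-!
The `P(G,V)` theorem: the prime two, end of the proof.
-/

namespace H13.PGV

open Subgroup
open scoped commutatorElement

universe u v

variable {G : Type u} [Group G] {V : Type v} [AddCommGroup V] [Module (ZMod 2) V]
  {ρ : G →* Module.End (ZMod 2) V} {A K : Subgroup G}

theorem im_comm {g a : G} (h : g * a = a * g) (v : V) : ρ g (ρ a v - v) = ρ a (ρ g v) - ρ g v := by
  rw [map_sub, ← ap, ← ap, h]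

theorem Cfg.diag_inv (h : Cfg ρ A K) {a : G} (ha : a ∈ A) (hn : a ∉ normalizer (K : Set G)) {k : G} (hk : k ∈ K) :
    k⁻¹ * (a * k⁻¹ * a⁻¹) = (k * (a * k * a⁻¹))⁻¹ := by
  have h1 := h.diag_mul ha hn (inv_mem hk) hk
  rw [inv_mul_cancel, mul_one, mul_inv_cancel, mul_one] at h1
  exact (inv_eq_of_mul_eq_one_left h1.symm).symm

theorem Cfg.H_of_T (h : Cfg ρ A K) {a t : G} (ha : a ∈ A) (hn : a ∉ normalizer (K : Set G)) (ht : t ∈ A)
    (htn : t ∈ normalizer (K : Set G)) (htK : ¬ ∀ k ∈ K, t * k = k * t) (hta : ∀ v, ρ t (ρ a v - v) = ρ a v - v) :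
    ∀ k ∈ K, ∀ v, ρ (k * (a * k * a⁻¹)) (ρ a v - v) = ρ a v - v := by
  have hat : a * t = t * a := h.ab a ha t ht
  let M : Subgroup G :=
    { carrier := {k | k ∈ K ∧ ∀ v, ρ (k * (a * k * a⁻¹)) (ρ a v - v) = ρ a v - v}
      one_mem' := by
        refine ⟨one_mem _, fun v => ?_⟩
        rw [one_mul, mul_one, mul_inv_cancel, ap_one]
      mul_mem' := by
        rintro x x' ⟨hx, hx'⟩ ⟨hz, hz'⟩
        refine ⟨mul_mem hx hz, fun v => ?_⟩
        rw [h.diag_mul ha hn hx hz, ap, hz', hx']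
      inv_mem' := by
        rintro x ⟨hx, hx'⟩
        refine ⟨inv_mem hx, fun v => ?_⟩
        rw [h.diag_inv ha hn hx]
        conv_lhs => rw [← hx' v]
        exact inv_ap ρ _ _ }
  have hM : K ≤ M := by
    refine h.qs.le_of_comm htn htK ?_ ?_
    · intro k hk
      have htk : t * k * t⁻¹ ∈ K := (mem_normalizer_iff.1 htn k).1 hk
      refine ⟨mul_mem htk (inv_mem hk), fun v => ?_⟩
      rw [h.diag_mul ha hn htk (inv_mem hk), h.diag_inv ha hn hk]
      have hcd := h.comm_diag ha hn hk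
      obtain ⟨d, hd⟩ : ∃ d, d = k * (a * k * a⁻¹) := ⟨_, rfl⟩
      have e1 : t * k * t⁻¹ * (a * (t * k * t⁻¹) * a⁻¹) = t * d * t⁻¹ := by
        have e2 : a * (t * k * t⁻¹) * a⁻¹ = (a * t) * k * (a * t)⁻¹ := by group
        rw [e2, hat, hd]
        group
      rw [e1, ← hd]
      rw [← hd] at hcd
      have c1 : Commute d a := hcd.symm
      have c2 : Commute (t⁻¹ * d⁻¹) a := ((Commute.inv_left hat.symm).mul_left c1.inv_left)
      have c3 : Commute (d * t⁻¹ * d⁻¹) a := (c1.mul_left (Commute.inv_left hat.symm)).mul_left c1.inv_left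
      have hti : ∀ w, ρ t⁻¹ (ρ a w - w) = ρ a w - w := by
        intro w
        conv_lhs => rw [← hta w]
        exact inv_ap ρ _ _
      have e3 : t * d * t⁻¹ * d⁻¹ = t * (d * (t⁻¹ * d⁻¹)) := by group
      rw [e3, ap, ap, ap ρ t⁻¹, im_comm (c1.inv_left).eq, hti, ← im_comm (c1.inv_left).eq, ap_inv, hta]
    · intro g hg m hm _
      refine ⟨mul_mem (mul_mem hg hm.1) (inv_mem hg), fun v => ?_⟩
      rw [h.diag_mul ha hn (mul_mem hg hm.1) (inv_mem hg), h.diag_mul ha hn hg hm.1, h.diag_inv ha hn hg]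
      have hcd := h.comm_diag ha hn hg
      obtain ⟨d, hd⟩ : ∃ d, d = g * (a * g * a⁻¹) := ⟨_, rfl⟩
      rw [← hd] at hcd ⊢
      have c1 : Commute d a := hcd.symm
      rw [ap, ap, im_comm (c1.inv_left).eq, hm.2, ← im_comm (c1.inv_left).eq, ap_inv]
  intro k hk
  exact (hM hk).2

theorem Cfg.H_of_quad (h : Cfg ρ A K) {a b : G} (ha : a ∈ A) (hn : a ∉ normalizer (K : Set G)) (hb : b ∈ A)
    (hbn : b ∉ normalizer (K : Set G)) (hab : a * b ∉ normalizer (K : Set G))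
    (hba : ∀ v, ρ b (ρ a v - v) = ρ a v - v) :
    ∀ k ∈ K, ∀ v, ρ (k * (a * k * a⁻¹)) (ρ a v - v) = ρ a v - v := by
  have hcab : b * a = a * b := h.ab b hb a ha
  -- the conjugate by `b` of a diagonal element commutes with the diagonal elements
  have hcm : ∀ k ∈ K, ∀ l ∈ K, (k * (a * k * a⁻¹)) * (b * (l * (a * l * a⁻¹)) * b⁻¹) =
      (b * (l * (a * l * a⁻¹)) * b⁻¹) * (k * (a * k * a⁻¹)) := by
    intro k hk l hl
    have c1 : Commute k (b * l * b⁻¹) := h.cm b hb hbn k hk l hl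
    have c2 : Commute k ((a * b) * l * (a * b)⁻¹) := h.cm (a * b) (mul_mem ha hb) hab k hk l hl
    have c3 : Commute (a * k * a⁻¹) ((a * b) * l * (a * b)⁻¹) := by
      have h1 : a * (k * (b * l * b⁻¹)) * a⁻¹ = a * ((b * l * b⁻¹) * k) * a⁻¹ := by rw [c1.eq]
      have e1 : a * (k * (b * l * b⁻¹)) * a⁻¹ = (a * k * a⁻¹) * ((a * b) * l * (a * b)⁻¹) := by group
      have e2 : a * ((b * l * b⁻¹) * k) * a⁻¹ = ((a * b) * l * (a * b)⁻¹) * (a * k * a⁻¹) := by group
      rw [e1, e2] at h1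
      exact h1
    have c4 : Commute (a * k * a⁻¹) (b * l * b⁻¹) := by
      have h1 : a * (k * ((a * b) * l * (a * b)⁻¹)) * a⁻¹ = a * (((a * b) * l * (a * b)⁻¹) * k) * a⁻¹ := by rw [c2.eq]
      have e1 : a * (k * ((a * b) * l * (a * b)⁻¹)) * a⁻¹ = (a * k * a⁻¹) * ((a * a) * (b * l * b⁻¹) * (a * a)⁻¹) := by group
      have e2 : a * (((a * b) * l * (a * b)⁻¹) * k) * a⁻¹ = ((a * a) * (b * l * b⁻¹) * (a * a)⁻¹) * (a * k * a⁻¹) := by group
      rw [e1, e2, h.sq ha, one_mul, inv_one, mul_one] at h1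
      exact h1
    have e : b * (l * (a * l * a⁻¹)) * b⁻¹ = (b * l * b⁻¹) * ((a * b) * l * (a * b)⁻¹) := by
      have e1 : b * (l * (a * l * a⁻¹)) * b⁻¹ = (b * l * b⁻¹) * ((b * a) * l * (b * a)⁻¹) := by group
      rw [e1, hcab]
    rw [e]
    exact ((c1.mul_right c2).mul_left (c4.mul_right c3)).eq
  -- on the image of `ρ a - 1` the diagonal elements agree with their conjugates
  have hG : ∀ k ∈ K, ∀ v, ρ (b * (k * (a * k * a⁻¹)) * b⁻¹) (ρ a v - v) = ρ (k * (a * k * a⁻¹)) (ρ a v - v) := by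
    intro k hk v
    have hcd := h.comm_diag ha hn hk
    obtain ⟨d, hd⟩ : ∃ d, d = k * (a * k * a⁻¹) := ⟨_, rfl⟩
    rw [← hd] at hcd ⊢
    have h1 : ρ b (ρ d (ρ a v - v)) = ρ d (ρ a v - v) := by
      rw [im_comm hcd.symm, hba]
    have h2 : ρ b (ρ d (ρ a v - v)) = ρ (b * d * b⁻¹) (ρ b (ρ a v - v)) := by
      rw [← ap, ← ap, inv_mul_cancel_right]
    rw [hba] at h2
    rw [← h2, h1]
  let M : Subgroup G :=
    { carrier := {k | k ∈ K ∧ ∀ v, ρ (k * (a * k * a⁻¹)) (ρ a v - v) = ρ a v - v}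
      one_mem' := by
        refine ⟨one_mem _, fun v => ?_⟩
        rw [one_mul, mul_one, mul_inv_cancel, ap_one]
      mul_mem' := by
        rintro x x' ⟨hx, hx'⟩ ⟨hz, hz'⟩
        refine ⟨mul_mem hx hz, fun v => ?_⟩
        rw [h.diag_mul ha hn hx hz, ap, hz', hx']
      inv_mem' := by
        rintro x ⟨hx, hx'⟩
        refine ⟨inv_mem hx, fun v => ?_⟩
        rw [h.diag_inv ha hn hx]
        conv_lhs => rw [← hx' v]
        exact inv_ap ρ _ _ }
  have hM : K ≤ M := by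
    conv_lhs => rw [← h.qs.perf]
    rw [Subgroup.commutator_le]
    intro k hk l hl
    have hklK : k * l * k⁻¹ ∈ K := mul_mem (mul_mem hk hl) (inv_mem hk)
    refine ⟨by
      rw [← h.qs.perf]
      exact Subgroup.commutator_mem_commutator hk hl, fun v => ?_⟩
    rw [commutatorElement_def, h.diag_mul ha hn hklK (inv_mem hl), h.diag_mul ha hn (mul_mem hk hl) (inv_mem hk),
      h.diag_mul ha hn hk hl, h.diag_inv ha hn hk, h.diag_inv ha hn hl]
    have hck := h.comm_diag ha hn hk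
    have hcl := h.comm_diag ha hn hl
    have hGk := hG k hk
    have hGl := hG l hl
    have hcmkl := hcm k hk l hl
    obtain ⟨d, hd⟩ : ∃ d, d = k * (a * k * a⁻¹) := ⟨_, rfl⟩
    obtain ⟨e, he⟩ : ∃ e, e = l * (a * l * a⁻¹) := ⟨_, rfl⟩
    rw [← hd] at hck hGk hcmkl ⊢
    rw [← he] at hcl hGl hcmkl ⊢
    have key : ∀ w, ρ (d * e) (ρ a w - w) = ρ (e * d) (ρ a w - w) := by
      intro w
      rw [ap, ← hGl w, ← ap, hcmkl, ap, im_comm hck.symm, hGl, ap, im_comm hck.symm]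
    have cd : Commute d a := hck.symm
    have ce : Commute e a := hcl.symm
    obtain ⟨g, hg⟩ : ∃ g, g = (e * d)⁻¹ := ⟨_, rfl⟩
    have cg : g * a = a * g := by
      rw [hg]
      exact ((ce.mul_left cd).inv_left).eq
    have e1 : d * e * d⁻¹ * e⁻¹ = (d * e) * g := by
      rw [hg]
      group
    rw [e1, ap, im_comm cg, key, ← im_comm cg, hg, ap_inv]
  intro k hk
  exact (hM hk).2

end H13.PGV
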