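import Mathlib
import Cfsg.Agent.Lib.H13.PGV10

set_option autoImplicit false

/-!
The `P(G,V)` theorem: the prime two, final counting.
-/

namespace H13.PGV

open Subgroup
open scoped commutatorElement

universe u v

variable {G : Type u} [Group G] {V : Type v} [AddCommGroup V] [Module (ZMod 2) V]
  {ρ : G →* Module.End (ZMod 2) V} {A K : Subgroup G} [Finite G] [Finite V]

theorem Cfg2.card_ker_sq (h : Cfg2 ρ A K) {t : G} (ht : t ∈ A) (htn : t ∈ normalizer (K : Set G)) (ht1 : ρ t ≠ 1) :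
    Nat.card (LinearMap.ker (ρ t - 1)) * Nat.card (LinearMap.ker (ρ t - 1)) ≤ Nat.card V := by
  obtain ⟨y, hy, hyo, hty⟩ := h.qs.exists_inverted (h.sq ht) htn (fun hc => ht1 (h.one_of_comm ht hc))
  have hinf : LinearMap.ker (ρ t - 1) ⊓ (LinearMap.ker (ρ t - 1)).map (ρ y) = ⊥ := by
    rw [eq_bot_iff]
    rintro _ ⟨hv, ⟨w, hw, rfl⟩⟩
    rw [SetLike.mem_coe, mem_ker'] at hv hw
    have e1 : ρ t (ρ y w) = ρ y⁻¹ w := by
      have e2 : ρ t (ρ y w) = ρ (t * y * t⁻¹) (ρ t w) := by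
        rw [← ap, ← ap, inv_mul_cancel_right]
      rw [e2, hty, hw]
    rw [e1] at hv
    have e3 : ρ (y * y) w = w := by
      rw [ap, ← hv, ap_inv]
    have e4 := h.fix_zero (nc_pow hy hyo) (odd_sq hyo) e3
    rw [e4, map_zero]
    exact Submodule.zero_mem _
  have h2 := card_sup_inf (LinearMap.ker (ρ t - 1)) ((LinearMap.ker (ρ t - 1)).map (ρ y))
  rw [hinf, card_map_eq, show Nat.card (⊥ : Submodule (ZMod 2) V) = 1 from Nat.card_unique, mul_one] at h2
  rw [← h2, ← card_top (p := 2) (V := V)]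
  exact card_le_of_le le_top

theorem Cfg2.range_le_two (h : Cfg2 ρ A K) {D : Subgroup G} (hDA : D ≤ A) (hval : val ρ D = val ρ A)
    (hq : ∀ d ∈ D, ∀ b ∈ A, ∀ v, ρ d (ρ b v - v) = ρ b v - v) {t₀ : G} (ht₀ : t₀ ∈ D)
    (ht₀n : t₀ ∈ normalizer (K : Set G)) (ht₀1 : ρ t₀ ≠ 1) {a : G} (ha : a ∈ A) (hn : a ∉ normalizer (K : Set G)) :
    Nat.card (LinearMap.range (ρ a - 1)) ≤ 2 := by
  classical
  -- the common fixed space
  have hle : ∀ t ∈ D, t ∈ normalizer (K : Set G) → ∀ t' ∈ D, t' ∈ normalizer (K : Set G) →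
      LinearMap.range (ρ t' - 1) ≤ LinearMap.ker (ρ t - 1) := by
    rintro t ht _ t' ht' _ _ ⟨v, rfl⟩
    rw [mem_ker']
    exact hq t ht t' (hDA ht') v
  have hsq : ∀ t ∈ D, t ∈ normalizer (K : Set G) → ρ t ≠ 1 →
      Nat.card (LinearMap.ker (ρ t - 1)) * Nat.card (LinearMap.ker (ρ t - 1)) = Nat.card V := by
    intro t ht htn ht1
    apply le_antisymm (h.card_ker_sq (hDA ht) htn ht1)
    rw [← card_ker_mul_range (ρ t - 1)]
    exact Nat.mul_le_mul_left _ (card_le_of_le (hle t ht htn t ht htn))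
  obtain ⟨V₀, hV₀⟩ : ∃ V₀, V₀ = LinearMap.ker (ρ t₀ - 1) := ⟨_, rfl⟩
  have hcV₀ : Nat.card V₀ * Nat.card V₀ = Nat.card V := by
    rw [hV₀]
    exact hsq t₀ ht₀ ht₀n ht₀1
  have hpos : 0 < Nat.card V₀ := Nat.card_pos
  have hrange : ∀ t ∈ D, t ∈ normalizer (K : Set G) → ρ t ≠ 1 → LinearMap.range (ρ t₀ - 1) = LinearMap.ker (ρ t - 1) := by
    intro t ht htn ht1
    apply eq_of_le_of_card (hle t ht htn t₀ ht₀ ht₀n)
    have h1 := hsq t ht htn ht1
    have h2 := card_ker_mul_range (ρ t₀ - 1)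
    rw [← hV₀] at h2
    have h3 : Nat.card (LinearMap.ker (ρ t - 1)) = Nat.card V₀ := by
      rw [← hcV₀] at h1
      exact Nat.mul_self_inj.1 h1
    rw [h3]
    rw [← hcV₀] at h2
    exact (Nat.eq_of_mul_eq_mul_left hpos h2).ge
  have hV₀' : LinearMap.range (ρ t₀ - 1) = V₀ := by
    rw [hV₀]
    exact hrange t₀ ht₀ ht₀n ht₀1
  have hker : ∀ t ∈ D, t ∈ normalizer (K : Set G) → ρ t ≠ 1 → LinearMap.ker (ρ t - 1) = V₀ := by
    intro t ht htn ht1
    rw [← hrange t ht htn ht1, hV₀']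
  set R := LinearMap.range (ρ a - 1) with hR
  set Ca := LinearMap.ker (ρ a - 1) with hCa
  have hRV₀ : R ≤ V₀ := by
    rintro _ ⟨v, rfl⟩
    rw [hV₀, mem_ker']
    exact hq t₀ ht₀ a ha v
  have hV₀a : V₀ ≤ Ca := by
    rw [← hV₀']
    rintro _ ⟨w, rfl⟩
    rw [hCa, mem_ker']
    change ρ a (ρ t₀ w - w) = ρ t₀ w - w
    have h1 := hq t₀ ht₀ a ha w
    have h2 : t₀ * a = a * t₀ := h.ab t₀ (hDA ht₀) a ha
    rw [map_sub, ← ap] at h1 ⊢
    rw [← h2]
    have h3 : ρ (t₀ * a) w = ρ a w - w + ρ t₀ w := by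
      rw [← h1]
      abel
    rw [h3]
    abel
  -- the key claim
  have key : ∀ t ∈ D, t ∈ normalizer (K : Set G) → ρ t ≠ 1 → ∀ v, ρ a v = v → ρ t v - v ∈ R → v ∈ V₀ := by
    intro t ht htn ht1
    obtain ⟨y, hy, hyo, hty⟩ := h.qs.exists_inverted (h.sq (hDA ht)) htn (fun hc => ht1 (h.one_of_comm (hDA ht) hc))
    obtain ⟨hcore, -⟩ := h.core ha hn hy hyo
    have hcd := h.comm_diag ha hn hy.1
    have hH := h.H a ha hn y hy.1
    have hyy : Commute y (a * y * a⁻¹) := h.cm a ha hn y hy.1 y hy.1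
    obtain ⟨d, hd⟩ : ∃ d, d = y * (a * y * a⁻¹) := ⟨_, rfl⟩
    have htd : t * d * t⁻¹ = d⁻¹ := by
      have hta : t * a = a * t := h.ab t (hDA ht) a ha
      have e1 : t * d * t⁻¹ = (t * y * t⁻¹) * ((t * a) * y * (t * a)⁻¹) := by
        rw [hd]
        group
      have e2 : (a * t) * y * (a * t)⁻¹ = a * (t * y * t⁻¹) * a⁻¹ := by group
      rw [e1, hta, e2, hty, hd, h.diag_inv ha hn hy.1]
    have hdo : Odd (orderOf d) := by
      have h1 : d ^ orderOf y = 1 := by
        rw [hd, hyy.mul_pow, pow_orderOf_eq_one, conj_pow, pow_orderOf_eq_one]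
        group
      exact Odd.of_dvd_nat hyo (orderOf_dvd_of_pow_eq_one h1)
    rw [← hd] at hcore hcd hH
    let X : Submodule (ZMod 2) V := Ca ⊓ R.comap (ρ t - 1)
    have hX : ∀ v, v ∈ X ↔ ρ a v = v ∧ ρ t v - v ∈ R := by
      intro v
      change v ∈ Ca ∧ _ ↔ _
      rw [hCa, mem_ker']
      exact Iff.rfl
    have hdR : ∀ r ∈ R, ρ d r = r := by
      rintro _ ⟨v, rfl⟩
      exact hH v
    have hdR' : ∀ r ∈ R, ρ d⁻¹ r = r := by
      intro r hr
      conv_lhs => rw [← hdR r hr]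
      exact inv_ap ρ _ _
    have hinf : X ⊓ X.map (ρ d) ≤ R := by
      rintro _ ⟨hv, ⟨w, hw, rfl⟩⟩
      rw [SetLike.mem_coe, hX] at hv hw
      have e1 : ρ t (ρ d w) = ρ d⁻¹ w + (ρ t w - w) := by
        have e2 : ρ t (ρ d w) = ρ (t * d * t⁻¹) (ρ t w) := by
          rw [← ap, ← ap, inv_mul_cancel_right]
        have e3 : ρ d⁻¹ (ρ t w) = ρ d⁻¹ w + ρ d⁻¹ (ρ t w - w) := by
          rw [← map_add]
          congr 1
          abel
        rw [e2, htd, e3, hdR' _ hw.2]
      have e4 : ρ d⁻¹ w - ρ d w ∈ R := by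
        have e5 : ρ d⁻¹ w - ρ d w = (ρ t (ρ d w) - ρ d w) - (ρ t w - w) := by
          rw [e1]
          abel
        rw [e5]
        exact Submodule.sub_mem _ hv.2 hw.2
      have e6 : ρ (d * d) w - w ∈ R := by
        have e7 := hdR _ e4
        rw [map_sub, ap_inv, ← ap] at e7
        have e8 : ρ (d * d) w - w = -(ρ d⁻¹ w - ρ d w) := by
          rw [← e7]
          abel
        rw [e8]
        exact Submodule.neg_mem _ e4
      have e9 : ρ (d * d) w = w := by
        apply fix_of_sq ρ (odd_coprime (odd_sq hdo))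
        rw [ap, hdR _ e6, hdR _ e6]
      have e10 : ρ d w = w := by
        obtain ⟨m, hm⟩ := hdo
        have h1 : d = (d * d) ^ (m + 1) := by
          rw [← pow_two, ← pow_mul]
          have e : 2 * (m + 1) = orderOf d + 1 := by omega
          rw [e, pow_succ, pow_orderOf_eq_one, one_mul]
        have h2 : ∀ n : ℕ, ρ ((d * d) ^ n) w = w := by
          intro n
          induction n with
          | zero => rw [pow_zero, ap_one]
          | succ n ih => rw [pow_succ, ap, e9, ih]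
        rw [h1]
        exact h2 _
      rw [e10, hR, ← hcore]
      exact ⟨mem_ker'.2 e10, mem_ker'.2 hw.1⟩
    have hsup : X ⊔ X.map (ρ d) ≤ Ca := by
      apply sup_le inf_le_left
      rintro _ ⟨w, hw, rfl⟩
      rw [SetLike.mem_coe, hX] at hw
      rw [hCa, mem_ker', ← ap, hcd, ap, hw.1]
    have hcX : Nat.card X * Nat.card X ≤ Nat.card V₀ * Nat.card V₀ := by
      rw [hcV₀]
      calc Nat.card X * Nat.card X = Nat.card X * Nat.card (X.map (ρ d)) := by rw [card_map_eq]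
        _ = Nat.card (X ⊔ X.map (ρ d) : Submodule (ZMod 2) V) * Nat.card (X ⊓ X.map (ρ d) : Submodule (ZMod 2) V) :=
            (card_sup_inf _ _).symm
        _ ≤ Nat.card Ca * Nat.card R := Nat.mul_le_mul (card_le_of_le hsup) (card_le_of_le hinf)
        _ = Nat.card V := card_ker_mul_range _
    have hcX' : Nat.card X ≤ Nat.card V₀ := Nat.mul_self_le_mul_self_iff.1 hcX
    have hV₀X : V₀ = X := by
      apply eq_of_le_of_card _ hcX'
      intro v hv
      rw [hX]
      refine ⟨mem_ker'.1 (hV₀a hv), ?_⟩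
      rw [← hker t ht htn ht1, mem_ker'] at hv
      rw [hv, sub_self]
      exact Submodule.zero_mem _
    intro v hv1 hv2
    rw [hV₀X, hX]
    exact ⟨hv1, hv2⟩
  -- a vector outside
  obtain ⟨v₀, hv₀, hv₀V⟩ : ∃ v₀, ρ a v₀ = v₀ ∧ v₀ ∉ V₀ := by
    by_contra hcon
    push Not at hcon
    have h1 : V₀ = Ca := le_antisymm hV₀a (fun v hv => hcon v (mem_ker'.1 hv))
    have h2 := card_ker_mul_range (ρ a - 1)
    rw [← hCa, ← hR, ← h1, ← hcV₀] at h2
    have h3 : Nat.card R = Nat.card V₀ := Nat.eq_of_mul_eq_mul_left hpos h2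
    obtain ⟨y, hy, hyp⟩ := h.qs.exists_pprime Nat.prime_two
    have hyo : Odd (orderOf y) := Nat.Coprime.odd_of_right hyp
    obtain ⟨-, h4⟩ := h.core ha hn hy hyo
    rw [← hR, h3, hcV₀, ← card_top (p := 2) (V := V)] at h4
    have h5 := eq_of_le_of_card (le_top : LinearMap.ker (ρ (y * (a * y * a⁻¹)) - 1) ≤ ⊤) h4.ge
    apply h.diag_ne ha hn hy
    ext v
    have h6 : v ∈ LinearMap.ker (ρ (y * (a * y * a⁻¹)) - 1) := by
      rw [h5]
      exact Submodule.mem_top
    exact mem_ker'.1 h6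
  -- counting
  let T : Subgroup G := D ⊓ normalizer (K : Set G)
  let T₀ : Subgroup G := T ⊓ ρ.ker
  have hT₀ : ∀ t ∈ T₀, ρ t = 1 := fun t ht => ht.2
  have hRfix : ∀ t ∈ T, ∀ r ∈ R, ρ t r = r := by
    rintro t ht _ ⟨v, rfl⟩
    exact hq t ht.1 a ha v
  have c1 : Nat.card T * Nat.card R ≤ Nat.card T₀ * Nat.card V₀ := by
    let Q := T ⧸ T₀.subgroupOf T
    let f : Q × R → V₀ := fun x =>
      ⟨ρ (x.1.out : T) v₀ - v₀ + x.2, by
        refine Submodule.add_mem _ ?_ (hRV₀ x.2.2)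
        rw [hV₀, mem_ker']
        exact hq t₀ ht₀ _ (hDA (x.1.out : T).2.1) v₀⟩
    have hf : Function.Injective f := by
      rintro ⟨q, c⟩ ⟨q', c'⟩ hqq
      have h1 : ρ (q.out : T) v₀ - v₀ + c = ρ (q'.out : T) v₀ - v₀ + c' := congrArg Subtype.val hqq
      obtain ⟨s, hs⟩ : ∃ s : T, s = q.out := ⟨_, rfl⟩
      obtain ⟨s', hs'⟩ : ∃ s : T, s = q'.out := ⟨_, rfl⟩
      rw [← hs, ← hs'] at h1
      have h2 : ρ s v₀ - ρ s' v₀ ∈ R := by
        have e : ρ s v₀ - ρ s' v₀ = (c' : V) - c := by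
          have h3 : ρ s v₀ + (c : V) = ρ s' v₀ + c' := by
            have h4 := congrArg (fun z => z + v₀) h1
            beta_reduce at h4
            have e1 : ρ (s : G) v₀ - v₀ + (c : V) + v₀ = ρ s v₀ + c := by abel
            have e2 : ρ (s' : G) v₀ - v₀ + (c' : V) + v₀ = ρ s' v₀ + c' := by abel
            rwa [e1, e2] at h4
          rw [sub_eq_sub_iff_add_eq_add, h3, add_comm]
        rw [e]
        exact Submodule.sub_mem _ c'.2 c.2
      have h3 : ρ ((s' : G)⁻¹ * s) v₀ - v₀ ∈ R := by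
        have e : ρ ((s' : G)⁻¹ * s) v₀ - v₀ = ρ (s' : G)⁻¹ (ρ s v₀ - ρ s' v₀) := by
          rw [map_sub, ← ap, inv_ap]
        rw [e, hRfix _ (inv_mem s'.2) _ h2]
        exact h2
      have hmem : (s' : G)⁻¹ * s ∈ T := mul_mem (inv_mem s'.2) s.2
      have h4 : (s' : G)⁻¹ * s ∈ T₀ := by
        refine ⟨hmem, ?_⟩
        by_contra h5
        exact hv₀V (key _ hmem.1 hmem.2 h5 v₀ hv₀ h3)
      have h6 : q = q' := by
        rw [← QuotientGroup.out_eq' q, ← QuotientGroup.out_eq' q', ← hs, ← hs']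
        refine (QuotientGroup.eq.2 ?_).symm
        exact h4
      subst h6
      have h7 : c = c' := by
        apply Subtype.ext
        rw [← hs'] at hs
        rw [hs] at h1
        exact add_left_cancel h1
      rw [h7]
    have h1 := Nat.card_le_card_of_injective f hf
    rw [Nat.card_prod] at h1
    have h2 : Nat.card T = Nat.card Q * Nat.card T₀ := by
      rw [Subgroup.card_eq_card_quotient_mul_card_subgroup (T₀.subgroupOf T)]
      congr 1
      exact Nat.card_congr (subgroupOfEquivOfLe (inf_le_left : T₀ ≤ T)).toEquiv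
    calc Nat.card T * Nat.card R = Nat.card T₀ * (Nat.card Q * Nat.card R) := by rw [h2]; ring
      _ ≤ _ := Nat.mul_le_mul_left _ h1
  have c2 : Nat.card T₀ * Nat.card V₀ ≤ Nat.card D := by
    have h1 : val ρ T₀ ≤ val ρ D := by
      rw [hval]
      exact h.best T₀ (inf_le_left.trans (inf_le_left.trans hDA))
    have h2 : fx ρ T₀ = ⊤ := by
      rw [eq_top_iff]
      intro v _ t ht
      rw [hT₀ t ht]
      rfl
    have h3 : Nat.card (fx ρ D) ≤ Nat.card V₀ := by
      apply card_le_of_le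
      intro v hv
      rw [hV₀, mem_ker']
      exact hv t₀ ht₀
    rw [val, val, h2, card_top, ← hcV₀] at h1
    have h4 : Nat.card T₀ * Nat.card V₀ * Nat.card V₀ ≤ Nat.card D * Nat.card V₀ := by
      calc Nat.card T₀ * Nat.card V₀ * Nat.card V₀ = Nat.card T₀ * (Nat.card V₀ * Nat.card V₀) := by ring
        _ ≤ Nat.card D * Nat.card (fx ρ D) := h1
        _ ≤ _ := Nat.mul_le_mul_left _ h3
    exact Nat.le_of_mul_le_mul_right h4 hpos
  have c3 : Nat.card D ≤ Nat.card T * 2 := by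
    by_cases hDK : D ≤ normalizer (K : Set G)
    · have h1 : T = D := inf_eq_left.2 hDK
      rw [h1]
      omega
    · rw [SetLike.not_le_iff_exists] at hDK
      obtain ⟨e, he, hen⟩ := hDK
      let f : D → T × Bool := fun d =>
        if hd : (d : G) ∈ normalizer (K : Set G) then (⟨d, d.2, hd⟩, true)
        else (⟨d * e, mul_mem d.2 he, h.two_cosets (hDA d.2) hd (hDA he) hen⟩, false)
      have hf : Function.Injective f := by
        intro d d' hdd
        by_cases hd : (d : G) ∈ normalizer (K : Set G) <;> by_cases hd' : (d' : G) ∈ normalizer (K : Set G)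
        · simp only [f, dif_pos hd, dif_pos hd'] at hdd
          exact Subtype.ext (congrArg (fun z : T × Bool => (z.1 : G)) hdd)
        · simp only [f, dif_pos hd, dif_neg hd'] at hdd
          exact absurd (congrArg Prod.snd hdd) (by simp)
        · simp only [f, dif_neg hd, dif_pos hd'] at hdd
          exact absurd (congrArg Prod.snd hdd) (by simp)
        · simp only [f, dif_neg hd, dif_neg hd'] at hdd
          exact Subtype.ext (mul_right_cancel (congrArg (fun z : T × Bool => (z.1 : G)) hdd))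
      have h1 := Nat.card_le_card_of_injective f hf
      rw [Nat.card_prod] at h1
      simpa using h1
  have c4 : Nat.card T * Nat.card R ≤ Nat.card T * 2 := c1.trans (c2.trans c3)
  exact Nat.le_of_mul_le_mul_left c4 Nat.card_pos

end H13.PGV
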