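import Mathlib
import Cfsg.Agent.Lib.H13.PGV11

set_option autoImplicit false

/-!
The `P(G,V)` theorem: conclusion.
-/

namespace H13.PGV

open Subgroup

universe u v

section even

variable {G : Type u} [Group G] {V : Type v} [AddCommGroup V] [Module (ZMod 2) V]
  {ρ : G →* Module.End (ZMod 2) V} {A K : Subgroup G} [Finite G] [Finite V]

omit [Finite G] [Finite V] in
theorem H_of_card [Finite V] (h : Cfg ρ A K) {a : G} (ha : a ∈ A) (hn : a ∉ normalizer (K : Set G))
    (hc : Nat.card (LinearMap.range (ρ a - 1)) ≤ 2) :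
    ∀ k ∈ K, ∀ v, ρ (k * (a * k * a⁻¹)) (ρ a v - v) = ρ a v - v := by
  intro k hk v
  have hcd := h.comm_diag ha hn hk
  obtain ⟨d, hd⟩ : ∃ d, d = k * (a * k * a⁻¹) := ⟨_, rfl⟩
  rw [← hd] at hcd ⊢
  by_cases h0 : ρ a v - v = 0
  · rw [h0, map_zero]
  by_contra hne
  have hd0 : ρ d (ρ a v - v) ≠ 0 := by
    intro h1
    apply h0
    apply ap_inj ρ (g := d)
    rw [h1, map_zero]
  let f : Fin 3 → LinearMap.range (ρ a - 1) :=
    ![0, ⟨ρ a v - v, v, rfl⟩, ⟨ρ d (ρ a v - v), ρ d v, by
      change ρ a (ρ d v) - ρ d v = _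
      rw [map_sub, ← ap, ← ap, hcd]⟩]
  have hf : Function.Injective f := by
    intro i j hij
    have hij' := congrArg Subtype.val hij
    fin_cases i <;> fin_cases j
    all_goals first
      | rfl
      | exact absurd hij' h0
      | exact absurd hij'.symm h0
      | exact absurd hij' hd0
      | exact absurd hij'.symm hd0
      | exact absurd hij' hne
      | exact absurd hij'.symm hne
  have h1 := Nat.card_le_card_of_injective f hf
  rw [Nat.card_fin] at h1
  omega

/-- the quadratic offender `D` supplied by Timmesfeld replacement cannot centralize -/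
theorem Cfg.even_false (h : Cfg ρ A K) (hmin : ∀ D ≤ A, ¬ D ≤ normalizer (K : Set G) → Best ρ D → Cfg ρ D K) : False := by
  obtain ⟨a, ha, hn⟩ := h.exists_mv
  obtain ⟨D, hDA, hval, hDq, d, hd, hd1⟩ := timmesfeld ρ h.ab h.best h.isPGroup
    ⟨a, ha, fun h1 => hn (h.normalizes ha h1)⟩
  by_cases hT : ∃ t ∈ D, t ∈ normalizer (K : Set G) ∧ ρ t ≠ 1
  · obtain ⟨t, ht, htn, ht1⟩ := hT
    have h2 : Cfg2 ρ A K := ⟨h, fun b hb hbn => h.H_of_T hb hbn (hDA ht) htn
      (fun hc => ht1 (h.one_of_comm (hDA ht) hc)) (hDq t ht b hb)⟩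
    exact h2.not_le_two ha hn (h2.range_le_two hDA hval hDq ht htn ht1 ha hn)
  · push Not at hT
    have hdn : d ∉ normalizer (K : Set G) := fun h1 => hd1 (hT d hd h1)
    have hDK : ¬ D ≤ normalizer (K : Set G) := fun h1 => hdn (h1 hd)
    have hDbest : Best ρ D := by
      intro B hB
      rw [hval]
      exact h.best B (hB.trans hDA)
    have hD := hmin D hDA hDK hDbest
    have hDq' : ∀ e ∈ D, ∀ b ∈ D, ∀ v, ρ e (ρ b v - v) = ρ b v - v := fun e he b hb => hDq e he b (hDA hb)
    by_cases h4 : ∃ e ∈ D, e ∉ normalizer (K : Set G) ∧ ∃ e' ∈ D, e' ∉ normalizer (K : Set G) ∧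
        e * e' ∉ normalizer (K : Set G)
    · obtain ⟨e, he, hen, e', he', hen', hee⟩ := h4
      have h2 : Cfg2 ρ D K := by
        refine ⟨hD, fun b hb hbn => ?_⟩
        by_cases h5 : b * e ∈ normalizer (K : Set G)
        · have h6 : b * e' ∉ normalizer (K : Set G) := by
            intro h7
            apply hee
            have h8 : e * e' = (b * e) * (b * e') := by
              have h9 := hD.ab b hb e he
              have e1 : b * e * (b * e') = e * (b * b) * e' := by
                rw [h9]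
                group
              rw [e1, hD.sq hb, mul_one]
            rw [h8]
            exact mul_mem h5 h7
          exact hD.H_of_quad hb hbn he' hen' h6 (hDq' e' he' b hb)
        · exact hD.H_of_quad hb hbn he hen h5 (hDq' e he b hb)
      exact hee (h2.two_cosets he hen he' hen')
    · push Not at h4
      -- the kernel has index two
      let D₀ : Subgroup G := D ⊓ ρ.ker
      have c1 : Nat.card D ≤ Nat.card D₀ * 2 := by
        classical
        let f : D → D₀ × Bool := fun x =>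
          if hx : (x : G) ∈ normalizer (K : Set G) then (⟨x, x.2, hT x x.2 hx⟩, true)
          else (⟨x * d, mul_mem x.2 hd, hT _ (mul_mem x.2 hd) (h4 x x.2 hx d hd hdn)⟩, false)
        have hf : Function.Injective f := by
          intro x x' hdd
          by_cases hx : (x : G) ∈ normalizer (K : Set G) <;> by_cases hx' : (x' : G) ∈ normalizer (K : Set G)
          · simp only [f, dif_pos hx, dif_pos hx'] at hdd
            exact Subtype.ext (congrArg (fun z : D₀ × Bool => (z.1 : G)) hdd)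
          · simp only [f, dif_pos hx, dif_neg hx'] at hdd
            exact absurd (congrArg Prod.snd hdd) (by simp)
          · simp only [f, dif_neg hx, dif_pos hx'] at hdd
            exact absurd (congrArg Prod.snd hdd) (by simp)
          · simp only [f, dif_neg hx, dif_neg hx'] at hdd
            exact Subtype.ext (mul_right_cancel (congrArg (fun z : D₀ × Bool => (z.1 : G)) hdd))
        have h1 := Nat.card_le_card_of_injective f hf
        rw [Nat.card_prod] at h1
        simpa using h1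
      have c2 : ∀ b ∈ D, Nat.card (LinearMap.range (ρ b - 1)) ≤ 2 := by
        intro b hb
        have h1 := hDbest D₀ inf_le_left
        have h2 : fx ρ D₀ = ⊤ := by
          rw [eq_top_iff]
          intro v _ t ht
          rw [show ρ t = 1 from ht.2]
          rfl
        rw [val, val, h2, card_top] at h1
        have h3 : Nat.card (fx ρ D) ≤ Nat.card (LinearMap.ker (ρ b - 1)) := by
          apply card_le_of_le
          intro v hv
          rw [mem_ker']
          exact hv b hb
        have h5 : Nat.card D₀ * Nat.card V ≤ Nat.card D₀ * (2 * Nat.card (LinearMap.ker (ρ b - 1))) := by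
          calc Nat.card D₀ * Nat.card V ≤ Nat.card D * Nat.card (fx ρ D) := h1
            _ ≤ (Nat.card D₀ * 2) * Nat.card (LinearMap.ker (ρ b - 1)) := Nat.mul_le_mul c1 h3
            _ = _ := by ring
        have h6 : Nat.card V ≤ 2 * Nat.card (LinearMap.ker (ρ b - 1)) := Nat.le_of_mul_le_mul_left h5 Nat.card_pos
        rw [← card_ker_mul_range (ρ b - 1), mul_comm] at h6
        exact Nat.le_of_mul_le_mul_right h6 Nat.card_pos
      have h2 : Cfg2 ρ D K := ⟨hD, fun b hb hbn => H_of_card hD hb hbn (c2 b hb)⟩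
      exact h2.not_le_two hd hdn (c2 d hd)

end even

variable {p : ℕ} [hp : Fact p.Prime] {G : Type u} [Group G] {V : Type v} [AddCommGroup V] [Module (ZMod p) V]

/-- the hypotheses without minimality -/
structure Pre (ρ : G →* Module.End (ZMod p) V) (A K : Subgroup G) : Prop where
  ab : ∀ a ∈ A, ∀ b ∈ A, a * b = b * a
  el : ∀ a ∈ A, a ^ p = 1
  qs : QS K
  cm : ∀ a ∈ A, a ∉ normalizer (K : Set G) → ∀ k ∈ K, ∀ l ∈ K, k * (a * l * a⁻¹) = (a * l * a⁻¹) * k
  nt : ∃ k ∈ K, ρ k ≠ 1
  mv : ¬ A ≤ normalizer (K : Set G)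
  best : Best ρ A

/-- restriction to an invariant submodule -/
def resW (ρ : G →* Module.End (ZMod p) V) (W : Submodule (ZMod p) V) (S : Subgroup G)
    (hW : ∀ g ∈ S, ∀ w ∈ W, ρ g w ∈ W) : S →* Module.End (ZMod p) W where
  toFun g := (ρ g).restrict (fun w hw => hW g g.2 w hw)
  map_one' := by
    ext w
    exact ap_one ρ _
  map_mul' a b := by
    ext w
    exact ap ρ _ _ _

theorem resW_apply (ρ : G →* Module.End (ZMod p) V) (W : Submodule (ZMod p) V) (S : Subgroup G)
    (hW : ∀ g ∈ S, ∀ w ∈ W, ρ g w ∈ W) (g : S) (w : W) : ((resW ρ W S hW g w : W) : V) = ρ g w := rfl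

/-- the stabilizer of a submodule -/
def stabW (ρ : G →* Module.End (ZMod p) V) (W : Submodule (ZMod p) V) : Subgroup G where
  carrier := {g | ∀ w, ρ g w ∈ W ↔ w ∈ W}
  one_mem' := by
    intro w
    rw [ap_one]
  mul_mem' := by
    intro a b ha hb w
    rw [ap, ha, hb]
  inv_mem' := by
    intro a ha w
    rw [← ha, ap_inv]

theorem val_res [Finite V] {ρ : G →* Module.End (ZMod p) V} {W : Submodule (ZMod p) V} {S : Subgroup G}
    (hW : ∀ g ∈ S, ∀ w ∈ W, ρ g w ∈ W) (B : Subgroup S) :
    val (resW ρ W S hW) B = Nat.card (B.map S.subtype) * Nat.card (W ⊓ fx ρ (B.map S.subtype) : Submodule (ZMod p) V) := by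
  rw [val]
  congr 1
  · exact (Nat.card_congr (B.equivMapOfInjective _ S.subtype_injective).toEquiv)
  · refine Nat.card_congr ⟨fun w => ⟨w.1.1, w.1.2, ?_⟩, fun v => ⟨⟨v.1, v.2.1⟩, ?_⟩, fun _ => rfl, fun _ => rfl⟩
    · rintro _ ⟨b, hb, rfl⟩
      exact congrArg Subtype.val (w.2 b hb)
    · intro b hb
      exact Subtype.ext (v.2.2 _ ⟨b, hb, rfl⟩)

theorem best_res [Finite V] [Finite G] {ρ : G →* Module.End (ZMod p) V} {W : Submodule (ZMod p) V} {S A : Subgroup G} (hAS : A ≤ S)
    (hW : ∀ g ∈ S, ∀ w ∈ W, ρ g w ∈ W) (hA : Best ρ A) : Best (resW ρ W S hW) (A.subgroupOf S) := by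
  intro B hB
  rw [val_res, val_res, Subgroup.map_subgroupOf_eq_of_le hAS]
  set C := B.map S.subtype with hC
  have hCA : C ≤ A := by
    rintro _ ⟨b, hb, rfl⟩
    exact hB hb
  have h1 := hA C hCA
  rw [val, val] at h1
  have h2 := card_sup_inf (W ⊓ fx ρ C) (fx ρ A)
  have h3 : (W ⊓ fx ρ C) ⊔ fx ρ A ≤ fx ρ C := sup_le inf_le_right (fx_anti ρ hCA)
  have h4 : (W ⊓ fx ρ C) ⊓ fx ρ A = W ⊓ fx ρ A := by
    rw [inf_assoc, inf_eq_right.2 (fx_anti ρ hCA)]
  rw [h4] at h2
  have h5 : Nat.card (W ⊓ fx ρ C : Submodule (ZMod p) V) * Nat.card (fx ρ A) ≤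
      Nat.card (fx ρ C) * Nat.card (W ⊓ fx ρ A : Submodule (ZMod p) V) := by
    rw [← h2]
    exact Nat.mul_le_mul_right _ (card_le_of_le h3)
  have h6 : (Nat.card C * Nat.card (W ⊓ fx ρ C : Submodule (ZMod p) V)) * Nat.card (fx ρ A) ≤
      (Nat.card A * Nat.card (W ⊓ fx ρ A : Submodule (ZMod p) V)) * Nat.card (fx ρ A) := by
    calc (Nat.card C * Nat.card (W ⊓ fx ρ C : Submodule (ZMod p) V)) * Nat.card (fx ρ A)
        = Nat.card C * (Nat.card (W ⊓ fx ρ C : Submodule (ZMod p) V) * Nat.card (fx ρ A)) := by ring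
      _ ≤ Nat.card C * (Nat.card (fx ρ C) * Nat.card (W ⊓ fx ρ A : Submodule (ZMod p) V)) := Nat.mul_le_mul_left _ h5
      _ = (Nat.card C * Nat.card (fx ρ C)) * Nat.card (W ⊓ fx ρ A : Submodule (ZMod p) V) := by ring
      _ ≤ (Nat.card A * Nat.card (fx ρ A)) * Nat.card (W ⊓ fx ρ A : Submodule (ZMod p) V) := Nat.mul_le_mul_right _ h1
      _ = _ := by ring
  exact Nat.le_of_mul_le_mul_right h6 Nat.card_pos

theorem not_pre : ∀ (n : ℕ) (G : Type u) [Group G] [Finite G] (V : Type v) [AddCommGroup V] [Module (ZMod p) V]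
    [Finite V] (ρ : G →* Module.End (ZMod p) V) (A K : Subgroup G), Nat.card V = n → ¬ Pre ρ A K := by
  intro n
  induction n using Nat.strong_induction_on with
  | _ n ih =>
  intro G _ _ V _ _ _ ρ A K hn hP
  -- minimality
  have hmn : ∀ D : Subgroup G, Pre ρ D K → Cfg ρ D K := by
    intro D hD
    refine ⟨hD.ab, hD.el, hD.qs, hD.cm, hD.nt, hD.mv, hD.best, ?_⟩
    intro W hWD hWK
    by_cases hW : W = ⊤
    · exact Or.inl hW
    right
    by_contra hcon
    push Not at hcon
    obtain ⟨k, hk, w, hw, hkw⟩ := hcon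
    have hlt : Nat.card W < n := by
      rw [← hn]
      by_contra hge
      push Not at hge
      apply hW
      apply eq_of_le_of_card le_top
      rw [card_top]
      exact hge
    have hstab : ∀ (S : Subgroup G), (∀ g ∈ S, ∀ w ∈ W, ρ g w ∈ W) → S ≤ stabW ρ W := by
      intro S hS g hg w
      refine ⟨fun h1 => ?_, fun h1 => hS g hg w h1⟩
      have h2 := hS g⁻¹ (inv_mem hg) _ h1
      rwa [inv_ap] at h2
    have hDS := hstab D hWD
    have hKS := hstab K hWK
    have hSW : ∀ g ∈ stabW ρ W, ∀ w ∈ W, ρ g w ∈ W := fun g hg w hw => (hg w).2 hw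
    have hnorm : ∀ a (haS : a ∈ stabW ρ W), (⟨a, haS⟩ : stabW ρ W) ∈ normalizer ((K.subgroupOf (stabW ρ W) : Subgroup _) : Set _) →
        a ∈ normalizer (K : Set G) := by
      intro a haS h1
      rw [mem_normalizer_iff]
      intro x
      constructor
      · intro hx
        exact (mem_normalizer_iff.1 h1 ⟨x, hKS hx⟩).1 hx
      · intro hx
        have h2 := (mem_normalizer_iff.1 (inv_mem h1) ⟨a * x * a⁻¹, hKS hx⟩).1 hx
        have e : a⁻¹ * (a * x * a⁻¹) * a⁻¹⁻¹ = x := by group
        change a⁻¹ * (a * x * a⁻¹) * a⁻¹⁻¹ ∈ K at h2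
        rwa [e] at h2
    have hnorm' : ∀ a (haS : a ∈ stabW ρ W), a ∈ normalizer (K : Set G) →
        (⟨a, haS⟩ : stabW ρ W) ∈ normalizer ((K.subgroupOf (stabW ρ W) : Subgroup _) : Set _) := by
      intro a haS h1
      rw [mem_normalizer_iff]
      intro x
      exact mem_normalizer_iff.1 h1 x
    refine ih (Nat.card W) hlt (stabW ρ W) W (resW ρ W (stabW ρ W) hSW) (D.subgroupOf _) (K.subgroupOf _) rfl ?_
    refine ⟨?_, ?_, hD.qs.subgroupOf hKS, ?_, ?_, ?_, best_res hDS hSW hD.best⟩
    · intro a ha b hb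
      exact Subtype.ext (hD.ab a ha b hb)
    · intro a ha
      exact Subtype.ext (hD.el a ha)
    · intro a ha hna k hk l hl
      exact Subtype.ext (hD.cm a ha (fun h1 => hna (hnorm' a a.2 h1)) k hk l hl)
    · refine ⟨⟨k, hKS hk⟩, hk, fun h1 => hkw ?_⟩
      have h2 := DFunLike.congr_fun h1 ⟨w, hw⟩
      exact congrArg Subtype.val h2
    · intro h1
      apply hD.mv
      intro a ha
      exact hnorm a (hDS ha) (h1 (show (⟨a, hDS ha⟩ : stabW ρ W) ∈ D.subgroupOf _ from ha))
  have hC := hmn A hP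
  by_cases hp2 : p = 2
  · subst hp2
    refine hC.even_false ?_
    intro D hDA hDK hDb
    refine hmn D ⟨fun a ha b hb => hP.ab a (hDA ha) b (hDA hb), fun a ha => hP.el a (hDA ha), hP.qs,
      fun a ha => hP.cm a (hDA ha), hP.nt, hDK, hDb⟩
  · exact hC.odd_false hp2

end H13.PGV
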