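import Cfsg.Agent.Lib.H19.Extra
import Cfsg.Agent.Lib.H19.ProjExt3
import Cfsg.Agent.Lib.H83.Gallagher

/-!
# S4759, file a: good characters of groups over an extraspecial normal 2-subgroup
-/

set_option autoImplicit false
set_option linter.unusedSectionVars false
set_option linter.style.haveILetI false

namespace H13.S47

open Cfsg H18.CharBasic H18.CharOrtho
open scoped ComplexConjugate commutatorElement

universe u

variable {G : Type u} [Group G]

/-- restriction of a function to a subgroup -/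
def rs (X : Subgroup G) (f : G → ℂ) : ↥X → ℂ := fun x => f x

/-- `E` is a 2-group with centre `{1, z}` of order 2 and `[E, E] ≤ {1, z}`. -/
structure XE (E : Subgroup G) (z : G) : Prop where
  zE : z ∈ E
  z1 : z ≠ 1
  zz : z * z = 1
  cz : ∀ a ∈ E, a * z = z * a
  cm : ∀ a ∈ E, ∀ b ∈ E, a * b = b * a ∨ a * b = b * a * z
  nd : ∀ a ∈ E, (∀ b ∈ E, a * b = b * a) → a = 1 ∨ a = z
  two : IsPGroup 2 ↥E

/-- good function on `X` (over `E`) -/
structure Gd (E X : Subgroup G) (z : G) (χ : G → ℂ) : Prop where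
  ch : IsCharacter ↥X (rs X χ)
  hz : χ z = -χ 1
  dg : 2 * χ 1 ^ 2 = (Nat.card ↥E : ℂ)

theorem XE.mem_center {E : Subgroup G} {z : G} (h : XE E z) (a : ↥E) :
    a ∈ Subgroup.center ↥E ↔ ((a : G) = 1 ∨ (a : G) = z) := by
  rw [Subgroup.mem_center_iff]
  constructor
  · intro ha
    refine h.nd a a.2 fun b hb => ?_
    have := congrArg Subtype.val (ha ⟨b, hb⟩)
    simpa using this.symm
  · rintro (ha | ha) b
    · have : a = 1 := Subtype.ext ha
      rw [this, mul_one, one_mul]
    · apply Subtype.ext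
      change (b : G) * a = a * b
      rw [ha]
      exact h.cz b b.2

theorem XE.comm_le {E : Subgroup G} {z : G} (h : XE E z) :
    commutator ↥E ≤ Subgroup.center ↥E := by
  rw [commutator_def, Subgroup.commutator_le]
  intro a _ b _
  rw [h.mem_center]
  change (a : G) * b * (a : G)⁻¹ * (b : G)⁻¹ = 1 ∨ (a : G) * b * (a : G)⁻¹ * (b : G)⁻¹ = z
  rcases h.cm a a.2 b b.2 with h1 | h1
  · left
    rw [h1]
    group
  · right
    rw [h1, mul_assoc ((b : G) * a) z, ← h.cz _ (E.inv_mem a.2)]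
    have := h.cz _ (E.inv_mem b.2)
    calc (b : G) * a * ((a : G)⁻¹ * z) * (b : G)⁻¹ = b * (z * (b : G)⁻¹) := by group
      _ = b * ((b : G)⁻¹ * z) := by rw [this]
      _ = z := by group

theorem XE.card_center {E : Subgroup G} {z : G} (h : XE E z) :
    Nat.card (Subgroup.center ↥E) = 2 := by
  have e : (Subgroup.center ↥E : Set ↥E) = {1, ⟨z, h.zE⟩} := by
    ext a
    rw [SetLike.mem_coe, h.mem_center]
    simp only [Set.mem_insert_iff, Set.mem_singleton_iff, Subtype.ext_iff, Subgroup.coe_one]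
  have h1 : Nat.card (Subgroup.center ↥E) = Nat.card (({1, ⟨z, h.zE⟩} : Set ↥E)) := by
    rw [← e]; rfl
  rw [h1]
  rw [Nat.card_coe_set_eq, Set.ncard_pair]
  intro h2
  exact h.z1 (congrArg Subtype.val h2).symm

theorem Gd.one_ne {E X : Subgroup G} [Finite G] {z : G} {χ : G → ℂ} (h : Gd E X z χ) : χ 1 ≠ 0 := by
  intro h1
  have h2 := h.dg
  rw [h1] at h2
  have h3 : (Nat.card ↥E : ℂ) ≠ 0 := by exact_mod_cast Nat.card_pos.ne'
  apply h3
  rw [← h2]
  ring

theorem isChar_le {X Y : Subgroup G} (h : Y ≤ X) {χ : G → ℂ} (hc : IsCharacter ↥X (rs X χ)) :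
    IsCharacter ↥Y (rs Y χ) :=
  isCharacter_comp (Subgroup.inclusion h) hc

theorem Gd.le {E X Y : Subgroup G} (hY : Y ≤ X) {z : G} {χ : G → ℂ} (h : Gd E X z χ) : Gd E Y z χ :=
  ⟨isChar_le hY h.ch, h.hz, h.dg⟩

theorem ms_apply {A : Type*} (s : Multiset (A → ℂ)) (x : A) :
    s.sum x = (s.map fun f => f x).sum := by
  induction s using Multiset.induction_on with
  | empty => simp
  | cons a s ih => simp [ih]

/-- the restriction to `E` is irreducible -/
theorem Gd.irrE {E X : Subgroup G} [Finite G] {z : G} (hE : XE E z) (hEX : E ≤ X) {χ : G → ℂ}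
    (h : Gd E X z χ) : IsIrrCharacter ↥E (rs E χ) := by
  have hc := isChar_le hEX h.ch
  obtain ⟨s, hs, hsum⟩ := exists_multiset hc
  have h1 : ∃ ψ ∈ s, ψ ⟨z, hE.zE⟩ ≠ ψ 1 := by
    by_contra hcon
    push Not at hcon
    have h2 : rs E χ ⟨z, hE.zE⟩ = rs E χ 1 := by
      rw [hsum, ms_apply, ms_apply]
      congr 1
      exact Multiset.map_congr rfl hcon
    have h3 : χ z = χ 1 := h2
    rw [h.hz] at h3
    apply h.one_ne
    have : (2 : ℂ) * χ 1 = 0 := by linear_combination -h3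
    simpa using this
  obtain ⟨ψ, hψs, hψ⟩ := h1
  have hψi := hs ψ hψs
  haveI : Fact (Nat.Prime 2) := ⟨Nat.prime_two⟩
  have h2 := H19.Extra.degree_sq (p := 2) hE.comm_le hE.card_center hψi
    ⟨⟨z, hE.zE⟩, (hE.mem_center _).2 (Or.inr rfl), hψ⟩
  obtain ⟨t, ht⟩ := Multiset.exists_cons_of_mem hψs
  have htc : IsCharacter ↥E t.sum := isCharacter_multiset_sum t fun η hη =>
    isCharacter_of_isIrr (hs η (by rw [ht]; exact Multiset.mem_cons_of_mem hη))
  rw [ht, Multiset.sum_cons] at hsum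
  obtain ⟨a, _, ha⟩ := exists_degree_pos hψi
  obtain ⟨b, hb⟩ := exists_degree htc
  obtain ⟨c, hcc⟩ := exists_degree hc
  have h3 : c = a + b := by
    have := congrFun hsum 1
    rw [Pi.add_apply, ha, hb, hcc] at this
    exact_mod_cast this
  have h4 : a ^ 2 = c ^ 2 := by
    have h5 := h.dg
    have h6 : χ 1 = c := hcc
    rw [h6, ← h2, ha] at h5
    have h7 : (2 : ℂ) * ((c : ℂ) ^ 2 - a ^ 2) = 0 := by
      push_cast at h5
      linear_combination h5
    have h8 : (c : ℂ) ^ 2 = a ^ 2 := by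
      have := (mul_eq_zero.1 h7).resolve_left two_ne_zero
      linear_combination this
    exact_mod_cast h8.symm
  have h5 : a = c := Nat.pow_left_injective (n := 2) (by norm_num) h4
  have hb0 : b = 0 := by omega
  have h6 : t.sum = 0 := by
    funext x
    have h7 := char_norm_le htc x
    rw [hb, hb0] at h7
    simpa using h7
  rw [h6, add_zero] at hsum
  rw [hsum]
  exact hψi

theorem Gd.van {E X : Subgroup G} [Finite G] {z : G} (hE : XE E z) (hEX : E ≤ X) {χ : G → ℂ}
    (h : Gd E X z χ) {e : G} (he : e ∈ E) (h1 : e ≠ 1) (h2 : e ≠ z) : χ e = 0 := by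
  haveI : Fact (Nat.Prime 2) := ⟨Nat.prime_two⟩
  have := H19.Extra.vanish (p := 2) hE.comm_le hE.card_center (h.irrE hE hEX)
    ⟨⟨z, hE.zE⟩, (hE.mem_center _).2 (Or.inr rfl), ?_⟩ (x := ⟨e, he⟩) ?_
  · exact this
  · change χ z ≠ χ 1
    rw [h.hz]
    intro h3
    apply h.one_ne
    have : (2 : ℂ) * χ 1 = 0 := by linear_combination -h3
    simpa using this
  · rw [hE.mem_center]
    simp [h1, h2]

/-- irreducibility from irreducibility of a restriction -/
theorem irr_of_restrict {X Y : Subgroup G} [Finite G] (hY : Y ≤ X) {χ : G → ℂ}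
    (hc : IsCharacter ↥X (rs X χ)) (h : IsIrrCharacter ↥Y (rs Y χ)) : IsIrrCharacter ↥X (rs X χ) := by
  obtain ⟨s, hs, hsum⟩ := exists_multiset hc
  have hne : s ≠ 0 := by
    rintro rfl
    have h1 := irr_one_ne_zero h
    apply h1
    have := congrFun hsum 1
    rw [Multiset.sum_zero] at this
    exact this
  obtain ⟨ψ, hψ⟩ := Multiset.exists_mem_of_ne_zero hne
  obtain ⟨t, ht⟩ := Multiset.exists_cons_of_mem hψ
  have hψi := hs ψ hψ
  have htc : IsCharacter ↥X t.sum := isCharacter_multiset_sum t fun η hη =>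
    isCharacter_of_isIrr (hs η (by rw [ht]; exact Multiset.mem_cons_of_mem hη))
  rw [ht, Multiset.sum_cons] at hsum
  -- restrict to Y
  have h1 : rs Y χ = (fun y : ↥Y => ψ (Subgroup.inclusion hY y)) +
      (fun y : ↥Y => t.sum (Subgroup.inclusion hY y)) := by
    funext y
    exact congrFun hsum (Subgroup.inclusion hY y)
  have c1 : IsCharacter ↥Y (fun y : ↥Y => ψ (Subgroup.inclusion hY y)) :=
    isCharacter_comp _ (isCharacter_of_isIrr hψi)
  have c2 : IsCharacter ↥Y (fun y : ↥Y => t.sum (Subgroup.inclusion hY y)) :=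
    isCharacter_comp _ htc
  letI := Fintype.ofFinite ↥Y
  have h2 := inner_irr_self h
  obtain ⟨m, hm⟩ := inner_char_natCast c1 (isCharacter_of_isIrr h)
  obtain ⟨n, hn⟩ := inner_char_natCast c2 (isCharacter_of_isIrr h)
  have h3 : m + n = 1 := by
    have : classInner (rs Y χ) (rs Y χ) = m + n := by
      conv_lhs => rw [show classInner (rs Y χ) (rs Y χ) = classInner ((fun y : ↥Y => ψ (Subgroup.inclusion hY y)) +
        (fun y : ↥Y => t.sum (Subgroup.inclusion hY y))) (rs Y χ) by rw [← h1]]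
      rw [H18.CharOrtho.inner_add_left, hm, hn]
    rw [h2] at this
    exact_mod_cast this.symm
  -- degrees
  have key : ∀ φ : ↥Y → ℂ, IsCharacter ↥Y φ → classInner φ (rs Y χ) = 1 →
      ∃ k : ℕ, φ 1 = χ 1 + k := by
    intro φ hφ hφ1
    obtain ⟨s', hs', hsum'⟩ := exists_multiset hφ
    have hmem : rs Y χ ∈ s' := by
      by_contra hcon
      have : classInner φ (rs Y χ) = 0 := by
        rw [hsum']
        clear hsum' hφ1
        induction s' using Multiset.induction_on with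
        | empty => rw [Multiset.sum_zero, H18.CharOrtho.inner_zero_left]
        | cons a s' ih =>
          rw [Multiset.sum_cons, H18.CharOrtho.inner_add_left, inner_irr_ne (hs' a (Multiset.mem_cons_self _ _)) h
            (fun e => hcon (by rw [e]; exact Multiset.mem_cons_self _ _)), zero_add]
          exact ih (fun b hb => hs' b (Multiset.mem_cons_of_mem hb))
            (fun hb => hcon (Multiset.mem_cons_of_mem hb))
      rw [this] at hφ1
      exact zero_ne_one hφ1
    obtain ⟨t', ht'⟩ := Multiset.exists_cons_of_mem hmem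
    have htc' : IsCharacter ↥Y t'.sum := isCharacter_multiset_sum t' fun η hη =>
      isCharacter_of_isIrr (hs' η (by rw [ht']; exact Multiset.mem_cons_of_mem hη))
    obtain ⟨k, hk⟩ := exists_degree htc'
    refine ⟨k, ?_⟩
    rw [hsum', ht', Multiset.sum_cons, Pi.add_apply, hk]
    rfl
  obtain ⟨a, ha0, ha⟩ := exists_degree_pos hψi
  obtain ⟨b, hb⟩ := exists_degree htc
  obtain ⟨c, hcc⟩ := exists_degree hc
  have hsum1 : c = a + b := by
    have := congrFun hsum 1
    rw [Pi.add_apply, ha, hb, hcc] at this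
    exact_mod_cast this
  rcases (by omega : (m = 1 ∧ n = 0) ∨ (m = 0 ∧ n = 1)) with ⟨hm1, _⟩ | ⟨_, hn1⟩
  · obtain ⟨k, hk⟩ := key _ c1 (by rw [hm, hm1, Nat.cast_one])
    have e1 : ψ 1 = χ 1 + k := hk
    have e2 : χ 1 = c := hcc
    rw [ha, e2] at e1
    have e3 : a = c + k := by exact_mod_cast e1
    have hb0 : b = 0 := by omega
    have h6 : t.sum = 0 := by
      funext x
      have h7 := char_norm_le htc x
      rw [hb, hb0] at h7
      simpa using h7
    rw [h6, add_zero] at hsum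
    rw [hsum]
    exact hψi
  · obtain ⟨k, hk⟩ := key _ c2 (by rw [hn, hn1, Nat.cast_one])
    have e1 : t.sum 1 = χ 1 + k := hk
    have e2 : χ 1 = c := hcc
    rw [hb, e2] at e1
    have e3 : b = c + k := by exact_mod_cast e1
    omega

theorem Gd.irr {E X : Subgroup G} [Finite G] {z : G} (hE : XE E z) (hEX : E ≤ X) {χ : G → ℂ}
    (h : Gd E X z χ) : IsIrrCharacter ↥X (rs X χ) :=
  irr_of_restrict hEX h.ch (h.irrE hE hEX)

theorem Gd.irr_of {E X : Subgroup G} [Finite G] {z : G} (hE : XE E z) (hEX : E ≤ X) {χ : G → ℂ}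
    (h : Gd E X z χ) {Y : Subgroup G} (hEY : E ≤ Y) (hYX : Y ≤ X) : IsIrrCharacter ↥Y (rs Y χ) :=
  (h.le hYX).irr hE hEY

/-- two good functions agree on `E` -/
theorem Gd.eqE {E X : Subgroup G} [Finite G] {z : G} (hE : XE E z) {X' : Subgroup G} (hEX : E ≤ X)
    (hEX' : E ≤ X') {χ χ' : G → ℂ}
    (h : Gd E X z χ) (h' : Gd E X' z χ') {e : G} (he : e ∈ E) : χ' e = χ e := by
  obtain ⟨a, ha⟩ := exists_degree h.ch
  obtain ⟨b, hb⟩ := exists_degree h'.ch
  have ha : χ 1 = a := ha
  have hb : χ' 1 = b := hb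
  have hab : a = b := by
    have h1 := h.dg
    rw [← h'.dg, ha, hb] at h1
    have h2 : (a : ℂ) ^ 2 = b ^ 2 := by
      have := mul_left_cancel₀ (two_ne_zero' ℂ) h1
      exact this
    have h3 : a ^ 2 = b ^ 2 := by exact_mod_cast h2
    exact Nat.pow_left_injective (n := 2) (by norm_num) h3
  by_cases h1 : e = 1
  · rw [h1, ha, hb, hab]
  · by_cases h2 : e = z
    · rw [h2, h.hz, h'.hz, ha, hb, hab]
    · rw [h.van hE hEX he h1 h2, h'.van hE hEX' he h1 h2]

/-- uniqueness up to linear characters -/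
theorem Gd.uniq {E X : Subgroup G} [Finite G] {z : G} (hE : XE E z) (hEX : E ≤ X)
    (hn : ∀ x ∈ X, ∀ e ∈ E, x * e * x⁻¹ ∈ E) {χ χ' : G → ℂ}
    (h : Gd E X z χ) (h' : Gd E X z χ') :
    ∃ μ : ↥X →* ℂˣ, (∀ (e : G) (he : e ∈ E), μ ⟨e, hEX he⟩ = 1) ∧
      ∀ (x : G) (hx : x ∈ X), χ' x = (μ ⟨x, hx⟩ : ℂ) * χ x := by
  letI := Fintype.ofFinite ↥X
  letI := Fintype.ofFinite ↥E
  let N : Subgroup ↥X := E.subgroupOf X
  letI := Fintype.ofFinite ↥N
  haveI : N.Normal := ⟨fun n hn' g => by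
    rw [Subgroup.mem_subgroupOf] at hn' ⊢
    exact hn g g.2 n hn'⟩
  let e : ↥N ≃* ↥E := Subgroup.subgroupOfEquivOfLe hEX
  have irrN : IsIrrCharacter ↥N (fun n : N => rs X χ n) := by
    exact isIrrCharacter_comp e.toMonoidHom e.surjective (h.irrE hE hEX)
  have hsame : (fun n : N => rs X χ' n) = (fun n : N => rs X χ n) := by
    funext n
    exact h.eqE hE hEX hEX h' n.2
  obtain ⟨β, hβ, hβ1, hβ2⟩ := H83.Gallagher.exists_eq_mul (h.irr hE hEX) N irrN (h'.irr hE hEX) (by
    rw [hsame, inner_irr_self irrN]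
    exact one_ne_zero)
  have hd : β 1 = 1 := by
    have h1 := congrFun hβ2 1
    have h2 : χ' 1 = χ 1 := h.eqE hE hEX hEX h' E.one_mem
    have h3 : χ' 1 = β 1 * χ 1 := h1
    rw [h2] at h3
    have h4 := h.one_ne
    have : (β 1 - 1) * χ 1 = 0 := by linear_combination -h3
    have := (mul_eq_zero.1 this).resolve_right h4
    linear_combination this
  obtain ⟨f, hf⟩ := H18.CharQuot.exists_hom_of_degree_one (isCharacter_of_isIrr hβ) hd
  refine ⟨f, ?_, ?_⟩
  · intro e' he'
    have h1 := hβ1 ⟨e', hEX he'⟩ he'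
    rw [hd, hf] at h1
    exact Units.ext h1
  · intro x hx
    have h1 := congrFun hβ2 ⟨x, hx⟩
    rw [hf] at h1
    exact h1

end H13.S47
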