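import Cfsg.Agent.Lib.H13.S47a
import Cfsg.Agent.S0886

/-!
# S4759, file b: existence, extension over cyclic quotients, products
-/

set_option autoImplicit false
set_option linter.unusedSectionVars false
set_option linter.style.haveILetI false

namespace H13.S47

open Cfsg H18.CharBasic H18.CharOrtho
open scoped ComplexConjugate commutatorElement

universe u

variable {G : Type u} [Group G]

/-- extension by zero -/
noncomputable def ex (X : Subgroup G) (f : ↥X → ℂ) : G → ℂ := by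
  classical
  exact fun g => if h : g ∈ X then f ⟨g, h⟩ else 0

theorem ex_apply (X : Subgroup G) (f : ↥X → ℂ) {g : G} (h : g ∈ X) : ex X f g = f ⟨g, h⟩ := by
  unfold ex
  simp [h]

theorem rs_ex (X : Subgroup G) (f : ↥X → ℂ) : rs X (ex X f) = f := by
  funext x
  exact ex_apply X f x.2

/-- base case: there is a good character of `E` -/
theorem exists_base [Finite G] {E : Subgroup G} {z : G} (hE : XE E z) : ∃ χ, Gd E E z χ := by
  have h1 : ∃ ψ : ↥E → ℂ, IsIrrCharacter ↥E ψ ∧ ψ ⟨z, hE.zE⟩ ≠ ψ 1 := by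
    by_contra hcon
    push Not at hcon
    have := H18.CharQuot.eq_one_of_forall_irr (g := (⟨z, hE.zE⟩ : ↥E)) hcon
    exact hE.z1 (congrArg Subtype.val this)
  obtain ⟨ψ, hψ, hz⟩ := h1
  haveI : Fact (Nat.Prime 2) := ⟨Nat.prime_two⟩
  have hcen : (⟨z, hE.zE⟩ : ↥E) ∈ Subgroup.center ↥E := (hE.mem_center _).2 (Or.inr rfl)
  have h2 := H19.Extra.degree_sq (p := 2) hE.comm_le hE.card_center hψ ⟨⟨z, hE.zE⟩, hcen, hz⟩
  have h3 := H79.Central.central_mul hψ hcen ⟨z, hE.zE⟩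
  have h4 : (⟨z, hE.zE⟩ : ↥E) * ⟨z, hE.zE⟩ = 1 := Subtype.ext hE.zz
  rw [h4] at h3
  have h0 := irr_one_ne_zero hψ
  have h5 : (ψ ⟨z, hE.zE⟩ - ψ 1) * (ψ ⟨z, hE.zE⟩ + ψ 1) = 0 := by
    field_simp at h3
    linear_combination -h3
  have h6 : ψ ⟨z, hE.zE⟩ = -ψ 1 := by
    have := (mul_eq_zero.1 h5).resolve_left (sub_ne_zero.2 hz)
    linear_combination this
  refine ⟨ex E ψ, ⟨by rw [rs_ex]; exact isCharacter_of_isIrr hψ, ?_, ?_⟩⟩
  · rw [ex_apply E ψ hE.zE, ex_apply E ψ E.one_mem, h6]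
    rfl
  · rw [ex_apply E ψ E.one_mem]
    have : (⟨1, E.one_mem⟩ : ↥E) = 1 := rfl
    rw [this, ← h2]
    push_cast
    ring

/-- extension over a cyclic quotient -/
theorem ext_cyc [Finite G] {E N X : Subgroup G} {z : G} (hE : XE E z) (hEN : E ≤ N) (hNX : N ≤ X)
    (hn : ∀ x ∈ X, ∀ n ∈ N, x * n * x⁻¹ ∈ N)
    (hc : ∃ t ∈ X, ∀ x ∈ X, ∃ i : ℤ, ∃ n ∈ N, x = t ^ i * n)
    {χ : G → ℂ} (h : Gd E N z χ) (hinv : ∀ x ∈ X, ∀ n ∈ N, χ (x * n * x⁻¹) = χ n) :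
    ∃ χ', Gd E X z χ' ∧ ∀ n ∈ N, χ' n = χ n := by
  let M : Subgroup ↥X := N.subgroupOf X
  haveI : M.Normal := ⟨fun n hn' g => by
    rw [Subgroup.mem_subgroupOf] at hn' ⊢
    exact hn g g.2 n hn'⟩
  have hcyc : IsCyclic (↥X ⧸ M) := by
    obtain ⟨t, htX, ht⟩ := hc
    refine ⟨QuotientGroup.mk ⟨t, htX⟩, fun q => ?_⟩
    obtain ⟨x, rfl⟩ := QuotientGroup.mk_surjective q
    obtain ⟨i, n, hnN, hx⟩ := ht x x.2
    refine Subgroup.mem_zpowers_iff.2 ⟨i, ?_⟩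
    rw [← QuotientGroup.mk_zpow, QuotientGroup.eq, Subgroup.mem_subgroupOf]
    have : (((⟨t, htX⟩ : ↥X) ^ i)⁻¹ * x : ↥X).1 = n := by
      change (t ^ i)⁻¹ * (x : G) = n
      rw [hx]
      group
    rw [this]
    exact hnN
  let e : ↥M ≃* ↥N := Subgroup.subgroupOfEquivOfLe hNX
  have hirr : IsIrrCharacter ↥M (fun m : M => χ m) :=
    isIrrCharacter_comp e.toMonoidHom e.surjective (h.irr hE hEN)
  obtain ⟨ψ, hψ, hψr⟩ := Cfsg.Agent.S0886.result M hcyc (fun m : M => χ m) hirr (by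
    intro g m
    exact hinv g g.2 m m.2)
  have hv : ∀ n ∈ N, ex X ψ n = χ n := by
    intro n hnN
    rw [ex_apply X ψ (hNX hnN)]
    exact hψr ⟨⟨n, hNX hnN⟩, hnN⟩
  refine ⟨ex X ψ, ⟨by rw [rs_ex]; exact isCharacter_of_isIrr hψ, ?_, ?_⟩, hv⟩
  · rw [hv _ (hEN hE.zE), hv _ N.one_mem, h.hz]
  · rw [hv _ N.one_mem, h.dg]

/-- decomposition in `E ⊔ A` -/
theorem mem_dec {E A : Subgroup G} (hn : ∀ a ∈ A, ∀ e ∈ E, a * e * a⁻¹ ∈ E) {x : G}
    (hx : x ∈ E ⊔ A) : ∃ e ∈ E, ∃ a ∈ A, x = e * a := by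
  let S : Subgroup G :=
    { carrier := {x | ∃ e ∈ E, ∃ a ∈ A, x = e * a}
      mul_mem' := by
        rintro x y ⟨e, he, a, ha, rfl⟩ ⟨f, hf, b, hb, rfl⟩
        refine ⟨e * (a * f * a⁻¹), E.mul_mem he (hn a ha f hf), a * b, A.mul_mem ha hb, by group⟩
      one_mem' := ⟨1, E.one_mem, 1, A.one_mem, by group⟩
      inv_mem' := by
        rintro x ⟨e, he, a, ha, rfl⟩
        refine ⟨a⁻¹ * e⁻¹ * (a⁻¹)⁻¹, hn _ (A.inv_mem ha) _ (E.inv_mem he), a⁻¹, A.inv_mem ha, by group⟩ }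
  have h1 : E ⊔ A ≤ S := by
    rw [sup_le_iff]
    constructor
    · intro e he
      exact ⟨e, he, 1, A.one_mem, by group⟩
    · intro a ha
      exact ⟨1, E.one_mem, a, ha, by group⟩
  exact h1 hx

theorem norm_sup {E A : Subgroup G} (hn : ∀ a ∈ A, ∀ e ∈ E, a * e * a⁻¹ ∈ E) :
    ∀ x ∈ E ⊔ A, ∀ e ∈ E, x * e * x⁻¹ ∈ E := by
  intro x hx e he
  obtain ⟨f, hf, a, ha, rfl⟩ := mem_dec hn hx
  have : f * a * e * (f * a)⁻¹ = f * (a * e * a⁻¹) * f⁻¹ := by group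
  rw [this]
  exact E.mul_mem (E.mul_mem hf (hn a ha e he)) (E.inv_mem hf)

/-- projection on the complement -/
theorem exists_proj {E A : Subgroup G} (hn : ∀ a ∈ A, ∀ e ∈ E, a * e * a⁻¹ ∈ E)
    (hEA : ∀ x ∈ E, x ∈ A → x = 1) :
    ∃ π : ↥(E ⊔ A) →* ↥A, ∀ (e a : G) (he : e ∈ E) (ha : a ∈ A)
      (h : e * a ∈ E ⊔ A), π ⟨e * a, h⟩ = ⟨a, ha⟩ := by
  have hdec : ∀ x : ↥(E ⊔ A), ∃ a : ↥A, (x : G) * (a : G)⁻¹ ∈ E := by
    intro x
    obtain ⟨e, he, a, ha, hx⟩ := mem_dec hn x.2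
    refine ⟨⟨a, ha⟩, ?_⟩
    rw [hx]
    simpa using he
  choose f hf using hdec
  have huniq : ∀ (x : ↥(E ⊔ A)) (a : ↥A), (x : G) * (a : G)⁻¹ ∈ E → f x = a := by
    intro x a ha
    have h1 := E.mul_mem (E.inv_mem (hf x)) ha
    have h2 : ((x : G) * (f x : G)⁻¹)⁻¹ * ((x : G) * (a : G)⁻¹) = (f x : G) * (a : G)⁻¹ := by group
    rw [h2] at h1
    have h3 := hEA _ h1 (A.mul_mem (f x).2 (A.inv_mem a.2))
    exact Subtype.ext (mul_inv_eq_one.1 h3)
  refine ⟨⟨⟨f, huniq 1 1 (by simp)⟩, ?_⟩, ?_⟩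
  · intro x y
    apply huniq
    have h1 : ((x * y : ↥(E ⊔ A)) : G) * ((f x * f y : ↥A) : G)⁻¹ =
        ((x : G) * (f x : G)⁻¹) * ((f x : G) * ((y : G) * (f y : G)⁻¹) * (f x : G)⁻¹) := by
      change (x : G) * y * ((f x : G) * (f y : G))⁻¹ = _
      group
    rw [h1]
    exact E.mul_mem (hf x) (hn _ (f x).2 _ (hf y))
  · intro e a he ha h
    exact huniq ⟨e * a, h⟩ ⟨a, ha⟩ (by
      change e * a * a⁻¹ ∈ E
      simpa using he)

/-- linear characters of the complement -/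
theorem lin_ext {E A : Subgroup G} (hn : ∀ a ∈ A, ∀ e ∈ E, a * e * a⁻¹ ∈ E)
    (hEA : ∀ x ∈ E, x ∈ A → x = 1) (f : ↥A →* ℂˣ) :
    ∃ ν : ↥(E ⊔ A) →* ℂˣ, ∀ (e a : G) (he : e ∈ E) (ha : a ∈ A)
      (h : e * a ∈ E ⊔ A), ν ⟨e * a, h⟩ = f ⟨a, ha⟩ := by
  obtain ⟨π, hπ⟩ := exists_proj hn hEA
  refine ⟨f.comp π, ?_⟩
  intro e a he ha h
  change f (π _) = _
  rw [hπ e a he ha h]

/-- pushing a character along a surjection -/
theorem push {S : Type u} {Y : Type u} [Group S] [Group Y] [Finite S] (π : S →* Y)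
    (hπ : Function.Surjective π) {ψ : S → ℂ} (hψ : IsCharacter S ψ)
    (hk : ∀ k, π k = 1 → ψ k = ψ 1) : ∃ χ : Y → ℂ, IsCharacter Y χ ∧ ∀ s, χ (π s) = ψ s := by
  have hN : ∀ n ∈ π.ker, ψ n = ψ 1 := fun n hn => hk n (MonoidHom.mem_ker.1 hn)
  have h1 := H18.CharQuot.isCharacter_deflate π.ker hψ hN
  let e : S ⧸ π.ker ≃* Y := QuotientGroup.quotientKerEquivOfSurjective π hπ
  refine ⟨fun y => H18.CharQuot.deflate π.ker ψ (e.symm y), isCharacter_comp e.symm.toMonoidHom h1, ?_⟩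
  intro s
  have h2 : e.symm (π s) = (s : S ⧸ π.ker) := by
    rw [MulEquiv.symm_apply_eq]
    rfl
  change H18.CharQuot.deflate π.ker ψ (e.symm (π s)) = ψ s
  rw [h2]
  exact H18.CharQuot.deflate_mk _ hψ hN s

/-- the centre element is fixed by automorphisms -/
theorem XE.fix {E : Subgroup G} {z : G} (hE : XE E z) [Finite G] {g : G}
    (hg : ∀ e ∈ E, g * e * g⁻¹ ∈ E) : g * z * g⁻¹ = z := by
  have hg' : ∀ e ∈ E, g⁻¹ * e * g ∈ E := by
    intro e he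
    have hinj : Function.Injective (fun a : ↥E => (⟨g * a * g⁻¹, hg a a.2⟩ : ↥E)) := by
      intro a b hab
      have := congrArg Subtype.val hab
      simpa using this
    obtain ⟨a, ha⟩ := (Finite.injective_iff_surjective.1 hinj) ⟨e, he⟩
    have h1 : g * (a : G) * g⁻¹ = e := congrArg Subtype.val ha
    have h2 : g⁻¹ * e * g = a := by rw [← h1]; group
    rw [h2]
    exact a.2
  have h1 := hE.nd (g * z * g⁻¹) (hg z hE.zE) (by
    intro b hb
    have h2 := hE.cz _ (hg' b hb)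
    have h3 : z * (g⁻¹ * b * g) = g⁻¹ * b * g * z := h2.symm
    calc g * z * g⁻¹ * b = g * (z * (g⁻¹ * b * g)) * g⁻¹ := by group
      _ = g * (g⁻¹ * b * g * z) * g⁻¹ := by rw [h3]
      _ = b * (g * z * g⁻¹) := by group)
  rcases h1 with h1 | h1
  · exfalso
    apply hE.z1
    have : z = g⁻¹ * (g * z * g⁻¹) * g := by group
    rw [this, h1]
    group
  · exact h1

/-- product of good characters -/
theorem prod_good [Finite G] {E1 E2 P : Subgroup G} {z : G} (h1 : XE E1 z) (h2 : XE E2 z)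
    (hcomm : ∀ a ∈ E1, ∀ b ∈ E2, a * b = b * a) (hint : ∀ x ∈ E1, x ∈ E2 → x = 1 ∨ x = z)
    (hn1 : ∀ p ∈ P, ∀ e ∈ E1, p * e * p⁻¹ ∈ E1) (hn2 : ∀ p ∈ P, ∀ e ∈ E2, p * e * p⁻¹ ∈ E2)
    (hP : ∀ x ∈ E1 ⊔ E2, x ∈ P → x = 1) {χ1 χ2 : G → ℂ} (g1 : Gd E1 (E1 ⊔ P) z χ1)
    (g2 : Gd E2 (E2 ⊔ P) z χ2) :
    ∃ χ, Gd (E1 ⊔ E2) ((E1 ⊔ E2) ⊔ P) z χ ∧
      ∀ a ∈ E1, ∀ b ∈ E2, ∀ p ∈ P, χ (a * b * p) = χ1 (a * p) * χ2 (b * p) := by
  have hP1 : ∀ x ∈ E1, x ∈ P → x = 1 := fun x hx => hP x ((le_sup_left : E1 ≤ E1 ⊔ E2) hx)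
  have hP2 : ∀ x ∈ E2, x ∈ P → x = 1 := fun x hx => hP x ((le_sup_right : E2 ≤ E1 ⊔ E2) hx)
  obtain ⟨π1, hπ1⟩ := exists_proj hn1 hP1
  obtain ⟨π2, hπ2⟩ := exists_proj hn2 hP2
  have hE12 : ∀ x ∈ E1 ⊔ E2, ∃ a ∈ E1, ∃ b ∈ E2, x = a * b := by
    intro x hx
    refine mem_dec (fun b hb a ha => ?_) hx
    have : b * a * b⁻¹ = a := by rw [← hcomm a ha b hb]; group
    rw [this]
    exact ha
  have hnE : ∀ p ∈ P, ∀ e ∈ E1 ⊔ E2, p * e * p⁻¹ ∈ E1 ⊔ E2 := by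
    intro p hp e he
    obtain ⟨a, ha, b, hb, rfl⟩ := hE12 e he
    have : p * (a * b) * p⁻¹ = (p * a * p⁻¹) * (p * b * p⁻¹) := by group
    rw [this]
    exact Subgroup.mul_mem_sup (hn1 p hp a ha) (hn2 p hp b hb)
  let S : Subgroup (↥(E1 ⊔ P) × ↥(E2 ⊔ P)) :=
    MonoidHom.eqLocus (π1.comp (MonoidHom.fst _ _)) (π2.comp (MonoidHom.snd _ _))
  have hSmem : ∀ s : ↥S, ∃ a ∈ E1, ∃ b ∈ E2, ∃ p ∈ P, (s.1.1 : G) = a * p ∧ (s.1.2 : G) = b * p ∧
      (π1 s.1.1 : G) = p := by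
    intro s
    obtain ⟨a, ha, p, hp, h3⟩ := mem_dec hn1 s.1.1.2
    obtain ⟨b, hb, q, hq, h4⟩ := mem_dec hn2 s.1.2.2
    have h5 : π1 s.1.1 = π2 s.1.2 := s.2
    have h6 : π1 s.1.1 = ⟨p, hp⟩ := by
      have := hπ1 a p ha hp (by rw [← h3]; exact s.1.1.2)
      rw [← this]
      congr 1
      exact Subtype.ext h3
    have h7 : π2 s.1.2 = ⟨q, hq⟩ := by
      have := hπ2 b q hb hq (by rw [← h4]; exact s.1.2.2)
      rw [← this]
      congr 1
      exact Subtype.ext h4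
    have h8 : p = q := by
      rw [h6, h7] at h5
      exact congrArg Subtype.val h5
    refine ⟨a, ha, b, hb, p, hp, h3, by rw [h4, h8], by rw [h6]⟩
  have hX : ∀ s : ↥S, (s.1.1 : G) * (π1 s.1.1 : G)⁻¹ * (s.1.2 : G) ∈ (E1 ⊔ E2) ⊔ P := by
    intro s
    obtain ⟨a, ha, b, hb, p, hp, h3, h4, h5⟩ := hSmem s
    rw [h3, h4, h5]
    have : a * p * p⁻¹ * (b * p) = (a * b) * p := by group
    rw [this]
    exact Subgroup.mul_mem_sup (Subgroup.mul_mem_sup ha hb) hp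
  let π : ↥S →* ↥((E1 ⊔ E2) ⊔ P) :=
    { toFun := fun s => ⟨(s.1.1 : G) * (π1 s.1.1 : G)⁻¹ * (s.1.2 : G), hX s⟩
      map_one' := by
        apply Subtype.ext
        simp
      map_mul' := by
        intro s t
        obtain ⟨a, ha, b, hb, p, hp, h3, h4, h5⟩ := hSmem s
        obtain ⟨c, hc, d, hd, q, hq, h6, h7, h8⟩ := hSmem t
        apply Subtype.ext
        change ((s.1.1 : G) * (t.1.1 : G)) * (π1 (s.1.1 * t.1.1) : G)⁻¹ * ((s.1.2 : G) * (t.1.2 : G)) =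
          ((s.1.1 : G) * (π1 s.1.1 : G)⁻¹ * (s.1.2 : G)) * ((t.1.1 : G) * (π1 t.1.1 : G)⁻¹ * (t.1.2 : G))
        rw [map_mul]
        change ((s.1.1 : G) * (t.1.1 : G)) * ((π1 s.1.1 : G) * (π1 t.1.1 : G))⁻¹ * ((s.1.2 : G) * (t.1.2 : G)) =
          ((s.1.1 : G) * (π1 s.1.1 : G)⁻¹ * (s.1.2 : G)) * ((t.1.1 : G) * (π1 t.1.1 : G)⁻¹ * (t.1.2 : G))
        rw [h3, h4, h5, h6, h7, h8]
        have e1 : (p * c * p⁻¹) * b = b * (p * c * p⁻¹) := hcomm _ (hn1 p hp c hc) _ hb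
        calc a * p * (c * q) * (p * q)⁻¹ * (b * p * (d * q))
            = a * ((p * c * p⁻¹) * b) * p * d * q := by group
          _ = a * (b * (p * c * p⁻¹)) * p * d * q := by rw [e1]
          _ = a * p * p⁻¹ * (b * p) * (c * q * q⁻¹ * (d * q)) := by group }
  have hπs : Function.Surjective π := by
    intro x
    obtain ⟨e, he, p, hp, hx⟩ := mem_dec hnE x.2
    obtain ⟨a, ha, b, hb, rfl⟩ := hE12 e he
    have m1 : a * p ∈ E1 ⊔ P := Subgroup.mul_mem_sup ha hp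
    have m2 : b * p ∈ E2 ⊔ P := Subgroup.mul_mem_sup hb hp
    refine ⟨⟨(⟨a * p, m1⟩, ⟨b * p, m2⟩), ?_⟩, ?_⟩
    · change π1 ⟨a * p, m1⟩ = π2 ⟨b * p, m2⟩
      rw [hπ1 a p ha hp m1, hπ2 b p hb hp m2]
    · apply Subtype.ext
      change a * p * (π1 ⟨a * p, m1⟩ : G)⁻¹ * (b * p) = x
      rw [hπ1 a p ha hp m1, hx]
      group
  let ψ : ↥S → ℂ := fun s => χ1 s.1.1 * χ2 s.1.2
  have hψ : IsCharacter ↥S ψ := by
    have c1 : IsCharacter ↥S (fun s : ↥S => χ1 s.1.1) :=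
      isCharacter_comp ((MonoidHom.fst _ _).comp S.subtype) g1.ch
    have c2 : IsCharacter ↥S (fun s : ↥S => χ2 s.1.2) :=
      isCharacter_comp ((MonoidHom.snd _ _).comp S.subtype) g2.ch
    exact isCharacter_mul c1 c2
  have hψv : ∀ (s : ↥S) (a b p : G) (ha : a ∈ E1) (hb : b ∈ E2) (hp : p ∈ P),
      (π s : G) = a * b * p → ψ s = χ1 (a * p) * χ2 (b * p) := by
    intro s c d q hc hd hq hs
    obtain ⟨a, ha, b, hb, p, hp, h3, h4, h5⟩ := hSmem s
    have h6 : (π s : G) = a * b * p := by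
      change (s.1.1 : G) * (π1 s.1.1 : G)⁻¹ * (s.1.2 : G) = a * b * p
      rw [h3, h4, h5]
      group
    rw [h6] at hs
    have h7 : (c * d)⁻¹ * (a * b) = q * p⁻¹ := by
      have : a * b = c * d * q * p⁻¹ := by rw [← hs]; group
      rw [this]
      group
    have h8 : q * p⁻¹ = 1 := by
      apply hP _ _ (P.mul_mem hq (P.inv_mem hp))
      rw [← h7]
      exact Subgroup.mul_mem _ (Subgroup.inv_mem _ (Subgroup.mul_mem_sup hc hd))
        (Subgroup.mul_mem_sup ha hb)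
    have h9 : q = p := mul_inv_eq_one.1 h8
    subst h9
    have h10 : a * b = c * d := mul_right_cancel hs
    have h11 : c⁻¹ * a = d * b⁻¹ := by
      have : a = c * d * b⁻¹ := by rw [← h10]; group
      rw [this]
      group
    have h12 := hint (c⁻¹ * a) (E1.mul_mem (E1.inv_mem hc) ha) (by
      rw [h11]; exact E2.mul_mem hd (E2.inv_mem hb))
    change χ1 (s.1.1 : G) * χ2 (s.1.2 : G) = _
    rw [h3, h4]
    rcases h12 with h12 | h12
    · have e1 : a = c := (inv_mul_eq_one.1 h12).symm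
      have e2 : d = b := by
        rw [h12] at h11
        exact mul_inv_eq_one.1 h11.symm
      rw [e1, e2]
    · have e1 : a = c * z := by rw [← h12]; group
      have e2 : d = z * b := by
        rw [h12] at h11
        rw [h11]
        group
      have hb' : b = d * z := by
        have : b = z⁻¹ * d := by rw [e2]; group
        rw [this]
        have hzi : z⁻¹ = z := inv_eq_of_mul_eq_one_right h1.zz
        rw [hzi]
        exact (h2.cz d hd).symm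
      -- χ1 (c z q) = - χ1 (c q)
      have key : ∀ (F : Subgroup G) (hF : XE F z) (η : G → ℂ) (gη : Gd F (F ⊔ P) z η)
          (hnF : ∀ p ∈ P, ∀ e ∈ F, p * e * p⁻¹ ∈ F)
          (c : G) (hc : c ∈ F), η (c * z * q) = -η (c * q) := by
        intro F hF η gη hnF c hc
        have hir := gη.irr hF le_sup_left
        have hzc : (⟨z, (le_sup_left : F ≤ F ⊔ P) hF.zE⟩ : ↥(F ⊔ P)) ∈ Subgroup.center ↥(F ⊔ P) := by
          rw [Subgroup.mem_center_iff]
          intro x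
          apply Subtype.ext
          change (x : G) * z = z * x
          have := hF.fix (g := (x : G)) (norm_sup hnF x x.2)
          calc (x : G) * z = (x * z * (x : G)⁻¹) * x := by group
            _ = z * x := by rw [this]
        have hcm : c * q ∈ F ⊔ P := Subgroup.mul_mem_sup hc hq
        have h13 := H79.Central.central_mul hir hzc ⟨c * q, hcm⟩
        have h14 : η (z * (c * q)) = η z / η 1 * η (c * q) := h13
        rw [gη.hz, neg_div, div_self gη.one_ne] at h14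
        have h15 : c * z * q = z * (c * q) := by
          rw [hF.cz c hc]
          group
        rw [h15, h14]
        ring
      rw [e1, hb', key E1 h1 χ1 g1 hn1 c hc, key E2 h2 χ2 g2 hn2 d hd]
      ring
  obtain ⟨η, hη, hηv⟩ := push π hπs hψ (by
    intro k hk
    have h3 := hψv k 1 1 1 E1.one_mem E2.one_mem P.one_mem (by rw [hk]; simp)
    have h4 := hψv 1 1 1 1 E1.one_mem E2.one_mem P.one_mem (by rw [map_one]; simp)
    rw [h3, h4])
  have hform : ∀ a ∈ E1, ∀ b ∈ E2, ∀ p ∈ P,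
      ex ((E1 ⊔ E2) ⊔ P) η (a * b * p) = χ1 (a * p) * χ2 (b * p) := by
    intro a ha b hb p hp
    have hm : a * b * p ∈ (E1 ⊔ E2) ⊔ P := Subgroup.mul_mem_sup (Subgroup.mul_mem_sup ha hb) hp
    rw [ex_apply _ _ hm]
    obtain ⟨s, hs⟩ := hπs ⟨a * b * p, hm⟩
    rw [← hs, hηv]
    exact hψv s a b p ha hb hp (by rw [hs])
  refine ⟨ex ((E1 ⊔ E2) ⊔ P) η, ⟨by rw [rs_ex]; exact hη, ?_, ?_⟩, hform⟩
  · have e1 := hform z h1.zE 1 E2.one_mem 1 P.one_mem
    have e2 := hform 1 E1.one_mem 1 E2.one_mem 1 P.one_mem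
    simp only [mul_one] at e1 e2
    rw [e1, e2, g1.hz]
    ring
  · have e2 := hform 1 E1.one_mem 1 E2.one_mem 1 P.one_mem
    simp only [mul_one] at e2
    rw [e2]
    -- cardinality
    have hcard : 2 * Nat.card ↥(E1 ⊔ E2) = Nat.card ↥E1 * Nat.card ↥E2 := by
      let ph : ↥E1 × ↥E2 →* ↥(E1 ⊔ E2) :=
        { toFun := fun x => ⟨x.1 * x.2, Subgroup.mul_mem_sup x.1.2 x.2.2⟩
          map_one' := by apply Subtype.ext; simp
          map_mul' := by
            intro x y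
            apply Subtype.ext
            change (x.1 : G) * y.1 * ((x.2 : G) * y.2) = (x.1 : G) * x.2 * ((y.1 : G) * y.2)
            have := hcomm y.1 y.1.2 x.2 x.2.2
            calc (x.1 : G) * y.1 * ((x.2 : G) * y.2) = x.1 * (y.1 * x.2) * y.2 := by group
              _ = x.1 * (x.2 * y.1) * y.2 := by rw [this]
              _ = _ := by group }
      have hsur : Function.Surjective ph := by
        intro x
        obtain ⟨a, ha, b, hb, hx⟩ := hE12 x x.2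
        exact ⟨(⟨a, ha⟩, ⟨b, hb⟩), Subtype.ext hx.symm⟩
      have hk : (ph.ker : Set (↥E1 × ↥E2)) = {1, (⟨z, h1.zE⟩, ⟨z, h2.zE⟩)} := by
        ext x
        rw [SetLike.mem_coe, MonoidHom.mem_ker, Set.mem_insert_iff, Set.mem_singleton_iff]
        constructor
        · intro hx
          have h3 : (x.1 : G) * x.2 = 1 := congrArg Subtype.val hx
          have h4 : (x.1 : G) = (x.2 : G)⁻¹ := eq_inv_of_mul_eq_one_left h3
          rcases hint x.1 x.1.2 (by rw [h4]; exact E2.inv_mem x.2.2) with h5 | h5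
          · left
            have h6 : (x.2 : G) = 1 := by rw [h5, one_mul] at h3; exact h3
            exact Prod.ext (Subtype.ext h5) (Subtype.ext h6)
          · right
            have h6 : (x.2 : G) = z := by
              rw [h5] at h3
              have := eq_inv_of_mul_eq_one_right h3
              rw [this]
              exact inv_eq_of_mul_eq_one_right h1.zz
            exact Prod.ext (Subtype.ext h5) (Subtype.ext h6)
        · rintro (hx | hx)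
          · rw [hx, map_one]
          · rw [hx]
            exact Subtype.ext h1.zz
      have hk2 : Nat.card ph.ker = 2 := by
        have e3 : Nat.card ph.ker = Nat.card (({1, (⟨z, h1.zE⟩, ⟨z, h2.zE⟩)} : Set (↥E1 × ↥E2))) := by
          rw [← hk]; rfl
        rw [e3, Nat.card_coe_set_eq, Set.ncard_pair]
        intro h3
        exact h1.z1 (congrArg (fun x : ↥E1 × ↥E2 => (x.1 : G)) h3).symm
      have e4 := Subgroup.card_mul_index ph.ker
      rw [hk2, Subgroup.index_ker, Nat.card_prod, MonoidHom.range_eq_top.2 hsur] at e4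
      rw [← e4]
      congr 1
      exact (Nat.card_congr Subgroup.topEquiv.toEquiv).symm
    have h3 : (2 : ℂ) * (Nat.card ↥(E1 ⊔ E2) : ℂ) = (Nat.card ↥E1 : ℂ) * (Nat.card ↥E2 : ℂ) := by
      exact_mod_cast hcard
    rw [← g1.dg, ← g2.dg] at h3
    have h4 : (2 : ℂ) * ((Nat.card ↥(E1 ⊔ E2) : ℂ) - 2 * (χ1 1 * χ2 1) ^ 2) = 0 := by
      linear_combination h3
    have h5 := (mul_eq_zero.1 h4).resolve_left two_ne_zero
    linear_combination -h5

end H13.S47
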