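import Cfsg.Agent.Lib.H18.CharQuot
import Cfsg.Agent.Lib.H5.CharProd

/-!
# S4759, file c: characters of `Q × Z`, `Z` cyclic, of absolute value 1 off `Q × 1`
-/

set_option autoImplicit false
set_option linter.unusedSectionVars false
set_option linter.style.haveILetI false

namespace H13.S47

open Cfsg H18.CharBasic H18.CharOrtho
open scoped ComplexConjugate

universe u v

theorem comb {Λ : Type u} [Fintype Λ] [DecidableEq Λ] {A : Type v} (f : Λ → A) (N : Λ → Λ → ℕ)
    (hN0 : ∀ a b, N a b = 0 ↔ f a = f b)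
    (hsum : ∑ a, ∑ b, N a b = 2 * (Fintype.card Λ - 1)) (hnc : ∃ a b, f a ≠ f b) :
    ∃ a0, (∀ a b, a ≠ a0 → b ≠ a0 → f a = f b) ∧ (∀ b, b ≠ a0 → f a0 ≠ f b ∧ N a0 b = 1) := by
  classical
  obtain ⟨a1, b1, hab⟩ := hnc
  -- sum over a product set
  have hsub : ∀ T : Finset (Λ × Λ), ∑ x ∈ T, N x.1 x.2 ≤ 2 * (Fintype.card Λ - 1) := by
    intro T
    rw [← hsum, ← Fintype.sum_prod_type']
    exact Finset.sum_le_sum_of_subset (Finset.subset_univ T)
  let S : Finset Λ := Finset.univ.filter fun a => f a = f a1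
  let T : Finset Λ := Finset.univ.filter fun a => ¬ f a = f a1
  have hST : S.card + T.card = Fintype.card Λ := by
    rw [← Finset.card_univ]
    exact Finset.card_filter_add_card_filter_not (s := Finset.univ) (fun a => f a = f a1)
  have hs1 : 1 ≤ S.card := Finset.card_pos.2 ⟨a1, by simp [S]⟩
  have ht1 : 1 ≤ T.card := Finset.card_pos.2 ⟨b1, by simp [T]; exact fun h => hab h.symm⟩
  have hpos : ∀ a b, f a ≠ f b → 1 ≤ N a b := fun a b h =>
    Nat.one_le_iff_ne_zero.2 fun h0 => h ((hN0 a b).1 h0)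
  have h1 : 2 * (S.card * T.card) ≤ 2 * (Fintype.card Λ - 1) := by
    have hd : Disjoint (S ×ˢ T) (T ×ˢ S) := by
      rw [Finset.disjoint_left]
      rintro ⟨x, y⟩ hx hy
      rw [Finset.mem_product] at hx hy
      have := (Finset.mem_filter.1 hx.1).2
      exact (Finset.mem_filter.1 hy.1).2 this
    refine le_trans ?_ (hsub (S ×ˢ T ∪ T ×ˢ S))
    rw [Finset.sum_union hd]
    have e1 : S.card * T.card ≤ ∑ x ∈ S ×ˢ T, N x.1 x.2 := by
      rw [← Finset.card_product, Finset.card_eq_sum_ones]
      refine Finset.sum_le_sum fun x hx => hpos _ _ ?_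
      rw [Finset.mem_product] at hx
      have p1 := (Finset.mem_filter.1 hx.1).2
      have p2 := (Finset.mem_filter.1 hx.2).2
      intro h; exact p2 (h ▸ p1)
    have e2 : S.card * T.card ≤ ∑ x ∈ T ×ˢ S, N x.1 x.2 := by
      rw [mul_comm, ← Finset.card_product, Finset.card_eq_sum_ones]
      refine Finset.sum_le_sum fun x hx => hpos _ _ ?_
      rw [Finset.mem_product] at hx
      have p1 := (Finset.mem_filter.1 hx.1).2
      have p2 := (Finset.mem_filter.1 hx.2).2
      intro h; exact p1 (h ▸ p2)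
    omega
  have h2 : S.card = 1 ∨ T.card = 1 := by
    rw [← hST] at h1
    by_contra hcon
    push Not at hcon
    have h3 : 2 ≤ S.card := by omega
    have h4 : 2 ≤ T.card := by omega
    obtain ⟨s, hs⟩ := Nat.exists_eq_add_of_le h3
    obtain ⟨t, ht⟩ := Nat.exists_eq_add_of_le h4
    rw [hs, ht] at h1
    have : (2 + s) * (2 + t) = 4 + 2 * s + 2 * t + s * t := by ring
    rw [this] at h1
    omega
  have h3 : ∃ a0, ∀ b, b ≠ a0 → f a0 ≠ f b := by
    rcases h2 with h2 | h2
    · obtain ⟨a, ha⟩ := Finset.card_eq_one.1 h2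
      have ha1 : a1 ∈ S := by simp [S]
      rw [ha, Finset.mem_singleton] at ha1
      subst ha1
      refine ⟨a1, fun b hb he => hb ?_⟩
      have : b ∈ S := by simp [S, he]
      rw [ha, Finset.mem_singleton] at this
      exact this
    · obtain ⟨a, ha⟩ := Finset.card_eq_one.1 h2
      have ha1 : a ∈ T := by rw [ha]; exact Finset.mem_singleton_self _
      have ha2 := (Finset.mem_filter.1 ha1).2
      refine ⟨a, fun b hb he => ?_⟩
      have hbS : f b = f a1 := by
        by_contra hbT
        have : b ∈ T := by simp [T, hbT]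
        rw [ha, Finset.mem_singleton] at this
        exact hb this
      exact ha2 (he.trans hbS)
  obtain ⟨a0, ha0⟩ := h3
  refine ⟨a0, ?_, ?_⟩
  · intro a b ha hb
    rw [← hN0]
    -- sets: {a0} × others, others × {a0}, {(a,b)}
    let O : Finset Λ := Finset.univ.erase a0
    have hO : O.card = Fintype.card Λ - 1 := by
      rw [Finset.card_erase_of_mem (Finset.mem_univ _), Finset.card_univ]
    let A1 : Finset (Λ × Λ) := ({a0} : Finset Λ) ×ˢ O
    let A2 : Finset (Λ × Λ) := O ×ˢ ({a0} : Finset Λ)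
    have d12 : Disjoint A1 A2 := by
      rw [Finset.disjoint_left]
      rintro ⟨x, y⟩ hx hy
      simp only [A1, A2, Finset.mem_product, Finset.mem_singleton, O, Finset.mem_erase] at hx hy
      exact hy.1.1 hx.1
    have d3 : Disjoint (A1 ∪ A2) {(a, b)} := by
      rw [Finset.disjoint_singleton_right, Finset.mem_union]
      simp only [A1, A2, Finset.mem_product, Finset.mem_singleton, O, Finset.mem_erase]
      rintro (h | h)
      · exact ha h.1
      · exact hb h.2
    have h5 := hsub ((A1 ∪ A2) ∪ {(a, b)})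
    rw [Finset.sum_union d3, Finset.sum_union d12, Finset.sum_singleton] at h5
    have e1 : Fintype.card Λ - 1 ≤ ∑ x ∈ A1, N x.1 x.2 := by
      have : A1.card = Fintype.card Λ - 1 := by
        rw [Finset.card_product, Finset.card_singleton, one_mul, hO]
      rw [← this, Finset.card_eq_sum_ones]
      refine Finset.sum_le_sum fun x hx => hpos _ _ ?_
      simp only [A1, Finset.mem_product, Finset.mem_singleton, O, Finset.mem_erase] at hx
      rw [hx.1]
      exact ha0 _ hx.2.1
    have e2 : Fintype.card Λ - 1 ≤ ∑ x ∈ A2, N x.1 x.2 := by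
      have : A2.card = Fintype.card Λ - 1 := by
        rw [Finset.card_product, Finset.card_singleton, mul_one, hO]
      rw [← this, Finset.card_eq_sum_ones]
      refine Finset.sum_le_sum fun x hx => hpos _ _ ?_
      simp only [A2, Finset.mem_product, Finset.mem_singleton, O, Finset.mem_erase] at hx
      rw [hx.2]
      exact fun h => ha0 _ hx.1.1 h.symm
    simp only at h5
    omega
  · intro b hb
    refine ⟨ha0 b hb, ?_⟩
    let O : Finset Λ := Finset.univ.erase a0
    have hO : O.card = Fintype.card Λ - 1 := by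
      rw [Finset.card_erase_of_mem (Finset.mem_univ _), Finset.card_univ]
    let O' : Finset Λ := O.erase b
    have hbO : b ∈ O := Finset.mem_erase.2 ⟨hb, Finset.mem_univ _⟩
    have hO' : O'.card + 1 = Fintype.card Λ - 1 := by
      rw [Finset.card_erase_of_mem hbO, hO]
      have : 0 < O.card := Finset.card_pos.2 ⟨b, hbO⟩
      omega
    let A1 : Finset (Λ × Λ) := ({a0} : Finset Λ) ×ˢ O'
    let A2 : Finset (Λ × Λ) := O ×ˢ ({a0} : Finset Λ)
    have d12 : Disjoint A1 A2 := by
      rw [Finset.disjoint_left]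
      rintro ⟨x, y⟩ hx hy
      simp only [A1, A2, Finset.mem_product, Finset.mem_singleton, O, O', Finset.mem_erase] at hx hy
      exact hy.1.1 hx.1
    have d3 : Disjoint (A1 ∪ A2) {(a0, b)} := by
      rw [Finset.disjoint_singleton_right, Finset.mem_union]
      simp only [A1, A2, Finset.mem_product, Finset.mem_singleton, O, O', Finset.mem_erase]
      rintro (h | h)
      · exact h.2.1 rfl
      · exact hb h.2
    have h5 := hsub ((A1 ∪ A2) ∪ {(a0, b)})
    rw [Finset.sum_union d3, Finset.sum_union d12, Finset.sum_singleton] at h5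
    have e1 : O'.card ≤ ∑ x ∈ A1, N x.1 x.2 := by
      have : A1.card = O'.card := by
        rw [Finset.card_product, Finset.card_singleton, one_mul]
      rw [← this, Finset.card_eq_sum_ones]
      refine Finset.sum_le_sum fun x hx => hpos _ _ ?_
      simp only [A1, Finset.mem_product, Finset.mem_singleton, O, O', Finset.mem_erase] at hx
      rw [hx.1]
      exact ha0 _ hx.2.2.1
    have e2 : Fintype.card Λ - 1 ≤ ∑ x ∈ A2, N x.1 x.2 := by
      have : A2.card = Fintype.card Λ - 1 := by
        rw [Finset.card_product, Finset.card_singleton, mul_one, hO]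
      rw [← this, Finset.card_eq_sum_ones]
      refine Finset.sum_le_sum fun x hx => hpos _ _ ?_
      simp only [A2, Finset.mem_product, Finset.mem_singleton, O, Finset.mem_erase] at hx
      rw [hx.2]
      exact fun h => ha0 _ hx.1.1 h.symm
    have e3 := hpos a0 b (ha0 b hb)
    simp only at h5
    omega

variable {Q : Type u} {Z : Type v} [Group Q] [Group Z]

theorem pair_sum {Λ : Type*} [Fintype Λ] (a : Λ → ℂ) :
    ∑ i, ∑ j, (a i - a j) * conj (a i - a j) =
      2 * (Fintype.card Λ : ℂ) * (∑ i, a i * conj (a i)) - 2 * ((∑ i, a i) * conj (∑ i, a i)) := by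
  have h1 : ∀ i j, (a i - a j) * conj (a i - a j) =
      a i * conj (a i) + a j * conj (a j) - a i * conj (a j) - a j * conj (a i) := by
    intro i j
    rw [map_sub]
    ring
  simp only [h1, Finset.sum_sub_distrib, Finset.sum_add_distrib, Finset.sum_const,
    Finset.card_univ, nsmul_eq_mul]
  have h2 : ∑ i, ∑ j, a i * conj (a j) = (∑ i, a i) * conj (∑ i, a i) := by
    rw [map_sum, Finset.sum_mul_sum]
  have h3 : ∑ i, ∑ j, a j * conj (a i) = (∑ i, a i) * conj (∑ i, a i) := by
    rw [Finset.sum_comm, map_sum, Finset.sum_mul_sum]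
  rw [h2, h3, ← Finset.mul_sum]
  ring

theorem main5 [Finite Q] [Finite Z] (hZ : ∀ a b : Z, a * b = b * a) (X : Q × Z → ℂ)
    (hX : IsCharacter (Q × Z) X)
    (h1 : ∀ y t, t ≠ 1 → X (y, t) * conj (X (y, t)) = 1) (n : ℕ) (hn : X 1 = n)
    (hr : ¬ Nat.card Z ∣ n) :
    ∃ (ε : ℂ) (μ : Q →* ℂˣ) (l : Z →* ℂˣ), (ε = 1 ∨ ε = -1) ∧
      ∀ y t, t ≠ 1 → X (y, t) = ε * μ y * l t := by
  classical
  letI := Fintype.ofFinite Q
  letI := Fintype.ofFinite Z
  letI := Fintype.ofFinite (IrrCharacter Z)
  let f : IrrCharacter Z → Q → ℂ := fun l y => classInner (fun t => X (y, t)) (l : Z → ℂ)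
  have hXcl := isClassFunction_of_isCharacter hX
  have hclZ : ∀ y, IsClassFunction Z (fun t => X (y, t)) := by
    intro y g h
    change X (y, h * g * h⁻¹) = X (y, g)
    rw [hZ h g, mul_assoc, mul_inv_cancel, mul_one]
  have hfc : ∀ l, IsCharacter Q (f l) := by
    intro l
    rw [isCharacter_iff]
    constructor
    · intro g h
      change classInner _ _ = classInner _ _
      congr 1
      funext t
      have := hXcl (g, t) (h, 1)
      simpa using this
    · intro ψ hψ
      have e := H5.CharProd.classInner_prod X ψ (l : Z → ℂ)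
      obtain ⟨m, hm⟩ := inner_char_natCast hX (isCharacter_of_isIrr (H5.CharProd.irr_prod hψ l.2))
      exact ⟨m, by rw [← hm]; exact e.symm⟩
  have hcardL : (Fintype.card (IrrCharacter Z)) = Nat.card Z := by
    rw [← Nat.card_eq_fintype_card, card_irr_eq_card_conjClasses]
    refine (Nat.card_congr (Equiv.ofBijective (fun z : Z => ConjClasses.mk z) ⟨?_, ?_⟩)).symm
    · intro a b hab
      rw [ConjClasses.mk_eq_mk_iff_isConj, isConj_iff] at hab
      obtain ⟨c, hc⟩ := hab
      rw [hZ c a, mul_assoc, mul_inv_cancel, mul_one] at hc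
      exact hc
    · intro c
      exact ConjClasses.exists_rep c
  have hl1 : ∀ l : IrrCharacter Z, (l : Z → ℂ) 1 = 1 := by
    intro l
    exact H18.CharQuot.degree_one_of_comm hZ l.2
  have hexp : ∀ y t, X (y, t) = ∑ l : IrrCharacter Z, f l y * (l : Z → ℂ) t := by
    intro y t
    have := congrFun (mem_classFun_expand (hclZ y)) t
    simp only [Finset.sum_apply, Pi.smul_apply, smul_eq_mul] at this
    exact this
  have hsum1 : ∀ y, ∑ l : IrrCharacter Z, f l y = X (y, 1) := by
    intro y
    rw [hexp y 1]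
    exact Finset.sum_congr rfl fun l _ => by rw [hl1, mul_one]
  have hr0 : (Nat.card Z : ℂ) ≠ 0 := card_ne_zero'
  have hpars : ∀ y, (Nat.card Z : ℂ) * ∑ l : IrrCharacter Z, f l y * conj (f l y) =
      X (y, 1) * conj (X (y, 1)) + (Nat.card Z - 1 : ℂ) := by
    intro y
    have h2 := parseval (f := fun t => X (y, t)) (g := fun t => X (y, t)) (hclZ y)
    have h3 : (∑ l : IrrCharacter Z, f l y * conj (f l y)) =
        classInner (fun t => X (y, t)) (fun t => X (y, t)) := h2.symm
    rw [h3]
    unfold classInner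
    rw [mul_inv_cancel_left₀ hr0, ← Finset.add_sum_erase _ _ (Finset.mem_univ (1 : Z))]
    congr 1
    rw [Finset.sum_congr rfl (g := fun _ => (1 : ℂ)) (fun t ht => h1 y t (Finset.ne_of_mem_erase ht))]
    rw [Finset.sum_const, Finset.card_erase_of_mem (Finset.mem_univ _), Finset.card_univ,
      nsmul_eq_mul, mul_one, ← Nat.card_eq_fintype_card, Nat.cast_sub Nat.card_pos, Nat.cast_one]
  -- the natural numbers N
  have hN : ∀ l l' : IrrCharacter Z, ∃ m : ℕ, classInner (f l - f l') (f l - f l') = m := by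
    intro l l'
    obtain ⟨a, ha⟩ := inner_char_natCast (hfc l) (hfc l)
    obtain ⟨b, hb⟩ := inner_char_natCast (hfc l) (hfc l')
    obtain ⟨c, hc⟩ := inner_char_natCast (hfc l') (hfc l)
    obtain ⟨d, hd⟩ := inner_char_natCast (hfc l') (hfc l')
    have e : classInner (f l - f l') (f l - f l') = ((a - b - c + d : ℤ) : ℂ) := by
      rw [H18.CharOrtho.inner_sub_left, H18.CharOrtho.inner_sub_right, H18.CharOrtho.inner_sub_right, ha, hb, hc, hd]
      push_cast
      ring
    have h2 := inner_self_re_nonneg (f l - f l')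
    rw [e] at h2
    have h3 : (0 : ℤ) ≤ a - b - c + d := by
      rw [Complex.intCast_re] at h2
      exact_mod_cast h2
    obtain ⟨m, hm⟩ := Int.eq_ofNat_of_zero_le h3
    exact ⟨m, by rw [e, hm]; simp⟩
  choose N hN using hN
  have hN0 : ∀ a b, N a b = 0 ↔ f a = f b := by
    intro a b
    have h2 : (N a b : ℂ) = 0 ↔ f a - f b = 0 := by
      rw [← hN a b]; exact inner_self_eq_zero
    rw [sub_eq_zero] at h2
    rw [← h2]
    norm_cast
  have hNs : ∑ a, ∑ b, N a b = 2 * (Fintype.card (IrrCharacter Z) - 1) := by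
    have h2 : ((∑ a, ∑ b, N a b : ℕ) : ℂ) = ((2 * (Fintype.card (IrrCharacter Z) - 1) : ℕ) : ℂ) := by
      push_cast
      rw [Nat.cast_sub (by rw [hcardL]; exact Nat.card_pos), Nat.cast_one]
      have h3 : ∀ a b, (N a b : ℂ) = (Nat.card Q : ℂ)⁻¹ * ∑ y, (f a y - f b y) * conj (f a y - f b y) := by
        intro a b
        rw [← hN a b]
        rfl
      simp only [h3]
      rw [Finset.sum_congr rfl (fun a _ => (Finset.mul_sum _ _ _).symm), ← Finset.mul_sum]
      rw [Finset.sum_congr rfl (fun a _ => Finset.sum_comm), Finset.sum_comm]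
      have h4 : ∀ y, ∑ a, ∑ b, (f a y - f b y) * conj (f a y - f b y) =
          2 * ((Fintype.card (IrrCharacter Z) : ℂ) - 1) := by
        intro y
        rw [pair_sum, hsum1, hcardL]
        linear_combination 2 * hpars y
      rw [Finset.sum_congr rfl (fun y _ => h4 y), Finset.sum_const, Finset.card_univ,
        nsmul_eq_mul, ← Nat.card_eq_fintype_card, inv_mul_cancel_left₀ card_ne_zero']
    exact_mod_cast h2
  have hnc : ∃ a b, f a ≠ f b := by
    by_contra hcon
    push Not at hcon
    obtain ⟨l0⟩ : Nonempty (IrrCharacter Z) := ⟨⟨_, isIrrCharacter_one⟩⟩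
    obtain ⟨m, hm⟩ := exists_degree (hfc l0)
    have h2 := hsum1 1
    rw [Finset.sum_congr rfl (fun l _ => by rw [hcon l l0]), Finset.sum_const, Finset.card_univ,
      nsmul_eq_mul, hm, hcardL] at h2
    have h3 : X (1, 1) = n := hn
    rw [h3] at h2
    apply hr
    exact ⟨m, by exact_mod_cast h2.symm⟩
  obtain ⟨l0, hl0, hl0'⟩ := comb f N hN0 hNs hnc
  obtain ⟨l1, hl01⟩ : ∃ l1, l1 ≠ l0 := by
    by_contra hcon
    push Not at hcon
    obtain ⟨a, b, hab⟩ := hnc
    exact hab (by rw [hcon a, hcon b])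
  have hgen : IsGeneralizedCharacter Q (f l0 - f l1) :=
    ⟨_, _, hfc l0, hfc l1, rfl⟩
  have hnorm : classInner (f l0 - f l1) (f l0 - f l1) = 1 := by
    rw [hN, (hl0' l1 hl01).2, Nat.cast_one]
  -- sum of all linear characters of Z
  have hortho : ∀ t : Z, t ≠ 1 → ∑ l : IrrCharacter Z, (l : Z → ℂ) t = 0 := by
    intro t ht
    let δ : Z → ℂ := fun s => if s = 1 then 1 else 0
    have hδ : IsClassFunction Z δ := by
      intro g h
      change δ (h * g * h⁻¹) = δ g
      rw [hZ h g, mul_assoc, mul_inv_cancel, mul_one]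
    have h2 := congrFun (mem_classFun_expand hδ) t
    simp only [Finset.sum_apply, Pi.smul_apply, smul_eq_mul] at h2
    have h3 : ∀ l : IrrCharacter Z, classInner δ (l : Z → ℂ) = (Nat.card Z : ℂ)⁻¹ := by
      intro l
      unfold classInner
      rw [Finset.sum_eq_single (1 : Z)]
      · simp [δ, hl1]
      · intro b _ hb
        simp [δ, hb]
      · intro h; exact absurd (Finset.mem_univ _) h
    simp only [h3] at h2
    rw [← Finset.mul_sum] at h2
    have h4 : δ t = 0 := by simp [δ, ht]
    rw [h4] at h2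
    exact (mul_eq_zero.1 h2.symm).resolve_left (inv_ne_zero hr0)
  have hval : ∀ y t, t ≠ 1 → X (y, t) = (f l0 y - f l1 y) * (l0 : Z → ℂ) t := by
    intro y t ht
    rw [hexp y t, ← Finset.add_sum_erase _ _ (Finset.mem_univ l0)]
    rw [Finset.sum_congr rfl (g := fun l : IrrCharacter Z => f l1 y * (l : Z → ℂ) t) (fun l hl => by
      rw [hl0 l l1 (Finset.ne_of_mem_erase hl) hl01])]
    rw [← Finset.mul_sum]
    have h5 := hortho t ht
    rw [← Finset.add_sum_erase _ _ (Finset.mem_univ l0)] at h5
    linear_combination f l1 y * h5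
  obtain ⟨l0', hl0e⟩ := H18.CharQuot.exists_hom_of_degree_one (isCharacter_of_isIrr l0.2) (hl1 l0)
  have ht1 : ∃ t : Z, t ≠ 1 := by
    by_contra hcon
    push Not at hcon
    have : Nat.card Z = 1 := by
      haveI : Subsingleton Z := ⟨fun a b => by rw [hcon a, hcon b]⟩
      exact Nat.card_unique
    apply hr
    rw [this]
    exact one_dvd _
  obtain ⟨t1, ht1⟩ := ht1
  have habs : ∀ y, (f l0 y - f l1 y) * conj (f l0 y - f l1 y) = 1 := by
    intro y
    have h5 := h1 y t1 ht1
    rw [hval y t1 ht1, map_mul] at h5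
    have h6 : (l0 : Z → ℂ) t1 * conj ((l0 : Z → ℂ) t1) = 1 := by
      rw [hl0e]
      change (l0' t1 : ℂ) * conj (l0' t1 : ℂ) = 1
      rw [← hom_inv_eq_conj, ← Units.val_mul, ← map_mul, mul_inv_cancel, map_one, Units.val_one]
    linear_combination h5 - (f l0 y - f l1 y) * conj (f l0 y - f l1 y) * h6
  have hdeg : ∀ φ : Q → ℂ, IsIrrCharacter Q φ → (φ 1 * conj (φ 1) = 1) → φ 1 = 1 := by
    intro φ hφ h5
    obtain ⟨a, ha0, ha⟩ := exists_degree_pos hφ
    rw [ha, Complex.conj_natCast] at h5
    have h6 : a * a = 1 := by exact_mod_cast h5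
    have h7 : a = 1 := Nat.eq_one_of_mul_eq_one_right h6
    rw [ha, h7, Nat.cast_one]
  rcases gen_norm_one hgen hnorm with hirr | hirr
  · have hd1 := hdeg _ hirr (habs 1)
    obtain ⟨μ, hμ⟩ := H18.CharQuot.exists_hom_of_degree_one (isCharacter_of_isIrr hirr) hd1
    refine ⟨1, μ, l0', Or.inl rfl, ?_⟩
    intro y t ht
    rw [hval y t ht, one_mul, hl0e]
    have := congrFun hμ y
    simp only [Pi.sub_apply] at this
    rw [this]
  · have hd1 := hdeg _ hirr (by
      have := habs 1
      simp only [Pi.neg_apply, Pi.sub_apply, map_neg, neg_mul_neg]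
      exact this)
    obtain ⟨μ, hμ⟩ := H18.CharQuot.exists_hom_of_degree_one (isCharacter_of_isIrr hirr) hd1
    refine ⟨-1, μ, l0', Or.inr rfl, ?_⟩
    intro y t ht
    rw [hval y t ht, hl0e]
    have := congrFun hμ y
    simp only [Pi.neg_apply, Pi.sub_apply] at this
    rw [← this]
    ring

end H13.S47
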