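import Cfsg.Agent.Lib.H13.S47b
import Cfsg.Agent.Lib.H13.S47c
import Cfsg.Agent.Lib.H38.Norm

/-!
# S4759, file d: absolute values, index two, swap
-/

set_option autoImplicit false
set_option linter.unusedSectionVars false
set_option linter.style.haveILetI false

namespace H13.S47

open Cfsg H18.CharBasic H18.CharOrtho
open scoped ComplexConjugate commutatorElement

universe u v

theorem slice_char {Q : Type u} {Z : Type v} [Group Q] [Group Z] [Finite Q] [Finite Z] [Fintype Z]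
    {X : Q × Z → ℂ} (hX : IsCharacter (Q × Z) X) {l : Z → ℂ} (hl : IsIrrCharacter Z l) :
    IsCharacter Q (fun y => classInner (fun t => X (y, t)) l) := by
  letI := Fintype.ofFinite Q
  have hXcl := isClassFunction_of_isCharacter hX
  rw [isCharacter_iff]
  constructor
  · intro g h
    change classInner _ _ = classInner _ _
    congr 1
    funext t
    have := hXcl (g, t) (h, 1)
    simpa using this
  · intro ψ hψ
    have e := H5.CharProd.classInner_prod X ψ l
    obtain ⟨m, hm⟩ := inner_char_natCast hX (isCharacter_of_isIrr (H5.CharProd.irr_prod hψ hl))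
    exact ⟨m, by rw [← hm]; exact e.symm⟩

variable {G : Type u} [Group G]

theorem Gd.cf {E X : Subgroup G} {z : G} {χ : G → ℂ} (h : Gd E X z χ) {x y : G} (hx : x ∈ X)
    (hy : y ∈ X) : χ (x * y * x⁻¹) = χ y :=
  (isClassFunction_of_isCharacter h.ch) ⟨y, hy⟩ ⟨x, hx⟩

theorem Gd.mulz {E X : Subgroup G} [Finite G] {z : G} (hE : XE E z) (hEX : E ≤ X)
    (hn : ∀ x ∈ X, ∀ e ∈ E, x * e * x⁻¹ ∈ E) {χ : G → ℂ} (h : Gd E X z χ) {x : G} (hx : x ∈ X) :
    χ (x * z) = -χ x := by
  have hzc : (⟨z, hEX hE.zE⟩ : ↥X) ∈ Subgroup.center ↥X := by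
    rw [Subgroup.mem_center_iff]
    intro y
    apply Subtype.ext
    change (y : G) * z = z * y
    have := hE.fix (g := (y : G)) (hn y y.2)
    calc (y : G) * z = (y * z * (y : G)⁻¹) * y := by group
      _ = z * y := by rw [this]
  have h1 := H79.Central.central_mul (h.irr hE hEX) hzc ⟨x, hx⟩
  have h2 : χ (z * x) = χ z / χ 1 * χ x := h1
  rw [h.hz, neg_div, div_self h.one_ne] at h2
  have h3 : x * z = z * x := by
    have := (Subgroup.mem_center_iff.1 hzc) ⟨x, hx⟩
    exact congrArg Subtype.val this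
  rw [h3, h2]
  ring

theorem abs_one [Finite G] {E X : Subgroup G} {z : G} (hE : XE E z) (hEX : E ≤ X)
    (hn : ∀ x ∈ X, ∀ e ∈ E, x * e * x⁻¹ ∈ E) {χ : G → ℂ} (h : Gd E X z χ) {g : G} (hg : g ∈ X)
    (hf : ∀ e ∈ E, (g * e * g⁻¹ = e ∨ g * e * g⁻¹ = e * z) → e = 1 ∨ e = z) :
    χ g * conj (χ g) = 1 := by
  have hzz : z⁻¹ = z := inv_eq_of_mul_eq_one_right hE.zz
  have hgz : g * z * g⁻¹ = z := hE.fix (hn g hg)
  have hg' : ∀ e ∈ E, g⁻¹ * e * g ∈ E := by
    intro e he
    have := hn _ (X.inv_mem hg) e he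
    rwa [inv_inv] at this
  -- every element of gE is conjugate to g or gz
  have hsurj : ∀ e ∈ E, ∃ a ∈ E, g * e = a * g * a⁻¹ ∨ g * e = a * g * a⁻¹ * z := by
    let Cn := Subgroup.center ↥E
    let c : ↥E →* ↥E :=
      { toFun := fun a => ⟨g⁻¹ * a * g, hg' a a.2⟩
        map_one' := by apply Subtype.ext; simp
        map_mul' := by
          intro a b
          apply Subtype.ext
          change g⁻¹ * ((a : G) * b) * g = g⁻¹ * a * g * (g⁻¹ * b * g)
          group }
    have hcomm : ∀ x y : ↥E ⧸ Cn, x * y = y * x := by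
      intro x y
      obtain ⟨a, rfl⟩ := QuotientGroup.mk_surjective x
      obtain ⟨b, rfl⟩ := QuotientGroup.mk_surjective y
      rw [← QuotientGroup.mk_mul, ← QuotientGroup.mk_mul, QuotientGroup.eq]
      have h1 : (a * b)⁻¹ * (b * a) = ⁅b⁻¹, a⁻¹⁆ := by
        rw [commutatorElement_def]; group
      rw [h1]
      exact hE.comm_le (Subgroup.commutator_mem_commutator (Subgroup.mem_top _) (Subgroup.mem_top _))
    let Φ : ↥E →* ↥E ⧸ Cn :=
      { toFun := fun a => (QuotientGroup.mk (c a) : ↥E ⧸ Cn) * (QuotientGroup.mk a)⁻¹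
        map_one' := by rw [map_one]; simp
        map_mul' := by
          intro a b
          rw [map_mul, QuotientGroup.mk_mul, QuotientGroup.mk_mul, mul_inv_rev]
          have := hcomm ((QuotientGroup.mk (c b) : ↥E ⧸ Cn) * (QuotientGroup.mk b)⁻¹) (QuotientGroup.mk a)⁻¹
          calc _ = (QuotientGroup.mk (c a) : ↥E ⧸ Cn) *
                (((QuotientGroup.mk (c b) : ↥E ⧸ Cn) * (QuotientGroup.mk b)⁻¹) * (QuotientGroup.mk a)⁻¹) := by group
            _ = _ := by rw [this]; group }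
    have hker : Φ.ker ≤ Cn := by
      intro a ha
      rw [MonoidHom.mem_ker] at ha
      have h1 : (QuotientGroup.mk (c a) : ↥E ⧸ Cn) = QuotientGroup.mk a := mul_inv_eq_one.1 ha
      rw [eq_comm, QuotientGroup.eq, hE.mem_center] at h1
      rw [hE.mem_center]
      have h2 : (a : G)⁻¹ * (g⁻¹ * a * g) = 1 ∨ (a : G)⁻¹ * (g⁻¹ * a * g) = z := h1
      apply hf a a.2
      rcases h2 with h2 | h2
      · left
        have : g⁻¹ * a * g = a := (inv_mul_eq_one.1 h2).symm
        calc g * (a : G) * g⁻¹ = g * (g⁻¹ * a * g) * g⁻¹ := by rw [this]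
          _ = a := by group
      · right
        have : g⁻¹ * a * g = a * z := by rw [← h2]; group
        have h3 : (a : G) = (g * a * g⁻¹) * z := by
          calc (a : G) = g * (g⁻¹ * a * g) * g⁻¹ := by group
            _ = g * (a * z) * g⁻¹ := by rw [this]
            _ = g * a * g⁻¹ * (g * z * g⁻¹) := by group
            _ = (g * a * g⁻¹) * z := by rw [hgz]
        calc g * (a : G) * g⁻¹ = (g * a * g⁻¹) * (z * z) := by rw [hE.zz, mul_one]
          _ = (g * a * g⁻¹ * z) * z := by rw [← mul_assoc]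
          _ = a * z := by rw [← h3]
    have hrange : Φ.range = ⊤ := by
      apply Subgroup.eq_top_of_le_card
      have h1 := Subgroup.card_mul_index Φ.ker
      rw [Subgroup.index_ker] at h1
      have h2 := Subgroup.card_eq_card_quotient_mul_card_subgroup Cn
      have h3 : Nat.card Φ.ker ≤ Nat.card Cn := Nat.card_le_card_of_injective _ (Subgroup.inclusion_injective hker)
      have h4 : 0 < Nat.card Cn := Nat.card_pos
      by_contra hlt
      push Not at hlt
      have : Nat.card Φ.ker * Nat.card Φ.range < Nat.card (↥E ⧸ Cn) * Nat.card Cn := by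
        calc Nat.card Φ.ker * Nat.card Φ.range ≤ Nat.card Cn * Nat.card Φ.range :=
              Nat.mul_le_mul_right _ h3
          _ < Nat.card Cn * Nat.card (↥E ⧸ Cn) := Nat.mul_lt_mul_of_pos_left hlt h4
          _ = _ := mul_comm _ _
      omega
    intro e he
    have h1 : (QuotientGroup.mk (⟨e, he⟩ : ↥E) : ↥E ⧸ Cn) ∈ Φ.range := by rw [hrange]; trivial
    obtain ⟨a, ha⟩ := h1
    have h2 : (QuotientGroup.mk (c a * a⁻¹) : ↥E ⧸ Cn) = QuotientGroup.mk (⟨e, he⟩ : ↥E) := by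
      rw [← ha]
      rfl
    rw [QuotientGroup.eq, hE.mem_center] at h2
    have h3 : (g⁻¹ * (a : G) * g * (a : G)⁻¹)⁻¹ * e = 1 ∨ (g⁻¹ * (a : G) * g * (a : G)⁻¹)⁻¹ * e = z := h2
    refine ⟨a, a.2, ?_⟩
    rcases h3 with h3 | h3
    · left
      have : e = g⁻¹ * (a : G) * g * (a : G)⁻¹ := (inv_mul_eq_one.1 h3).symm
      rw [this]
      group
    · right
      have : e = g⁻¹ * (a : G) * g * (a : G)⁻¹ * z := by rw [← h3]; group
      rw [this]
      group
  have hval : ∀ e ∈ E, χ (g * e) * conj (χ (g * e)) = χ g * conj (χ g) := by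
    intro e he
    obtain ⟨a, ha, h1 | h1⟩ := hsurj e he
    · rw [h1, h.cf (hEX ha) hg]
    · rw [h1, h.mulz hE hEX hn (X.mul_mem (X.mul_mem (hEX ha) hg) (X.inv_mem (hEX ha))),
        h.cf (hEX ha) hg, map_neg, neg_mul_neg]
  let M : Subgroup ↥X := E.subgroupOf X
  letI := Fintype.ofFinite ↥M
  let e : ↥M ≃* ↥E := Subgroup.subgroupOfEquivOfLe hEX
  have irrM : IsIrrCharacter ↥M (fun n : M => rs X χ n) :=
    isIrrCharacter_comp e.toMonoidHom e.surjective (h.irrE hE hEX)
  have h1 := H83.Gallagher.coset_sum (h.irr hE hEX) M irrM ⟨g, hg⟩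
  have h1' : ∑ n : ↥M, χ (g * (n : ↥X)) * conj (χ (g * (n : ↥X))) = Nat.card ↥M := h1
  have h1s : ∑ n : ↥M, χ (g * (n : ↥X)) * conj (χ (g * (n : ↥X))) =
      ∑ _n : ↥M, χ g * conj (χ g) := Finset.sum_congr rfl (fun n _ => hval _ n.2)
  rw [h1s] at h1'
  replace h1 := h1'
  rw [Finset.sum_const, Finset.card_univ, nsmul_eq_mul, ← Nat.card_eq_fintype_card] at h1
  have h2 : (Nat.card ↥M : ℂ) ≠ 0 := card_ne_zero'
  have h3 : (Nat.card ↥M : ℂ) * (χ g * conj (χ g) - 1) = 0 := by linear_combination h1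
  have h4 := (mul_eq_zero.1 h3).resolve_left h2
  linear_combination h4

/-- twisting by a linear character -/
theorem Gd.twist [Finite G] {E X : Subgroup G} {z : G} (hE : XE E z) (hEX : E ≤ X) {χ : G → ℂ}
    (h : Gd E X z χ) (ν : ↥X →* ℂˣ) (hν : ∀ (e : G) (he : e ∈ E), ν ⟨e, hEX he⟩ = 1) :
    ∃ χ', Gd E X z χ' ∧ ∀ (x : G) (hx : x ∈ X), χ' x = (ν ⟨x, hx⟩ : ℂ) * χ x := by
  have hv : ∀ (x : G) (hx : x ∈ X), ex X (fun x => (ν x : ℂ) * χ x) x = (ν ⟨x, hx⟩ : ℂ) * χ x :=
    fun x hx => ex_apply X _ hx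
  refine ⟨ex X (fun x => (ν x : ℂ) * χ x), ⟨?_, ?_, ?_⟩, hv⟩
  · rw [rs_ex]
    exact H18.CharQuot.isCharacter_hom_mul ν h.ch
  · rw [hv z (hEX hE.zE), hv 1 X.one_mem, hν z hE.zE, hν 1 E.one_mem, h.hz]
    simp
  · rw [hv 1 X.one_mem, hν 1 E.one_mem, ← h.dg]
    simp

/-- subgroups of index two above a given subgroup -/
theorem exists_two [Finite G] {P K : Subgroup G} (hP : IsPGroup 2 ↥P) (hKP : K ≤ P) (hne : K ≠ P) :
    ∃ P' : Subgroup G, K ≤ P' ∧ P' ≤ P ∧ Nat.card ↥P = 2 * Nat.card ↥P' ∧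
      (∀ p ∈ P, ∀ q ∈ P', p * q * p⁻¹ ∈ P') ∧
      ∃ t ∈ P, t ∉ P' ∧ ∀ p ∈ P, p ∈ P' ∨ ∃ q ∈ P', p = t * q := by
  haveI : Fact (Nat.Prime 2) := ⟨Nat.prime_two⟩
  have h1 : K.subgroupOf P ≠ ⊤ := by
    intro h
    rw [Subgroup.subgroupOf_eq_top] at h
    exact hne (le_antisymm hKP h)
  obtain ⟨M, hKM, hMn, hMi⟩ := H38.Norm.exists_index_p hP h1
  refine ⟨M.map P.subtype, ?_, ?_, ?_, ?_, ?_⟩
  · intro x hx
    exact ⟨⟨x, hKP hx⟩, hKM hx, rfl⟩
  · rintro _ ⟨x, _, rfl⟩
    exact x.2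
  · have h2 : Nat.card ↥(M.map P.subtype) = Nat.card ↥M :=
      Nat.card_congr (M.equivMapOfInjective P.subtype P.subtype_injective).symm.toEquiv
    rw [h2, ← Subgroup.card_mul_index M, hMi]
    ring
  · rintro p hp _ ⟨x, hx, rfl⟩
    exact ⟨⟨p, hp⟩ * x * ⟨p, hp⟩⁻¹, hMn.conj_mem x hx ⟨p, hp⟩, rfl⟩
  · have h3 : M ≠ ⊤ := by
      rintro rfl
      rw [Subgroup.index_top] at hMi
      omega
    obtain ⟨t, ht⟩ := SetLike.exists_not_mem_of_ne_top M h3 rfl
    refine ⟨t, t.2, ?_, ?_⟩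
    · rintro ⟨x, hx, hxt⟩
      exact ht (by rwa [← Subtype.ext hxt])
    · intro p hp
      by_cases hpM : (⟨p, hp⟩ : ↥P) ∈ M
      · left
        exact ⟨⟨p, hp⟩, hpM, rfl⟩
      · right
        have h4 : t⁻¹ * ⟨p, hp⟩ ∈ M := by
          rw [Subgroup.mul_mem_iff_of_index_two hMi]
          simp [ht, hpM]
        exact ⟨_, ⟨t⁻¹ * ⟨p, hp⟩, h4, rfl⟩, by
          change p = (t : G) * ((t : G)⁻¹ * p)
          group⟩

/-- the sup of two commuting groups of our kind -/
theorem XE.sup [Finite G] {E1 E2 : Subgroup G} {z : G} (h1 : XE E1 z) (h2 : XE E2 z)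
    (hcomm : ∀ a ∈ E1, ∀ b ∈ E2, a * b = b * a) : XE (E1 ⊔ E2) z := by
  have hzz := h1.zz
  have hE12 : ∀ x ∈ E1 ⊔ E2, ∃ a ∈ E1, ∃ b ∈ E2, x = a * b := by
    intro x hx
    refine mem_dec (fun b hb a ha => ?_) hx
    have : b * a * b⁻¹ = a := by rw [← hcomm a ha b hb]; group
    rw [this]
    exact ha
  refine ⟨(le_sup_left : E1 ≤ _) h1.zE, h1.z1, h1.zz, ?_, ?_, ?_, ?_⟩
  · intro x hx
    obtain ⟨a, ha, b, hb, rfl⟩ := hE12 x hx
    calc a * b * z = a * (b * z) := by group
      _ = a * (z * b) := by rw [h2.cz b hb]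
      _ = (a * z) * b := by group
      _ = z * (a * b) := by rw [h1.cz a ha]; group
  · intro x hx y hy
    obtain ⟨a, ha, b, hb, rfl⟩ := hE12 x hx
    obtain ⟨c, hc, d, hd, rfl⟩ := hE12 y hy
    have e1 : a * b * (c * d) = (a * c) * (b * d) := by
      calc a * b * (c * d) = a * (b * c) * d := by group
        _ = a * (c * b) * d := by rw [hcomm c hc b hb]
        _ = _ := by group
    have e2 : c * d * (a * b) = (c * a) * (d * b) := by
      calc c * d * (a * b) = c * (d * a) * b := by group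
        _ = c * (a * d) * b := by rw [hcomm a ha d hd]
        _ = _ := by group
    rw [e1, e2]
    rcases h1.cm a ha c hc with h3 | h3 <;> rcases h2.cm b hb d hd with h4 | h4
    · left; rw [h3, h4]
    · right; rw [h3, h4]; group
    · right
      rw [h3, h4]
      calc c * a * z * (d * b) = c * a * (z * (d * b)) := by group
        _ = c * a * ((d * b) * z) := by rw [h2.cz _ (E2.mul_mem hd hb)]
        _ = _ := by group
    · left
      rw [h3, h4]
      calc c * a * z * (d * b * z) = c * a * (z * (d * b)) * z := by group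
        _ = c * a * ((d * b) * z) * z := by rw [h2.cz _ (E2.mul_mem hd hb)]
        _ = c * a * (d * b) * (z * z) := by group
        _ = _ := by rw [hzz, mul_one]
  · intro x hx hc
    obtain ⟨a, ha, b, hb, rfl⟩ := hE12 x hx
    have ha1 : a = 1 ∨ a = z := by
      apply h1.nd a ha
      intro c hc1
      have h3 := hc c ((le_sup_left : E1 ≤ _) hc1)
      have h4 : a * b * c = a * c * b := by
        rw [mul_assoc, mul_assoc, ← hcomm c hc1 b hb]
      rw [h4, ← mul_assoc] at h3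
      exact mul_right_cancel h3
    have hb1 : b = 1 ∨ b = z := by
      apply h2.nd b hb
      intro d hd
      have h3 := hc d ((le_sup_right : E2 ≤ _) hd)
      have h4 : d * (a * b) = a * (d * b) := by
        rw [← mul_assoc, ← hcomm a ha d hd, mul_assoc]
      rw [h4, mul_assoc] at h3
      exact mul_left_cancel h3
    rcases ha1 with rfl | rfl <;> rcases hb1 with rfl | rfl
    · left; group
    · right; group
    · right; group
    · left; exact hzz
  · let ph : ↥E1 × ↥E2 →* ↥(E1 ⊔ E2) :=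
      { toFun := fun x => ⟨x.1 * x.2, Subgroup.mul_mem_sup x.1.2 x.2.2⟩
        map_one' := by apply Subtype.ext; simp
        map_mul' := by
          intro x y
          apply Subtype.ext
          change (x.1 : G) * y.1 * ((x.2 : G) * y.2) = (x.1 : G) * x.2 * ((y.1 : G) * y.2)
          have := hcomm y.1 y.1.2 x.2 x.2.2
          calc (x.1 : G) * y.1 * ((x.2 : G) * y.2) = x.1 * (y.1 * x.2) * y.2 := by group
            _ = x.1 * (x.2 * y.1) * y.2 := by rw [this]
            _ = _ := by group }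
    have hsur : Function.Surjective ph := by
      intro x
      obtain ⟨a, ha, b, hb, hx⟩ := hE12 x x.2
      exact ⟨(⟨a, ha⟩, ⟨b, hb⟩), Subtype.ext hx.symm⟩
    have hp : IsPGroup 2 (↥E1 × ↥E2) := by
      haveI : Fact (Nat.Prime 2) := ⟨Nat.prime_two⟩
      obtain ⟨m, hm⟩ := IsPGroup.iff_card.1 h1.two
      obtain ⟨n, hn⟩ := IsPGroup.iff_card.1 h2.two
      apply IsPGroup.of_card (n := m + n)
      rw [Nat.card_prod, hm, hn, pow_add]
    exact hp.of_surjective ph hsur

end H13.S47
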