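import Cfsg.Agent.Lib.H13.S47d
import Cfsg.Agent.Lib.H62.CentralInv

/-!
# S4759, file e: swap, canonical extensions
-/

set_option autoImplicit false
set_option linter.unusedSectionVars false
set_option linter.style.haveILetI false

namespace H13.S47

open Cfsg H18.CharBasic H18.CharOrtho
open scoped ComplexConjugate commutatorElement

universe u v

variable {G : Type u} [Group G]

theorem swap_good [Finite G] {E1 E2 P P' : Subgroup G} {z t : G} (h1 : XE E1 z) (h2 : XE E2 z)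
    (hcomm : ∀ a ∈ E1, ∀ b ∈ E2, a * b = b * a)
    (hP'P : P' ≤ P) (htP : t ∈ P) (hnP : ∀ p ∈ P, ∀ q ∈ P', p * q * p⁻¹ ∈ P')
    (hcos : ∀ p ∈ P, p ∈ P' ∨ ∃ q ∈ P', p = t * q) (htt : t * t ∈ P')
    (h12 : ∀ a ∈ E1, t * a * t⁻¹ ∈ E2) (h21 : ∀ b ∈ E2, t⁻¹ * b * t ∈ E1)
    (hn1 : ∀ p ∈ P', ∀ e ∈ E1, p * e * p⁻¹ ∈ E1)
    (hP : ∀ x ∈ E1 ⊔ E2, x ∈ P → x = 1) {χ1 : G → ℂ} (g1 : Gd E1 (E1 ⊔ P') z χ1) :
    ∃ χ, Gd (E1 ⊔ E2) ((E1 ⊔ E2) ⊔ P) z χ := by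
  have hE := h1.sup h2 hcomm
  have hE12 : ∀ x ∈ E1 ⊔ E2, ∃ a ∈ E1, ∃ b ∈ E2, x = a * b := by
    intro x hx
    refine mem_dec (fun b hb a ha => ?_) hx
    have : b * a * b⁻¹ = a := by rw [← hcomm a ha b hb]; group
    rw [this]
    exact ha
  have hint : ∀ x ∈ E1, x ∈ E2 → x = 1 ∨ x = z := by
    intro x hx1 hx2
    exact h1.nd x hx1 fun b hb => (hcomm b hb x hx2).symm
  have h21' : ∀ b ∈ E2, t * b * t⁻¹ ∈ E1 := by
    intro b hb
    have h3 := hn1 _ htt _ (h21 b hb)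
    have : t * t * (t⁻¹ * b * t) * (t * t)⁻¹ = t * b * t⁻¹ := by group
    rwa [this] at h3
  have htinv : ∀ q ∈ P', t⁻¹ * q * t ∈ P' := by
    intro q hq
    have := hnP _ (P.inv_mem htP) q hq
    rwa [inv_inv] at this
  have hn2 : ∀ p ∈ P', ∀ e ∈ E2, p * e * p⁻¹ ∈ E2 := by
    intro p hp e he
    have h3 := h12 _ (hn1 _ (htinv p hp) _ (h21 e he))
    have : t * (t⁻¹ * p * t * (t⁻¹ * e * t) * (t⁻¹ * p * t)⁻¹) * t⁻¹ = p * e * p⁻¹ := by group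
    rwa [this] at h3
  have hnP'E : ∀ p ∈ P', ∀ e ∈ E1 ⊔ E2, p * e * p⁻¹ ∈ E1 ⊔ E2 := by
    intro p hp e he
    obtain ⟨a, ha, b, hb, rfl⟩ := hE12 e he
    have : p * (a * b) * p⁻¹ = (p * a * p⁻¹) * (p * b * p⁻¹) := by group
    rw [this]
    exact Subgroup.mul_mem_sup (hn1 p hp a ha) (hn2 p hp b hb)
  have htE : ∀ e ∈ E1 ⊔ E2, t * e * t⁻¹ ∈ E1 ⊔ E2 := by
    intro e he
    obtain ⟨a, ha, b, hb, rfl⟩ := hE12 e he
    have : t * (a * b) * t⁻¹ = (t * a * t⁻¹) * (t * b * t⁻¹) := by group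
    rw [this]
    exact Subgroup.mul_mem _ ((le_sup_right : E2 ≤ E1 ⊔ E2) (h12 a ha))
      ((le_sup_left : E1 ≤ E1 ⊔ E2) (h21' b hb))
  have htE' : ∀ e ∈ E1 ⊔ E2, t⁻¹ * e * t ∈ E1 ⊔ E2 := by
    intro e he
    have h3 := htE _ (hnP'E _ (P'.inv_mem htt) e he)
    have : t * ((t * t)⁻¹ * e * (t * t)⁻¹⁻¹) * t⁻¹ = t⁻¹ * e * t := by group
    rwa [this] at h3
  have hnPE : ∀ p ∈ P, ∀ e ∈ E1 ⊔ E2, p * e * p⁻¹ ∈ E1 ⊔ E2 := by
    intro p hp e he
    rcases hcos p hp with h3 | ⟨q, hq, rfl⟩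
    · exact hnP'E p h3 e he
    · have h4 := htE _ (hnP'E q hq e he)
      have : t * (q * e * q⁻¹) * t⁻¹ = t * q * e * (t * q)⁻¹ := by group
      rwa [this] at h4
  have htz : t * z * t⁻¹ = z := hE.fix htE
  have htz' : t⁻¹ * z * t = z := by
    calc t⁻¹ * z * t = t⁻¹ * (t * z * t⁻¹) * t := by rw [htz]
      _ = z := by group
  have hmem : ∀ x ∈ E2 ⊔ P', t⁻¹ * x * t ∈ E1 ⊔ P' := by
    intro x hx
    obtain ⟨b, hb, p, hp, rfl⟩ := mem_dec hn2 hx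
    have : t⁻¹ * (b * p) * t = (t⁻¹ * b * t) * (t⁻¹ * p * t) := by group
    rw [this]
    exact Subgroup.mul_mem_sup (h21 b hb) (htinv p hp)
  let cj : ↥(E2 ⊔ P') →* ↥(E1 ⊔ P') :=
    { toFun := fun x => ⟨t⁻¹ * x * t, hmem x x.2⟩
      map_one' := by apply Subtype.ext; simp
      map_mul' := by
        intro x y
        apply Subtype.ext
        change t⁻¹ * ((x : G) * y) * t = t⁻¹ * x * t * (t⁻¹ * y * t)
        group }
  have hcard : Nat.card ↥E2 = Nat.card ↥E1 := by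
    refine Nat.card_congr ⟨fun b => ⟨t⁻¹ * b * t, h21 b b.2⟩, fun a => ⟨t * a * t⁻¹, h12 a a.2⟩, ?_, ?_⟩
    · intro b
      apply Subtype.ext
      change t * (t⁻¹ * (b : G) * t) * t⁻¹ = b
      group
    · intro a
      apply Subtype.ext
      change t⁻¹ * (t * (a : G) * t⁻¹) * t = a
      group
  let χ2 : G → ℂ := fun x => χ1 (t⁻¹ * x * t)
  have g2 : Gd E2 (E2 ⊔ P') z χ2 := by
    refine ⟨isCharacter_comp cj g1.ch, ?_, ?_⟩
    · change χ1 (t⁻¹ * z * t) = -χ1 (t⁻¹ * 1 * t)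
      rw [htz', g1.hz]
      congr 2
      group
    · change 2 * χ1 (t⁻¹ * 1 * t) ^ 2 = _
      rw [hcard, ← g1.dg]
      congr 3
      group
  obtain ⟨χ, hχ, hform⟩ := prod_good h1 h2 hcomm hint hn1 hn2
    (fun x hx hxp => hP x hx (hP'P hxp)) g1 g2
  have hNX : (E1 ⊔ E2) ⊔ P' ≤ (E1 ⊔ E2) ⊔ P := sup_le_sup_left hP'P _
  have hXdec : ∀ x ∈ (E1 ⊔ E2) ⊔ P, x ∈ (E1 ⊔ E2) ⊔ P' ∨ ∃ n ∈ (E1 ⊔ E2) ⊔ P', x = t * n := by
    intro x hx
    obtain ⟨e, he, p, hp, rfl⟩ := mem_dec hnPE hx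
    rcases hcos p hp with h3 | ⟨q, hq, rfl⟩
    · left
      exact Subgroup.mul_mem_sup he h3
    · right
      refine ⟨(t⁻¹ * e * t) * q, Subgroup.mul_mem_sup (htE' e he) hq, by group⟩
  have htN : ∀ n ∈ (E1 ⊔ E2) ⊔ P', t * n * t⁻¹ ∈ (E1 ⊔ E2) ⊔ P' := by
    intro n hn
    obtain ⟨e, he, p, hp, rfl⟩ := mem_dec hnP'E hn
    have : t * (e * p) * t⁻¹ = (t * e * t⁻¹) * (t * p * t⁻¹) := by group
    rw [this]
    exact Subgroup.mul_mem_sup (htE e he) (hnP t htP p hp)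
  have hnN : ∀ x ∈ (E1 ⊔ E2) ⊔ P, ∀ n ∈ (E1 ⊔ E2) ⊔ P', x * n * x⁻¹ ∈ (E1 ⊔ E2) ⊔ P' := by
    intro x hx n hn
    rcases hXdec x hx with h3 | ⟨m, hm, rfl⟩
    · exact Subgroup.mul_mem _ (Subgroup.mul_mem _ h3 hn) (Subgroup.inv_mem _ h3)
    · have h4 := htN _ (Subgroup.mul_mem _ (Subgroup.mul_mem _ hm hn) (Subgroup.inv_mem _ hm))
      have : t * (m * n * m⁻¹) * t⁻¹ = t * m * n * (t * m)⁻¹ := by group
      rwa [this] at h4
  have htinvar : ∀ n ∈ (E1 ⊔ E2) ⊔ P', χ (t * n * t⁻¹) = χ n := by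
    intro n hn
    obtain ⟨e, he, p, hp, rfl⟩ := mem_dec hnP'E hn
    obtain ⟨a, ha, b, hb, rfl⟩ := hE12 e he
    rw [hform a ha b hb p hp]
    have e1 : t * (a * b * p) * t⁻¹ = (t * b * t⁻¹) * (t * a * t⁻¹) * (t * p * t⁻¹) := by
      rw [hcomm a ha b hb]; group
    rw [e1, hform _ (h21' b hb) _ (h12 a ha) _ (hnP t htP p hp)]
    have e2 : χ2 (t * a * t⁻¹ * (t * p * t⁻¹)) = χ1 (a * p) := by
      change χ1 (t⁻¹ * (t * a * t⁻¹ * (t * p * t⁻¹)) * t) = χ1 (a * p)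
      congr 1
      group
    have e3 : χ1 (t * b * t⁻¹ * (t * p * t⁻¹)) = χ2 (b * p) := by
      change _ = χ1 (t⁻¹ * (b * p) * t)
      have h5 : (t⁻¹ * (b * p) * t) ∈ E1 ⊔ P' := hmem _ (Subgroup.mul_mem_sup hb hp)
      have h6 : t * t ∈ E1 ⊔ P' := (le_sup_right : P' ≤ E1 ⊔ P') htt
      rw [← g1.cf h6 h5]
      congr 1
      group
    rw [e2, e3]
    ring
  obtain ⟨χ', hχ', _⟩ := ext_cyc hE le_sup_left hNX hnN
    ⟨t, (le_sup_right : P ≤ _) htP, fun x hx => by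
      rcases hXdec x hx with h3 | ⟨m, hm, hx'⟩
      · exact ⟨0, x, h3, by simp⟩
      · exact ⟨1, m, hm, by rw [zpow_one]; exact hx'⟩⟩ hχ (by
      intro x hx n hn
      rcases hXdec x hx with h3 | ⟨m, hm, rfl⟩
      · exact hχ.cf h3 hn
      · have h4 : t * m * n * (t * m)⁻¹ = t * (m * n * m⁻¹) * t⁻¹ := by group
        rw [h4, htinvar _ (Subgroup.mul_mem _ (Subgroup.mul_mem _ hm hn) (Subgroup.inv_mem _ hm)),
          hχ.cf hm hn])
  exact ⟨χ', hχ'⟩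

theorem odd_two {E : Subgroup G} (hE : IsPGroup 2 ↥E) {x : G} (hx : x ∈ E) {m : ℕ} (hm : Odd m)
    (h : x ^ m = 1) : x = 1 := by
  obtain ⟨a, ha⟩ := hE ⟨x, hx⟩
  have h1 : x ^ 2 ^ a = 1 := congrArg Subtype.val ha
  have h2 : orderOf x ∣ 2 ^ a := orderOf_dvd_of_pow_eq_one h1
  have h3 : orderOf x ∣ m := orderOf_dvd_of_pow_eq_one h
  have h4 : Nat.Coprime (2 ^ a) m := (Nat.coprime_two_left.2 hm).pow_left a
  have h5 : orderOf x ∣ 1 := by
    rw [← h4]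
    exact Nat.dvd_gcd h2 h3
  exact orderOf_eq_one_iff.1 (Nat.dvd_one.1 h5)

structure CD (E : Subgroup G) (z k : G) (r : ℕ) : Prop where
  hE : XE E z
  hr : r.Prime
  hr2 : r ≠ 2
  hk : ∀ e ∈ E, k * e * k⁻¹ ∈ E
  hkr : ∀ e ∈ E, k ^ r * e = e * k ^ r
  hkf : ∀ e ∈ E, k * e = e * k → e = 1 ∨ e = z
  hko : Odd (orderOf k)
  hne : ∃ e ∈ E, e ≠ 1 ∧ e ≠ z

structure QD (E Q : Subgroup G) (k : G) : Prop where
  p2 : IsPGroup 2 ↥Q
  hn : ∀ y ∈ Q, ∀ e ∈ E, y * e * y⁻¹ ∈ E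
  hc : ∀ y ∈ Q, y * k = k * y
  hi : ∀ x ∈ E, x ∈ Q → x = 1

section

variable {E Q : Subgroup G} {z k : G} {r : ℕ}

/-- stabilizer of `{e, e z}` -/
def De (z e : G) (hz : z * z = 1) (he : e * z = z * e) : Subgroup G where
  carrier := {g | g * z * g⁻¹ = z ∧ (g * e * g⁻¹ = e ∨ g * e * g⁻¹ = e * z)}
  one_mem' := by
    constructor
    · group
    · left; group
  mul_mem' := by
    rintro g h ⟨h1, h2⟩ ⟨h3, h4⟩
    have c1 : g * h * z * (g * h)⁻¹ = z := by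
      calc g * h * z * (g * h)⁻¹ = g * (h * z * h⁻¹) * g⁻¹ := by group
        _ = z := by rw [h3, h1]
    refine ⟨c1, ?_⟩
    have c2 : g * h * e * (g * h)⁻¹ = g * (h * e * h⁻¹) * g⁻¹ := by group
    rw [c2]
    rcases h4 with h4 | h4
    · rw [h4]; exact h2
    · rw [h4]
      have c3 : g * (e * z) * g⁻¹ = (g * e * g⁻¹) * (g * z * g⁻¹) := by group
      rw [c3, h1]
      rcases h2 with h2 | h2
      · right; rw [h2]
      · left
        rw [h2, mul_assoc, hz, mul_one]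
  inv_mem' := by
    rintro g ⟨h1, h2⟩
    have c1 : g⁻¹ * z * g = z := by
      calc g⁻¹ * z * g = g⁻¹ * (g * z * g⁻¹) * g := by rw [h1]
        _ = z := by group
    refine ⟨by rw [inv_inv]; exact c1, ?_⟩
    rw [inv_inv]
    rcases h2 with h2 | h2
    · left
      calc g⁻¹ * e * g = g⁻¹ * (g * e * g⁻¹) * g := by rw [h2]
        _ = e := by group
    · right
      have : e = (g * e * g⁻¹) * z := by rw [h2, mul_assoc, hz, mul_one]
      calc g⁻¹ * e * g = g⁻¹ * ((g * e * g⁻¹) * z) * g := by rw [← this]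
        _ = e * (g⁻¹ * z * g) := by group
        _ = e * z := by rw [c1]

theorem CD.kn (h : CD E z k r) : ∀ c ∈ Subgroup.zpowers k, ∀ e ∈ E, c * e * c⁻¹ ∈ E := by
  have h1 : Subgroup.zpowers k ≤ Subgroup.normalizer (E : Set G) → ∀ c ∈ Subgroup.zpowers k,
      ∀ e ∈ E, c * e * c⁻¹ ∈ E := fun hle c hc e he =>
    ((Subgroup.mem_normalizer_iff).1 (hle hc) e).1 he
  intro c hc e he
  -- positive powers
  obtain ⟨i, rfl⟩ := Subgroup.mem_zpowers_iff.1 hc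
  have hpos : ∀ n : ℕ, k ^ n * e * (k ^ n)⁻¹ ∈ E := by
    intro n
    induction n with
    | zero => simpa using he
    | succ n ih =>
      have := h.hk _ ih
      have e1 : k * (k ^ n * e * (k ^ n)⁻¹) * k⁻¹ = k ^ (n + 1) * e * (k ^ (n + 1))⁻¹ := by
        rw [pow_succ']; group
      rwa [e1] at this
  have ho : 0 < orderOf k := h.hko.pos
  have hi : k ^ i = k ^ (i % (orderOf k : ℤ)).toNat := by
    rw [← zpow_natCast, Int.toNat_of_nonneg (Int.emod_nonneg _ (by exact_mod_cast ho.ne'))]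
    exact (zpow_mod_orderOf k i).symm
  rw [hi]
  exact hpos _

theorem CD.fpf (h : CD E z k r) [Finite G] (hQ : QD E Q k) {i : ℤ} (hi : ¬ (r : ℤ) ∣ i) {y : G} (hy : y ∈ Q) :
    ∀ e ∈ E, (k ^ i * y * e * (k ^ i * y)⁻¹ = e ∨ k ^ i * y * e * (k ^ i * y)⁻¹ = e * z) →
      e = 1 ∨ e = z := by
  intro e he hg
  have hez := h.hE.cz e he
  have hyz : y * z * y⁻¹ = z := h.hE.fix (hQ.hn y hy)
  have hkz : k * z * k⁻¹ = z := h.hE.fix h.hk
  let D := De z e h.hE.zz hez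
  have hkiz : k ^ i * z * (k ^ i)⁻¹ = z :=
    h.hE.fix (h.kn _ (Subgroup.zpow_mem_zpowers k i))
  have hgD : k ^ i * y ∈ D := by
    refine ⟨?_, hg⟩
    calc k ^ i * y * z * (k ^ i * y)⁻¹ = k ^ i * (y * z * y⁻¹) * (k ^ i)⁻¹ := by group
      _ = z := by rw [hyz, hkiz]
  obtain ⟨a, ha⟩ := hQ.p2 ⟨y, hy⟩
  have hya : y ^ 2 ^ a = 1 := congrArg Subtype.val ha
  have hcomm : Commute (k ^ i) y := (show Commute y k from hQ.hc y hy).symm.zpow_left i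
  have hD1 : k ^ (i * 2 ^ a) ∈ D := by
    have := D.pow_mem hgD (2 ^ a)
    rw [hcomm.mul_pow, hya, mul_one, ← zpow_natCast, ← zpow_mul] at this
    convert this using 2
    push_cast
    ring
  have hD2 : k ^ (r : ℤ) ∈ D := by
    rw [zpow_natCast]
    refine ⟨?_, Or.inl ?_⟩
    · rw [h.hkr z h.hE.zE]; group
    · rw [h.hkr e he]; group
  have hcop : IsCoprime (i * 2 ^ a : ℤ) (r : ℤ) := by
    have hrp : Prime (r : ℤ) := Nat.prime_iff_prime_int.1 h.hr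
    rw [isCoprime_comm]
    refine (Prime.coprime_iff_not_dvd hrp).2 fun hd => ?_
    rcases hrp.dvd_or_dvd hd with h1 | h1
    · exact hi h1
    · have h2 := hrp.dvd_of_dvd_pow h1
      have h3 : r ∣ 2 := by exact_mod_cast h2
      exact h.hr2 ((Nat.prime_dvd_prime_iff_eq h.hr Nat.prime_two).1 h3)
  obtain ⟨u, v, huv⟩ := hcop
  have hkD : k ∈ D := by
    have h1 := D.mul_mem (D.zpow_mem hD1 u) (D.zpow_mem hD2 v)
    rw [← zpow_mul, ← zpow_mul, ← zpow_add] at h1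
    have h2 : i * 2 ^ a * u + (r : ℤ) * v = 1 := by linear_combination huv
    rwa [h2, zpow_one] at h1
  apply h.hkf e he
  have hkk : k * k * e * (k * k)⁻¹ = e := by
    rcases hkD.2 with h1 | h1
    · calc k * k * e * (k * k)⁻¹ = k * (k * e * k⁻¹) * k⁻¹ := by group
        _ = e := by rw [h1, h1]
    · calc k * k * e * (k * k)⁻¹ = k * (k * e * k⁻¹) * k⁻¹ := by group
        _ = k * (e * z) * k⁻¹ := by rw [h1]
        _ = (k * e * k⁻¹) * (k * z * k⁻¹) := by group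
        _ = e := by rw [h1, hkz, mul_assoc, h.hE.zz, mul_one]
  have hcm : Commute (k * k) e := by
    change k * k * e = e * (k * k)
    calc k * k * e = (k * k * e * (k * k)⁻¹) * (k * k) := by group
      _ = e * (k * k) := by rw [hkk]
  obtain ⟨m, hm⟩ := h.hko
  have hk1 : k = (k * k) ^ (m + 1) := by
    rw [← pow_two, ← pow_mul]
    have : 2 * (m + 1) = orderOf k + 1 := by omega
    rw [this, pow_succ, pow_orderOf_eq_one, one_mul]
  have : Commute k e := by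
    rw [hk1]
    exact hcm.pow_left _
  exact this

theorem CD.cap (h : CD E z k r) (hQ : QD E Q k) : ∀ x ∈ E, x ∈ Subgroup.zpowers k ⊔ Q → x = 1 := by
  intro x hx hxA
  obtain ⟨c, hc, y, hy, rfl⟩ := mem_dec (E := Subgroup.zpowers k) (A := Q) (by
    intro a ha e he
    obtain ⟨i, rfl⟩ := Subgroup.mem_zpowers_iff.1 he
    have : Commute a (k ^ i) := (show Commute a k from hQ.hc a ha).zpow_right i
    rw [this.eq]
    simpa using Subgroup.zpow_mem_zpowers k i) hxA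
  obtain ⟨i, rfl⟩ := Subgroup.mem_zpowers_iff.1 hc
  have hcomm : Commute (k ^ i) y := (show Commute y k from hQ.hc y hy).symm.zpow_left i
  have hko : (k ^ i) ^ orderOf k = 1 := by
    rw [← zpow_natCast, ← zpow_mul, mul_comm, zpow_mul, zpow_natCast, pow_orderOf_eq_one, one_zpow]
  have h1 : (k ^ i * y) ^ orderOf k = y ^ orderOf k := by
    rw [hcomm.mul_pow, hko, one_mul]
  have h2 : y ^ orderOf k = 1 := hQ.hi _ (by rw [← h1]; exact E.pow_mem hx _) (Q.pow_mem hy _)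
  have hy1 : y = 1 := odd_two hQ.p2 hy h.hko h2
  subst hy1
  rw [mul_one] at hx ⊢
  exact odd_two h.hE.two hx h.hko hko

theorem CD.nA (h : CD E z k r) (hQ : QD E Q k) :
    ∀ a ∈ Subgroup.zpowers k ⊔ Q, ∀ e ∈ E, a * e * a⁻¹ ∈ E := by
  intro a ha e he
  obtain ⟨c, hc, y, hy, rfl⟩ := mem_dec (E := Subgroup.zpowers k) (A := Q) (by
    intro a ha e he
    obtain ⟨i, rfl⟩ := Subgroup.mem_zpowers_iff.1 he
    have : Commute a (k ^ i) := (show Commute a k from hQ.hc a ha).zpow_right i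
    rw [this.eq]
    simpa using Subgroup.zpow_mem_zpowers k i) ha
  have : c * y * e * (c * y)⁻¹ = c * (y * e * y⁻¹) * c⁻¹ := by group
  rw [this]
  exact h.kn c hc _ (hQ.hn y hy e he)

end

end H13.S47
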