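import Cfsg.Agent.Lib.H13.S47e

/-!
# S4759, file f: canonical extensions
-/

set_option autoImplicit false
set_option linter.unusedSectionVars false
set_option linter.style.haveILetI false

namespace H13.S47

open Cfsg H18.CharBasic H18.CharOrtho
open scoped ComplexConjugate commutatorElement

universe u v

variable {G : Type u} [Group G] [Finite G]
variable {E Q : Subgroup G} {z k : G} {r : ℕ}

theorem QD.cz (hQ : QD E Q k) : ∀ a ∈ Q, ∀ e ∈ Subgroup.zpowers k, a * e * a⁻¹ ∈ Subgroup.zpowers k := by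
  intro a ha e he
  obtain ⟨i, rfl⟩ := Subgroup.mem_zpowers_iff.1 he
  have : Commute a (k ^ i) := (show Commute a k from hQ.hc a ha).zpow_right i
  rw [this.eq]
  simp

theorem CD.kQ (h : CD E z k r) (hQ : QD E Q k) : ∀ x ∈ Subgroup.zpowers k, x ∈ Q → x = 1 := by
  intro x hx hxQ
  obtain ⟨i, rfl⟩ := Subgroup.mem_zpowers_iff.1 hx
  refine odd_two hQ.p2 hxQ h.hko ?_
  rw [← zpow_natCast, ← zpow_mul, mul_comm, zpow_mul, zpow_natCast, pow_orderOf_eq_one, one_zpow]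

theorem CD.decL (h : CD E z k r) (hQ : QD E Q k) {x : G} (hx : x ∈ E ⊔ (Subgroup.zpowers k ⊔ Q)) :
    ∃ e ∈ E, ∃ i : ℤ, ∃ y ∈ Q, x = e * (k ^ i * y) := by
  obtain ⟨e, he, a, ha, rfl⟩ := mem_dec (h.nA hQ) hx
  obtain ⟨c, hc, y, hy, rfl⟩ := mem_dec hQ.cz ha
  obtain ⟨i, rfl⟩ := Subgroup.mem_zpowers_iff.1 hc
  exact ⟨e, he, i, y, hy, rfl⟩

theorem CD.memL {e y : G} (he : e ∈ E) (i : ℤ) (hy : y ∈ Q) :
    e * (k ^ i * y) ∈ E ⊔ (Subgroup.zpowers k ⊔ Q) :=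
  Subgroup.mul_mem_sup he (Subgroup.mul_mem_sup (Subgroup.zpow_mem_zpowers k i) hy)

/-- linear characters of `L` -/
theorem CD.lin (h : CD E z k r) (hQ : QD E Q k) (μ : ↥Q →* ℂˣ) (l : ↥(Subgroup.zpowers k) →* ℂˣ) :
    ∃ ν : ↥(E ⊔ (Subgroup.zpowers k ⊔ Q)) →* ℂˣ, ∀ (e : G) (he : e ∈ E) (i : ℤ) (y : G) (hy : y ∈ Q),
      ν ⟨e * (k ^ i * y), CD.memL he i hy⟩ =
        l ⟨k ^ i, Subgroup.zpow_mem_zpowers k i⟩ * μ ⟨y, hy⟩ := by
  obtain ⟨ν1, hν1⟩ := lin_ext hQ.cz (h.kQ hQ) μ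
  have hcz' : ∀ a ∈ Subgroup.zpowers k, ∀ e ∈ Q, a * e * a⁻¹ ∈ Q := by
    intro a ha e he
    obtain ⟨i, rfl⟩ := Subgroup.mem_zpowers_iff.1 ha
    have : Commute (k ^ i) e := (show Commute e k from hQ.hc e he).symm.zpow_left i
    rw [this.eq]
    simpa using he
  obtain ⟨ν2, hν2⟩ := lin_ext hcz' (fun x hx hx' => h.kQ hQ x hx' hx) l
  let ι : ↥(Subgroup.zpowers k ⊔ Q) →* ↥(Q ⊔ Subgroup.zpowers k) :=
    Subgroup.inclusion (le_of_eq (sup_comm _ _))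
  obtain ⟨ν, hν⟩ := lin_ext (h.nA hQ) (h.cap hQ) (ν1 * (ν2.comp ι))
  refine ⟨ν, ?_⟩
  intro e he i y hy
  have hm : k ^ i * y ∈ Subgroup.zpowers k ⊔ Q :=
    Subgroup.mul_mem_sup (Subgroup.zpow_mem_zpowers k i) hy
  rw [hν e (k ^ i * y) he hm]
  rw [MonoidHom.mul_apply]
  have e1 := hν1 (k ^ i) y (Subgroup.zpow_mem_zpowers k i) hy hm
  rw [e1]
  have e2 : ι ⟨k ^ i * y, hm⟩ = ⟨y * k ^ i, Subgroup.mul_mem_sup hy (Subgroup.zpow_mem_zpowers k i)⟩ := by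
    apply Subtype.ext
    change k ^ i * y = y * k ^ i
    exact ((show Commute y k from hQ.hc y hy).zpow_right i).symm.eq
  change μ ⟨y, hy⟩ * ν2 (ι ⟨k ^ i * y, hm⟩) = _
  rw [e2, hν2 y (k ^ i) hy (Subgroup.zpow_mem_zpowers k i)]
  exact mul_comm _ _

/-- canonical functions -/
structure Cn (Q : Subgroup G) (k : G) (r : ℕ) (χ : G → ℂ) : Prop where
  ep : ∃ ε : ℂ, (ε = 1 ∨ ε = -1) ∧ ∀ i : ℤ, ∀ y ∈ Q, ¬ (r : ℤ) ∣ i → χ (k ^ i * y) = ε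
  kr : χ (k ^ r) = χ 1

theorem kr_mul {X : Subgroup G} {χ : G → ℂ} (hc : IsCharacter ↥X (rs X χ)) (hkX : k ∈ X)
    (hkr : χ (k ^ r) = χ 1) (j : ℤ) {x : G} (hx : x ∈ X) : χ (k ^ (r * j) * x) = χ x := by
  have h1 : (⟨k, hkX⟩ : ↥X) ^ (r : ℕ) ∈ H18.CharQuot.kerSub (rs X χ) hc := by
    rw [H18.CharQuot.mem_kerSub]
    exact hkr
  have h2 := Subgroup.zpow_mem _ h1 j
  rw [H18.CharQuot.mem_kerSub] at h2
  have h3 := H18.CharQuot.char_mul_left hc h2 ⟨x, hx⟩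
  have h4 : rs X χ (((⟨k, hkX⟩ : ↥X) ^ (r : ℕ)) ^ j * ⟨x, hx⟩) = χ ((k ^ r) ^ j * x) := rfl
  rw [h4] at h3
  have h5 : (k ^ r) ^ j = k ^ ((r : ℤ) * j) := by rw [zpow_mul, zpow_natCast]
  rw [h5] at h3
  exact h3

/-- the quotient `⟨k⟩ / ⟨k^r⟩` -/
theorem exists_slice (h : CD E z k r) (hQ : QD E Q k) {χ : G → ℂ}
    (g : Gd E (E ⊔ (Subgroup.zpowers k ⊔ Q)) z χ) (hkr : χ (k ^ r) = χ 1) :
    ∃ (Z : Type u) (_ : Group Z) (_ : Finite Z) (π : ↥(Subgroup.zpowers k) →* Z)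
      (X : ↥Q × Z → ℂ), (∀ a b : Z, a * b = b * a) ∧ Nat.card Z = r ∧ Function.Surjective π ∧
      IsCharacter (↥Q × Z) X ∧
      (∀ i : ℤ, π ⟨k ^ i, Subgroup.zpow_mem_zpowers k i⟩ = 1 ↔ (r : ℤ) ∣ i) ∧
      (∀ (y : ↥Q) (c : ↥(Subgroup.zpowers k)), X (y, π c) = χ (c * y)) := by
  let C := ↥(Subgroup.zpowers k)
  let kk : C := ⟨k, Subgroup.mem_zpowers k⟩
  have hCc : ∀ a b : C, a * b = b * a := by
    rintro ⟨a, ha⟩ ⟨b, hb⟩
    obtain ⟨i, rfl⟩ := Subgroup.mem_zpowers_iff.1 ha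
    obtain ⟨j, rfl⟩ := Subgroup.mem_zpowers_iff.1 hb
    apply Subtype.ext
    change k ^ i * k ^ j = k ^ j * k ^ i
    rw [← zpow_add, ← zpow_add, add_comm]
  let N : Subgroup C := Subgroup.zpowers (kk ^ r)
  haveI : N.Normal := ⟨fun n hn g => by
    rw [hCc g n, mul_assoc, mul_inv_cancel, mul_one]; exact hn⟩
  have hkkr : (QuotientGroup.mk kk : C ⧸ N) ^ r = 1 := by
    rw [← QuotientGroup.mk_pow]
    exact (QuotientGroup.eq_one_iff _).2 (Subgroup.mem_zpowers _)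
  have hkk1 : (QuotientGroup.mk kk : C ⧸ N) ≠ 1 := by
    intro h1
    have h2 : kk ∈ N := (QuotientGroup.eq_one_iff _).1 h1
    obtain ⟨j, hj⟩ := Subgroup.mem_zpowers_iff.1 h2
    have h3 : (k ^ r) ^ j = k := congrArg Subtype.val hj
    obtain ⟨e, he, he1, he2⟩ := h.hne
    rcases h.hkf e he (by
      have : Commute (k ^ r) e := h.hkr e he
      have h4 := this.zpow_left j
      rw [h3] at h4
      exact h4) with h5 | h5
    · exact he1 h5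
    · exact he2 h5
  haveI := Fact.mk h.hr
  have hord : orderOf (QuotientGroup.mk kk : C ⧸ N) = r := orderOf_eq_prime hkkr hkk1
  have hgen : ∀ c : C ⧸ N, c ∈ Subgroup.zpowers (QuotientGroup.mk kk : C ⧸ N) := by
    intro c
    obtain ⟨⟨x, hx⟩, rfl⟩ := QuotientGroup.mk_surjective c
    obtain ⟨i, rfl⟩ := Subgroup.mem_zpowers_iff.1 hx
    exact Subgroup.mem_zpowers_iff.2 ⟨i, rfl⟩
  have hcard : Nat.card (C ⧸ N) = r := by
    have h1 : Subgroup.zpowers (QuotientGroup.mk kk : C ⧸ N) = ⊤ := by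
      rw [eq_top_iff]; exact fun c _ => hgen c
    rw [← hord, ← Nat.card_zpowers, h1]
    exact (Nat.card_congr Subgroup.topEquiv.toEquiv).symm
  let ψ : ↥Q × C → ℂ := fun x => χ (x.2 * x.1)
  have hL1 : ∀ x : ↥Q × C, (x.2 : G) * x.1 ∈ E ⊔ (Subgroup.zpowers k ⊔ Q) := fun x =>
    (le_sup_right : Subgroup.zpowers k ⊔ Q ≤ _) (Subgroup.mul_mem_sup x.2.2 x.1.2)
  let ph : ↥Q × C →* ↥(E ⊔ (Subgroup.zpowers k ⊔ Q)) :=
    { toFun := fun x => ⟨x.2 * x.1, hL1 x⟩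
      map_one' := by apply Subtype.ext; simp
      map_mul' := by
        intro x y
        apply Subtype.ext
        change (x.2 : G) * y.2 * ((x.1 : G) * y.1) = x.2 * x.1 * (y.2 * y.1)
        obtain ⟨i, hi⟩ := Subgroup.mem_zpowers_iff.1 y.2.2
        have : Commute (x.1 : G) (y.2 : G) := by
          rw [← hi]
          exact (show Commute (x.1 : G) k from hQ.hc _ x.1.2).zpow_right i
        calc (x.2 : G) * y.2 * ((x.1 : G) * y.1) = x.2 * (y.2 * x.1) * y.1 := by group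
          _ = x.2 * (x.1 * y.2) * y.1 := by rw [this.eq]
          _ = _ := by group }
  have hψ : IsCharacter (↥Q × C) ψ := isCharacter_comp ph g.ch
  have hkL : k ∈ E ⊔ (Subgroup.zpowers k ⊔ Q) :=
    (le_sup_right : Subgroup.zpowers k ⊔ Q ≤ _) ((le_sup_left : Subgroup.zpowers k ≤ _) (Subgroup.mem_zpowers k))
  let π : ↥Q × C →* ↥Q × (C ⧸ N) := MonoidHom.prodMap (MonoidHom.id _) (QuotientGroup.mk' N)
  have hπ : Function.Surjective π := by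
    rintro ⟨y, c⟩
    obtain ⟨c, rfl⟩ := QuotientGroup.mk_surjective c
    exact ⟨(y, c), rfl⟩
  obtain ⟨X, hX, hXv⟩ := push π hπ hψ (by
    rintro ⟨y, c⟩ hyc
    have h1 : y = 1 := congrArg Prod.fst hyc
    have h2 : (QuotientGroup.mk c : C ⧸ N) = 1 := congrArg Prod.snd hyc
    have h3 : c ∈ N := (QuotientGroup.eq_one_iff _).1 h2
    obtain ⟨j, hj⟩ := Subgroup.mem_zpowers_iff.1 h3
    have h4 : (c : G) = k ^ ((r : ℤ) * j) := by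
      have : (k ^ r) ^ j = (c : G) := congrArg Subtype.val hj
      rw [← this, zpow_mul, zpow_natCast]
    change χ (c * y) = χ (((1 : C) : G) * ((1 : ↥Q) : G))
    rw [h1, h4]
    have := kr_mul (χ := χ) g.ch hkL hkr j (x := 1) (Subgroup.one_mem _)
    simpa using this)
  refine ⟨C ⧸ N, inferInstance, inferInstance, QuotientGroup.mk' N, X, ?_, hcard,
    QuotientGroup.mk'_surjective N, hX, ?_, fun y c => hXv (y, c)⟩
  · intro a b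
    obtain ⟨a, rfl⟩ := QuotientGroup.mk_surjective a
    obtain ⟨b, rfl⟩ := QuotientGroup.mk_surjective b
    rw [← QuotientGroup.mk_mul, ← QuotientGroup.mk_mul, hCc]
  · intro i
    have h1 : (QuotientGroup.mk' N) (⟨k ^ i, Subgroup.zpow_mem_zpowers k i⟩ : C) =
        (QuotientGroup.mk kk : C ⧸ N) ^ i := rfl
    rw [h1, ← orderOf_dvd_iff_zpow_eq_one, hord]

theorem not_dvd_deg (h : CD E z k r) {X : Subgroup G} {χ : G → ℂ} (g : Gd E X z χ) {n : ℕ}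
    (hn : χ 1 = n) : ¬ r ∣ n := by
  intro hd
  have h1 := g.dg
  rw [hn] at h1
  have h2 : 2 * n ^ 2 = Nat.card ↥E := by exact_mod_cast h1
  have h3 : r ∣ Nat.card ↥E := by
    rw [← h2]
    exact Dvd.dvd.mul_left (hd.trans (dvd_pow_self n two_ne_zero)) 2
  haveI : Fact (Nat.Prime 2) := ⟨Nat.prime_two⟩
  obtain ⟨m, hm⟩ := IsPGroup.iff_card.1 h.hE.two
  rw [hm] at h3
  exact h.hr2 ((Nat.prime_dvd_prime_iff_eq h.hr Nat.prime_two).1 (h.hr.dvd_of_dvd_pow h3))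

theorem twist_canon (h : CD E z k r) (hQ : QD E Q k) {χ : G → ℂ}
    (g : Gd E (E ⊔ (Subgroup.zpowers k ⊔ Q)) z χ) (hkr : χ (k ^ r) = χ 1) :
    ∃ χ', Gd E (E ⊔ (Subgroup.zpowers k ⊔ Q)) z χ' ∧ Cn Q k r χ' := by
  obtain ⟨Z, _, _, π, X, hZ, hcard, hπ, hX, hπi, hXv⟩ := exists_slice h hQ g hkr
  obtain ⟨n, hn⟩ := exists_degree g.ch
  have hn : χ 1 = n := hn
  have hX1 : X 1 = n := by
    have := hXv 1 1
    rw [map_one] at this
    rw [show (1 : ↥Q × Z) = (1, 1) from rfl, this, ← hn]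
    simp
  have hLn := norm_sup (h.nA hQ)
  obtain ⟨ε, μ, l, hε, hv⟩ := main5 hZ X hX (by
    intro y t ht
    obtain ⟨⟨c, hc⟩, rfl⟩ := hπ t
    obtain ⟨i, rfl⟩ := Subgroup.mem_zpowers_iff.1 hc
    rw [hXv]
    have hi : ¬ (r : ℤ) ∣ i := fun hd => ht ((hπi i).2 hd)
    exact abs_one h.hE le_sup_left hLn g
      ((le_sup_right : Subgroup.zpowers k ⊔ Q ≤ _) (Subgroup.mul_mem_sup hc y.2))
      (h.fpf hQ hi y.2)) n hX1 (by rw [hcard]; exact not_dvd_deg h g hn)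
  obtain ⟨ν, hν⟩ := h.lin hQ μ (l.comp π)
  obtain ⟨χ', hχ', hχv⟩ := g.twist h.hE le_sup_left ν⁻¹ (by
    intro e he
    have h1 := hν e he 0 1 Q.one_mem
    have h2 : (⟨e * (k ^ (0 : ℤ) * 1), CD.memL he 0 Q.one_mem⟩ : ↥(E ⊔ (Subgroup.zpowers k ⊔ Q))) =
        ⟨e, (le_sup_left : E ≤ _) he⟩ := by
      apply Subtype.ext
      simp
    rw [h2] at h1
    rw [MonoidHom.inv_apply, h1]
    have h3 : (⟨k ^ (0 : ℤ), Subgroup.zpow_mem_zpowers k 0⟩ : ↥(Subgroup.zpowers k)) = 1 :=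
      Subtype.ext (zpow_zero k)
    have h4 : (⟨1, Q.one_mem⟩ : ↥Q) = 1 := rfl
    rw [h3, h4, map_one, map_one, mul_one, inv_one])
  have hval : ∀ (i : ℤ) (y : G) (hy : y ∈ Q), χ' (k ^ i * y) =
      ((l (π ⟨k ^ i, Subgroup.zpow_mem_zpowers k i⟩) * μ ⟨y, hy⟩ : ℂˣ) : ℂ)⁻¹ * χ (k ^ i * y) := by
    intro i y hy
    have hm : k ^ i * y ∈ E ⊔ (Subgroup.zpowers k ⊔ Q) :=
      (le_sup_right : Subgroup.zpowers k ⊔ Q ≤ _)
        (Subgroup.mul_mem_sup (Subgroup.zpow_mem_zpowers k i) hy)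
    rw [hχv _ hm, MonoidHom.inv_apply, Units.val_inv_eq_inv_val]
    congr 3
    have h1 := hν 1 E.one_mem i y hy
    rw [MonoidHom.comp_apply] at h1
    rw [← h1]
    congr 1
    apply Subtype.ext
    simp
  refine ⟨χ', hχ', ⟨ε, hε, ?_⟩, ?_⟩
  · intro i y hy hi
    rw [hval i y hy]
    have hpi : π ⟨k ^ i, Subgroup.zpow_mem_zpowers k i⟩ ≠ 1 := fun h1 => hi ((hπi i).1 h1)
    have h1 := hv ⟨y, hy⟩ _ hpi
    rw [hXv] at h1
    have h2 : χ (k ^ i * y) = ε * μ ⟨y, hy⟩ * l (π ⟨k ^ i, Subgroup.zpow_mem_zpowers k i⟩) := h1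
    rw [h2, Units.val_mul]
    have h3 : (μ ⟨y, hy⟩ : ℂ) ≠ 0 := Units.ne_zero _
    have h4 : (l (π ⟨k ^ i, Subgroup.zpow_mem_zpowers k i⟩) : ℂ) ≠ 0 := Units.ne_zero _
    field_simp
  · have h1 := hval r 1 Q.one_mem
    have h2 := hval 0 1 Q.one_mem
    have h3 : π ⟨k ^ (r : ℤ), Subgroup.zpow_mem_zpowers k r⟩ = 1 := (hπi r).2 (dvd_refl _)
    have h4 : π ⟨k ^ (0 : ℤ), Subgroup.zpow_mem_zpowers k 0⟩ = 1 := (hπi 0).2 (dvd_zero _)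
    rw [h3] at h1
    rw [h4] at h2
    rw [mul_one, zpow_natCast] at h1
    rw [mul_one, zpow_zero] at h2
    rw [h1, h2, hkr]

theorem canon_unique (h : CD E z k r) (hQ : QD E Q k) {χ χ' : G → ℂ}
    (g : Gd E (E ⊔ (Subgroup.zpowers k ⊔ Q)) z χ) (g' : Gd E (E ⊔ (Subgroup.zpowers k ⊔ Q)) z χ')
    {ε ε' : ℂ} (hε : ε = 1 ∨ ε = -1) (hε' : ε' = 1 ∨ ε' = -1) (c : ∀ y ∈ Q, χ (k * y) = ε)
    (c' : ∀ y ∈ Q, χ' (k * y) = ε') : ∀ x ∈ E ⊔ (Subgroup.zpowers k ⊔ Q), χ' x = χ x := by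
  obtain ⟨μ, hμ1, hμ⟩ := g.uniq h.hE le_sup_left (norm_sup (h.nA hQ)) g'
  have hm : ∀ (i : ℤ) (y : G), y ∈ Q → k ^ i * y ∈ E ⊔ (Subgroup.zpowers k ⊔ Q) := fun i y hy =>
    (le_sup_right : Subgroup.zpowers k ⊔ Q ≤ _)
        (Subgroup.mul_mem_sup (Subgroup.zpow_mem_zpowers k i) hy)
  have hkm : k ∈ E ⊔ (Subgroup.zpowers k ⊔ Q) := by simpa using hm 1 1 Q.one_mem
  have hym : ∀ y ∈ Q, y ∈ E ⊔ (Subgroup.zpowers k ⊔ Q) := fun y hy => by simpa using hm 0 y hy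
  have h1 : ∀ (y : G) (hy : y ∈ Q), ((μ ⟨k, hkm⟩ * μ ⟨y, hym y hy⟩ : ℂˣ) : ℂ) * ε = ε' := by
    intro y hy
    have h2 := hμ (k * y) (Subgroup.mul_mem _ hkm (hym y hy))
    rw [c' y hy, c y hy] at h2
    rw [h2, ← map_mul]
    rfl
  have hεn : ε ≠ 0 := by rcases hε with rfl | rfl <;> norm_num
  have hk2 : (μ ⟨k, hkm⟩ : ℂ) ^ 2 = 1 := by
    have h2 := h1 1 Q.one_mem
    have h3 : (⟨1, hym 1 Q.one_mem⟩ : ↥(E ⊔ (Subgroup.zpowers k ⊔ Q))) = 1 := rfl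
    rw [h3, map_one, mul_one] at h2
    have h4 : ((μ ⟨k, hkm⟩ : ℂ) * ε) ^ 2 = ε' ^ 2 := by rw [h2]
    have h5 : ε ^ 2 = 1 := by rcases hε with rfl | rfl <;> norm_num
    have h6 : ε' ^ 2 = 1 := by rcases hε' with rfl | rfl <;> norm_num
    rw [mul_pow, h5, h6, mul_one] at h4
    exact h4
  have hk1 : μ ⟨k, hkm⟩ = 1 := by
    have h2 : μ ⟨k, hkm⟩ ^ 2 = 1 := Units.ext (by rw [Units.val_pow_eq_pow_val]; exact hk2)
    have h3 : μ ⟨k, hkm⟩ ^ orderOf k = 1 := by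
      rw [← map_pow]
      have : (⟨k, hkm⟩ : ↥(E ⊔ (Subgroup.zpowers k ⊔ Q))) ^ orderOf k = 1 :=
        Subtype.ext (pow_orderOf_eq_one k)
      rw [this, map_one]
    obtain ⟨m, hm'⟩ := h.hko
    rw [hm', pow_succ, pow_mul, h2, one_pow, one_mul] at h3
    exact h3
  have hε1 : ε' = ε := by
    have h2 := h1 1 Q.one_mem
    have h3 : (⟨1, hym 1 Q.one_mem⟩ : ↥(E ⊔ (Subgroup.zpowers k ⊔ Q))) = 1 := rfl
    rw [h3, map_one, mul_one, hk1, Units.val_one, one_mul] at h2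
    exact h2.symm
  have hy1 : ∀ (y : G) (hy : y ∈ Q), μ ⟨y, hym y hy⟩ = 1 := by
    intro y hy
    have h2 := h1 y hy
    rw [hk1, one_mul, hε1] at h2
    have h3 : ((μ ⟨y, hym y hy⟩ : ℂ) - 1) * ε = 0 := by linear_combination h2
    have h4 := (mul_eq_zero.1 h3).resolve_right hεn
    exact Units.ext (by rw [Units.val_one]; linear_combination h4)
  intro x hx
  rw [hμ x hx]
  obtain ⟨e, he, i, y, hy, hxe⟩ := h.decL hQ hx
  have h5 : (⟨x, hx⟩ : ↥(E ⊔ (Subgroup.zpowers k ⊔ Q))) =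
      ⟨e, (le_sup_left : E ≤ _) he⟩ * (⟨k, hkm⟩ ^ i * ⟨y, hym y hy⟩) := Subtype.ext hxe
  rw [h5, map_mul, map_mul, map_zpow, hμ1 e he, hk1, hy1 y hy]
  simp

end H13.S47
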