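import Cfsg.Agent.Lib.H13.S47f

/-!
# S4759, file g: existence of canonical extensions; the fixed point free case
-/

set_option autoImplicit false
set_option linter.unusedSectionVars false
set_option linter.style.haveILetI false

namespace H13.S47

open Cfsg H18.CharBasic H18.CharOrtho
open scoped ComplexConjugate commutatorElement

universe u v

variable {G : Type u} [Group G] [Finite G]
variable {E Q : Subgroup G} {z k : G} {r : ℕ}

/-- conjugation of a good function -/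
theorem Gd.conj {X : Subgroup G} {χ : G → ℂ} (g : Gd E X z χ) {p : G} (hpz : p * z * p⁻¹ = z)
    (hX : ∀ x ∈ X, p * x * p⁻¹ ∈ X) : Gd E X z (fun x => χ (p * x * p⁻¹)) := by
  let cj : ↥X →* ↥X :=
    { toFun := fun x => ⟨p * x * p⁻¹, hX x x.2⟩
      map_one' := by apply Subtype.ext; simp
      map_mul' := by
        intro x y
        apply Subtype.ext
        change p * ((x : G) * y) * p⁻¹ = p * x * p⁻¹ * (p * y * p⁻¹)
        group }
  have h1 : p * 1 * p⁻¹ = 1 := by group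
  refine ⟨isCharacter_comp cj g.ch, ?_, ?_⟩
  · change χ (p * z * p⁻¹) = -χ (p * 1 * p⁻¹)
    rw [hpz, h1, g.hz]
  · change 2 * χ (p * 1 * p⁻¹) ^ 2 = _
    rw [h1, g.dg]

theorem Gd.inv {X : Subgroup G} (hE : XE E z) (hEX : E ≤ X) {θ : G → ℂ} (g : Gd E X z θ) {x : G}
    (hx : ∀ e ∈ E, x * e * x⁻¹ ∈ E) {f : G} (hf : f ∈ E) : θ (x * f * x⁻¹) = θ f := by
  by_cases h1 : f = 1
  · rw [h1]; congr 1; group
  · by_cases h2 : f = z
    · rw [h2, hE.fix hx]
    · rw [g.van hE hEX hf h1 h2, g.van hE hEX (hx f hf)]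
      · intro h3
        apply h1
        have : f = x⁻¹ * (x * f * x⁻¹) * x := by group
        rw [this, h3]; group
      · intro h3
        apply h2
        have h4 := hE.fix hx
        have : x * f * x⁻¹ = x * z * x⁻¹ := by rw [h3, h4]
        have h5 : x * f = x * z := mul_right_cancel this
        exact mul_left_cancel h5

theorem canon_exists (h : CD E z k r) : ∀ (n : ℕ) (Q : Subgroup G), Nat.card ↥Q = n → QD E Q k →
    ∃ χ, Gd E (E ⊔ (Subgroup.zpowers k ⊔ Q)) z χ ∧ Cn Q k r χ := by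
  intro n
  induction n using Nat.strong_induction_on with
  | _ n ih =>
  intro Q hn hQ
  have hkE := h.kn
  by_cases hbot : Q = ⊥
  · subst hbot
    obtain ⟨θ, hθ⟩ := exists_base h.hE
    let C := Subgroup.zpowers (k ^ r)
    have hcomm : ∀ c ∈ C, ∀ e ∈ E, c * e = e * c := by
      intro c hc e he
      obtain ⟨j, rfl⟩ := Subgroup.mem_zpowers_iff.1 hc
      exact (show Commute (k ^ r) e from h.hkr e he).zpow_left j
    have hCe : ∀ e ∈ E, ∀ c ∈ C, e * c * e⁻¹ ∈ C := by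
      intro e he c hc
      have : e * c * e⁻¹ = c := by rw [← hcomm c hc e he]; group
      rw [this]; exact hc
    have hCk : ∀ c ∈ C, ∃ j : ℤ, c = k ^ j := by
      intro c hc
      obtain ⟨j, rfl⟩ := Subgroup.mem_zpowers_iff.1 hc
      exact ⟨r * j, by rw [zpow_mul, zpow_natCast]⟩
    obtain ⟨π, hπ⟩ := exists_proj (E := C) (A := E) hCe (by
      intro x hx hxE
      obtain ⟨j, rfl⟩ := hCk x hx
      refine odd_two h.hE.two hxE h.hko ?_
      rw [← zpow_natCast, ← zpow_mul, mul_comm, zpow_mul, zpow_natCast, pow_orderOf_eq_one, one_zpow])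
    let χ0 : G → ℂ := ex (C ⊔ E) (fun x => θ (π x))
    have hχ0 : ∀ c ∈ C, ∀ e ∈ E, χ0 (c * e) = θ e := by
      intro c hc e he
      have hm : c * e ∈ C ⊔ E := Subgroup.mul_mem_sup hc he
      change ex (C ⊔ E) (fun x => θ (π x)) (c * e) = θ e
      rw [ex_apply _ _ hm, hπ c e hc he hm]
    have g0 : Gd E (C ⊔ E) z χ0 := by
      refine ⟨?_, ?_, ?_⟩
      · rw [rs_ex]
        exact isCharacter_comp π hθ.ch
      · have e1 := hχ0 1 C.one_mem z h.hE.zE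
        have e2 := hχ0 1 C.one_mem 1 E.one_mem
        rw [one_mul] at e1 e2
        rw [e1, e2, hθ.hz]
      · have e2 := hχ0 1 C.one_mem 1 E.one_mem
        rw [one_mul] at e2
        rw [e2, hθ.dg]
    have hC1 : ∀ c ∈ C, c ∈ Subgroup.zpowers k := by
      intro c hc
      obtain ⟨j, rfl⟩ := hCk c hc
      exact Subgroup.zpow_mem_zpowers k j
    have hNX : C ⊔ E ≤ E ⊔ (Subgroup.zpowers k ⊔ ⊥) := by
      rw [sup_le_iff]
      exact ⟨fun c hc => (le_sup_right : Subgroup.zpowers k ⊔ ⊥ ≤ _)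
        ((le_sup_left : Subgroup.zpowers k ≤ _) (hC1 c hc)), le_sup_left⟩
    have hXx : ∀ x ∈ E ⊔ (Subgroup.zpowers k ⊔ ⊥), ∃ e ∈ E, ∃ i : ℤ, x = e * k ^ i := by
      intro x hx
      obtain ⟨e, he, i, y, hy, rfl⟩ := h.decL hQ hx
      rw [Subgroup.mem_bot] at hy
      exact ⟨e, he, i, by rw [hy, mul_one]⟩
    have hconj : ∀ x ∈ E ⊔ (Subgroup.zpowers k ⊔ ⊥), ∀ c ∈ C, ∀ f ∈ E,
        x * (c * f) * x⁻¹ = c * (x * f * x⁻¹) := by
      intro x hx c hc f hf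
      obtain ⟨e, he, i, rfl⟩ := hXx x hx
      obtain ⟨j, hj⟩ := hCk c hc
      have e1 : k ^ i * c = c * k ^ i := by
        rw [hj, ← zpow_add, ← zpow_add, add_comm]
      have e2 : e * c = c * e := (hcomm c hc e he).symm
      calc e * k ^ i * (c * f) * (e * k ^ i)⁻¹ = e * (k ^ i * c) * f * (e * k ^ i)⁻¹ := by group
        _ = e * (c * k ^ i) * f * (e * k ^ i)⁻¹ := by rw [e1]
        _ = (e * c) * k ^ i * f * (e * k ^ i)⁻¹ := by group
        _ = (c * e) * k ^ i * f * (e * k ^ i)⁻¹ := by rw [e2]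
        _ = _ := by group
    have hnE := norm_sup (h.nA hQ)
    have hCdec : ∀ n ∈ C ⊔ E, ∃ c ∈ C, ∃ f ∈ E, n = c * f := fun n hn => mem_dec hCe hn
    obtain ⟨χ, hχ, hχv⟩ := ext_cyc h.hE (le_sup_right : E ≤ C ⊔ E) hNX (by
      intro x hx n hn
      obtain ⟨c, hc, f, hf, rfl⟩ := hCdec n hn
      rw [hconj x hx c hc f hf]
      exact Subgroup.mul_mem_sup hc (hnE x hx f hf)) (by
      refine ⟨k, (le_sup_right : Subgroup.zpowers k ⊔ ⊥ ≤ _)
        ((le_sup_left : Subgroup.zpowers k ≤ _) (Subgroup.mem_zpowers k)), ?_⟩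
      intro x hx
      obtain ⟨e, he, i, rfl⟩ := hXx x hx
      refine ⟨i, k ^ (-i) * e * (k ^ (-i))⁻¹, (le_sup_right : E ≤ C ⊔ E)
        (hkE _ (Subgroup.zpow_mem_zpowers k (-i)) e he), ?_⟩
      group) g0 (by
      intro x hx n hn
      obtain ⟨c, hc, f, hf, rfl⟩ := hCdec n hn
      rw [hconj x hx c hc f hf, hχ0 c hc _ (hnE x hx f hf), hχ0 c hc f hf]
      exact hθ.inv h.hE le_rfl (hnE x hx) hf)
    refine twist_canon h hQ hχ ?_
    have e1 := hχ0 (k ^ r) (Subgroup.mem_zpowers _) 1 E.one_mem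
    have e2 := hχ0 1 C.one_mem 1 E.one_mem
    rw [mul_one] at e1 e2
    rw [hχv _ ((le_sup_left : C ≤ C ⊔ E) (Subgroup.mem_zpowers _)), hχv 1 (Subgroup.one_mem _), e1, e2]
  · obtain ⟨Q', _, hQ'Q, hcard, hnorm, t, htQ, htQ', hcos⟩ :=
      exists_two (K := ⊥) hQ.p2 bot_le (Ne.symm hbot)
    have hpos : 0 < Nat.card ↥Q' := Nat.card_pos
    have hQ' : QD E Q' k := ⟨hQ.p2.to_le hQ'Q, fun y hy => hQ.hn y (hQ'Q hy),
      fun y hy => hQ.hc y (hQ'Q hy), fun x hx hxQ => hQ.hi x hx (hQ'Q hxQ)⟩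
    obtain ⟨χ', g', hc'⟩ := ih (Nat.card ↥Q') (by omega) Q' rfl hQ'
    let L' := E ⊔ (Subgroup.zpowers k ⊔ Q')
    have hL'L : L' ≤ E ⊔ (Subgroup.zpowers k ⊔ Q) := sup_le_sup_left (sup_le_sup_left hQ'Q _) _
    have hqki : ∀ q ∈ Q, ∀ i : ℤ, q * k ^ i * q⁻¹ = k ^ i := by
      intro q hq i
      have := ((show Commute q k from hQ.hc q hq).zpow_right i).eq
      rw [this]; group
    have hqL : ∀ q ∈ Q, ∀ n ∈ L', q * n * q⁻¹ ∈ L' := by
      intro q hq n hn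
      obtain ⟨e, he, i, y, hy, rfl⟩ := h.decL hQ' hn
      have e1 : q * (e * (k ^ i * y)) * q⁻¹ = (q * e * q⁻¹) * ((q * k ^ i * q⁻¹) * (q * y * q⁻¹)) := by
        group
      rw [e1, hqki q hq i]
      exact CD.memL (hQ.hn q hq e he) i (hnorm q hq y hy)
    obtain ⟨ε, hε, hεv⟩ := hc'.ep
    have hr1 : ¬ (r : ℤ) ∣ 1 := by
      intro hd
      have : r ∣ 1 := by exact_mod_cast hd
      exact h.hr.one_lt.ne' (Nat.dvd_one.1 this)
    have hinvq : ∀ q ∈ Q, ∀ n ∈ L', χ' (q * n * q⁻¹) = χ' n := by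
      intro q hq n hn
      have g2 := g'.conj (h.hE.fix (hQ.hn q hq)) (hqL q hq)
      refine canon_unique h hQ' g' g2 hε hε ?_ ?_ n hn
      · intro y hy
        have := hεv 1 y hy hr1
        rwa [zpow_one] at this
      · intro y hy
        have e1 : q * (k * y) * q⁻¹ = k ^ (1 : ℤ) * (q * y * q⁻¹) := by
          have := hqki q hq 1
          calc q * (k * y) * q⁻¹ = (q * k ^ (1 : ℤ) * q⁻¹) * (q * y * q⁻¹) := by
                rw [zpow_one]; group
            _ = _ := by rw [this]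
        rw [e1]
        exact hεv 1 _ (hnorm q hq y hy) hr1
    have hXdec : ∀ x ∈ E ⊔ (Subgroup.zpowers k ⊔ Q), x ∈ L' ∨ ∃ n ∈ L', x = t * n := by
      intro x hx
      obtain ⟨e, he, i, y, hy, rfl⟩ := h.decL hQ hx
      rcases hcos y hy with h3 | ⟨q, hq, rfl⟩
      · left
        exact CD.memL he i h3
      · right
        refine ⟨(t⁻¹ * e * t⁻¹⁻¹) * (k ^ i * q), CD.memL (hQ.hn _ (Q.inv_mem htQ) e he) i hq, ?_⟩
        have h5 := hqki t htQ i
        have h6 : t * k ^ i = k ^ i * t := by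
          calc t * k ^ i = (t * k ^ i * t⁻¹) * t := by group
            _ = k ^ i * t := by rw [h5]
        calc e * (k ^ i * (t * q)) = e * (k ^ i * t) * q := by group
          _ = e * (t * k ^ i) * q := by rw [h6]
          _ = _ := by group
    have htL : t ∈ E ⊔ (Subgroup.zpowers k ⊔ Q) :=
      (le_sup_right : Subgroup.zpowers k ⊔ Q ≤ _) ((le_sup_right : Q ≤ _) htQ)
    obtain ⟨χ, hχ, hχv⟩ := ext_cyc h.hE (le_sup_left : E ≤ L') hL'L (by
      intro x hx n hn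
      rcases hXdec x hx with h3 | ⟨m, hm, rfl⟩
      · exact L'.mul_mem (L'.mul_mem h3 hn) (L'.inv_mem h3)
      · have h4 := hqL t htQ _ (L'.mul_mem (L'.mul_mem hm hn) (L'.inv_mem hm))
        have : t * (m * n * m⁻¹) * t⁻¹ = t * m * n * (t * m)⁻¹ := by group
        rwa [this] at h4)
      ⟨t, htL, fun x hx => by
        rcases hXdec x hx with h3 | ⟨m, hm, hx'⟩
        · exact ⟨0, x, h3, by simp⟩
        · exact ⟨1, m, hm, by rw [zpow_one]; exact hx'⟩⟩ g' (by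
      intro x hx n hn
      rcases hXdec x hx with h3 | ⟨m, hm, rfl⟩
      · exact g'.cf h3 hn
      · have h4 : t * m * n * (t * m)⁻¹ = t * (m * n * m⁻¹) * t⁻¹ := by group
        rw [h4, hinvq t htQ _ (L'.mul_mem (L'.mul_mem hm hn) (L'.inv_mem hm)), g'.cf hm hn])
    refine twist_canon h hQ hχ ?_
    have hkL' : k ∈ L' := (le_sup_right : Subgroup.zpowers k ⊔ Q' ≤ _)
      ((le_sup_left : Subgroup.zpowers k ≤ _) (Subgroup.mem_zpowers k))
    rw [hχv _ (L'.pow_mem hkL' r), hχv 1 L'.one_mem, hc'.kr]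

/-- congruence property -/
def Md (Q : Subgroup G) (r : ℕ) (χ : G → ℂ) : Prop :=
  ∃ ε : ℂ, (ε = 1 ∨ ε = -1) ∧ ∃ f : ↥Q → ℂ, IsGeneralizedCharacter ↥Q f ∧
    ∀ y : ↥Q, χ y = ε + (r : ℂ) * f y

theorem canonQ (h : CD E z k r) (hQ : QD E Q k) : ∃ χ, Gd E (E ⊔ Q) z χ ∧ Md Q r χ := by
  classical
  obtain ⟨χ, g, hc⟩ := canon_exists h _ Q rfl hQ
  obtain ⟨Z, _, _, π, X, hZ, hcard, hπ, hX, hπi, hXv⟩ := exists_slice h hQ g hc.kr
  obtain ⟨ε, hε, hεv⟩ := hc.ep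
  letI := Fintype.ofFinite Z
  have hf1 := slice_char hX (isIrrCharacter_one (G := Z))
  refine ⟨χ, g.le (sup_le_sup_left le_sup_right _), ε, hε,
    (fun y => classInner (fun t => X (y, t)) (fun _ => 1)) - (fun _ => ε), ?_, ?_⟩
  · refine isGen_sub (isGen_of_isCharacter hf1) ?_
    rcases hε with rfl | rfl
    · exact isGen_one
    · exact isGen_neg isGen_one
  · intro y
    have hr0 : (r : ℂ) ≠ 0 := by exact_mod_cast h.hr.pos.ne'
    have h1 : classInner (fun t => X (y, t)) (fun _ => 1) = (r : ℂ)⁻¹ * (χ y + ((r : ℂ) - 1) * ε) := by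
      unfold classInner
      rw [hcard]
      congr 1
      rw [← Finset.add_sum_erase _ _ (Finset.mem_univ (1 : Z))]
      have e1 : X (y, 1) = χ y := by
        have := hXv y 1
        rw [map_one] at this
        rw [this]; simp
      beta_reduce
      rw [e1, map_one, mul_one]
      congr 1
      rw [Finset.sum_congr rfl (g := fun _ => ε) (fun t ht => ?_)]
      · rw [Finset.sum_const, Finset.card_erase_of_mem (Finset.mem_univ _), Finset.card_univ,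
          nsmul_eq_mul, ← Nat.card_eq_fintype_card, hcard, Nat.cast_sub h.hr.one_lt.le, Nat.cast_one]
      · rw [mul_one]
        obtain ⟨⟨c, hcc⟩, rfl⟩ := hπ t
        obtain ⟨i, rfl⟩ := Subgroup.mem_zpowers_iff.1 hcc
        rw [hXv]
        exact hεv i y y.2 fun hd => (Finset.ne_of_mem_erase ht) ((hπi i).2 hd)
    rw [Pi.sub_apply, h1]
    field_simp
    ring

theorem Md.unique (hr : 1 < r) (hE : XE E z) (hn : ∀ y ∈ Q, ∀ e ∈ E, y * e * y⁻¹ ∈ E) {χ χ' : G → ℂ}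
    (g : Gd E (E ⊔ Q) z χ) (g' : Gd E (E ⊔ Q) z χ') (m : Md Q r χ) (m' : Md Q r χ') :
    ∀ x ∈ E ⊔ Q, χ' x = χ x := by
  obtain ⟨μ, hμ1, hμ⟩ := g.uniq hE le_sup_left (norm_sup hn) g'
  obtain ⟨ε, hε, f, hf, hv⟩ := m
  obtain ⟨ε', hε', f', hf', hv'⟩ := m'
  letI := Fintype.ofFinite ↥Q
  let l : ↥Q →* ℂˣ := μ.comp (Subgroup.inclusion le_sup_right)
  have hl : ∀ y : ↥Q, χ' y = (l y : ℂ) * χ y := fun y => hμ y ((le_sup_right : Q ≤ E ⊔ Q) y.2)
  have hl1 : l = 1 := by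
    by_contra hne
    have hirr : IsIrrCharacter ↥Q (fun y => (l y : ℂ)) := isIrrCharacter_of_hom l
    have hne' : (fun y => (l y : ℂ)) ≠ (fun _ => (1 : ℂ)) := by
      intro h1
      apply hne
      ext y
      exact congrFun h1 y
    have h0 : classInner (fun y => (l y : ℂ)) (fun _ : ↥Q => (1 : ℂ)) = 0 :=
      inner_irr_ne hirr isIrrCharacter_one hne'
    have hgen : IsGeneralizedCharacter ↥Q (f' - (fun y => (l y : ℂ)) * f) :=
      isGen_sub hf' (isGen_mul (isGen_of_isIrr hirr) hf)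
    obtain ⟨a, ha⟩ := inner_gen_intCast hgen (isGen_one (G := ↥Q))
    have e1 : ε • (fun y => (l y : ℂ)) - ε' • (fun _ : ↥Q => (1 : ℂ)) =
        (r : ℂ) • (f' - (fun y => (l y : ℂ)) * f) := by
      funext y
      simp only [Pi.sub_apply, Pi.smul_apply, smul_eq_mul, Pi.mul_apply, mul_one]
      have h1 := hl y
      rw [hv, hv'] at h1
      linear_combination -h1
    have e2 := congrArg (fun F => classInner F (fun _ : ↥Q => (1 : ℂ))) e1
    simp only at e2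
    rw [H18.CharOrtho.inner_sub_left, H18.CharOrtho.inner_smul_left, H18.CharOrtho.inner_smul_left,
      H18.CharOrtho.inner_smul_left, h0, ha, inner_irr_self isIrrCharacter_one] at e2
    have e3 : -ε' = (r : ℂ) * a := by linear_combination e2
    have e4 : ∃ b : ℤ, (1 : ℂ) = (r : ℂ) * b := by
      rcases hε' with rfl | rfl
      · exact ⟨-a, by push_cast; linear_combination -e3⟩
      · exact ⟨a, by linear_combination e3⟩
    obtain ⟨b, hb⟩ := e4
    have e5 : (1 : ℤ) = (r : ℤ) * b := by exact_mod_cast hb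
    have e6 : (r : ℤ) ∣ 1 := ⟨b, e5⟩
    have e7 : r ∣ 1 := by exact_mod_cast e6
    exact hr.ne' (Nat.dvd_one.1 e7)
  intro x hx
  rw [hμ x hx]
  obtain ⟨e, he, y, hy, hxe⟩ := mem_dec hn hx
  have h5 : (⟨x, hx⟩ : ↥(E ⊔ Q)) = ⟨e, (le_sup_left : E ≤ _) he⟩ * ⟨y, (le_sup_right : Q ≤ _) hy⟩ :=
    Subtype.ext hxe
  have h6 : μ ⟨y, (le_sup_right : Q ≤ E ⊔ Q) hy⟩ = 1 := by
    have := congrArg (fun F : ↥Q →* ℂˣ => F ⟨y, hy⟩) hl1
    exact this
  rw [h5, map_mul, hμ1 e he, h6]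
  simp

theorem Md.conj {χ : G → ℂ} (m : Md Q r χ) {p : G} (hp : ∀ y ∈ Q, p * y * p⁻¹ ∈ Q) :
    Md Q r (fun x => χ (p * x * p⁻¹)) := by
  obtain ⟨ε, hε, f, hf, hv⟩ := m
  let cj : ↥Q →* ↥Q :=
    { toFun := fun x => ⟨p * x * p⁻¹, hp x x.2⟩
      map_one' := by apply Subtype.ext; simp
      map_mul' := by
        intro x y
        apply Subtype.ext
        change p * ((x : G) * y) * p⁻¹ = p * x * p⁻¹ * (p * y * p⁻¹)
        group }
  exact ⟨ε, hε, fun y => f (cj y), H62.CentralInv.isGen_comp cj hf, fun y => hv (cj y)⟩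

theorem fpf_case (h : CD E z k r) (hQ : QD E Q k) {P : Subgroup G} (hQP : Q ≤ P)
    (hPE : ∀ p ∈ P, ∀ e ∈ E, p * e * p⁻¹ ∈ E) (hPQ : ∀ p ∈ P, ∀ q ∈ Q, p * q * p⁻¹ ∈ Q)
    (hc : ∃ t ∈ P, ∀ p ∈ P, ∃ i : ℤ, ∃ q ∈ Q, p = t ^ i * q) : ∃ χ, Gd E (E ⊔ P) z χ := by
  obtain ⟨χ, g, m⟩ := canonQ h hQ
  have hN : ∀ p ∈ P, ∀ n ∈ E ⊔ Q, p * n * p⁻¹ ∈ E ⊔ Q := by
    intro p hp n hn
    obtain ⟨e, he, q, hq, rfl⟩ := mem_dec hQ.hn hn
    have : p * (e * q) * p⁻¹ = (p * e * p⁻¹) * (p * q * p⁻¹) := by group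
    rw [this]
    exact Subgroup.mul_mem_sup (hPE p hp e he) (hPQ p hp q hq)
  have hinv : ∀ p ∈ P, ∀ n ∈ E ⊔ Q, χ (p * n * p⁻¹) = χ n := by
    intro p hp n hn
    exact m.unique h.hr.one_lt h.hE hQ.hn g (g.conj (h.hE.fix (hPE p hp)) (hN p hp))
      (m.conj (hPQ p hp)) n hn
  obtain ⟨t, htP, ht⟩ := hc
  obtain ⟨χ', hχ', _⟩ := ext_cyc h.hE (le_sup_left : E ≤ E ⊔ Q) (sup_le_sup_left hQP E) (by
    intro x hx n hn
    obtain ⟨e, he, p, hp, rfl⟩ := mem_dec hPE hx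
    have h1 : e * p * n * (e * p)⁻¹ = e * (p * n * p⁻¹) * e⁻¹ := by group
    rw [h1]
    have he' : e ∈ E ⊔ Q := (le_sup_left : E ≤ _) he
    exact Subgroup.mul_mem _ (Subgroup.mul_mem _ he' (hN p hp n hn)) (Subgroup.inv_mem _ he')) (by
    refine ⟨t, (le_sup_right : P ≤ _) htP, ?_⟩
    intro x hx
    obtain ⟨e, he, p, hp, rfl⟩ := mem_dec hPE hx
    obtain ⟨i, q, hq, rfl⟩ := ht p hp
    refine ⟨i, ((t ^ i)⁻¹ * e * (t ^ i)⁻¹⁻¹) * q,
      Subgroup.mul_mem_sup (hPE _ (P.inv_mem (P.zpow_mem htP i)) e he) hq, by group⟩) g (by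
    intro x hx n hn
    obtain ⟨e, he, p, hp, rfl⟩ := mem_dec hPE hx
    have h1 : e * p * n * (e * p)⁻¹ = e * (p * n * p⁻¹) * e⁻¹ := by group
    rw [h1, g.cf ((le_sup_left : E ≤ _) he) (hN p hp n hn), hinv p hp n hn])
  exact ⟨χ', hχ'⟩

end H13.S47
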