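import Cfsg.Agent.Lib.H13.S47g
import Cfsg.Agent.Lib.H3.ExtraspecialHom
import Cfsg.Agent.Lib.H1.Cyc

/-!
# S4759, file h: decompositions
-/

set_option autoImplicit false
set_option linter.unusedSectionVars false
set_option linter.style.haveILetI false

namespace H13.S47

open Cfsg
open scoped commutatorElement

universe u v

variable {G : Type u} [Group G] [Finite G]
variable {E : Subgroup G} {z : G}

/-- `x` centralizes `a` -/
def Cen (E A : Subgroup G) : Subgroup G := E ⊓ Subgroup.centralizer (A : Set G)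

omit [Finite G] in
theorem mem_Cen {A : Subgroup G} {x : G} : x ∈ Cen E A ↔ x ∈ E ∧ ∀ a ∈ A, a * x = x * a := by
  unfold Cen
  rw [Subgroup.mem_inf, Subgroup.mem_centralizer_iff]
  rfl

omit [Finite G] in
theorem XE.zcomm (hE : XE E z) {a b : G} (ha : a ∈ E) (hb : b ∈ E) :
    ∃ ζ : G, (ζ = 1 ∨ ζ = z) ∧ a * b = b * a * ζ := by
  rcases hE.cm a ha b hb with h | h
  · exact ⟨1, Or.inl rfl, by rw [h, mul_one]⟩
  · exact ⟨z, Or.inr rfl, h⟩

/-- if `u` normalizes `E` and commutes with `a`, then `b⁻¹ (u b u⁻¹)` commutes with `a` -/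
theorem XE.comm_kill (hE : XE E z) {u a b : G} (hu : ∀ e ∈ E, u * e * u⁻¹ ∈ E) (ha : a ∈ E)
    (hb : b ∈ E) (hua : u * a = a * u) : b⁻¹ * (u * b * u⁻¹) * a = a * (b⁻¹ * (u * b * u⁻¹)) := by
  obtain ⟨ζ, hζ, h1⟩ := hE.zcomm ha hb
  have hζc : ∀ e ∈ E, e * ζ = ζ * e := by
    intro e he
    rcases hζ with rfl | rfl
    · group
    · exact hE.cz e he
  have huζ : u * ζ * u⁻¹ = ζ := by
    rcases hζ with rfl | rfl
    · group
    · exact hE.fix hu
  have hua' : u * a * u⁻¹ = a := by rw [hua]; group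
  have hub := hu b hb
  -- a (u b u⁻¹) = (u b u⁻¹) a ζ
  have h2 : a * (u * b * u⁻¹) = (u * b * u⁻¹) * a * ζ := by
    calc a * (u * b * u⁻¹) = (u * a * u⁻¹) * (u * b * u⁻¹) := by rw [hua']
      _ = u * (a * b) * u⁻¹ := by group
      _ = u * (b * a * ζ) * u⁻¹ := by rw [h1]
      _ = (u * b * u⁻¹) * (u * a * u⁻¹) * (u * ζ * u⁻¹) := by group
      _ = (u * b * u⁻¹) * a * ζ := by rw [hua', huζ]
  -- b⁻¹ a = a b⁻¹ ζ ... from a b = b a ζ : b⁻¹ a b = a ζ
  have h3 : a * b⁻¹ = b⁻¹ * a * ζ⁻¹ := by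
    have h4 : b⁻¹ * a * b = a * ζ := by
      calc b⁻¹ * a * b = b⁻¹ * (a * b) := by group
        _ = b⁻¹ * (b * a * ζ) := by rw [h1]
        _ = a * ζ := by group
    have h5 : b⁻¹ * a = a * ζ * b⁻¹ := by rw [← h4]; group
    have h6 : ζ * b⁻¹ = b⁻¹ * ζ := (hζc _ (E.inv_mem hb)).symm
    rw [h5, mul_assoc a, h6]
    group
  have h7 : ζ⁻¹ * (u * b * u⁻¹) = (u * b * u⁻¹) * ζ⁻¹ := by
    have := hζc _ hub
    calc ζ⁻¹ * (u * b * u⁻¹) = ζ⁻¹ * ((u * b * u⁻¹) * ζ) * ζ⁻¹ := by group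
      _ = ζ⁻¹ * (ζ * (u * b * u⁻¹)) * ζ⁻¹ := by rw [this]
      _ = _ := by group
  symm
  calc a * (b⁻¹ * (u * b * u⁻¹)) = (a * b⁻¹) * (u * b * u⁻¹) := by group
    _ = b⁻¹ * a * (ζ⁻¹ * (u * b * u⁻¹)) := by rw [h3]; group
    _ = b⁻¹ * (a * (u * b * u⁻¹)) * ζ⁻¹ := by rw [h7]; group
    _ = b⁻¹ * ((u * b * u⁻¹) * a * ζ) * ζ⁻¹ := by rw [h2]
    _ = _ := by group

/-- coprime action: every `b ∈ E` is `c d`, `c` fixed by `U`, `d` commuting with `a`, when `U`
fixes `a` -/
theorem XE.cop (hE : XE E z) {U : Subgroup G} (hU : Odd (Nat.card ↥U))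
    (hUE : ∀ u ∈ U, ∀ e ∈ E, u * e * u⁻¹ ∈ E) {a b : G} (ha : a ∈ E) (hb : b ∈ E)
    (hUa : ∀ u ∈ U, u * a = a * u) {W : Subgroup G} (hWE : W ≤ E) (hbW : b ∈ W)
    (hUW : ∀ u ∈ U, ∀ w ∈ W, u * w * u⁻¹ ∈ W) :
    ∃ c ∈ W, (∀ u ∈ U, u * c = c * u) ∧ (b⁻¹ * c) * a = a * (b⁻¹ * c) := by
  let D : Subgroup G := W ⊓ Subgroup.centralizer {a}
  have hD : ∀ x, x ∈ D ↔ x ∈ W ∧ x * a = a * x := by
    intro x
    rw [Subgroup.mem_inf, Subgroup.mem_centralizer_singleton_iff]
  haveI : Fact (Nat.Prime 2) := ⟨Nat.prime_two⟩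
  have hDE : D ≤ E := fun x hx => hWE ((hD x).1 hx).1
  obtain ⟨c, hc, hbc⟩ := H1.Coprime.exists_fixed_in_coset U D
    (H1.Coprime.le_normalizer_of_conj_mem (by
      intro u hu x hx
      rw [hD] at hx ⊢
      refine ⟨hUW u hu x hx.1, ?_⟩
      have h1 := hUa u hu
      have h2 : u⁻¹ * a = a * u⁻¹ := by
        calc u⁻¹ * a = u⁻¹ * (a * u) * u⁻¹ := by group
          _ = u⁻¹ * (u * a) * u⁻¹ := by rw [h1]
          _ = _ := by group
      calc u * x * u⁻¹ * a = u * x * (u⁻¹ * a) := by group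
        _ = u * (x * a) * u⁻¹ := by rw [h2]; group
        _ = (u * a) * x * u⁻¹ := by rw [hx.2]; group
        _ = a * (u * x * u⁻¹) := by rw [h1]; group))
    (by
      obtain ⟨m, hm⟩ := IsPGroup.iff_card.1 (hE.two.to_le hDE)
      rw [hm]
      exact (Nat.coprime_two_right.2 hU).pow_right m)
    (Or.inr (by
      haveI := (hE.two.to_le hDE).isNilpotent
      infer_instance)) b (by
      intro u hu
      rw [hD]
      have h1 : b⁻¹ * u * b * u⁻¹ = b⁻¹ * (u * b * u⁻¹) := by group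
      rw [h1]
      exact ⟨W.mul_mem (W.inv_mem hbW) (hUW u hu b hbW), hE.comm_kill (hUE u hu) ha hb (hUa u hu)⟩)
  rw [hD] at hbc
  refine ⟨c, ?_, fun u hu => ?_, hbc.2⟩
  · have : c = b * (b⁻¹ * c) := by group
    rw [this]
    exact W.mul_mem hbW hbc.1
  · exact (Subgroup.mem_centralizer_iff.1 hc u hu)

/-- fixed points of an odd order group form a group of our kind -/
theorem XE.cenXE (hE : XE E z) {U : Subgroup G} (hU : Odd (Nat.card ↥U))
    (hUE : ∀ u ∈ U, ∀ e ∈ E, u * e * u⁻¹ ∈ E) : XE (Cen E U) z := by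
  have hle : Cen E U ≤ E := inf_le_left
  refine ⟨?_, hE.z1, hE.zz, fun a ha => hE.cz a (hle ha), fun a ha b hb => hE.cm a (hle ha) b (hle hb),
    ?_, hE.two.to_le hle⟩
  · rw [mem_Cen]
    refine ⟨hE.zE, fun u hu => ?_⟩
    have := hE.fix (hUE u hu)
    calc u * z = (u * z * u⁻¹) * u := by group
      _ = z * u := by rw [this]
  · intro a ha hc
    apply hE.nd a (hle ha)
    intro b hb
    obtain ⟨c, hcE, hcU, hbc⟩ := hE.cop hU hUE (hle ha) hb (mem_Cen.1 ha).2 le_rfl hb hUE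
    have h1 := hc c (mem_Cen.2 ⟨hcE, hcU⟩)
    -- b = c (b⁻¹c)⁻¹
    have h2 : (b⁻¹ * c)⁻¹ * a = a * (b⁻¹ * c)⁻¹ := by
      have h3 : Commute (b⁻¹ * c) a := hbc
      exact h3.inv_left
    have h4 : b = c * (b⁻¹ * c)⁻¹ := by group
    rw [h4]
    calc a * (c * (b⁻¹ * c)⁻¹) = (a * c) * (b⁻¹ * c)⁻¹ := by group
      _ = c * (a * (b⁻¹ * c)⁻¹) := by rw [h1]; group
      _ = c * (b⁻¹ * c)⁻¹ * a := by rw [← h2]; group

/-- the two fixed point groups commute -/
theorem XE.commCen (hE : XE E z) {U U' : Subgroup G} (hU' : Odd (Nat.card ↥U'))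
    (hUE' : ∀ u ∈ U', ∀ e ∈ E, u * e * u⁻¹ ∈ E)
    (hW : ∀ u ∈ U', ∀ w ∈ Cen E U, u * w * u⁻¹ ∈ Cen E U)
    (hint : ∀ x ∈ Cen E U, x ∈ Cen E U' → x = 1 ∨ x = z) :
    ∀ a ∈ Cen E U, ∀ b ∈ Cen E U', a * b = b * a := by
  intro a ha b hb
  have hle : ∀ V : Subgroup G, Cen E V ≤ E := fun V => inf_le_left
  obtain ⟨c, hcW, hcU, hac⟩ := hE.cop hU' hUE' (hle _ hb) (hle _ ha) (mem_Cen.1 hb).2 (hle U) ha hW
  have h1 : c * b = b * c := by
    rcases hint c hcW (mem_Cen.2 ⟨hle _ hcW, hcU⟩) with rfl | rfl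
    · group
    · exact (hE.cz b (hle _ hb)).symm
  have h2 : (a⁻¹ * c)⁻¹ * b = b * (a⁻¹ * c)⁻¹ := by
    have h3 : Commute (a⁻¹ * c) b := hac
    exact h3.inv_left
  have h4 : a = c * (a⁻¹ * c)⁻¹ := by group
  rw [h4]
  calc c * (a⁻¹ * c)⁻¹ * b = c * ((a⁻¹ * c)⁻¹ * b) := by group
    _ = (c * b) * (a⁻¹ * c)⁻¹ := by rw [h2]; group
    _ = b * (c * (a⁻¹ * c)⁻¹) := by rw [h1]; group

/-- orthogonal splitting -/
theorem XE.split (hE : XE E z) {F : Subgroup G} (hFE : F ≤ E) (hF : XE F z) :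
    F ⊔ Cen E F = E ∧ XE (Cen E F) z := by
  have hle : Cen E F ≤ E := inf_le_left
  haveI : Fact (Nat.Prime 2) := ⟨Nat.prime_two⟩
  have hdec : ∀ x ∈ E, ∃ a ∈ F, ∃ c ∈ Cen E F, x = a * c := by
    intro x hx
    have hv : ∀ a ∈ F, ⁅x, a⁆ = 1 ∨ ⁅x, a⁆ = z := by
      intro a ha
      rw [commutatorElement_def]
      rcases hE.cm x hx a (hFE ha) with h | h
      · left; rw [h]; group
      · right
        have hz1 := hE.cz _ (E.inv_mem (E.mul_mem (hFE ha) hx))
        calc x * a * x⁻¹ * a⁻¹ = (a * x * z) * x⁻¹ * a⁻¹ := by rw [h]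
          _ = a * x * (z * (a * x)⁻¹) := by group
          _ = a * x * ((a * x)⁻¹ * z) := by rw [hz1]
          _ = z := by group
    have hvF : ∀ a ∈ F, ⁅x, a⁆ ∈ F := by
      intro a ha
      rcases hv a ha with h | h
      · rw [h]; exact F.one_mem
      · rw [h]; exact hF.zE
    obtain ⟨e, he⟩ := H3.ExtraspecialHom.hom_inner (p := 2) (Nat.card ↥F) hF.comm_le hF.card_center
      le_rfl (fun a : ↥F => ⟨⁅x, (a : G)⁆, hvF a a.2⟩) (by
        intro a
        rw [hF.mem_center]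
        exact hv a a.2) (by
        intro a b
        apply Subtype.ext
        change ⁅x, (a : G) * b⁆ = ⁅x, (a : G)⁆ * ⁅x, (b : G)⁆
        rw [commutatorElement_mul_right_eq_mul_conj]
        have h1 : (a : G) * ⁅x, (b : G)⁆ = ⁅x, (b : G)⁆ * a := by
          rcases hv b b.2 with h | h
          · rw [h]; group
          · rw [h]; exact hF.cz a a.2
        have h2 : (a : G) * ⁅x, (b : G)⁆ * (a : G)⁻¹ = ⁅x, (b : G)⁆ := by rw [h1]; group
        calc _ = ⁅x, (a : G)⁆ * ((a : G) * ⁅x, (b : G)⁆ * (a : G)⁻¹) := by group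
          _ = _ := by rw [h2]) (by
        intro y hy
        apply Subtype.ext
        change ⁅x, (y : G)⁆ = 1
        rw [commutatorElement_eq_one_iff_mul_comm]
        rcases (hF.mem_center y).1 hy with h | h
        · rw [h]; group
        · rw [h]; exact hE.cz x hx)
    refine ⟨e, e.2, (e : G)⁻¹ * x, ?_, by group⟩
    rw [mem_Cen]
    refine ⟨E.mul_mem (E.inv_mem (hFE e.2)) hx, fun a ha => ?_⟩
    have h1 : ⁅x, a⁆ = ⁅(e : G), a⁆ := congrArg Subtype.val (he ⟨a, ha⟩)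
    rw [commutatorElement_def, commutatorElement_def] at h1
    have h2 : x * a * x⁻¹ = e * a * (e : G)⁻¹ := mul_right_cancel h1
    calc a * ((e : G)⁻¹ * x) = (e : G)⁻¹ * (e * a * (e : G)⁻¹) * x := by group
      _ = (e : G)⁻¹ * (x * a * x⁻¹) * x := by rw [h2]
      _ = _ := by group
  refine ⟨le_antisymm (sup_le hFE hle) ?_, ?_, hE.z1, hE.zz, fun a ha => hE.cz a (hle ha),
    fun a ha b hb => hE.cm a (hle ha) b (hle hb), ?_, hE.two.to_le hle⟩
  · intro x hx
    obtain ⟨a, ha, c, hc, rfl⟩ := hdec x hx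
    exact Subgroup.mul_mem_sup ha hc
  · rw [mem_Cen]
    exact ⟨hE.zE, fun a ha => hF.cz a ha⟩
  · intro a ha hc
    apply hE.nd a (hle ha)
    intro b hb
    obtain ⟨f, hf, c, hcc, rfl⟩ := hdec b hb
    have h1 := (mem_Cen.1 ha).2 f hf
    have h2 := hc c hcc
    calc a * (f * c) = (a * f) * c := by group
      _ = f * (a * c) := by rw [← h1]; group
      _ = f * c * a := by rw [h2]; group

omit [Finite G] in
theorem mem_map_conj {W : Subgroup G} {g x : G} :
    x ∈ W.map (MulAut.conj g).toMonoidHom ↔ ∃ w ∈ W, x = g * w * g⁻¹ := by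
  rw [Subgroup.mem_map]
  constructor
  · rintro ⟨w, hw, rfl⟩; exact ⟨w, hw, rfl⟩
  · rintro ⟨w, hw, rfl⟩; exact ⟨w, hw, rfl⟩

omit [Finite G] in
theorem XE.map {W : Subgroup G} (hW : XE W z) {g : G} (hg : g * z * g⁻¹ = z) :
    XE (W.map (MulAut.conj g).toMonoidHom) z := by
  refine ⟨?_, hW.z1, hW.zz, ?_, ?_, ?_, ?_⟩
  · rw [mem_map_conj]
    exact ⟨z, hW.zE, hg.symm⟩
  · intro a ha
    obtain ⟨w, hw, rfl⟩ := mem_map_conj.1 ha
    have h1 := hW.cz w hw
    calc g * w * g⁻¹ * z = g * w * g⁻¹ * (g * z * g⁻¹) := by rw [hg]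
      _ = g * (w * z) * g⁻¹ := by group
      _ = (g * z * g⁻¹) * (g * w * g⁻¹) := by rw [h1]; group
      _ = _ := by rw [hg]
  · intro a ha b hb
    obtain ⟨w, hw, rfl⟩ := mem_map_conj.1 ha
    obtain ⟨v, hv, rfl⟩ := mem_map_conj.1 hb
    rcases hW.cm w hw v hv with h | h
    · left
      calc g * w * g⁻¹ * (g * v * g⁻¹) = g * (w * v) * g⁻¹ := by group
        _ = _ := by rw [h]; group
    · right
      calc g * w * g⁻¹ * (g * v * g⁻¹) = g * (w * v) * g⁻¹ := by group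
        _ = g * v * g⁻¹ * (g * w * g⁻¹) * (g * z * g⁻¹) := by rw [h]; group
        _ = _ := by rw [hg]
  · intro a ha hc
    obtain ⟨w, hw, rfl⟩ := mem_map_conj.1 ha
    rcases hW.nd w hw (by
      intro v hv
      have h1 := hc _ (mem_map_conj.2 ⟨v, hv, rfl⟩)
      have h2 : g * (w * v) * g⁻¹ = g * (v * w) * g⁻¹ := by
        calc g * (w * v) * g⁻¹ = g * w * g⁻¹ * (g * v * g⁻¹) := by group
          _ = g * v * g⁻¹ * (g * w * g⁻¹) := h1
          _ = _ := by group
      exact mul_left_cancel (mul_right_cancel h2)) with h | h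
    · left; rw [h]; group
    · right; rw [h]; exact hg
  · exact hW.two.map _

/-- join of conjugates -/
def cl (W : Subgroup G) (S : Set G) : Subgroup G :=
  Subgroup.closure {x | ∃ g ∈ S, ∃ w ∈ W, x = g * w * g⁻¹}

omit [Finite G] in
theorem mem_cl {W : Subgroup G} {S : Set G} {g w : G} (hg : g ∈ S) (hw : w ∈ W) :
    g * w * g⁻¹ ∈ cl W S := Subgroup.subset_closure ⟨g, hg, w, hw, rfl⟩

omit [Finite G] in
theorem cl_conj {W : Subgroup G} {S T : Set G} {p : G} (h : ∀ g ∈ S, p * g ∈ T) :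
    ∀ x ∈ cl W S, p * x * p⁻¹ ∈ cl W T := by
  intro x hx
  induction hx using Subgroup.closure_induction with
  | mem x hx =>
    obtain ⟨g, hg, w, hw, rfl⟩ := hx
    have : p * (g * w * g⁻¹) * p⁻¹ = (p * g) * w * (p * g)⁻¹ := by group
    rw [this]
    exact mem_cl (h g hg) hw
  | one =>
    have : p * 1 * p⁻¹ = 1 := by group
    rw [this]; exact Subgroup.one_mem _
  | mul x y _ _ hx hy =>
    have : p * (x * y) * p⁻¹ = (p * x * p⁻¹) * (p * y * p⁻¹) := by group
    rw [this]; exact Subgroup.mul_mem _ hx hy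
  | inv x _ hx =>
    have : p * x⁻¹ * p⁻¹ = (p * x * p⁻¹)⁻¹ := by group
    rw [this]; exact Subgroup.inv_mem _ hx

omit [Finite G] in
theorem cl_norm {W : Subgroup G} {S : Set G} {k : G} (h : ∀ g ∈ S, ∀ w ∈ W, k * (g * w * g⁻¹) * k⁻¹ ∈ cl W S) :
    ∀ x ∈ cl W S, k * x * k⁻¹ ∈ cl W S := by
  intro x hx
  induction hx using Subgroup.closure_induction with
  | mem x hx =>
    obtain ⟨g, hg, w, hw, rfl⟩ := hx
    exact h g hg w hw
  | one =>
    have : k * 1 * k⁻¹ = 1 := by group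
    rw [this]; exact Subgroup.one_mem _
  | mul x y _ _ hx hy =>
    have : k * (x * y) * k⁻¹ = (k * x * k⁻¹) * (k * y * k⁻¹) := by group
    rw [this]; exact Subgroup.mul_mem _ hx hy
  | inv x _ hx =>
    have : k * x⁻¹ * k⁻¹ = (k * x * k⁻¹)⁻¹ := by group
    rw [this]; exact Subgroup.inv_mem _ hx

omit [Finite G] in
theorem cl_comm {W : Subgroup G} {S : Set G} {b : G} (h : ∀ g ∈ S, ∀ w ∈ W, g * w * g⁻¹ * b = b * (g * w * g⁻¹)) :
    ∀ x ∈ cl W S, x * b = b * x := by
  intro x hx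
  induction hx using Subgroup.closure_induction with
  | mem x hx =>
    obtain ⟨g, hg, w, hw, rfl⟩ := hx
    exact h g hg w hw
  | one => group
  | mul x y _ _ hx hy => rw [mul_assoc, hy, ← mul_assoc, hx, mul_assoc]
  | inv x _ hx => exact (show Commute x b from hx).inv_left

omit [Finite G] in
theorem cl_le {W : Subgroup G} {S : Set G} {F : Subgroup G} (h : ∀ g ∈ S, ∀ w ∈ W, g * w * g⁻¹ ∈ F) :
    cl W S ≤ F := by
  unfold cl
  rw [Subgroup.closure_le]
  rintro _ ⟨g, hg, w, hw, rfl⟩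
  exact h g hg w hw

/-- the join of conjugates, pairwise equal or commuting, is of our kind -/
theorem XE_cl {W : Subgroup G} (hW : XE W z) (P : Subgroup G) (hPz : ∀ p ∈ P, p * z * p⁻¹ = z)
    (hdich : ∀ p ∈ P, (∀ w ∈ W, p * w * p⁻¹ ∈ W) ∨ ∀ a ∈ W, ∀ b ∈ W, a * (p * b * p⁻¹) = (p * b * p⁻¹) * a) :
    ∀ s : Finset G, s.Nonempty → (∀ g ∈ s, g ∈ P) → XE (cl W (s : Set G)) z := by
  classical
  intro s
  induction s using Finset.induction_on with
  | empty => intro h; exact absurd h (by simp)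
  | insert g s hg ih =>
    intro _ hs
    have hgP : g ∈ P := hs g (Finset.mem_insert_self _ _)
    have hsP : ∀ h ∈ s, h ∈ P := fun h hh => hs h (Finset.mem_insert_of_mem hh)
    by_cases hne : s.Nonempty
    · have ih' := ih hne hsP
      by_cases hex : ∃ h ∈ s, ∀ w ∈ W, (h⁻¹ * g) * w * (h⁻¹ * g)⁻¹ ∈ W
      · obtain ⟨h, hh, hw⟩ := hex
        have : cl W ((insert g s : Finset G) : Set G) = cl W (s : Set G) := by
          apply le_antisymm
          · apply cl_le
            intro x hx w hwW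
            rw [Finset.coe_insert, Set.mem_insert_iff] at hx
            rcases hx with rfl | hx
            · have e1 : x * w * x⁻¹ = h * ((h⁻¹ * x) * w * (h⁻¹ * x)⁻¹) * h⁻¹ := by group
              rw [e1]
              exact mem_cl hh (hw w hwW)
            · exact mem_cl hx hwW
          · apply cl_le
            intro x hx w hwW
            exact mem_cl (by rw [Finset.coe_insert]; exact Set.mem_insert_of_mem _ hx) hwW
        rw [this]
        exact ih'
      · push Not at hex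
        have hcomm : ∀ a ∈ cl W (s : Set G), ∀ b ∈ W.map (MulAut.conj g).toMonoidHom, a * b = b * a := by
          intro a ha b hb
          obtain ⟨v, hv, rfl⟩ := mem_map_conj.1 hb
          refine cl_comm ?_ a ha
          intro h hh w hw
          have hp : h⁻¹ * g ∈ P := P.mul_mem (P.inv_mem (hsP h hh)) hgP
          rcases hdich _ hp with h1 | h1
          · obtain ⟨w', hw', hn⟩ := hex h hh
            exact absurd (h1 w' hw') hn
          · have h2 := h1 w hw v hv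
            have e1 : h * w * h⁻¹ * (g * v * g⁻¹) = h * (w * ((h⁻¹ * g) * v * (h⁻¹ * g)⁻¹)) * h⁻¹ := by group
            have e2 : (g * v * g⁻¹) * (h * w * h⁻¹) = h * (((h⁻¹ * g) * v * (h⁻¹ * g)⁻¹) * w) * h⁻¹ := by group
            rw [e1, e2, h2]
        have := ih'.sup (hW.map (hPz g hgP)) hcomm
        have e : cl W ((insert g s : Finset G) : Set G) = cl W (s : Set G) ⊔ W.map (MulAut.conj g).toMonoidHom := by
          apply le_antisymm
          · apply cl_le
            intro x hx w hwW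
            rw [Finset.coe_insert, Set.mem_insert_iff] at hx
            rcases hx with rfl | hx
            · exact (le_sup_right : W.map (MulAut.conj x).toMonoidHom ≤ _) (mem_map_conj.2 ⟨w, hwW, rfl⟩)
            · exact (le_sup_left : cl W (s : Set G) ≤ _) (mem_cl hx hwW)
          · apply sup_le
            · apply cl_le
              intro x hx w hwW
              exact mem_cl (by rw [Finset.coe_insert]; exact Set.mem_insert_of_mem _ hx) hwW
            · intro x hx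
              obtain ⟨w, hw, rfl⟩ := mem_map_conj.1 hx
              exact mem_cl (by rw [Finset.coe_insert]; exact Set.mem_insert _ _) hw
        rw [e]
        exact this
    · rw [Finset.not_nonempty_iff_eq_empty] at hne
      subst hne
      have e : cl W ((insert g ∅ : Finset G) : Set G) = W.map (MulAut.conj g).toMonoidHom := by
        apply le_antisymm
        · apply cl_le
          intro x hx w hwW
          rw [Finset.coe_insert, Set.mem_insert_iff] at hx
          rcases hx with rfl | hx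
          · exact mem_map_conj.2 ⟨w, hwW, rfl⟩
          · simp at hx
        · intro x hx
          obtain ⟨w, hw, rfl⟩ := mem_map_conj.1 hx
          exact mem_cl (by rw [Finset.coe_insert]; exact Set.mem_insert _ _) hw
      rw [e]
      exact hW.map (hPz g hgP)

end H13.S47
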