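import Cfsg.Agent.Lib.H13.S47h

/-!
# S4759, file i: the induction datum, base case, splitting case, cyclic quotient
-/

set_option autoImplicit false
set_option linter.unusedSectionVars false
set_option linter.style.haveILetI false

namespace H13.S47

open Cfsg H18.CharBasic H18.CharOrtho

universe u v

variable {G : Type u} [Group G] [Finite G]
variable {E K P : Subgroup G} {z : G}

/-- induction datum -/
structure TD (E K P : Subgroup G) (z : G) : Prop where
  hE : XE E z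
  hK : Odd (Nat.card ↥K)
  hP : IsPGroup 2 ↥P
  hKE : ∀ k ∈ K, ∀ e ∈ E, k * e * k⁻¹ ∈ E
  hPE : ∀ p ∈ P, ∀ e ∈ E, p * e * p⁻¹ ∈ E
  hPK : ∀ p ∈ P, ∀ k ∈ K, p * k * p⁻¹ ∈ K
  hfix : ∀ e ∈ E, (∀ k ∈ K, k * e = e * k) → e = 1 ∨ e = z
  hi : ∀ x ∈ E, x ∈ P → x = 1

theorem TD.sub (h : TD E K P z) {F P' : Subgroup G} (hF : XE F z) (hFE : F ≤ E) (hP' : P' ≤ P)
    (hKF : ∀ k ∈ K, ∀ f ∈ F, k * f * k⁻¹ ∈ F) (hPF : ∀ p ∈ P', ∀ f ∈ F, p * f * p⁻¹ ∈ F) :
    TD F K P' z :=
  ⟨hF, h.hK, h.hP.to_le hP', hKF, hPF, fun p hp => h.hPK p (hP' hp),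
    fun e he => h.hfix e (hFE he), fun x hx hxP => h.hi x (hFE hx) (hP' hxP)⟩

theorem cen_norm {F N : Subgroup G} (hNE : ∀ g ∈ N, ∀ e ∈ E, g * e * g⁻¹ ∈ E)
    (hNF : ∀ g ∈ N, ∀ f ∈ F, g * f * g⁻¹ ∈ F) : ∀ g ∈ N, ∀ d ∈ Cen E F, g * d * g⁻¹ ∈ Cen E F := by
  intro g hg d hd
  rw [mem_Cen] at hd ⊢
  refine ⟨hNE g hg d hd.1, fun f hf => ?_⟩
  have h1 := hd.2 _ (hNF g⁻¹ (N.inv_mem hg) f hf)
  rw [inv_inv] at h1
  calc f * (g * d * g⁻¹) = g * ((g⁻¹ * f * g) * d) * g⁻¹ := by group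
    _ = g * (d * (g⁻¹ * f * g)) * g⁻¹ := by rw [h1]
    _ = _ := by group

theorem TD.base (h : TD E K P z) (hb : ∀ e ∈ E, e = 1 ∨ e = z) : ∃ χ, Gd E (E ⊔ P) z χ := by
  obtain ⟨θ, hθ⟩ := exists_base h.hE
  have hpz : ∀ p ∈ P, ∀ e ∈ E, e * p * e⁻¹ = p := by
    intro p hp e he
    rcases hb e he with rfl | rfl
    · group
    · have h1 := h.hE.fix (h.hPE p hp)
      calc e * p * e⁻¹ = (p * e * p⁻¹) * p * e⁻¹ := by rw [h1]
        _ = p := by group
  obtain ⟨π, hπ⟩ := exists_proj (E := P) (A := E) (fun e he p hp => by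
    rw [hpz p hp e he]; exact hp) (fun x hx hxE => h.hi x hxE hx)
  have hv : ∀ e ∈ E, ex (P ⊔ E) (fun x => θ (π x)) e = θ e := by
    intro e he
    have hm : 1 * e ∈ P ⊔ E := Subgroup.mul_mem_sup P.one_mem he
    have e1 := ex_apply (P ⊔ E) (fun x => θ (π x)) hm
    rw [hπ 1 e P.one_mem he hm] at e1
    rw [one_mul] at e1
    exact e1
  refine ⟨ex (P ⊔ E) (fun x => θ (π x)), ?_⟩
  rw [sup_comm]
  refine ⟨?_, ?_, ?_⟩
  · rw [rs_ex]
    exact isCharacter_comp π hθ.ch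
  · rw [hv z h.hE.zE, hv 1 E.one_mem, hθ.hz]
  · rw [hv 1 E.one_mem, hθ.dg]

theorem card_lt {F : Subgroup G} (hFE : F ≤ E) (h : ∃ e ∈ E, e ∉ F) :
    Nat.card ↥F < Nat.card ↥E := by
  obtain ⟨e, he, hf⟩ := h
  refine lt_of_le_of_ne (Subgroup.card_le_of_le hFE) fun heq => ?_
  have := Subgroup.eq_of_le_of_card_ge hFE heq.ge
  rw [this] at hf
  exact hf he

theorem TD.split_case (h : TD E K P z) {F : Subgroup G} (hF : XE F z) (hFE : F ≤ E)
    (hKF : ∀ k ∈ K, ∀ f ∈ F, k * f * k⁻¹ ∈ F) (hPF : ∀ p ∈ P, ∀ f ∈ F, p * f * p⁻¹ ∈ F)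
    (hne : ∃ f ∈ F, f ≠ 1 ∧ f ≠ z) (hχ : ∃ χ, Gd F (F ⊔ P) z χ)
    (ih : ∀ E' : Subgroup G, Nat.card ↥E' < Nat.card ↥E → TD E' K P z →
      ∃ χ, Gd E' (E' ⊔ P) z χ) : ∃ χ, Gd E (E ⊔ P) z χ := by
  obtain ⟨hsup, hD⟩ := h.hE.split hFE hF
  have hDE : Cen E F ≤ E := inf_le_left
  obtain ⟨χ1, g1⟩ := hχ
  have hPD := cen_norm h.hPE hPF
  obtain ⟨χ2, g2⟩ := ih (Cen E F) (card_lt hDE (by
      obtain ⟨f, hf, h1, h2⟩ := hne
      by_contra hcon
      push Not at hcon
      rcases h.hE.nd f (hFE hf) (fun b hb => (mem_Cen.1 (hcon b hb)).2 f hf) with h3 | h3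
      · exact h1 h3
      · exact h2 h3)) (h.sub hD hDE le_rfl (cen_norm h.hKE hKF) hPD)
  obtain ⟨χ, g, _⟩ := prod_good hF hD (fun a ha b hb => (mem_Cen.1 hb).2 a ha) (by
    intro x hx hxD
    refine hF.nd x hx fun b hb => ?_
    exact ((mem_Cen.1 hxD).2 b hb).symm) hPF hPD (by
    rw [hsup]; exact h.hi) g1 g2
  rw [hsup] at g
  exact ⟨χ, g⟩

/-- an odd order element mod the centralizer does not move `e` to `e z` -/
theorem XE.odd_fix (hE : XE E z) {x e : G} (hx : ∀ f ∈ E, x * f * x⁻¹ ∈ E) (he : e ∈ E) {r : ℕ}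
    (hr : Odd r) (hxr : x ^ r * e = e * x ^ r) (h : x * e * x⁻¹ = e ∨ x * e * x⁻¹ = e * z) :
    x * e = e * x := by
  rcases h with h | h
  · calc x * e = (x * e * x⁻¹) * x := by group
      _ = _ := by rw [h]
  · exfalso
    have hxz : x * z = z * x := by
      calc x * z = (x * z * x⁻¹) * x := by group
        _ = _ := by rw [hE.fix hx]
    have hxe : x * e = e * z * x := by rw [← h]; group
    have key : ∀ n : ℕ, x ^ n * e = e * z ^ n * x ^ n := by
      intro n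
      induction n with
      | zero => simp
      | succ n ih =>
        have hz' : x ^ n * z = z * x ^ n := (show Commute x z from hxz).pow_left n
        calc x ^ (n + 1) * e = x ^ n * (x * e) := by rw [pow_succ, mul_assoc]
          _ = (x ^ n * e) * z * x := by rw [hxe]; group
          _ = e * z ^ n * (x ^ n * z) * x := by rw [ih]; group
          _ = e * z ^ n * z * (x ^ n * x) := by rw [hz']; group
          _ = _ := by rw [pow_succ, pow_succ]; group
    have h1 := key r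
    rw [hxr] at h1
    have h2 : z ^ r = z := by
      obtain ⟨m, rfl⟩ := hr
      rw [pow_succ, pow_mul, pow_two, hE.zz, one_pow, one_mul]
    rw [h2] at h1
    apply hE.z1
    have h3 : e * x ^ r = e * (z * x ^ r) := by rw [h1]; group
    have h4 := mul_left_cancel h3
    have h5 : 1 * x ^ r = z * x ^ r := by rw [one_mul]; exact h4
    exact (mul_right_cancel h5).symm

theorem XE.cyc (hE : XE E z) {C : Subgroup G} (hKE : ∀ k ∈ K, ∀ e ∈ E, k * e * k⁻¹ ∈ E)
    (hC : ∀ x ∈ K, (x ∈ C ↔ ∀ e ∈ E, x * e = e * x))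
    (hab : ∀ a ∈ K, ∀ b ∈ K, a⁻¹ * b⁻¹ * a * b ∈ C)
    {r : ℕ} (hr : Odd r) (hKr : ∀ k ∈ K, k ^ r ∈ C)
    (hne : ∃ e ∈ E, e ≠ 1 ∧ e ≠ z)
    (hfpf : ∀ k ∈ K, k ∉ C → ∀ e ∈ E, k * e = e * k → e = 1 ∨ e = z) :
    ∃ k ∈ K, ∀ x ∈ K, ∃ i : ℤ, (k ^ i)⁻¹ * x ∈ C := by
  classical
  have hKN : K ≤ Subgroup.normalizer (E : Set G) := H1.Coprime.le_normalizer_of_conj_mem hKE
  let c : ↥K →* MulAut ↥E := (E.normalizerMonoidHom).comp (Subgroup.inclusion hKN)
  have hc : ∀ (k : ↥K) (e : ↥E), ((c k e : ↥E) : G) = (k : G) * (e : G) * (k : G)⁻¹ := fun _ _ => rfl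
  have hcen : ∀ k : ↥K, (Subgroup.center ↥E).map ((c k : ↥E ≃* ↥E) : ↥E →* ↥E) = Subgroup.center ↥E :=
    fun k => Subgroup.characteristic_iff_map_eq.1 inferInstance (c k)
  let φ : ↥K →* MulAut (↥E ⧸ Subgroup.center ↥E) :=
    { toFun := fun k => QuotientGroup.congr _ _ (c k) (hcen k)
      map_one' := by
        ext q
        induction q using QuotientGroup.induction_on with
        | H e => simp
      map_mul' := fun a b => by
        ext q
        induction q using QuotientGroup.induction_on with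
        | H e => simp }
  have hφ : ∀ (k : ↥K) (e : ↥E), φ k (QuotientGroup.mk e) = QuotientGroup.mk (c k e) :=
    fun _ _ => rfl
  -- trivial action
  have htriv : ∀ (k : ↥K) (e : ↥E), φ k (QuotientGroup.mk e) = QuotientGroup.mk e →
      (k : G) * e = e * k := by
    intro k e h
    rw [hφ, QuotientGroup.eq, hE.mem_center] at h
    have hcoe : (((c k e)⁻¹ * e : ↥E) : G) = ((k : G) * (e : G) * (k : G)⁻¹)⁻¹ * (e : G) := rfl
    rw [hcoe] at h
    refine hE.odd_fix (hKE k k.2) e.2 hr ?_ ?_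
    · exact (hC _ (K.pow_mem k.2 r)).1 (hKr k k.2) e e.2
    · rcases h with h | h
      · left
        rw [inv_mul_eq_one] at h
        exact h
      · right
        have h1 : (e : G) = ((k : G) * (e : G) * (k : G)⁻¹) * z := by rw [← h]; group
        have h2 : (e : G) * z = ((k : G) * (e : G) * (k : G)⁻¹) * (z * z) := by
          rw [← mul_assoc, ← h1]
        rw [hE.zz, mul_one] at h2
        exact h2.symm
  have hone : ∀ k : ↥K, φ k = 1 ↔ (k : G) ∈ C := by
    intro k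
    rw [hC k k.2]
    constructor
    · intro h e he
      exact htriv k ⟨e, he⟩ (by rw [h]; rfl)
    · intro h
      ext q
      induction q using QuotientGroup.induction_on with
      | H e =>
        rw [hφ]
        congr 1
        apply Subtype.ext
        rw [hc, h e e.2]
        simp
  let V := ↥E ⧸ Subgroup.center ↥E
  letI : CommGroup V := { (inferInstance : Group V) with
    mul_comm := fun a b => by
      induction a using QuotientGroup.induction_on with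
      | H a =>
        induction b using QuotientGroup.induction_on with
        | H b =>
          rw [← QuotientGroup.mk_mul, ← QuotientGroup.mk_mul, QuotientGroup.eq, hE.mem_center]
          have hcoe : (((a * b)⁻¹ * (b * a) : ↥E) : G) = ((a : G) * (b : G))⁻¹ * ((b : G) * (a : G)) := rfl
          rw [hcoe]
          rcases hE.cm b b.2 a a.2 with h | h
          · left; rw [h]; group
          · right; rw [h]; group }
  haveI : Nontrivial V := by
    obtain ⟨e, he, h1, h2⟩ := hne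
    refine ⟨QuotientGroup.mk ⟨e, he⟩, QuotientGroup.mk 1, fun h => ?_⟩
    rw [QuotientGroup.eq, hE.mem_center] at h
    have hcoe : (((⟨e, he⟩ : ↥E)⁻¹ * 1 : ↥E) : G) = e⁻¹ * 1 := rfl
    rw [hcoe, mul_one] at h
    rcases h with h | h
    · exact h1 (inv_eq_one.1 h)
    · apply h2
      rw [← inv_inv e, h]
      exact inv_eq_of_mul_eq_one_left hE.zz
  have hcyc : IsCyclic ↥φ.range := by
    refine H1.Cyc.isCyclic_of_comm (A := ↥φ.range) (V := V) ?_ ?_
    · rintro ⟨_, k, rfl⟩ hk v hv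
      induction v using QuotientGroup.induction_on with
      | H e =>
        have h1 : (k : G) * e = e * k := htriv k e hv
        have h2 : (k : G) ∉ C := by
          intro hkC
          exact hk (Subtype.ext ((hone k).2 hkC))
        rw [QuotientGroup.eq_one_iff, hE.mem_center]
        exact hfpf k k.2 h2 e e.2 h1
    · rintro ⟨_, a, rfl⟩ ⟨_, b, rfl⟩
      apply Subtype.ext
      change φ a * φ b = φ b * φ a
      have h1 : φ (a⁻¹ * b⁻¹ * a * b) = 1 := (hone _).2 (hab a a.2 b b.2)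
      have h2 : φ a * φ b = φ b * φ a * φ (a⁻¹ * b⁻¹ * a * b) := by
        rw [← map_mul, ← map_mul, ← map_mul]
        congr 1
        group
      rw [h2, h1, mul_one]
  obtain ⟨⟨_, k, rfl⟩, hk⟩ := hcyc.exists_generator
  refine ⟨k, k.2, fun x hx => ?_⟩
  obtain ⟨i, hi⟩ := Subgroup.mem_zpowers_iff.1 (hk ⟨φ ⟨x, hx⟩, ⟨x, hx⟩, rfl⟩)
  refine ⟨i, ?_⟩
  have h1 : φ k ^ i = φ ⟨x, hx⟩ := congrArg Subtype.val hi
  have h2 : φ ((k ^ i)⁻¹ * ⟨x, hx⟩) = 1 := by
    rw [map_mul, map_inv, map_zpow, h1, inv_mul_cancel]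
  exact (hone _).1 h2

end H13.S47
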