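import Cfsg.Agent.Lib.H13.S47i

/-!
# S4759, file j: the fixed point free case assembled
-/

set_option autoImplicit false
set_option linter.unusedSectionVars false
set_option linter.style.haveILetI false

namespace H13.S47

open Cfsg H18.CharBasic H18.CharOrtho

universe u v

variable {G : Type u} [Group G] [Finite G]
variable {E K P : Subgroup G} {z : G}

theorem conj_inv_mem {W : Subgroup G} {g : G} (h : ∀ w ∈ W, g * w * g⁻¹ ∈ W) :
    ∀ w ∈ W, g⁻¹ * w * g ∈ W := by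
  let f : ↥W → ↥W := fun w => ⟨g * w * g⁻¹, h w w.2⟩
  have hf : Function.Injective f := by
    intro a b hab
    have h1 : g * (a : G) * g⁻¹ = g * b * g⁻¹ := congrArg Subtype.val hab
    exact Subtype.ext (mul_left_cancel (mul_right_cancel h1))
  have hs := Finite.surjective_of_injective hf
  intro w hw
  obtain ⟨v, hv⟩ := hs ⟨w, hw⟩
  have h1 : g * (v : G) * g⁻¹ = w := congrArg Subtype.val hv
  have h2 : g⁻¹ * w * g = v := by rw [← h1]; group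
  rw [h2]; exact v.2

/-- the fixed point free case -/
theorem TD.fpf (h : TD E K P z) (hne : ∃ e ∈ E, e ≠ 1 ∧ e ≠ z) {C : Subgroup G} (hCK : C ≤ K)
    (hC : ∀ x ∈ K, (x ∈ C ↔ ∀ e ∈ E, x * e = e * x))
    (hab : ∀ a ∈ K, ∀ b ∈ K, a⁻¹ * b⁻¹ * a * b ∈ C)
    {r : ℕ} (hr : r.Prime) (hro : Odd r) (hKr : ∀ k ∈ K, k ^ r ∈ C)
    (hfpf : ∀ k ∈ K, k ∉ C → ∀ e ∈ E, k * e = e * k → e = 1 ∨ e = z) :
    ∃ χ, Gd E (E ⊔ P) z χ := by
  classical
  haveI : Fact r.Prime := ⟨hr⟩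
  obtain ⟨k0, hk0, hgen⟩ := h.hE.cyc h.hKE hC hab hro hKr hne hfpf
  have hk0C : k0 ∉ C := by
    intro hc
    obtain ⟨e, he, h1, h2⟩ := hne
    rcases h.hfix e he (fun k hk => by
      obtain ⟨i, hi⟩ := hgen k hk
      have h3 : k ∈ C := by
        have := C.mul_mem (C.zpow_mem hc i) hi
        rwa [mul_inv_cancel_left] at this
      exact (hC k hk).1 h3 e he) with h3 | h3
    · exact h1 h3
    · exact h2 h3
  -- C normal
  have hCn : ∀ g : G, (∀ e ∈ E, g * e * g⁻¹ ∈ E) → (∀ k ∈ K, g * k * g⁻¹ ∈ K) →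
      ∀ c ∈ C, g * c * g⁻¹ ∈ C := by
    intro g hgE hgK c hc
    rw [hC _ (hgK c (hCK hc))]
    intro e he
    have h1 := (hC c (hCK hc)).1 hc _ (conj_inv_mem hgE e he)
    calc g * c * g⁻¹ * e = g * (c * (g⁻¹ * e * g)) * g⁻¹ := by group
      _ = g * (g⁻¹ * e * g * c) * g⁻¹ := by rw [h1]
      _ = _ := by group
  have hKC : ∀ g ∈ K, ∀ c ∈ C, g * c * g⁻¹ ∈ C := fun g hg =>
    hCn g (h.hKE g hg) (fun k hk => K.mul_mem (K.mul_mem hg hk) (K.inv_mem hg))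
  have hPC : ∀ g ∈ P, ∀ c ∈ C, g * c * g⁻¹ ∈ C := fun g hg => hCn g (h.hPE g hg) (h.hPK g hg)
  -- powers of k0 in C
  have hdvd : ∀ m : ℤ, k0 ^ m ∈ C → (r : ℤ) ∣ m := by
    intro m hm
    by_contra hcon
    have hrp : Prime (r : ℤ) := Nat.prime_iff_prime_int.1 hr
    obtain ⟨a, b, hab'⟩ := (Prime.coprime_iff_not_dvd hrp).2 hcon
    apply hk0C
    have h1 : k0 = (k0 ^ r) ^ a * (k0 ^ m) ^ b := by
      rw [← zpow_natCast, ← zpow_mul, ← zpow_mul, ← zpow_add]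
      conv_lhs => rw [← zpow_one k0]
      congr 1
      linarith
    rw [h1]
    exact C.mul_mem (C.zpow_mem (hKr k0 hk0) a) (C.zpow_mem hm b)
  have hpow : ∀ m : ℤ, (r : ℤ) ∣ m → k0 ^ m ∈ C := by
    rintro m ⟨n, rfl⟩
    rw [zpow_mul, zpow_natCast]
    exact C.zpow_mem (hKr k0 hk0) n
  have huniq : ∀ (i j : ℤ) (x : G), (k0 ^ i)⁻¹ * x ∈ C → (k0 ^ j)⁻¹ * x ∈ C →
      (i : ZMod r) = (j : ZMod r) := by
    intro i j x hi hj
    have h1 := C.mul_mem hi (C.inv_mem hj)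
    have h2 : (k0 ^ i)⁻¹ * x * ((k0 ^ j)⁻¹ * x)⁻¹ = k0 ^ (j - i) := by
      rw [show j - i = -i + j by ring, zpow_add, zpow_neg]; group
    rw [h2] at h1
    exact (ZMod.intCast_eq_intCast_iff_dvd_sub i j r).2 (hdvd _ h1)
  have hex : ∀ p : ↥P, ∃ i : ℤ, (k0 ^ i)⁻¹ * ((p : G) * k0 * (p : G)⁻¹) ∈ C := fun p =>
    hgen _ (h.hPK p p.2 k0 hk0)
  choose ι hι using hex
  let f : ↥P →* ZMod r :=
    { toFun := fun p => ((ι p : ℤ) : ZMod r)
      map_one' := by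
        have h1 : ((1 : ℤ) : ZMod r) = 1 := by simp
        rw [← h1]
        refine huniq _ _ _ (hι 1) ?_
        have : (k0 ^ (1 : ℤ))⁻¹ * (((1 : ↥P) : G) * k0 * ((1 : ↥P) : G)⁻¹) = 1 := by
          rw [Subgroup.coe_one]; group
        rw [this]
        exact C.one_mem
      map_mul' := fun p q => by
        have h1 : ((ι p * ι q : ℤ) : ZMod r) = (ι p : ZMod r) * (ι q : ZMod r) := by push_cast; rfl
        rw [← h1]
        refine huniq _ _ _ (hι (p * q)) ?_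
        -- p q k0 q⁻¹ p⁻¹
        have hc1 := hι p
        have hc2 := hι q
        -- (p k0 p⁻¹)^n in k0^(ι p * n) C
        have key : ∀ n : ℤ, (k0 ^ (ι p * n))⁻¹ * ((p : G) * k0 ^ n * (p : G)⁻¹) ∈ C := by
          intro n
          let y := (p : G) * k0 * (p : G)⁻¹
          have hyK : y ∈ K := h.hPK p p.2 k0 hk0
          have hconj : (p : G) * k0 ^ n * (p : G)⁻¹ = y ^ n := by
            rw [conj_zpow]
          rw [hconj]
          -- y = k0^a c ; in K / C abelian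
          let CK : Subgroup ↥K := C.subgroupOf K
          haveI : CK.Normal := ⟨fun x hx g => by
            rw [Subgroup.mem_subgroupOf] at hx ⊢
            exact hKC g g.2 x hx⟩
          let k0' : ↥K := ⟨k0, hk0⟩
          let y' : ↥K := ⟨y, hyK⟩
          have e1 : (QuotientGroup.mk (k0' ^ ι p) : ↥K ⧸ CK) = QuotientGroup.mk y' := by
            rw [QuotientGroup.eq, Subgroup.mem_subgroupOf]
            exact hc1
          have e2 : (QuotientGroup.mk (k0' ^ (ι p * n)) : ↥K ⧸ CK) = QuotientGroup.mk (y' ^ n) := by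
            rw [zpow_mul, QuotientGroup.mk_zpow, e1, QuotientGroup.mk_zpow]
          rw [QuotientGroup.eq, Subgroup.mem_subgroupOf] at e2
          exact e2
        have h2 := key (ι q)
        have h3 : (p : G) * ((k0 ^ ι q)⁻¹ * ((q : G) * k0 * (q : G)⁻¹)) * (p : G)⁻¹ ∈ C :=
          hPC p p.2 _ hc2
        have h4 := C.mul_mem h2 h3
        have h5 : (k0 ^ (ι p * ι q))⁻¹ * ((p : G) * k0 ^ ι q * (p : G)⁻¹) *
            ((p : G) * ((k0 ^ ι q)⁻¹ * ((q : G) * k0 * (q : G)⁻¹)) * (p : G)⁻¹) =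
            (k0 ^ (ι p * ι q))⁻¹ * (((p * q : ↥P) : G) * k0 * ((p * q : ↥P) : G)⁻¹) := by
          rw [Subgroup.coe_mul]; group
        rwa [h5] at h4 }
  let f' : ↥P →* (ZMod r)ˣ := f.toHomUnits
  have hf' : ∀ p, f' p = 1 ↔ (ι p : ZMod r) = 1 := by
    intro p
    rw [Units.ext_iff]
    rfl
  let Q : Subgroup G := f'.ker.map P.subtype
  have hQm : ∀ x, x ∈ Q ↔ ∃ hx : x ∈ P, f' ⟨x, hx⟩ = 1 := by
    intro x
    rw [Subgroup.mem_map]
    constructor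
    · rintro ⟨y, hy, rfl⟩
      exact ⟨y.2, hy⟩
    · rintro ⟨hx, h1⟩
      exact ⟨⟨x, hx⟩, h1, rfl⟩
  have hQP : Q ≤ P := fun x hx => ((hQm x).1 hx).1
  have hQk0 : ∀ q ∈ Q, k0⁻¹ * q * k0 * q⁻¹ ∈ C := by
    intro q hq
    obtain ⟨hqP, h1⟩ := (hQm q).1 hq
    rw [hf'] at h1
    have h2 : ((ι ⟨q, hqP⟩ : ℤ) : ZMod r) = ((1 : ℤ) : ZMod r) := by rw [h1]; simp
    rw [ZMod.intCast_eq_intCast_iff_dvd_sub] at h2
    have h3 := hι ⟨q, hqP⟩
    -- k0⁻¹ x = k0^(ι - 1) * (k0^ι)⁻¹ x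
    have h4 : k0 ^ (-(1 - ι ⟨q, hqP⟩)) ∈ C := hpow _ ((dvd_neg).2 h2)
    have h5 := C.mul_mem h4 h3
    have h6 : k0 ^ (-(1 - ι ⟨q, hqP⟩)) * ((k0 ^ ι ⟨q, hqP⟩)⁻¹ * (q * k0 * q⁻¹)) =
        k0⁻¹ * q * k0 * q⁻¹ := by
      have : k0 ^ (-(1 - ι ⟨q, hqP⟩)) = k0⁻¹ * k0 ^ ι ⟨q, hqP⟩ := by
        rw [show -(1 - ι ⟨q, hqP⟩) = -1 + ι ⟨q, hqP⟩ by ring, zpow_add, zpow_neg, zpow_one]
      rw [this]; group
    rwa [h6] at h5
  -- cyclic quotient
  have hcyc : ∃ t ∈ P, ∀ p ∈ P, ∃ i : ℤ, ∃ q ∈ Q, p = t ^ i * q := by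
    haveI : IsCyclic ↥f'.range := inferInstance
    obtain ⟨⟨_, t, rfl⟩, ht⟩ := IsCyclic.exists_generator (α := ↥f'.range)
    refine ⟨t, t.2, fun p hp => ?_⟩
    obtain ⟨i, hi⟩ := Subgroup.mem_zpowers_iff.1 (ht ⟨f' ⟨p, hp⟩, ⟨p, hp⟩, rfl⟩)
    have h1 : f' t ^ i = f' ⟨p, hp⟩ := congrArg Subtype.val hi
    refine ⟨i, (t ^ i : ↥P)⁻¹ * p, ?_, by
      rw [Subgroup.coe_inv, Subgroup.coe_zpow, mul_inv_cancel_left]⟩
    rw [hQm]
    refine ⟨P.mul_mem (P.inv_mem (t ^ i).2) hp, ?_⟩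
    have h2 : (⟨(t ^ i : ↥P)⁻¹ * p, P.mul_mem (P.inv_mem (t ^ i).2) hp⟩ : ↥P) = (t ^ i)⁻¹ * ⟨p, hp⟩ := rfl
    rw [h2, map_mul, map_inv, map_zpow, h1, inv_mul_cancel]
  have hQ2 : IsPGroup 2 ↥Q := h.hP.to_le hQP
  haveI : Fact (Nat.Prime 2) := ⟨Nat.prime_two⟩
  -- k commuting with Q
  obtain ⟨k, hkQ, hk0k⟩ := H1.Coprime.exists_fixed_in_coset Q C
    (H1.Coprime.le_normalizer_of_conj_mem fun q hq c hc => hPC q (hQP hq) c hc)
    (by
      obtain ⟨m, hm⟩ := IsPGroup.iff_card.1 hQ2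
      rw [hm]
      refine (Nat.coprime_two_left.2 ?_).pow_left m
      exact Odd.of_dvd_nat h.hK (Subgroup.card_dvd_of_le hCK))
    (Or.inl (by
      haveI := hQ2.isNilpotent
      infer_instance)) k0 hQk0
  have hkK : k ∈ K := by
    have := K.mul_mem hk0 (hCK hk0k)
    rwa [mul_inv_cancel_left] at this
  have hkC : k ∉ C := by
    intro hc
    apply hk0C
    have := C.mul_mem hc (C.inv_mem hk0k)
    have h1 : k * (k0⁻¹ * k)⁻¹ = k0 := by group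
    rwa [h1] at this
  have hko : Odd (orderOf k) := by
    refine Odd.of_dvd_nat h.hK ?_
    have := orderOf_dvd_natCard (⟨k, hkK⟩ : ↥K)
    rwa [Subgroup.orderOf_mk] at this
  have hCD : CD E z k r := by
    refine ⟨h.hE, hr, ?_, h.hKE k hkK, ?_, hfpf k hkK hkC, hko, hne⟩
    · rintro rfl
      exact absurd hro (by decide)
    · exact (hC _ (K.pow_mem hkK r)).1 (hKr k hkK)
  have hQD : QD E Q k := by
    refine ⟨hQ2, fun y hy => h.hPE y (hQP hy), ?_, fun x hx hxQ => h.hi x hx (hQP hxQ)⟩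
    intro y hy
    exact Subgroup.mem_centralizer_iff.1 hkQ y hy
  refine fpf_case hCD hQD hQP h.hPE ?_ hcyc
  intro p hp q hq
  rw [hQm] at hq ⊢
  obtain ⟨hqP, h1⟩ := hq
  refine ⟨P.mul_mem (P.mul_mem hp hqP) (P.inv_mem hp), ?_⟩
  have h2 : (⟨p * q * p⁻¹, P.mul_mem (P.mul_mem hp hqP) (P.inv_mem hp)⟩ : ↥P) =
    ⟨p, hp⟩ * ⟨q, hqP⟩ * ⟨p, hp⟩⁻¹ := rfl
  rw [h2, map_mul, map_mul, map_inv, h1, mul_one, mul_inv_cancel]

end H13.S47
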