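import Cfsg.Agent.Lib.H13.S47j

/-!
# S4759, file k: the elementary abelian quotient case
-/

set_option autoImplicit false
set_option linter.unusedSectionVars false
set_option linter.style.haveILetI false

namespace H13.S47

open Cfsg H18.CharBasic H18.CharOrtho

universe u v

variable {G : Type u} [Group G] [Finite G]
variable {E K P : Subgroup G} {z : G}

/-- swap case -/
theorem TD.swap_case (h : TD E K P z) (hne : ∃ e ∈ E, e ≠ 1 ∧ e ≠ z) {W : Subgroup G}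
    (hW : XE W z) (hWE : W ≤ E) (hKW : ∀ k ∈ K, ∀ w ∈ W, k * w * k⁻¹ ∈ W)
    (hWne : ∃ w ∈ W, w ≠ 1 ∧ w ≠ z)
    (hdich : ∀ p ∈ P, (∀ w ∈ W, p * w * p⁻¹ ∈ W) ∨
      ∀ a ∈ W, ∀ b ∈ W, a * (p * b * p⁻¹) = (p * b * p⁻¹) * a)
    (hex : ∃ p ∈ P, ¬ ∀ w ∈ W, p * w * p⁻¹ ∈ W)
    (ih : ∀ E' P' : Subgroup G, Nat.card ↥E' < Nat.card ↥E → TD E' K P' z →
      ∃ χ, Gd E' (E' ⊔ P') z χ) : ∃ χ, Gd E (E ⊔ P) z χ := by
  classical
  let P0 : Subgroup G :=
    { carrier := {p | p ∈ P ∧ ∀ w ∈ W, p * w * p⁻¹ ∈ W}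
      one_mem' := ⟨P.one_mem, fun w hw => by simpa using hw⟩
      mul_mem' := by
        rintro a b ⟨ha, ha'⟩ ⟨hb, hb'⟩
        refine ⟨P.mul_mem ha hb, fun w hw => ?_⟩
        have : a * b * w * (a * b)⁻¹ = a * (b * w * b⁻¹) * a⁻¹ := by group
        rw [this]
        exact ha' _ (hb' w hw)
      inv_mem' := by
        rintro a ⟨ha, ha'⟩
        refine ⟨P.inv_mem ha, fun w hw => ?_⟩
        rw [inv_inv]
        exact conj_inv_mem ha' w hw }
  have hP0 : ∀ x, x ∈ P0 ↔ x ∈ P ∧ ∀ w ∈ W, x * w * x⁻¹ ∈ W := fun _ => Iff.rfl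
  obtain ⟨P', hP0P', hP'P, _, hnP, t, htP, htP', hcos⟩ := exists_two (P := P) (K := P0) h.hP
    (fun x hx => hx.1) (by
      intro heq
      obtain ⟨p, hp, hn⟩ := hex
      rw [← heq] at hp
      exact hn hp.2)
  have htt : t * t ∈ P' := by
    rcases hcos (t * t) (P.mul_mem htP htP) with h1 | ⟨q, hq, h1⟩
    · exact h1
    · exact absurd ((mul_left_cancel h1) ▸ hq) htP'
  have hfar : ∀ p ∈ P, p ∉ P' → ∀ a ∈ W, ∀ b ∈ W, a * (p * b * p⁻¹) = (p * b * p⁻¹) * a := by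
    intro p hp hpn
    rcases hdich p hp with h1 | h1
    · exact absurd (hP0P' ((hP0 p).2 ⟨hp, h1⟩)) hpn
    · exact h1
  have hPz : ∀ p ∈ P, p * z * p⁻¹ = z := fun p hp => h.hE.fix (h.hPE p hp)
  -- W1
  let W1 := cl W (P' : Set G)
  have hW1 : XE W1 z := by
    have := XE_cl hW P hPz hdich (Set.Finite.toFinset (Set.toFinite (P' : Set G)))
      ⟨1, by simp [P'.one_mem]⟩ (by
        intro g hg
        rw [Set.Finite.mem_toFinset] at hg
        exact hP'P hg)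
    rwa [Set.Finite.coe_toFinset] at this
  have hWW1 : W ≤ W1 := by
    intro w hw
    have := mem_cl (W := W) (S := (P' : Set G)) P'.one_mem hw
    have e : (1 : G) * w * 1⁻¹ = w := by group
    rwa [e] at this
  have hW1E : W1 ≤ E := cl_le fun g hg w hw => h.hPE g (hP'P hg) w (hWE hw)
  have hP'W1 : ∀ p ∈ P', ∀ w ∈ W1, p * w * p⁻¹ ∈ W1 := fun p hp =>
    cl_conj fun g hg => P'.mul_mem hp hg
  have hKg : ∀ g ∈ P, ∀ k ∈ K, g⁻¹ * k * g ∈ K := by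
    intro g hg k hk
    have := h.hPK g⁻¹ (P.inv_mem hg) k hk
    rwa [inv_inv] at this
  have hKW1 : ∀ k ∈ K, ∀ w ∈ W1, k * w * k⁻¹ ∈ W1 := by
    intro k hk
    refine cl_norm fun g hg w hw => ?_
    have e : k * (g * w * g⁻¹) * k⁻¹ = g * ((g⁻¹ * k * g) * w * (g⁻¹ * k * g)⁻¹) * g⁻¹ := by group
    rw [e]
    exact mem_cl hg (hKW _ (hKg g (hP'P hg) k hk) w hw)
  have hcommt : ∀ x ∈ W1, ∀ y ∈ W1, x * (t * y * t⁻¹) = (t * y * t⁻¹) * x := by
    intro x hx y hy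
    refine cl_comm (fun g hg w hw => ?_) x hx
    have h1 : y * (t⁻¹ * (g * w * g⁻¹) * t) = (t⁻¹ * (g * w * g⁻¹) * t) * y := by
      refine cl_comm (fun g' hg' w' hw' => ?_) y hy
      have h2 : g'⁻¹ * (t⁻¹ * g) ∈ P := P.mul_mem (P.inv_mem (hP'P hg'))
        (P.mul_mem (P.inv_mem htP) (hP'P hg))
      have h3 : g'⁻¹ * (t⁻¹ * g) ∉ P' := by
        intro hc
        apply htP'
        have h4 := P'.mul_mem hg (P'.inv_mem (P'.mul_mem hg' hc))
        have e : g * (g' * (g'⁻¹ * (t⁻¹ * g)))⁻¹ = t := by group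
        rwa [e] at h4
      have h4 := hfar _ h2 h3 w' hw' w hw
      calc g' * w' * g'⁻¹ * (t⁻¹ * (g * w * g⁻¹) * t)
          = g' * (w' * (g'⁻¹ * (t⁻¹ * g) * w * (g'⁻¹ * (t⁻¹ * g))⁻¹)) * g'⁻¹ := by group
        _ = g' * (g'⁻¹ * (t⁻¹ * g) * w * (g'⁻¹ * (t⁻¹ * g))⁻¹ * w') * g'⁻¹ := by rw [h4]
        _ = _ := by group
    calc g * w * g⁻¹ * (t * y * t⁻¹) = t * ((t⁻¹ * (g * w * g⁻¹) * t) * y) * t⁻¹ := by group
      _ = t * (y * (t⁻¹ * (g * w * g⁻¹) * t)) * t⁻¹ := by rw [h1]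
      _ = _ := by group
  let W2 := W1.map (MulAut.conj t).toMonoidHom
  have hm2 : ∀ x, x ∈ W2 ↔ ∃ w ∈ W1, x = t * w * t⁻¹ := fun x => mem_map_conj
  have hW2 : XE W2 z := hW1.map (hPz t htP)
  have hW2E : W2 ≤ E := by
    intro x hx
    obtain ⟨w, hw, rfl⟩ := (hm2 x).1 hx
    exact h.hPE t htP w (hW1E hw)
  have hcomm : ∀ a ∈ W1, ∀ b ∈ W2, a * b = b * a := by
    intro a ha b hb
    obtain ⟨y, hy, rfl⟩ := (hm2 b).1 hb
    exact hcommt a ha y hy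
  have hlt : Nat.card ↥W1 < Nat.card ↥E := by
    refine card_lt hW1E ?_
    by_contra hcon
    push Not at hcon
    obtain ⟨e, he, h1, h2⟩ := hne
    rcases h.hE.nd e he (by
      intro b hb
      have h3 := hcommt e (hcon e he) (t⁻¹ * b * t)
        (hcon _ (conj_inv_mem (h.hPE t htP) b hb))
      have h4 : t * (t⁻¹ * b * t) * t⁻¹ = b := by group
      rwa [h4] at h3) with h3 | h3
    · exact h1 h3
    · exact h2 h3
  obtain ⟨χ1, g1⟩ := ih W1 P' hlt (h.sub hW1 hW1E hP'P hKW1 hP'W1)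
  have hsupE : W1 ⊔ W2 ≤ E := sup_le hW1E hW2E
  have hgood := swap_good hW1 hW2 hcomm hP'P htP hnP hcos htt (by
      intro a ha
      exact (hm2 _).2 ⟨a, ha, rfl⟩) (by
      intro b hb
      obtain ⟨w, hw, rfl⟩ := (hm2 b).1 hb
      have : t⁻¹ * (t * w * t⁻¹) * t = w := by group
      rw [this]; exact hw) hP'W1 (fun x hx hxP => h.hi x (hsupE hx) hxP) g1
  -- normalization of the join
  have hsupn : ∀ g : G, (∀ w ∈ W1, g * w * g⁻¹ ∈ W1 ⊔ W2) → (∀ w ∈ W2, g * w * g⁻¹ ∈ W1 ⊔ W2) →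
      ∀ w ∈ W1 ⊔ W2, g * w * g⁻¹ ∈ W1 ⊔ W2 := by
    intro g h1 h2
    have : (W1 ⊔ W2) ≤ (W1 ⊔ W2).comap (MulAut.conj g).toMonoidHom := sup_le h1 h2
    exact this
  have hl : ∀ w ∈ W1, w ∈ W1 ⊔ W2 := fun w hw => (le_sup_left : W1 ≤ W1 ⊔ W2) hw
  have hr : ∀ w ∈ W2, w ∈ W1 ⊔ W2 := fun w hw => (le_sup_right : W2 ≤ W1 ⊔ W2) hw
  have hKF : ∀ k ∈ K, ∀ f ∈ W1 ⊔ W2, k * f * k⁻¹ ∈ W1 ⊔ W2 := by
    intro k hk
    refine hsupn k (fun w hw => hl _ (hKW1 k hk w hw)) (fun w hw => hr _ ?_)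
    obtain ⟨y, hy, rfl⟩ := (hm2 w).1 hw
    rw [hm2]
    exact ⟨(t⁻¹ * k * t) * y * (t⁻¹ * k * t)⁻¹, hKW1 _ (hKg t htP k hk) y hy, by group⟩
  have hP'F : ∀ p ∈ P', ∀ f ∈ W1 ⊔ W2, p * f * p⁻¹ ∈ W1 ⊔ W2 := by
    intro p hp
    refine hsupn p (fun w hw => hl _ (hP'W1 p hp w hw)) (fun w hw => hr _ ?_)
    obtain ⟨y, hy, rfl⟩ := (hm2 w).1 hw
    rw [hm2]
    have h1 := hnP t⁻¹ (P.inv_mem htP) p hp
    rw [inv_inv] at h1
    exact ⟨(t⁻¹ * p * t) * y * (t⁻¹ * p * t)⁻¹, hP'W1 _ h1 y hy, by group⟩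
  have htF : ∀ f ∈ W1 ⊔ W2, t * f * t⁻¹ ∈ W1 ⊔ W2 := by
    refine hsupn t (fun w hw => hr _ ((hm2 _).2 ⟨w, hw, rfl⟩)) (fun w hw => hl _ ?_)
    obtain ⟨y, hy, rfl⟩ := (hm2 w).1 hw
    have h1 := hP'W1 _ htt y hy
    have e : t * t * y * (t * t)⁻¹ = t * (t * y * t⁻¹) * t⁻¹ := by group
    rwa [e] at h1
  have hPF : ∀ p ∈ P, ∀ f ∈ W1 ⊔ W2, p * f * p⁻¹ ∈ W1 ⊔ W2 := by
    intro p hp f hf
    rcases hcos p hp with h1 | ⟨q, hq, rfl⟩
    · exact hP'F p h1 f hf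
    · have e : t * q * f * (t * q)⁻¹ = t * (q * f * q⁻¹) * t⁻¹ := by group
      rw [e]
      exact htF _ (hP'F q hq f hf)
  refine h.split_case (hW1.sup hW2 hcomm) hsupE hKF hPF ?_ hgood (fun E' hE' hT => ih E' P hE' hT)
  obtain ⟨w, hw, h1, h2⟩ := hWne
  exact ⟨w, hl w (hWW1 hw), h1, h2⟩

/-- elementary abelian quotient case -/
theorem TD.abel (h : TD E K P z) (hne : ∃ e ∈ E, e ≠ 1 ∧ e ≠ z) {C : Subgroup G} (hCK : C ≤ K)
    (hC : ∀ x ∈ K, (x ∈ C ↔ ∀ e ∈ E, x * e = e * x))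
    (hab : ∀ a ∈ K, ∀ b ∈ K, a⁻¹ * b⁻¹ * a * b ∈ C)
    {r : ℕ} (hr : r.Prime) (hro : Odd r) (hKr : ∀ k ∈ K, k ^ r ∈ C)
    (ih : ∀ E' P' : Subgroup G, Nat.card ↥E' < Nat.card ↥E → TD E' K P' z →
      ∃ χ, Gd E' (E' ⊔ P') z χ) : ∃ χ, Gd E (E ⊔ P) z χ := by
  classical
  have hCE : ∀ c ∈ C, ∀ e ∈ E, c * e = e * c := fun c hc => (hC c (hCK hc)).1 hc
  let S : Set (Subgroup G) := {U | C ≤ U ∧ U ≤ K ∧ ∃ w ∈ Cen E U, w ≠ 1 ∧ w ≠ z}
  obtain ⟨U, ⟨hCU, hUK, w0, hw0, hw1, hwz⟩, hmax⟩ := Set.exists_max_image S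
    (fun U => Nat.card ↥U) (Set.toFinite S) ⟨C, le_rfl, hCK, by
      obtain ⟨e, he, h1, h2⟩ := hne
      exact ⟨e, mem_Cen.2 ⟨he, fun a ha => hCE a ha e he⟩, h1, h2⟩⟩
  have hUn : ∀ V : Subgroup G, C ≤ V → V ≤ K → ∀ k ∈ K, ∀ v ∈ V, k * v * k⁻¹ ∈ V := by
    intro V hCV hVK k hk v hv
    have h1 := V.mul_mem hv (hCV (hab v (hVK hv) k⁻¹ (K.inv_mem hk)))
    have e : v * (v⁻¹ * k⁻¹⁻¹ * v * k⁻¹) = k * v * k⁻¹ := by group
    rwa [e] at h1
  have hodd : ∀ V : Subgroup G, V ≤ K → Odd (Nat.card ↥V) := fun V hV =>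
    Odd.of_dvd_nat h.hK (Subgroup.card_dvd_of_le hV)
  have hUE : ∀ V : Subgroup G, V ≤ K → ∀ u ∈ V, ∀ e ∈ E, u * e * u⁻¹ ∈ E := fun V hV u hu =>
    h.hKE u (hV hu)
  have hW : XE (Cen E U) z := h.hE.cenXE (hodd U hUK) (hUE U hUK)
  have hWE : Cen E U ≤ E := inf_le_left
  have hKW : ∀ k ∈ K, ∀ w ∈ Cen E U, k * w * k⁻¹ ∈ Cen E U := by
    exact cen_norm h.hKE (hUn U hCU hUK)
  have hdich : ∀ p ∈ P, (∀ w ∈ Cen E U, p * w * p⁻¹ ∈ Cen E U) ∨
      ∀ a ∈ Cen E U, ∀ b ∈ Cen E U, a * (p * b * p⁻¹) = (p * b * p⁻¹) * a := by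
    intro p hp
    let U' := U.map (MulAut.conj p).toMonoidHom
    have hm : ∀ x, x ∈ U' ↔ ∃ w ∈ U, x = p * w * p⁻¹ := fun x => mem_map_conj
    have hcw : ∀ w ∈ Cen E U, p * w * p⁻¹ ∈ Cen E U' := by
      intro w hw
      rw [mem_Cen] at hw ⊢
      refine ⟨h.hPE p hp w hw.1, fun x hx => ?_⟩
      obtain ⟨u, hu, rfl⟩ := (hm x).1 hx
      have h1 := hw.2 u hu
      calc p * u * p⁻¹ * (p * w * p⁻¹) = p * (u * w) * p⁻¹ := by group
        _ = p * (w * u) * p⁻¹ := by rw [h1]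
        _ = _ := by group
    by_cases hUU : U' = U
    · left
      rw [hUU] at hcw
      exact hcw
    · right
      have hU'K : U' ≤ K := by
        intro x hx
        obtain ⟨u, hu, rfl⟩ := (hm x).1 hx
        exact h.hPK p hp u (hUK hu)
      have hcard : Nat.card ↥U' = Nat.card ↥U := by
        exact Nat.card_congr (U.equivMapOfInjective _ (MulAut.conj p).injective).symm.toEquiv
      have hint : ∀ x ∈ Cen E U, x ∈ Cen E U' → x = 1 ∨ x = z := by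
        intro x hx hx'
        by_contra hcon
        push Not at hcon
        have h1 := hmax (U ⊔ U') ⟨hCU.trans le_sup_left, sup_le hUK hU'K, x, by
          rw [mem_Cen]
          refine ⟨hWE hx, fun a ha => ?_⟩
          have h2 : U ⊔ U' ≤ Subgroup.centralizer {x} := by
            rw [sup_le_iff]
            constructor
            · intro u hu
              rw [Subgroup.mem_centralizer_singleton_iff]
              exact (mem_Cen.1 hx).2 u hu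
            · intro u hu
              rw [Subgroup.mem_centralizer_singleton_iff]
              exact (mem_Cen.1 hx').2 u hu
          exact (Subgroup.mem_centralizer_singleton_iff.1 (h2 ha)), hcon.1, hcon.2⟩
        have h2 : U = U ⊔ U' := Subgroup.eq_of_le_of_card_ge le_sup_left h1
        apply hUU
        refine Subgroup.eq_of_le_of_card_ge ?_ hcard.ge
        rw [h2]
        exact le_sup_right
      have h3 := h.hE.commCen (U := U) (U' := U') (hodd U' hU'K) (hUE U' hU'K)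
        (fun u hu => hKW u (hU'K hu)) hint
      exact fun a ha b hb => h3 a ha _ (hcw b hb)
  by_cases hall : ∀ p ∈ P, ∀ w ∈ Cen E U, p * w * p⁻¹ ∈ Cen E U
  · by_cases hWtop : ∃ e ∈ E, e ∉ Cen E U
    · exact h.split_case hW hWE hKW hall ⟨w0, hw0, hw1, hwz⟩
        (ih _ P (card_lt hWE hWtop) (h.sub hW hWE le_rfl hKW hall))
        (fun E' hE' hT => ih E' P hE' hT)
    · push Not at hWtop
      refine h.fpf hne hCK hC hab hr hro hKr ?_
      intro k hk hkC e he hke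
      by_contra hcon
      push Not at hcon
      have hUC : U ≤ C := by
        intro u hu
        rw [hC u (hUK hu)]
        intro f hf
        exact (mem_Cen.1 (hWtop f hf)).2 u hu
      have h1 := hmax (C ⊔ Subgroup.zpowers k) ⟨le_sup_left, sup_le hCK (by
        rw [Subgroup.zpowers_le]; exact hk), e, by
          rw [mem_Cen]
          refine ⟨he, fun a ha => ?_⟩
          have h2 : C ⊔ Subgroup.zpowers k ≤ Subgroup.centralizer {e} := by
            rw [sup_le_iff]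
            constructor
            · intro u hu
              rw [Subgroup.mem_centralizer_singleton_iff]
              exact hCE u hu e he
            · rw [Subgroup.zpowers_le, Subgroup.mem_centralizer_singleton_iff]
              exact hke
          exact (Subgroup.mem_centralizer_singleton_iff.1 (h2 ha)), hcon.1, hcon.2⟩
      have h2 : Nat.card ↥(C ⊔ Subgroup.zpowers k) ≤ Nat.card ↥C :=
        h1.trans (Subgroup.card_le_of_le hUC)
      have h3 : C = C ⊔ Subgroup.zpowers k := Subgroup.eq_of_le_of_card_ge le_sup_left h2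
      apply hkC
      rw [h3]
      exact (le_sup_right : Subgroup.zpowers k ≤ _) (Subgroup.mem_zpowers k)
  · push Not at hall
    refine h.swap_case hne hW hWE hKW ⟨w0, hw0, hw1, hwz⟩ hdich ?_ ih
    obtain ⟨p, hp, w, hw, hn⟩ := hall
    exact ⟨p, hp, fun hc => hn (hc w hw)⟩

end H13.S47
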