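import Cfsg.Agent.Lib.H13.S47k

/-!
# S4759, file l: the main induction
-/

set_option autoImplicit false
set_option linter.unusedSectionVars false
set_option linter.style.haveILetI false

namespace H13.S47

open Cfsg H18.CharBasic H18.CharOrtho
open scoped commutatorElement

universe u v

variable {G : Type u} [Group G] [Finite G]
variable {z : G}

theorem TD.main (hFT : ∀ X : Subgroup G, Odd (Nat.card ↥X) → Group.IsSolvable ↥X) :
    ∀ (n : ℕ) (E K P : Subgroup G), Nat.card ↥E + Nat.card ↥K = n → TD E K P z →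
      ∃ χ, Gd E (E ⊔ P) z χ := by
  classical
  intro n
  induction n using Nat.strong_induction_on with
  | _ n ih =>
  intro E K P hn h
  have ih' : ∀ E' K' P' : Subgroup G,
      Nat.card ↥E' + Nat.card ↥K' < Nat.card ↥E + Nat.card ↥K → TD E' K' P' z →
      ∃ χ, Gd E' (E' ⊔ P') z χ := fun E' K' P' hlt hT => ih _ (hn ▸ hlt) E' K' P' rfl hT
  by_cases hne : ∃ e ∈ E, e ≠ 1 ∧ e ≠ z
  swap
  · push Not at hne
    exact h.base fun e he => or_iff_not_imp_left.2 (hne e he)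
  by_cases ha : ∃ K0 : Subgroup G, K0 ≤ K ∧ K0 ≠ K ∧ (∀ p ∈ P, ∀ k ∈ K0, p * k * p⁻¹ ∈ K0) ∧
      ∀ e ∈ E, (∀ k ∈ K0, k * e = e * k) → e = 1 ∨ e = z
  · obtain ⟨K0, hK0, hK0n, hPK0, hf⟩ := ha
    refine ih' E K0 P ?_ ⟨h.hE, Odd.of_dvd_nat h.hK (Subgroup.card_dvd_of_le hK0), h.hP,
      fun k hk => h.hKE k (hK0 hk), h.hPE, hPK0, hf, h.hi⟩
    have : Nat.card ↥K0 < Nat.card ↥K := by
      refine lt_of_le_of_ne (Subgroup.card_le_of_le hK0) fun heq => ?_
      exact hK0n (Subgroup.eq_of_le_of_card_ge hK0 heq.ge)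
    omega
  by_cases hb : ∃ K0 : Subgroup G, K0 ≤ K ∧ (∀ g ∈ K, ∀ k ∈ K0, g * k * g⁻¹ ∈ K0) ∧
      (∀ p ∈ P, ∀ k ∈ K0, p * k * p⁻¹ ∈ K0) ∧ (∃ w ∈ Cen E K0, w ≠ 1 ∧ w ≠ z) ∧
      ∃ e ∈ E, e ∉ Cen E K0
  · obtain ⟨K0, hK0, hKK0, hPK0, hw, he⟩ := hb
    have hWE : Cen E K0 ≤ E := inf_le_left
    have hW : XE (Cen E K0) z := h.hE.cenXE (Odd.of_dvd_nat h.hK (Subgroup.card_dvd_of_le hK0))
      (fun u hu => h.hKE u (hK0 hu))
    have hKW : ∀ k ∈ K, ∀ w ∈ Cen E K0, k * w * k⁻¹ ∈ Cen E K0 := cen_norm h.hKE hKK0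
    have hPW : ∀ k ∈ P, ∀ w ∈ Cen E K0, k * w * k⁻¹ ∈ Cen E K0 := cen_norm h.hPE hPK0
    have hlt := card_lt hWE he
    exact h.split_case hW hWE hKW hPW hw (ih' _ K P (by omega) (h.sub hW hWE le_rfl hKW hPW))
      (fun E' hE' hT => ih' E' K P (by omega) hT)
  -- dichotomy for invariant subgroups
  have hc : ∀ K0 : Subgroup G, K0 ≤ K → (∀ g ∈ K, ∀ k ∈ K0, g * k * g⁻¹ ∈ K0) →
      (∀ p ∈ P, ∀ k ∈ K0, p * k * p⁻¹ ∈ K0) → K0 = K ∨ ∀ k ∈ K0, ∀ e ∈ E, k * e = e * k := by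
    intro K0 hK0 hKK0 hPK0
    by_cases hK : K0 = K
    · exact Or.inl hK
    · right
      push Not at ha hb
      obtain ⟨e, he, hek, h1, h2⟩ := ha K0 hK0 hK hPK0
      intro k hk f hf
      exact (mem_Cen.1 (hb K0 hK0 hKK0 hPK0 ⟨e, mem_Cen.2 ⟨he, hek⟩, h1, h2⟩ f hf)).2 k hk
  have hnoE : ¬ ∀ k ∈ K, ∀ e ∈ E, k * e = e * k := by
    intro hcon
    obtain ⟨e, he, h1, h2⟩ := hne
    rcases h.hfix e he (fun k hk => hcon k hk e he) with h3 | h3
    · exact h1 h3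
    · exact h2 h3
  let C := K ⊓ Subgroup.centralizer (E : Set G)
  have hCK : C ≤ K := inf_le_left
  have hC : ∀ x ∈ K, (x ∈ C ↔ ∀ e ∈ E, x * e = e * x) := by
    intro x hx
    change x ∈ K ⊓ Subgroup.centralizer (E : Set G) ↔ _
    rw [Subgroup.mem_inf, Subgroup.mem_centralizer_iff]
    constructor
    · rintro ⟨_, h2⟩ e he
      exact (h2 e he).symm
    · intro h2
      exact ⟨hx, fun e he => (h2 e he).symm⟩
  have hCn : ∀ g : G, (∀ e ∈ E, g * e * g⁻¹ ∈ E) → (∀ k ∈ K, g * k * g⁻¹ ∈ K) →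
      ∀ c ∈ C, g * c * g⁻¹ ∈ C := by
    intro g hgE hgK c hc
    rw [hC _ (hgK c (hCK hc))]
    intro e he
    have h1 := (hC c (hCK hc)).1 hc _ (conj_inv_mem hgE e he)
    calc g * c * g⁻¹ * e = g * (c * (g⁻¹ * e * g)) * g⁻¹ := by group
      _ = g * (g⁻¹ * e * g * c) * g⁻¹ := by rw [h1]
      _ = _ := by group
  have hKK : ∀ g ∈ K, ∀ k ∈ K, g * k * g⁻¹ ∈ K := fun g hg k hk =>
    K.mul_mem (K.mul_mem hg hk) (K.inv_mem hg)
  have hKC : ∀ g ∈ K, ∀ c ∈ C, g * c * g⁻¹ ∈ C := fun g hg => hCn g (h.hKE g hg) (hKK g hg)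
  have hPC : ∀ g ∈ P, ∀ c ∈ C, g * c * g⁻¹ ∈ C := fun g hg => hCn g (h.hPE g hg) (h.hPK g hg)
  -- commutator
  have hcn : ∀ g : G, (∀ k ∈ K, g * k * g⁻¹ ∈ K) → ∀ x ∈ ⁅K, K⁆, g * x * g⁻¹ ∈ ⁅K, K⁆ := by
    intro g hg
    have : ⁅K, K⁆ ≤ ⁅K, K⁆.comap (MulAut.conj g).toMonoidHom := by
      rw [Subgroup.commutator_le]
      intro a ha b hb
      rw [Subgroup.mem_comap, map_commutatorElement]
      exact Subgroup.commutator_mem_commutator (hg a ha) (hg b hb)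
    exact this
  have hcomK : ⁅K, K⁆ ≤ K := by
    rw [Subgroup.commutator_le]
    intro a ha b hb
    rw [commutatorElement_def]
    exact K.mul_mem (K.mul_mem (K.mul_mem ha hb) (K.inv_mem ha)) (K.inv_mem hb)
  have hKbot : K ≠ ⊥ := by
    rintro rfl
    apply hnoE
    intro k hk e he
    rw [Subgroup.mem_bot] at hk
    rw [hk]; group
  have hcomC : ⁅K, K⁆ ≤ C := by
    rcases hc ⁅K, K⁆ hcomK (fun g hg => hcn g (hKK g hg)) (fun p hp => hcn p (h.hPK p hp)) with h1 | h1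
    · exfalso
      haveI := hFT K h.hK
      haveI : Nontrivial ↥K := (Subgroup.nontrivial_iff_ne_bot K).2 hKbot
      have h2 := Group.IsSolvable.commutator_lt_top_of_nontrivial ↥K
      apply h2.ne
      rw [eq_top_iff]
      intro x _
      have h3 : (x : G) ∈ ⁅K, K⁆ := by rw [h1]; exact x.2
      rw [← Subgroup.map_subtype_commutator] at h3
      obtain ⟨y, hy, hxy⟩ := h3
      rwa [Subtype.ext hxy] at hy
    · intro x hx
      rw [hC x (hcomK hx)]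
      exact h1 x hx
  have hab : ∀ a ∈ K, ∀ b ∈ K, a⁻¹ * b⁻¹ * a * b ∈ C := by
    intro a ha b hb
    have h1 := hcomC (Subgroup.commutator_mem_commutator (K.inv_mem ha) (K.inv_mem hb))
    rw [commutatorElement_def, inv_inv, inv_inv] at h1
    exact h1
  -- quotient
  let CK : Subgroup ↥K := C.subgroupOf K
  haveI hCKn : CK.Normal := ⟨fun x hx g => by
    rw [Subgroup.mem_subgroupOf] at hx ⊢
    exact hKC g g.2 x hx⟩
  have hCKne : CK ≠ ⊤ := by
    intro htop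
    rw [Subgroup.subgroupOf_eq_top] at htop
    apply hnoE
    intro k hk
    exact (hC k hk).1 (htop hk)
  have hqc : ∀ a b : ↥K ⧸ CK, a * b = b * a := by
    intro a b
    induction a using QuotientGroup.induction_on with
    | H a =>
      induction b using QuotientGroup.induction_on with
      | H b =>
        rw [← QuotientGroup.mk_mul, ← QuotientGroup.mk_mul, QuotientGroup.eq,
          Subgroup.mem_subgroupOf]
        have h1 := hab b b.2 a a.2
        have e : (((a * b)⁻¹ * (b * a) : ↥K) : G) = (b : G)⁻¹ * (a : G)⁻¹ * (b : G) * (a : G) := by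
          push_cast
          group
        rw [e]
        exact h1
  have hqcard : Nat.card (↥K ⧸ CK) ≠ 1 := by
    intro h1
    apply hCKne
    exact Subgroup.index_eq_one.1 h1
  obtain ⟨r, hr, hrd⟩ := Nat.exists_prime_and_dvd hqcard
  haveI : Fact r.Prime := ⟨hr⟩
  have hqK : Nat.card (↥K ⧸ CK) ∣ Nat.card ↥K := Subgroup.card_quotient_dvd_card CK
  have hro : Odd r := Odd.of_dvd_nat h.hK (hrd.trans hqK)
  obtain ⟨y, hy⟩ := exists_prime_orderOf_dvd_card' r hrd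
  have hmem : ∀ k : ↥K, ((k : G) ^ r ∈ C ↔ (QuotientGroup.mk k : ↥K ⧸ CK) ^ r = 1) := by
    intro k
    rw [← QuotientGroup.mk_pow, QuotientGroup.eq_one_iff, Subgroup.mem_subgroupOf]
    rfl
  let Kr : Subgroup G :=
    { carrier := {k | k ∈ K ∧ k ^ r ∈ C}
      one_mem' := ⟨K.one_mem, by rw [one_pow]; exact C.one_mem⟩
      mul_mem' := by
        rintro a b ⟨ha, ha'⟩ ⟨hb, hb'⟩
        refine ⟨K.mul_mem ha hb, ?_⟩
        have h1 := (hmem ⟨a, ha⟩).1 ha'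
        have h2 := (hmem ⟨b, hb⟩).1 hb'
        refine (hmem (⟨a, ha⟩ * ⟨b, hb⟩)).2 ?_
        rw [QuotientGroup.mk_mul, (show Commute _ _ from hqc _ _).mul_pow, h1, h2, one_mul]
      inv_mem' := by
        rintro a ⟨ha, ha'⟩
        refine ⟨K.inv_mem ha, ?_⟩
        rw [inv_pow]
        exact C.inv_mem ha' }
  have hKr : ∀ x, x ∈ Kr ↔ x ∈ K ∧ x ^ r ∈ C := fun _ => Iff.rfl
  have hKrn : ∀ g : G, (∀ k ∈ K, g * k * g⁻¹ ∈ K) → (∀ c ∈ C, g * c * g⁻¹ ∈ C) →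
      ∀ k ∈ Kr, g * k * g⁻¹ ∈ Kr := by
    intro g hgK hgC k hk
    rw [hKr] at hk ⊢
    refine ⟨hgK k hk.1, ?_⟩
    rw [conj_pow]
    exact hgC _ hk.2
  have hKrK : ∀ k ∈ K, k ^ r ∈ C := by
    rcases hc Kr (fun x hx => hx.1) (fun g hg => hKrn g (hKK g hg) (hKC g hg))
      (fun p hp => hKrn p (h.hPK p hp) (hPC p hp)) with h1 | h1
    · intro k hk
      rw [← h1] at hk
      exact hk.2
    · exfalso
      induction y using QuotientGroup.induction_on with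
      | H k =>
        have h2 : (k : G) ^ r ∈ C := by
          rw [hmem, ← hy]
          exact pow_orderOf_eq_one _
        have h3 : (k : G) ∈ C := (hC k k.2).2 (h1 k ⟨k.2, h2⟩)
        have h4 : (QuotientGroup.mk k : ↥K ⧸ CK) = 1 := by
          rw [QuotientGroup.eq_one_iff, Subgroup.mem_subgroupOf]
          exact h3
        rw [h4, orderOf_one] at hy
        exact hr.one_lt.ne hy
  exact h.abel hne hCK hC hab hr hro hKrK (fun E' P' hlt hT => ih' E' K P' (by omega) hT)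

end H13.S47
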