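import Cfsg.Agent.Lib.H13.S47l
import Cfsg.Agent.S0888
import Cfsg.Agent.S0897
import Cfsg.Agent.Lib.H29.OddFinal

/-!
# S4759, file m: assembly
-/

set_option autoImplicit false
set_option linter.unusedSectionVars false
set_option linter.style.haveILetI false

namespace H13.S47

open Cfsg H18.CharBasic H18.CharOrtho
open scoped commutatorElement

universe u v

variable {G : Type u} [Group G] [Finite G]
variable {z : G}

theorem good_of_irr {E : Subgroup G} (hE : XE E z) {ψ : ↥E → ℂ} (hψ : IsIrrCharacter ↥E ψ)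
    (hz : ψ ⟨z, hE.zE⟩ ≠ ψ 1) : Gd E E z (ex E ψ) := by
  haveI : Fact (Nat.Prime 2) := ⟨Nat.prime_two⟩
  have hcen : (⟨z, hE.zE⟩ : ↥E) ∈ Subgroup.center ↥E := (hE.mem_center _).2 (Or.inr rfl)
  have h2 := H19.Extra.degree_sq (p := 2) hE.comm_le hE.card_center hψ ⟨⟨z, hE.zE⟩, hcen, hz⟩
  have h3 := H79.Central.central_mul hψ hcen ⟨z, hE.zE⟩
  have h4 : (⟨z, hE.zE⟩ : ↥E) * ⟨z, hE.zE⟩ = 1 := Subtype.ext hE.zz
  rw [h4] at h3
  have h0 := irr_one_ne_zero hψ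
  have h5 : (ψ ⟨z, hE.zE⟩ - ψ 1) * (ψ ⟨z, hE.zE⟩ + ψ 1) = 0 := by
    field_simp at h3
    linear_combination -h3
  have h6 : ψ ⟨z, hE.zE⟩ = -ψ 1 := by
    have := (mul_eq_zero.1 h5).resolve_left (sub_ne_zero.2 hz)
    linear_combination this
  refine ⟨by rw [rs_ex]; exact isCharacter_of_isIrr hψ, ?_, ?_⟩
  · rw [ex_apply E ψ hE.zE, ex_apply E ψ E.one_mem, h6]
    rfl
  · rw [ex_apply E ψ E.one_mem]
    have : (⟨1, E.one_mem⟩ : ↥E) = 1 := rfl
    rw [this, ← h2]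
    push_cast
    ring

/-- coprime extension to a `p`-group of operators -/
theorem ext_odd {X : Type u} [Group X] [Finite X] {p : ℕ} [hp : Fact p.Prime] (N : Subgroup X)
    [hN : N.Normal] (hind : ∃ k : ℕ, N.index = p ^ k) (hcop : (Nat.card ↥N).Coprime p)
    {θ : ↥N → ℂ} (hθ : IsIrrCharacter ↥N θ)
    (hinv : ∀ (g : X) (n : N), θ ⟨g * n * g⁻¹, hN.conj_mem (n : X) n.2 g⟩ = θ n) :
    ∃ χ : X → ℂ, IsIrrCharacter X χ ∧ ∀ n : N, χ n = θ n := by
  classical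
  haveI := Fintype.ofFinite X
  obtain ⟨S⟩ : Nonempty (Sylow p X) := inferInstance
  have hbot : ∀ x ∈ (S : Subgroup X) ⊓ N, x = 1 := by
    rintro x ⟨hxS, hxN⟩
    obtain ⟨k, hk⟩ := S.isPGroup' ⟨x, hxS⟩
    have h1 : x ^ p ^ k = 1 := congrArg Subtype.val hk
    have h2 : x ^ Nat.card ↥N = 1 := by
      have := pow_card_eq_one' (x := (⟨x, hxN⟩ : ↥N))
      exact congrArg Subtype.val this
    have h3 : Nat.Coprime (p ^ k) (Nat.card ↥N) := (hcop.symm).pow_left k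
    have h4 := pow_gcd_eq_one.2 ⟨h1, h2⟩
    rw [h3.gcd_eq_one, pow_one] at h4
    exact h4
  refine Cfsg.Agent.S0897.result p N hind S (fun x hx y _ => by rw [hbot x hx]; group) ?_ θ hθ hinv
  intro lam _ hlam
  refine ⟨fun _ => 1, ?_, rfl, ?_⟩
  · exact isCharacter_one
  · intro x
    have : x = 1 := Subtype.ext (hbot x x.2)
    rw [this, hlam]

/-- the extension to a subgroup with `p`-power relative index, `p` odd -/
theorem ext_p {E X : Subgroup G} (hEX : E ≤ X) {p : ℕ} [hp : Fact p.Prime] (hp2 : p ≠ 2)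
    (hE2 : IsPGroup 2 ↥E) (hn : ∀ x ∈ X, ∀ e ∈ E, x * e * x⁻¹ ∈ E)
    (hidx : ∃ k : ℕ, E.relIndex X = p ^ k) {θ : G → ℂ} (hθ : IsIrrCharacter ↥E (rs E θ))
    (hinv : ∀ x ∈ X, ∀ e ∈ E, θ (x * e * x⁻¹) = θ e) :
    ∃ η : ↥X → ℂ, IsIrrCharacter ↥X η ∧ ∀ e : ↥E, η ⟨e, hEX e.2⟩ = θ e := by
  classical
  haveI : Fact (Nat.Prime 2) := ⟨Nat.prime_two⟩
  let N : Subgroup ↥X := E.subgroupOf X
  haveI hN : N.Normal := ⟨fun n hn' g => by
    rw [Subgroup.mem_subgroupOf] at hn' ⊢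
    exact hn g g.2 n hn'⟩
  let i : ↥N ≃* ↥E := Subgroup.subgroupOfEquivOfLe hEX
  have hi : ∀ n : ↥N, ((i n : ↥E) : G) = ((n : ↥X) : G) := fun _ => rfl
  have hirr : IsIrrCharacter ↥N (fun n => θ ((n : ↥X) : G)) := by
    have h1 : IsIrrCharacter ↥N (fun n => rs E θ (i n)) := isIrrCharacter_comp i.toMonoidHom i.surjective hθ
    exact h1
  obtain ⟨χ, hχ, hv⟩ := ext_odd (p := p) N hidx (by
      obtain ⟨m, hm⟩ := IsPGroup.iff_card.1 hE2
      have h1 : Nat.card ↥N = Nat.card ↥E := Nat.card_congr i.toEquiv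
      rw [h1, hm]
      exact ((Nat.coprime_primes Nat.prime_two hp.out).2 (Ne.symm hp2)).pow_left m) hirr (by
      intro g n
      exact hinv g g.2 n n.2)
  exact ⟨χ, hχ, fun e => hv ⟨⟨e, hEX e.2⟩, e.2⟩⟩

theorem isXE {E : Subgroup G} (hE : Cfsg.IsExtraspecial 2 ↥E) : ∃ z, XE E z := by
  have hcard := hE.2
  have h1 : ∃ z : Subgroup.center ↥E, z ≠ 1 ∧ ∀ x : Subgroup.center ↥E, x = 1 ∨ x = z := by
    have h2 : Nat.card (Subgroup.center ↥E) = 2 := hcard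
    rw [Nat.card_eq_two_iff' (1 : Subgroup.center ↥E)] at h2
    obtain ⟨z, hz, hu⟩ := h2
    exact ⟨z, hz, fun x => or_iff_not_imp_left.2 fun hx => hu x hx⟩
  obtain ⟨⟨⟨z, hzE⟩, hzc⟩, hz1, hall⟩ := h1
  have hall' : ∀ x : ↥E, x ∈ Subgroup.center ↥E → (x : G) = 1 ∨ (x : G) = z := by
    intro x hx
    rcases hall ⟨x, hx⟩ with h2 | h2
    · left; exact congrArg Subtype.val (congrArg Subtype.val h2)
    · right; exact congrArg Subtype.val (congrArg Subtype.val h2)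
  have hz1' : z ≠ 1 := by
    rintro rfl
    exact hz1 rfl
  have hcz : ∀ a ∈ E, a * z = z * a := fun a ha =>
    congrArg Subtype.val (Subgroup.mem_center_iff.1 hzc ⟨a, ha⟩)
  refine ⟨z, hzE, hz1', ?_, hcz, ?_, ?_, hE.1.1⟩
  · rcases hall' (⟨z, hzE⟩ * ⟨z, hzE⟩) ((Subgroup.center ↥E).mul_mem hzc hzc) with h2 | h2
    · exact h2
    · exfalso
      apply hz1'
      have h3 : z * z = 1 * z := by rw [one_mul]; exact h2
      exact mul_right_cancel h3
  · intro a ha b hb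
    have h2 : ⁅(⟨a, ha⟩ : ↥E), (⟨b, hb⟩ : ↥E)⁆ ∈ Subgroup.center ↥E := by
      rw [← hE.1.2.2]
      exact Subgroup.commutator_mem_commutator (Subgroup.mem_top _) (Subgroup.mem_top _)
    have h3 : a * b = ⁅a, b⁆ * (b * a) := by rw [commutatorElement_def]; group
    rcases hall' _ h2 with h4 | h4
    · left
      have h5 : ⁅a, b⁆ = 1 := h4
      rw [h3, h5, one_mul]
    · right
      have h5 : ⁅a, b⁆ = z := h4
      rw [h3, h5]
      exact (hcz _ (E.mul_mem hb ha)).symm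
  · intro a ha hc
    refine hall' ⟨a, ha⟩ ?_
    rw [Subgroup.mem_center_iff]
    intro b
    exact Subtype.ext (hc b b.2).symm

theorem final (E H : Subgroup G) [hEn : E.Normal] (hE : Cfsg.IsExtraspecial 2 ↥E)
    (hEH : E ⊓ H = ⊥) (hEHtop : E ⊔ H = ⊤) (K : Subgroup G) (hKH : K ≤ H)
    (hKn : ∀ h ∈ H, ∀ k ∈ K, h * k * h⁻¹ ∈ K) (hKodd : Odd (Nat.card ↥K)) (hEK : ⁅E, K⁆ = E)
    (θ : Cfsg.IrrCharacter ↥E) (hθ : ∀ e : ↥E, (θ : ↥E → ℂ) e = (θ : ↥E → ℂ) 1 → e = 1) :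
    ∃ χ : Cfsg.IrrCharacter G, ∀ e : ↥E, (χ : G → ℂ) e = (θ : ↥E → ℂ) e := by
  classical
  obtain ⟨z, hX⟩ := isXE hE
  have hgood : Gd E E z (ex E (θ : ↥E → ℂ)) := good_of_irr hX θ.2 (fun h => by
    have := hθ _ h
    exact hX.z1 (congrArg Subtype.val this))
  have hEn' : ∀ g : G, ∀ e ∈ E, g * e * g⁻¹ ∈ E := fun g e he => hEn.conj_mem e he g
  have hinvG : ∀ g : G, ∀ e ∈ E, ex E (θ : ↥E → ℂ) (g * e * g⁻¹) = ex E (θ : ↥E → ℂ) e :=
    fun g e he => hgood.inv hX le_rfl (hEn' g) he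
  have hexv : ∀ e : ↥E, ex E (θ : ↥E → ℂ) e = (θ : ↥E → ℂ) e := fun e => ex_apply E _ e.2
  have hfix : ∀ e ∈ E, (∀ k ∈ K, k * e = e * k) → e = 1 ∨ e = z := by
    intro e he hk
    refine hX.nd e he fun b hb => ?_
    have h1 : E ≤ Subgroup.centralizer {e} := by
      conv_lhs => rw [← hEK]
      rw [Subgroup.commutator_le]
      intro b hb k hkK
      rw [Subgroup.mem_centralizer_singleton_iff]
      have h2 := hX.comm_kill (u := k) (a := e) (b := b⁻¹) (hEn' k) he (E.inv_mem hb) (hk k hkK)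
      have h3 : ⁅b, k⁆ = b⁻¹⁻¹ * (k * b⁻¹ * k⁻¹) := by rw [commutatorElement_def]; group
      rw [h3]
      exact h2
    exact (Subgroup.mem_centralizer_singleton_iff.1 (h1 hb)).symm
  have hEHint : ∀ x ∈ E, x ∈ H → x = 1 := by
    intro x hx hxH
    have : x ∈ E ⊓ H := ⟨hx, hxH⟩
    rw [hEH, Subgroup.mem_bot] at this
    exact this
  have hnorm : ∀ A : Subgroup G, A ≤ Subgroup.normalizer (E : Set G) := fun A => by
    rw [Subgroup.normalizer_eq_top]; exact le_top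
  have hidxE : E.index = Nat.card ↥H := by
    rw [← Subgroup.relIndex_top_right, ← hEHtop]
    exact H1.Coprime.relIndex_sup_of_disjoint (hnorm H) (by rw [inf_comm]; exact hEH)
  obtain ⟨χ, hχ, hv⟩ := Cfsg.Agent.S0888.result E (θ : ↥E → ℂ) θ.2 (by
      intro g n
      have h1 := hinvG g n n.2
      rw [hexv, ex_apply E _ (hEn' g n n.2)] at h1
      exact h1) (by
    intro p hp
    haveI : Fact p.Prime := ⟨hp⟩
    obtain ⟨S⟩ : Nonempty (Sylow p ↥H) := inferInstance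
    let P : Subgroup G := (S : Subgroup ↥H).map H.subtype
    have hPH : P ≤ H := Subgroup.map_subtype_le _
    have hPp : IsPGroup p ↥P := S.isPGroup'.map _
    have hcardP : Nat.card ↥P = Nat.card ↥(S : Subgroup ↥H) :=
      Nat.card_congr ((S : Subgroup ↥H).equivMapOfInjective _ H.subtype_injective).symm.toEquiv
    have hPE : ∀ x ∈ E, x ∈ P → x = 1 := fun x hx hxP => hEHint x hx (hPH hxP)
    have hrel : E.relIndex (E ⊔ P) = Nat.card ↥P :=
      H1.Coprime.relIndex_sup_of_disjoint (hnorm P) (by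
        rw [eq_bot_iff]
        rintro x ⟨hx, hxE⟩
        rw [Subgroup.mem_bot]
        exact hPE x hxE hx)
    have hEX : E ≤ E ⊔ P := le_sup_left
    obtain ⟨m, hm⟩ := IsPGroup.iff_card.1 hPp
    have hcop : Nat.Coprime (E ⊔ P).index p := by
      have h1 := Subgroup.relIndex_mul_index hEX
      rw [hrel, hidxE, hcardP] at h1
      have h2 := (S : Subgroup ↥H).card_mul_index
      have h3 : (E ⊔ P).index = (S : Subgroup ↥H).index := by
        have h4 : 0 < Nat.card ↥(S : Subgroup ↥H) := Nat.card_pos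
        exact Nat.eq_of_mul_eq_mul_left h4 (h1.trans h2.symm)
      rw [h3, Nat.coprime_comm]
      exact (Nat.Prime.coprime_iff_not_dvd hp).2 S.not_dvd_index
    by_cases hp2 : p = 2
    · subst hp2
      have hTD : TD E K P z := by
        refine ⟨hX, hKodd, hPp, fun k _ => hEn' k, fun k _ => hEn' k,
          fun p hp => hKn p (hPH hp), hfix, hPE⟩
      obtain ⟨η, hη⟩ := TD.main (fun X hX' => H29.OddFinal.odd_order hX') _ E K P rfl hTD
      refine ⟨E ⊔ P, hEX, rs (E ⊔ P) η, hcop, ⟨m, by rw [hrel, hm]⟩, hη.irr hX hEX, ?_⟩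
      intro n
      have h1 := hgood.eqE hX le_rfl hEX hη n.2
      rw [hexv] at h1
      exact h1
    · obtain ⟨η, hη, hηv⟩ := ext_p hEX hp2 hX.two (fun x _ => hEn' x) ⟨m, by rw [hrel, hm]⟩
        (θ := ex E (θ : ↥E → ℂ)) (by rw [rs_ex]; exact θ.2) (fun x _ => hinvG x)
      refine ⟨E ⊔ P, hEX, η, hcop, ⟨m, by rw [hrel, hm]⟩, hη, ?_⟩
      intro n
      rw [hηv, hexv])
  exact ⟨⟨χ, hχ⟩, hv⟩

end H13.S47
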