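import Mathlib
import Cfsg.Prelude.Def_PLocal
import Cfsg.Agent.Lib.H13.Cores
import Cfsg.Agent.Lib.H13.Subnormal

set_option autoImplicit false

/-!
Relative subnormality of subgroups of a fixed group.
-/

namespace H13.Sn

open Subgroup
open scoped commutatorElement

universe u

variable {G : Type u} [Group G] {p : ℕ}

/-- `A` is a subnormal subgroup of the subgroup `E`. -/
def Sn (A E : Subgroup G) : Prop := A ≤ E ∧ (A.subgroupOf E).IsSubnormal

/-- conjugate subgroup -/
abbrev cj (g : G) (A : Subgroup G) : Subgroup G := A.map (MulAut.conj g).toMonoidHom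

theorem mem_cj {g x : G} {A : Subgroup G} : x ∈ cj g A ↔ g⁻¹ * x * g ∈ A := by
  constructor
  · rintro ⟨y, hy, rfl⟩
    have : g⁻¹ * ((MulAut.conj g).toMonoidHom y) * g = y := by
      simp [mul_assoc]
    rw [this]
    exact hy
  · intro h
    exact ⟨_, h, by simp [mul_assoc]⟩

theorem conj_mem_cj {g x : G} {A : Subgroup G} (hx : x ∈ A) : g * x * g⁻¹ ∈ cj g A := ⟨x, hx, rfl⟩

theorem cj_mono {g : G} {A B : Subgroup G} (h : A ≤ B) : cj g A ≤ cj g B := map_mono h

theorem card_cj (g : G) (A : Subgroup G) : Nat.card (cj g A) = Nat.card A :=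
  card_map_of_injective (MulAut.conj g).injective

theorem cj_cj (g h : G) (A : Subgroup G) : cj g (cj h A) = cj (g * h) A := by
  rw [cj, cj, cj, map_map]
  congr 1
  ext x
  simp

theorem cj_one (A : Subgroup G) : cj 1 A = A := by
  ext x
  rw [mem_cj]
  simp

theorem cj_eq_of_mem {g : G} {A : Subgroup G} (h : g ∈ normalizer (A : Set G)) : cj g A = A := by
  ext x
  rw [mem_cj]
  have h1 := mem_normalizer_iff'.1 (inv_mem h)
  constructor
  · intro hx
    have h2 := (mem_normalizer_iff.1 h) (g⁻¹ * x * g)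
    have h3 : g * (g⁻¹ * x * g) * g⁻¹ = x := by group
    rw [h3] at h2
    exact h2.1 hx
  · intro hx
    have h2 := (mem_normalizer_iff.1 (inv_mem h)) x
    rw [inv_inv] at h2
    exact h2.1 hx

theorem mem_normalizer_of_cj {g : G} {A : Subgroup G} (h : cj g A = A) : g ∈ normalizer (A : Set G) := by
  rw [mem_normalizer_iff]
  intro x
  have h2 : g * x * g⁻¹ ∈ cj g A ↔ x ∈ A := by
    rw [mem_cj]
    have h3 : g⁻¹ * (g * x * g⁻¹) * g = x := by group
    rw [h3]
  rw [← h2, h]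

theorem cj_commutator (g : G) (A B : Subgroup G) : cj g ⁅A, B⁆ = ⁅cj g A, cj g B⁆ := map_commutator _ _ _

theorem Sn.le {A E : Subgroup G} (h : Sn A E) : A ≤ E := h.1

theorem Sn.of_le {A E F : Subgroup G} (h : Sn A E) (hA : A ≤ F) (hF : F ≤ E) : Sn A F := by
  refine ⟨hA, ?_⟩
  have h1 := h.2.comap (inclusion hF)
  exact h1

theorem Sn.trans {A F E : Subgroup G} (h1 : Sn A F) (h2 : Sn F E) : Sn A E := by
  refine ⟨h1.1.trans h2.1, ?_⟩
  refine IsSubnormal.trans (H := A.subgroupOf E) (K := F.subgroupOf E) ?_ ?_ h2.2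
  · exact fun x hx => h1.1 hx
  · let f : (F.subgroupOf E) →* F := (subgroupOfEquivOfLe h2.1).toMonoidHom
    exact h1.2.comap f

theorem Sn.sup [Finite G] {A B E : Subgroup G} (h1 : Sn A E) (h2 : Sn B E) : Sn (A ⊔ B) E := by
  refine ⟨sup_le h1.1 h2.1, ?_⟩
  rw [Subnormal.subgroupOf_sup h1.1 h2.1]
  exact Subnormal.isSubnormal_sup h1.2 h2.2

theorem Sn.conj {A E : Subgroup G} (h : Sn A E) {g : G} (hg : g ∈ E) : Sn (cj g A) E := by
  refine ⟨?_, ?_⟩
  · rintro _ ⟨x, hx, rfl⟩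
    exact mul_mem (mul_mem hg (h.1 hx)) (inv_mem hg)
  · have h1 := Subnormal.conj_isSubnormal h.2 ⟨g, hg⟩
    convert h1 using 1
    ext x
    rw [mem_subgroupOf, mem_cj]
    constructor
    · intro hx
      exact ⟨⟨g, hg⟩⁻¹ * x * ⟨g, hg⟩, hx, by simp [mul_assoc]⟩
    · rintro ⟨y, hy, rfl⟩
      have : g⁻¹ * (((MulAut.conj (⟨g, hg⟩ : E)).toMonoidHom y : E) : G) * g = y := by
        simp [mul_assoc]
      rw [this]
      exact hy

theorem Sn.of_normal {A B : Subgroup G} (h : A ≤ B) (hn : B ≤ normalizer (A : Set G)) : Sn A B := by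
  refine ⟨h, ?_⟩
  have : (A.subgroupOf B).Normal := normal_subgroupOf_of_le_normalizer hn
  exact this.isSubnormal

theorem Sn.exists_normal {A E : Subgroup G} (h : Sn A E) (hne : A ≠ E) :
    ∃ N : Subgroup G, A ≤ N ∧ N < E ∧ E ≤ normalizer (N : Set G) := by
  rcases h.2.lt_normal with h1 | ⟨K, hKn, hAK, hK⟩
  · exact absurd (le_antisymm h.1 (subgroupOf_eq_top.1 h1)) hne
  · refine ⟨K.map E.subtype, ?_, ?_, ?_⟩
    · intro x hx
      exact ⟨⟨x, h.1 hx⟩, hAK hx, rfl⟩
    · refine lt_of_le_of_ne (map_subtype_le K) ?_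
      intro h2
      apply hK.ne
      rw [eq_top_iff]
      intro x _
      have h3 : (x : G) ∈ K.map E.subtype := by rw [h2]; exact x.2
      obtain ⟨y, hy, hyx⟩ := h3
      rwa [Subtype.ext hyx] at hy
    · intro g hg
      rw [mem_normalizer_iff]
      intro x
      constructor
      · rintro ⟨y, hy, rfl⟩
        exact ⟨⟨g, hg⟩ * y * ⟨g, hg⟩⁻¹, hKn.conj_mem y hy _, rfl⟩
      · rintro ⟨y, hy, hyx⟩
        refine ⟨⟨g, hg⟩⁻¹ * y * ⟨g, hg⟩, ?_, ?_⟩
        · have := hKn.conj_mem y hy ⟨g, hg⟩⁻¹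
          rwa [inv_inv] at this
        · change g⁻¹ * (y : G) * g = x
          have hyx' : (y : G) = g * x * g⁻¹ := hyx
          rw [hyx']
          group

theorem Sn.eq_bot [Finite G] [Fact p.Prime] {P E : Subgroup G} (h : Sn P E) (hP : IsPGroup p P)
    (hO : Cfsg.pCore p E = ⊥) : P = ⊥ := by
  have h1 : P.subgroupOf E ≤ Cfsg.pCore p E := by
    have h2 := Cores.map_pCore_le_of_isSubnormal (p := p) h.2
    have h3 : Cfsg.pCore p (P.subgroupOf E) = ⊤ := by
      apply top_le_iff.1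
      refine Cores.le_pCore inferInstance ?_
      have h4 : IsPGroup p (P.subgroupOf E) := Cores.isPGroup_subgroupOf hP E
      exact h4.to_subgroup ⊤
    rw [h3] at h2
    intro x hx
    exact h2 ⟨⟨x, hx⟩, mem_top _, rfl⟩
  rw [hO, le_bot_iff, subgroupOf_eq_bot, disjoint_iff, inf_eq_left.2 h.1] at h1
  exact h1

theorem Sn.pCore_eq_bot [Finite G] [Fact p.Prime] {F E : Subgroup G} (h : Sn F E)
    (hO : Cfsg.pCore p E = ⊥) : Cfsg.pCore p F = ⊥ := by
  have h1 : Sn ((Cfsg.pCore p F).map F.subtype) E := by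
    refine Sn.trans (Sn.of_normal (map_subtype_le _) ?_) h
    exact le_normalizer.trans (Cores.normalizer_le_normalizer_map_pCore F)
  have h2 := h1.eq_bot (Cores.isPGroup_map_subtype_pCore F) hO
  rwa [map_eq_bot_iff_of_injective _ F.subtype_injective] at h2

end H13.Sn
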